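import Cfsg.Statements.S2143
import Cfsg.Agent.H4.ONum

set_option autoImplicit false
open Cfsg

namespace Cfsg.Agent.S2143

open Cfsg.Agent.H4 Cfsg.Agent.H6 Module Finset

/-- Minimal index of a proper subgroup of the odd-dimensional orthogonal groups: for m ≥ 3 and a field F with q elements, q odd and q ≥ 5, every proper subgroup of PΩ_(2m+1)(F) (for the form x₀² + Σ xᵢyᵢ) has index at least (q^(2m) − 1)/(q − 1), and that index is attained. -/
theorem result {F : Type*} [Field F] [Fintype F] {q : ℕ} (hF : Fintype.card F = q) (hodd : Odd q) (h5 : 5 ≤ q) (m : ℕ) (hm : 3 ≤ m) : (∀ H : Subgroup (Cfsg.POmega F (Cfsg.quadFormOdd m F)), H ≠ ⊤ → (q ^ (2 * m) - 1) / (q - 1) ≤ H.index) ∧ (∃ H : Subgroup (Cfsg.POmega F (Cfsg.quadFormOdd m F)), H.index = (q ^ (2 * m) - 1) / (q - 1)) := by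
  classical
  obtain ⟨k, rfl⟩ : ∃ k, m = k + 2 + 1 := ⟨m - 3, by omega⟩
  have hB := qOdd_nondeg (k + 2 + 1) F (two_ne_zero_of_odd_card F (hF ▸ hodd))
  have hn : finrank F (Unit ⊕ (Fin (k + 2 + 1) ⊕ Fin (k + 2 + 1)) → F) = 2 * k + 5 + 2 := by
    simp; omega
  have h0 := cnt_odd (F := F) (k + 2) 0
  rw [show (univ.filter fun z : F => z ^ 2 = 0) = {0} by ext; simp, card_singleton, hF] at h0
  have hS := card_Sg (Q := qOdd (k + 2 + 1) F)
  have hN : (q ^ (2 * (k + 2 + 1)) - 1) / (q - 1) * (q - 1) = (Sg (qOdd (k + 2 + 1) F)).card := by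
    rw [Nat.div_mul_cancel (Nat.sub_one_dvd_pow_sub_one _ _), show 2 * (k + 2 + 1) = 2 * (k + 2) + 2 by
      omega]
    omega
  generalize (q ^ (2 * (k + 2 + 1)) - 1) / (q - 1) = N at hN ⊢
  obtain ⟨r, rfl⟩ : ∃ r, q = r + 5 := ⟨q - 5, by omega⟩
  have e1 : (r + 5) ^ (2 * (k + 2) + 2) = (r + 5) * (r + 5) ^ (2 * k + 5) := by ring
  have e2 : (r + 5) ^ (2 * k + 5) = (r + 5) ^ (k + 2) * (r + 5) ^ (k + 2 + 1) := by ring
  have e3 : 5 ^ 2 ≤ (r + 5) ^ (k + 2) :=
    (Nat.pow_le_pow_left (by omega) 2).trans (Nat.pow_le_pow_right (by omega) (by omega))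
  have e4 : r + 5 ≤ (r + 5) ^ (k + 2 + 1) := Nat.le_self_pow (by omega) _
  have e5 : 25 * (r + 5) ^ (k + 2 + 1) ≤ (r + 5) ^ (2 * k + 5) := by
    rw [e2]; exact Nat.mul_le_mul_right _ e3
  have e6 : (r + 5) * (r + 5) ^ (2 * k + 5) =
    (r + 5 - 1) * (r + 5) ^ (2 * k + 5) + (r + 5) ^ (2 * k + 5) := by
      rw [show r + 5 - 1 = r + 4 by omega]; ring
  obtain ⟨c1, hc⟩ := numHyp_big hB (by omega) (N := N) (c0 := (r + 5) ^ (2 * k + 5) - (r + 5))
    (c := (r + 5) ^ (2 * k + 5) - (r + 5) ^ (k + 2 + 1)) (w := k + 2 + 1)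
    (B := (r + 6) * (r + 5) ^ 2 * ((r + 5) ^ 2 + 1)) (ε := (r + 5) ^ (k + 2 + 1)) (by omega)
    (by rw [hn, hF, Nat.add_sub_cancel]; omega)
    (fun b _ => by
      have := cnt_odd (F := F) (k + 2) b
      rw [hF] at this
      rw [hn, hF, Nat.add_sub_cancel]; omega)
    (fun D hD => by have := hD.two_mul_finrank_le hB; omega)
    (by rw [hn, hF, Nat.add_sub_cancel]; omega) (by rw [hn, hF, Nat.add_sub_cancel]; omega)
    (by rw [hn, hF, Nat.add_sub_cancel]; omega) (by rw [hn, hF, Nat.add_sub_cancel]; omega)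
    (fun e a1 a2 a3 => by
      obtain rfl : k = 0 := by omega
      obtain rfl : e = 3 := by omega
      rw [hF]
      have a4 : r + 5 ≤ (r + 5) ^ 3 := e4
      have a6 : (r + 5) ^ 3 ≤ (r + 5) ^ 5 := Nat.pow_le_pow_right (by omega) (by omega)
      have a5 : r + 5 ≤ (r + 5) ^ 5 := a4.trans a6
      constructor
      · simp only [mul_zero, zero_add]
        zify [a4, a5]
        exact le_of_eq (by ring)
      · simp only [mul_zero, zero_add] at h0 ⊢
        have : N = (r + 6) * (r + 5) ^ 2 * ((r + 5) ^ 2 + 1) + (r + 6) := by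
          refine Nat.eq_of_mul_eq_mul_right (by omega : 0 < r + 4) ?_
          rw [show r + 5 - 1 = r + 4 by omega] at hN
          rw [hN]
          refine Nat.add_right_cancel (m := 1) ?_
          rw [hS]
          linear_combination h0
        rw [this]
        zify [a6]
        ring_nf
        nlinarith [sq_nonneg (r : ℤ), pow_nonneg (Int.natCast_nonneg r) 3,
          pow_nonneg (Int.natCast_nonneg r) 4, pow_nonneg (Int.natCast_nonneg r) 5,
          Int.natCast_nonneg r])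
    (fun h => by omega) (by rw [hF]; exact hN.le)
  have hv : qOdd (k + 2 + 1) F (Pi.single (.inr (.inl 0)) 1) = 0 := by
    simp [qOdd_apply, Pi.single_apply]
  exact pomega_min hB (by omega) hc (v := Pi.single (.inr (.inl 0)) 1) (by simp)
    (fun c _ => by rw [hv, mul_zero]) (by rw [card_level_zero hv, hF, hN])

end Cfsg.Agent.S2143
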