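import Cfsg.Statements.S2144
import Cfsg.Agent.H4.ONum

set_option autoImplicit false
open Cfsg

namespace Cfsg.Agent.S2144

open Cfsg.Agent.H4 Cfsg.Agent.H6 Module Finset

/-- Minimal index of a proper subgroup of the odd-dimensional orthogonal groups over the field with 3 elements: for m ≥ 3, every proper subgroup of PΩ_(2m+1)(3) (for the form x₀² + Σ xᵢyᵢ) has index at least 3^m(3^m − 1)/2, and that index is attained. -/
theorem result {F : Type*} [Field F] [Fintype F] (hF : Fintype.card F = 3) (m : ℕ) (hm : 3 ≤ m) : (∀ H : Subgroup (Cfsg.POmega F (Cfsg.quadFormOdd m F)), H ≠ ⊤ → 3 ^ m * (3 ^ m - 1) / 2 ≤ H.index) ∧ (∃ H : Subgroup (Cfsg.POmega F (Cfsg.quadFormOdd m F)), H.index = 3 ^ m * (3 ^ m - 1) / 2) := by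
  classical
  obtain ⟨k, rfl⟩ : ∃ k, m = k + 2 + 1 := ⟨m - 3, by omega⟩
  have h2 := two_ne_zero_of_odd_card F (hF ▸ (by decide : Odd 3))
  have hB := qOdd_nondeg (k + 2 + 1) F h2
  have hn : finrank F (Unit ⊕ (Fin (k + 2 + 1) ⊕ Fin (k + 2 + 1)) → F) = 2 * k + 5 + 2 := by
    simp; omega
  have h0 := cnt_odd (F := F) (k + 2) 0
  rw [show (univ.filter fun z : F => z ^ 2 = 0) = {0} by ext; simp, card_singleton, hF] at h0
  have h1 := cnt_odd (F := F) (k + 2) (-1)
  rw [show (univ.filter fun z : F => z ^ 2 = -1) = ∅ by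
    ext z
    have : (1 : F) ≠ -1 := fun h => h2 (by linear_combination h)
    rcases small_cases hF.le z with rfl | rfl | rfl <;> simp [this], card_empty, hF] at h1
  have hS := card_Sg (Q := qOdd (k + 2 + 1) F)
  have e1 : 3 ^ (2 * (k + 2) + 2) = 3 * 3 ^ (2 * k + 5) := by ring
  have e2 : 3 ^ (2 * k + 5) = 3 ^ (k + 2) * 3 ^ (k + 2 + 1) := by ring
  have e3 : 3 ^ 2 ≤ 3 ^ (k + 2) := Nat.pow_le_pow_right (by omega) (by omega)
  have e4 : 3 ≤ 3 ^ (k + 2 + 1) := Nat.le_self_pow (by omega) _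
  have e5 : 9 * 3 ^ (k + 2 + 1) ≤ 3 ^ (2 * k + 5) := by
    rw [e2]; exact Nat.mul_le_mul_right _ e3
  have hN : 3 ^ (k + 2 + 1) * (3 ^ (k + 2 + 1) - 1) / 2 * 2 + 3 ^ (k + 2 + 1) =
      3 * 3 ^ (2 * k + 5) := by
    rw [Nat.div_mul_cancel ((Nat.sub_one_dvd_pow_sub_one 3 _).mul_left _), ← mul_add_one,
      Nat.sub_add_cancel (by omega)]
    ring
  generalize 3 ^ (k + 2 + 1) * (3 ^ (k + 2 + 1) - 1) / 2 = N at hN ⊢
  have hc := numHyp_small hB (by omega) (N := N) (c0 := 3 ^ (2 * k + 5) - 3)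
    (c := 3 ^ (2 * k + 5) - 3 ^ (k + 2 + 1)) (w := k + 2 + 1) (B := 360) hF.le
    (by rw [hn, hF, Nat.add_sub_cancel]; omega)
    (fun b _ => by
      have := cnt_odd (F := F) (k + 2) b
      rw [hF] at this
      rw [hn, hF, Nat.add_sub_cancel]; omega)
    (fun D hD => by have := hD.two_mul_finrank_le hB; omega)
    (by omega) (fun _ => by omega) (fun _ => by omega)
    (fun d _ _ hd => h5_of (j := 1) (by omega) (by rw [hF]; omega) (by omega))
    (fun e a1 a2 a3 => by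
      obtain rfl : k = 0 := by omega
      obtain rfl : e = 3 := by omega
      rw [hF]
      norm_num at hN ⊢
      omega)
    (fun h => by omega) (by rw [hF]; omega) (by rw [hn, hF, Nat.add_sub_cancel]; omega)
    (by rw [hn, hF, Nat.add_sub_cancel]; omega)
  have hv : qOdd (k + 2 + 1) F (Pi.single (.inr (.inl 0)) 1 + Pi.single (.inr (.inr 0)) (-1)) = -1 := by
    simp [qOdd_apply, Pi.single_apply]
  have hv' : qOdd (k + 2 + 1) F (Pi.single (.inr (.inl 0)) 1 + Pi.single (.inr (.inr 0)) (-1)) ≠ 0 := by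
    rw [hv]; simp
  exact pomega_min hB (by omega) hc (fun h => hv' ((congrArg _ h).trans (map_zero _)))
    (fun c hc => by rcases small_cases hF.le c with rfl | rfl | rfl <;> simp at hc ⊢)
    (by rw [card_level_ne hv', hF, hv]; omega)

end Cfsg.Agent.S2144
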