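import Cfsg.Statements.S2145
import Cfsg.Agent.H4.ONum

set_option autoImplicit false
open Cfsg

namespace Cfsg.Agent.S2145

open Cfsg.Agent.H4 Cfsg.Agent.H6 Module Finset

/-- Minimal index of a proper subgroup of the even-dimensional orthogonal groups of plus type: for m ≥ 4 and a field F with q ≥ 4 elements, every proper subgroup of PΩ⁺_2m(F) (for the form Σ xᵢyᵢ) has index at least (q^m − 1)(q^(m−1) + 1)/(q − 1), and that index is attained (the singular points). -/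
theorem result {F : Type*} [Field F] [Fintype F] {q : ℕ} (hF : Fintype.card F = q) (hq : 4 ≤ q) (m : ℕ) (hm : 4 ≤ m) : (∀ H : Subgroup (Cfsg.POmega F (Cfsg.quadFormPlus m F)), H ≠ ⊤ → (q ^ m - 1) * (q ^ (m - 1) + 1) / (q - 1) ≤ H.index) ∧ (∃ H : Subgroup (Cfsg.POmega F (Cfsg.quadFormPlus m F)), H.index = (q ^ m - 1) * (q ^ (m - 1) + 1) / (q - 1)) := by
  classical
  obtain ⟨k, rfl⟩ : ∃ k, m = k + 3 + 1 := ⟨m - 4, by omega⟩
  have hB := qPlus_nondeg (k + 3 + 1) F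
  have hn : finrank F (Fin (k + 3 + 1) ⊕ Fin (k + 3 + 1) → F) = 2 * k + 6 + 2 := by
    simp; omega
  have h0 := cnt_plus (F := F) (k + 3) 0
  rw [if_pos rfl, hF] at h0
  have hS := card_Sg (Q := qPlus (k + 3 + 1) F)
  rw [Nat.add_sub_cancel]
  obtain ⟨r, rfl⟩ : ∃ r, q = r + 4 := ⟨q - 4, by omega⟩
  have e0 : 1 ≤ (r + 4) ^ (k + 3 + 1) := Nat.one_le_pow _ _ (by omega)
  have hN : ((r + 4) ^ (k + 3 + 1) - 1) * ((r + 4) ^ (k + 3) + 1) / (r + 4 - 1) * (r + 4 - 1) =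
      (Sg (qPlus (k + 3 + 1) F)).card := by
    rw [Nat.div_mul_cancel ((Nat.sub_one_dvd_pow_sub_one _ _).mul_right _)]
    zify [e0] at h0 hS ⊢
    linear_combination -h0 - hS
  generalize ((r + 4) ^ (k + 3 + 1) - 1) * ((r + 4) ^ (k + 3) + 1) / (r + 4 - 1) = N at hN ⊢
  have e1 : (r + 4) ^ (2 * (k + 3) + 1) = (r + 4) * (r + 4) ^ (2 * k + 6) := by ring
  have e2 : (r + 4) ^ (2 * k + 6) = (r + 4) ^ (k + 3) * (r + 4) ^ (k + 3) := by ring
  have e3 : 4 ^ 3 ≤ (r + 4) ^ (k + 3) :=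
    (Nat.pow_le_pow_left (by omega) 3).trans (Nat.pow_le_pow_right (by omega) (by omega))
  have e4 : r + 4 ≤ (r + 4) ^ (k + 3) := Nat.le_self_pow (by omega) _
  have e5 : 64 * (r + 4) ^ (k + 3) ≤ (r + 4) ^ (2 * k + 6) := by
    rw [e2]; exact Nat.mul_le_mul_right _ e3
  have e6 : (r + 4) * (r + 4) ^ (2 * k + 6) =
    (r + 4 - 1) * (r + 4) ^ (2 * k + 6) + (r + 4) ^ (2 * k + 6) := by
      rw [show r + 4 - 1 = r + 3 by omega]; ring
  have e7 : (r + 4) ^ (k + 3 + 1) = (r + 4) * (r + 4) ^ (k + 3) := by ring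
  have e8 : 4 * (r + 4) ^ (k + 3) ≤ (r + 4) * (r + 4) ^ (k + 3) := Nat.mul_le_mul_right _ (by omega)
  have key : k = 0 → (Sg (qPlus (k + 3 + 1) F)).card + 1 + (r + 4) ^ 3 = (r + 4) ^ 7 + (r + 4) ^ 4 ∧
      N = (r + 4) ^ 3 * (r + 5) * ((r + 4) ^ 2 + 1) + (r + 5) * ((r + 4) ^ 2 + 1) := by
    rintro rfl
    rw [hS]
    refine ⟨h0, Nat.eq_of_mul_eq_mul_right (by omega : 0 < r + 3) ?_⟩
    rw [show r + 4 - 1 = r + 3 by omega] at hN
    rw [hN]
    refine Nat.add_right_cancel (m := 1 + (r + 4) ^ 3) ?_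
    rw [← add_assoc, hS]
    linear_combination h0
  obtain ⟨c1, hc⟩ := numHyp_big hB (by omega) (N := N)
    (c0 := (r + 4) ^ (2 * k + 6) + (r + 4) ^ (k + 3 + 1) - (r + 4) ^ (k + 3) - (r + 4))
    (c := (r + 4) ^ (2 * k + 6) - (r + 4) ^ (k + 3)) (w := k + 3 + 1)
    (B := (r + 4) ^ 3 * (r + 5) * ((r + 4) ^ 2 + 1)) (ε := (r + 4) ^ (k + 3)) (by omega)
    (by rw [hn, hF, Nat.add_sub_cancel]; omega)
    (fun b hb => by
      have := cnt_plus (F := F) (k + 3) b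
      rw [hF, if_neg hb] at this
      rw [hn, hF, Nat.add_sub_cancel]; omega)
    (fun D hD => by have := hD.two_mul_finrank_le hB; omega)
    (by rw [hn, hF, Nat.add_sub_cancel]; omega) (by rw [hn, hF, Nat.add_sub_cancel]; omega)
    (by rw [hn, hF, Nat.add_sub_cancel]; omega) (by rw [hn, hF, Nat.add_sub_cancel]; omega)
    (fun e a1 a2 a3 => by
      obtain rfl : k = 0 := by omega
      obtain rfl : e = 4 := by omega
      rw [hF, (key rfl).2]
      simp only [mul_zero, zero_add]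
      have b1 : (r + 4) ^ 6 + (r + 4) ^ (3 + 1) - (r + 4) ^ 3 - (r + 4) =
          (r + 4) * ((r + 3) * ((r + 4) ^ 2 + r + 5)) * ((r + 4) ^ 2 + 1) := by
        rw [Nat.sub_sub]; exact Nat.sub_eq_of_eq_add (by ring)
      have b2 : (r + 4) ^ 4 - (r + 4) = (r + 4) * ((r + 3) * ((r + 4) ^ 2 + r + 5)) :=
        Nat.sub_eq_of_eq_add (by ring)
      have b3 : (r + 4) ^ 6 - (r + 4) ^ 3 = (r + 4) ^ 3 * ((r + 3) * ((r + 4) ^ 2 + r + 5)) :=
        Nat.sub_eq_of_eq_add (by ring)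
      rw [b1, b2, b3]
      exact ⟨le_of_eq (by ring), by ring_nf; omega⟩)
    (fun h _ => by
      obtain rfl : k = 0 := by omega
      obtain ⟨k1, k2⟩ := key rfl
      rw [hF, k2]
      simp only [mul_zero, zero_add] at k1 ⊢
      have b1 : (r + 4) ^ 6 + (r + 4) ^ (3 + 1) - (r + 4) ^ 3 - (r + 4) =
          (r + 4) * ((r + 3) * ((r + 4) ^ 2 + r + 5)) * ((r + 4) ^ 2 + 1) := by
        rw [Nat.sub_sub]; exact Nat.sub_eq_of_eq_add (by ring)
      have b2 : (r + 4) ^ 4 - 1 = (r + 3) * (r + 5) * ((r + 4) ^ 2 + 1) :=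
        Nat.sub_eq_of_eq_add (by ring)
      have b3 : (Sg (qPlus (3 + 1) F)).card = (r + 3) * (r + 5) * ((r + 4) ^ 2 + 1) *
          ((r + 4) ^ 3 + 1) := by
        refine Nat.add_right_cancel (m := 1 + (r + 4) ^ 3) ?_
        rw [← add_assoc, k1]
        ring
      rw [b1, b2, b3]
      exact ⟨by ring_nf; omega, le_of_eq (by ring), by ring_nf; omega, by ring_nf; omega,
        Or.inl (by omega)⟩)
    (by rw [hF]; exact hN.le)
  have hv : qPlus (k + 3 + 1) F (Pi.single (.inl 0) 1) = 0 := by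
    simp [qPlus_apply, Pi.single_apply]
  exact pomega_min hB (by omega) hc (v := Pi.single (.inl 0) 1) (by simp)
    (fun c _ => by rw [hv, mul_zero]) (by rw [card_level_zero hv, hF, hN])

end Cfsg.Agent.S2145
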