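import Cfsg.Statements.S2146
import Cfsg.Agent.H4.ONum

set_option autoImplicit false
open Cfsg

namespace Cfsg.Agent.S2146

open Cfsg.Agent.H4 Cfsg.Agent.H6 Module Finset

/-- Minimal index of a proper subgroup of the even-dimensional orthogonal groups of plus type over the field with 2 elements: for m ≥ 4, every proper subgroup of Ω⁺_2m(2) (for the form Σ xᵢyᵢ) has index at least 2^(m−1)(2^m − 1), and that index is attained. -/
theorem result {F : Type*} [Field F] [Fintype F] (hF : Fintype.card F = 2) (m : ℕ) (hm : 4 ≤ m) : (∀ H : Subgroup (Cfsg.POmega F (Cfsg.quadFormPlus m F)), H ≠ ⊤ → 2 ^ (m - 1) * (2 ^ m - 1) ≤ H.index) ∧ (∃ H : Subgroup (Cfsg.POmega F (Cfsg.quadFormPlus m F)), H.index = 2 ^ (m - 1) * (2 ^ m - 1)) := by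
  classical
  obtain ⟨k, rfl⟩ : ∃ k, m = k + 3 + 1 := ⟨m - 4, by omega⟩
  have hB := qPlus_nondeg (k + 3 + 1) F
  have hn : finrank F (Fin (k + 3 + 1) ⊕ Fin (k + 3 + 1) → F) = 2 * k + 6 + 2 := by
    simp; omega
  have h0 := cnt_plus (F := F) (k + 3) 0
  rw [if_pos rfl, hF] at h0
  have h1 := cnt_plus (F := F) (k + 3) 1
  rw [if_neg one_ne_zero, hF] at h1
  have hS := card_Sg (Q := qPlus (k + 3 + 1) F)
  rw [Nat.add_sub_cancel]
  have e1 : 2 ^ (2 * (k + 3) + 1) = 2 * 2 ^ (2 * k + 6) := by ring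
  have e2 : 2 ^ (2 * k + 6) = 2 ^ (k + 3) * 2 ^ (k + 3) := by ring
  have e3 : 2 ^ 3 ≤ 2 ^ (k + 3) := Nat.pow_le_pow_right (by omega) (by omega)
  have e5 : 8 * 2 ^ (k + 3) ≤ 2 ^ (2 * k + 6) := by
    rw [e2]; exact Nat.mul_le_mul_right _ e3
  have e7 : 2 ^ (k + 3 + 1) = 2 * 2 ^ (k + 3) := by ring
  have hN : 2 ^ (k + 3) * (2 ^ (k + 3 + 1) - 1) + 2 ^ (k + 3) = 2 * 2 ^ (2 * k + 6) := by
    rw [← mul_add_one, Nat.sub_add_cancel (by omega)]
    ring
  generalize 2 ^ (k + 3) * (2 ^ (k + 3 + 1) - 1) = N at hN ⊢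
  have hc := numHyp_small hB (by omega) (N := N) (c0 := 2 ^ (2 * k + 6) + 2 ^ (k + 3) - 2)
    (c := 2 ^ (2 * k + 6) - 2 ^ (k + 3)) (w := k + 3 + 1) (B := 120) (by omega)
    (by rw [hn, hF, Nat.add_sub_cancel]; omega)
    (fun b hb => by
      have := cnt_plus (F := F) (k + 3) b
      rw [hF, if_neg hb] at this
      rw [hn, hF, Nat.add_sub_cancel]; omega)
    (fun D hD => by have := hD.two_mul_finrank_le hB; omega)
    (by omega) (fun _ => by omega) (fun _ => ⟨⟨k + 4, by omega⟩, by omega⟩)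
    (fun d _ _ hd => h5_of (j := 1) (by omega) (by rw [hF]; omega) (by omega))
    (fun e a1 a2 a3 => by
      obtain rfl : k = 0 := by omega
      obtain rfl : e = 4 := by omega
      rw [hF]
      norm_num at hN ⊢
      omega)
    (fun h _ => by
      obtain rfl : k = 0 := by omega
      rw [hF]
      have : (Sg (qPlus (0 + 3 + 1) F)).card = 135 := by omega
      rw [this]
      norm_num at hN ⊢
      omega) (by rw [hF]; omega) (by rw [hn, hF, Nat.add_sub_cancel]; omega)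
    (by rw [hn, hF, Nat.add_sub_cancel]; omega)
  have hv : qPlus (k + 3 + 1) F (Pi.single (.inl 0) 1 + Pi.single (.inr 0) 1) = 1 := by
    simp [qPlus_apply, Pi.single_apply]
  have hv' : qPlus (k + 3 + 1) F (Pi.single (.inl 0) 1 + Pi.single (.inr 0) 1) ≠ 0 := by
    rw [hv]; simp
  exact pomega_min hB (by omega) hc (fun h => hv' ((congrArg _ h).trans (map_zero _)))
    (fun c hc => by rw [eq_one_of_card_two hF hc]; simp)
    (by rw [card_level_ne hv', hF, hv]; omega)

end Cfsg.Agent.S2146
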