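import Cfsg.Statements.S2147
import Cfsg.Agent.H4.ONum

set_option autoImplicit false
open Cfsg

namespace Cfsg.Agent.S2147

open Cfsg.Agent.H4 Cfsg.Agent.H6 Module Finset

/-- Minimal index of a proper subgroup of the even-dimensional orthogonal groups of minus type: for m ≥ 4 and a field F with q elements, every proper subgroup of PΩ⁻_2m(F) (for the form Σ_{i<m−1} xᵢyᵢ + z₁² + a z₁z₂ + b z₂² with anisotropic binary part) has index at least (q^m + 1)(q^(m−1) − 1)/(q − 1), and that index is attained. -/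
theorem result {F : Type*} [Field F] [Fintype F] {q : ℕ} (hF : Fintype.card F = q) (m : ℕ) (hm : 4 ≤ m) (a b : F) (hab : ∀ z₁ z₂ : F, z₁ ^ 2 + a * z₁ * z₂ + b * z₂ ^ 2 = 0 → z₁ = 0 ∧ z₂ = 0) : (∀ H : Subgroup (Cfsg.POmega F (Cfsg.quadFormMinus (m - 1) F a b)), H ≠ ⊤ → (q ^ m + 1) * (q ^ (m - 1) - 1) / (q - 1) ≤ H.index) ∧ (∃ H : Subgroup (Cfsg.POmega F (Cfsg.quadFormMinus (m - 1) F a b)), H.index = (q ^ m + 1) * (q ^ (m - 1) - 1) / (q - 1)) := by
  classical
  obtain ⟨k, rfl⟩ : ∃ k, m = k + 2 + 1 + 1 := ⟨m - 4, by omega⟩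
  rw [Nat.add_sub_cancel]
  have hB := qMinus_nondeg (k + 2 + 1) F hab
  have hn : finrank F ((Fin (k + 2 + 1) ⊕ Fin (k + 2 + 1)) ⊕ Fin 2 → F) = 2 * k + 6 + 2 := by
    simp; omega
  have h0 := cnt_minus (F := F) (k + 2) a b 0
  rw [conic_zero hab, hF] at h0
  have hS := card_Sg (Q := qMinus (k + 2 + 1) F a b)
  have hq : 1 < q := hF ▸ Fintype.one_lt_card
  have e0 : 1 ≤ q ^ (k + 2 + 1) := Nat.one_le_pow _ _ (by omega)
  have hN : (q ^ (k + 2 + 1 + 1) + 1) * (q ^ (k + 2 + 1) - 1) / (q - 1) * (q - 1) =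
      (Sg (qMinus (k + 2 + 1) F a b)).card := by
    rw [Nat.div_mul_cancel ((Nat.sub_one_dvd_pow_sub_one _ _).mul_left _)]
    zify [e0] at h0 hS ⊢
    linear_combination -h0 - hS
  generalize (q ^ (k + 2 + 1 + 1) + 1) * (q ^ (k + 2 + 1) - 1) / (q - 1) = N at hN ⊢
  have e1 : q ^ (2 * (k + 2) + 3) = q * q ^ (2 * k + 6) := by ring
  have e2 : q ^ (2 * k + 6) = q ^ (k + 2 + 1) * q ^ (k + 2 + 1) := by ring
  have e3 : q ^ 3 ≤ q ^ (k + 2 + 1) := Nat.pow_le_pow_right (by omega) (by omega)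
  have e5 : q ^ 3 * q ^ (k + 2 + 1) ≤ q ^ (2 * k + 6) := by
    rw [e2]; exact Nat.mul_le_mul_right _ e3
  have e6 : q * q ^ (2 * k + 6) = (q - 1) * q ^ (2 * k + 6) + q ^ (2 * k + 6) := by
    rw [← add_one_mul, Nat.sub_add_cancel hq.le]
  have e7 : q ^ (k + 2 + 2) = q * q ^ (k + 2 + 1) := by ring
  have e8 : 4 * q ≤ q ^ 3 := by nlinarith [Nat.mul_le_mul hq hq]
  have e9 : 4 * (q * q ^ (k + 2 + 1)) ≤ q ^ (2 * k + 6) := by
    rw [← mul_assoc]; exact (Nat.mul_le_mul_right _ e8).trans e5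
  have c0 : q ^ (2 * k + 6) + q ^ (k + 2 + 1) - q * q ^ (k + 2 + 1) - q + Fintype.card F +
      (Fintype.card F - 1) * Fintype.card F ^
        (finrank F ((Fin (k + 2 + 1) ⊕ Fin (k + 2 + 1)) ⊕ Fin 2 → F) - 2) ≤
      cnt (qMinus (k + 2 + 1) F a b) 0 := by rw [hn, hF, Nat.add_sub_cancel]; omega
  have c1 : ∀ c : F, c ≠ 0 → q ^ (2 * k + 6) + q ^ (k + 2 + 1) +
      (Fintype.card F - 1) * Fintype.card F ^
        (finrank F ((Fin (k + 2 + 1) ⊕ Fin (k + 2 + 1)) ⊕ Fin 2 → F) - 2) ≤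
      cnt (qMinus (k + 2 + 1) F a b) c := fun c hc => by
    have h1 := cnt_minus (F := F) (k + 2) a b c
    have h2 := Nat.mul_le_mul_left (q ^ (k + 2 + 1)) (conic_ge hab hc)
    rw [hF] at h1 h2
    rw [mul_add_one, mul_comm] at h2
    rw [hn, hF, Nat.add_sub_cancel]; omega
  have wi : ∀ D, TotSing (qMinus (k + 2 + 1) F a b) D → finrank F D ≤ k + 2 + 1 :=
    fun D hD => finrank_le_of_totSing_qMinus _ hab hD
  obtain ⟨c', hc⟩ : ∃ c', NumHyp (qMinus (k + 2 + 1) F a b) N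
      (q ^ (2 * k + 6) + q ^ (k + 2 + 1) - q * q ^ (k + 2 + 1) - q) c' (k + 2 + 1) 0 := by
    by_cases h4 : 4 ≤ q
    · have e10 : 64 ≤ q ^ 3 := Nat.pow_le_pow_left h4 3
      have e12 := Nat.le_mul_of_pos_left (q ^ (k + 2 + 1)) (show 0 < q by omega)
      have e11 := Nat.mul_le_mul_right (q ^ (k + 2 + 1)) e10
      exact numHyp_big hB (by omega) (ε := q ^ (k + 2 + 1)) (by omega) c0 c1 wi
        (by rw [hn, hF, Nat.add_sub_cancel]; omega) (by rw [hn, hF, Nat.add_sub_cancel]; omega)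
        (by rw [hn, hF, Nat.add_sub_cancel]; omega) (by rw [hn, hF, Nat.add_sub_cancel]; omega)
        (fun e _ _ _ => by omega) (fun _ _ => by omega) (by rw [hF]; exact hN.le)
    refine ⟨_, numHyp_small hB (by omega) (by omega) c0 c1 wi ?_ ?_ ?_ ?_
      (fun e _ _ _ => by omega) (fun _ _ => by omega) (by rw [hF]; exact hN.le) ?_ ?_⟩
    · rcases (by omega : q = 2 ∨ q = 3) with rfl | rfl <;> omega
    · intro h
      obtain rfl : q = 3 := by omega
      omega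
    · intro h
      obtain rfl : q = 2 := by omega
      exact ⟨⟨k + 4, by omega⟩, by omega⟩
    · intro d a1 a2 a3
      rw [hF]
      rcases (by omega : q = 2 ∨ q = 3) with rfl | rfl
      · rcases Nat.eq_zero_or_pos k with rfl | hk
        · obtain rfl : d = 2 := by omega
          rw [hn]
          omega
        · exact h5_of (j := 2) (by omega) (by omega) (by omega)
      · exact h5_of (j := 1) (by omega) (by omega) (by omega)
    · rw [hn, hF, Nat.add_sub_cancel]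
      rcases (by omega : q = 2 ∨ q = 3) with rfl | rfl <;> omega
    · rw [hn, hF, Nat.add_sub_cancel]
      rcases (by omega : q = 2 ∨ q = 3) with rfl | rfl <;> omega
  have hv : qMinus (k + 2 + 1) F a b (Pi.single (.inl (.inl 0)) 1) = 0 := by
    simp [qMinus_apply, Pi.single_apply]
  exact pomega_min hB (by omega) hc (v := Pi.single (.inl (.inl 0)) 1) (by simp)
    (fun c _ => by rw [hv, mul_zero]) (by rw [card_level_zero hv, hF, hN])

end Cfsg.Agent.S2147
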