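import Cfsg.Statements.S2402
import Cfsg.Agent.H6.SLGen

set_option autoImplicit false
open Cfsg

namespace Cfsg.Agent.S2402

/-- Explicit two-element generation of `PSL_{n+1}(K)` for a finite field `K` with more than three elements: let `k` generate the multiplicative group of `K`, `h = diag(k, k⁻¹, 1, …, 1)`, `x = 1 + E₁₂` (the elementary transvection) and `w` the monomial matrix with entries `1` in positions `(i, i+1)` and `(−1)^n` in position `(n+1, 1)`. Then `h` and `x·w` generate `SL_{n+1}(K)` modulo its centre: the subgroup they generate together with the centre is everything. -/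
theorem result {K : Type*} [Field K] [Fintype K] (hK : 3 < Fintype.card K) (n : ℕ) (hn : 1 ≤ n)
    (k : Kˣ) (hk : ∀ u : Kˣ, u ∈ Subgroup.zpowers k)
    (h x w : Matrix.SpecialLinearGroup (Fin (n + 1)) K)
    (hh : (h : Matrix (Fin (n + 1)) (Fin (n + 1)) K) =
      Matrix.diagonal (fun i => if i.val = 0 then (k : K) else if i.val = 1 then ((k⁻¹ : Kˣ) : K) else 1))
    (hx : (x : Matrix (Fin (n + 1)) (Fin (n + 1)) K) = Matrix.transvection (0 : Fin (n + 1)) (1 : Fin (n + 1)) 1)
    (hw : (w : Matrix (Fin (n + 1)) (Fin (n + 1)) K) =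
      Matrix.of (fun i j => if j.val = i.val + 1 then 1 else if i.val = n ∧ j.val = 0 then (-1) ^ n else 0)) :
    Subgroup.closure ({h, x * w} : Set (Matrix.SpecialLinearGroup (Fin (n + 1)) K)) ⊔
      Subgroup.center (Matrix.SpecialLinearGroup (Fin (n + 1)) K) = ⊤ := by
  obtain ⟨ε, hε, hw'⟩ := H6.cyc_conj hn hw
  have hv1 : (1 : Fin (n + 1)).val = 1 := by rw [Fin.val_one', Nat.mod_eq_of_lt (by omega)]
  have h01 : (0 : Fin (n + 1)) ≠ 1 := fun h => by
    have := congrArg Fin.val h
    rw [hv1] at this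
    simp at this
  have hx' : x = H6.slX K 0 1 1 := Subtype.ext (hx.trans (H6.slX_val h01 1).symm)
  rw [eq_top_iff]
  refine le_trans (le_of_eq ?_) le_sup_left
  symm
  set H := Subgroup.closure ({h, x * w} : Set (Matrix.SpecialLinearGroup (Fin (n + 1)) K))
  have hH : h ∈ H := Subgroup.subset_closure (by simp)
  have hg : x * w ∈ H := Subgroup.subset_closure (by simp)
  have S := H6.isSt0_slX (K := K) (ι := Fin (n + 1))
  have hk2 : (k : K) ^ 2 ≠ 1 := fun h2 => by
    have := (FiniteField.forall_pow_eq_one_iff K 2).mp fun u => by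
      obtain ⟨m, rfl⟩ := hk u
      have : k ^ 2 = 1 := Units.ext (by simpa using h2)
      rw [← zpow_natCast, ← zpow_mul, mul_comm, zpow_mul, zpow_natCast, this, one_zpow]
    have := Nat.le_of_dvd two_pos this
    omega
  have hk1 : (k : K) ≠ 1 := fun h1 => hk2 (by rw [h1, one_pow])
  set d : Fin (n + 1) → K :=
    fun i => if i.val = 0 then (k : K) else if i.val = 1 then ((k⁻¹ : Kˣ) : K) else 1 with hd
  have hd1 : d 1 = (k : K)⁻¹ := by simp only [d, hv1]; simp
  have hh' : (w * h * w⁻¹).val = Matrix.diagonal fun i => d (i + 1) := by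
    have hwd : IsUnit w.val.det := by rw [w.2]; exact isUnit_one
    have : w.val * h.val = Matrix.diagonal (fun i => d (i + 1)) * w.val := by
      rw [hh, hw']
      ext i j
      simp only [Matrix.mul_diagonal, Matrix.diagonal_mul, Matrix.of_apply]
      split_ifs with h1
      · rw [h1, mul_comm]
      · simp
    change w.val * h.val * (w⁻¹).val = _
    rw [this, mul_assoc]
    change _ * (w * w⁻¹).val = _
    rw [mul_inv_cancel]; exact mul_one _
  have hc : Commute h (w * h * w⁻¹) := by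
    apply Subtype.ext
    change h.val * (w * h * w⁻¹).val = (w * h * w⁻¹).val * h.val
    rw [hh', hh, Matrix.diagonal_mul_diagonal, Matrix.diagonal_mul_diagonal]
    congr 1; ext i; ring
  have e1 : ∀ t, h * H6.slX K 0 1 t * h⁻¹ = H6.slX K 0 1 (k ^ 2 * t) := fun t => by
    rw [H6.diag_conj_slX hh h01, hd1, inv_inv, sq]
    rfl
  obtain ⟨l, hl, e2⟩ : ∃ l : K, l ≠ 1 ∧ ∀ t, (w * h * w⁻¹) * H6.slX K 0 1 t * (w * h * w⁻¹)⁻¹ =
      H6.slX K 0 1 (l * t) := by
    refine ⟨_, ?_, fun t => H6.diag_conj_slX hh' h01 t⟩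
    rw [zero_add, hd1]
    by_cases h1 : n = 1
    · have : d (1 + 1) = k := by subst h1; rfl
      rw [this, ← mul_inv, ← sq]
      exact fun h => hk2 (inv_eq_one.mp h)
    · have : d (1 + 1) = 1 := by
        have : (1 + 1 : Fin (n + 1)).val = 2 := by
          rw [Fin.val_add, hv1, Nat.mod_eq_of_lt (by omega)]
        simp only [d, this]; simp
      rw [this, inv_one, mul_one]
      exact fun h => hk1 (inv_eq_one.mp h)
  have ha : H6.slX K 0 1 ((k ^ 2 - 1) * (1 - l)) ∈ H := by
    have h1 : (x * w) * h * (x * w)⁻¹ = H6.slX K 0 1 (1 - l) * (w * h * w⁻¹) := by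
      rw [show 1 - l = 1 + l * (-1) by ring, S.add h01, ← e2, S.neg h01, ← hx']; group
    have h2 : h * ((x * w) * h * (x * w)⁻¹) * h⁻¹ * ((x * w) * h * (x * w)⁻¹)⁻¹ =
        H6.slX K 0 1 ((k ^ 2 - 1) * (1 - l)) := by
      rw [h1, show ((k : K) ^ 2 - 1) * (1 - l) = k ^ 2 * (1 - l) + -(1 - l) by ring, S.add h01,
        ← e1, S.neg h01]
      generalize w * h * w⁻¹ = h' at hc
      calc _ = h * H6.slX K 0 1 (1 - l) * (h' * h⁻¹ * h'⁻¹) * (H6.slX K 0 1 (1 - l))⁻¹ := by group
        _ = _ := by rw [← hc.inv_left.eq, mul_inv_cancel_right]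
    rw [← h2]
    have h3 := H.mul_mem (H.mul_mem hg hH) (H.inv_mem hg)
    exact H.mul_mem (H.mul_mem (H.mul_mem hH h3) (H.inv_mem hH)) (H.inv_mem h3)
  set a := ((k : K) ^ 2 - 1) * (1 - l)
  have ha0 : a ≠ 0 := mul_ne_zero (sub_ne_zero.mpr hk2) (sub_ne_zero.mpr hl.symm)
  have hall : ∀ t, H6.slX K 0 1 t ∈ H := fun t => by
    have hadd : ∀ t u : K, H6.slX K (0 : Fin (n + 1)) 1 ((t + u) * a) =
        H6.slX K 0 1 (t * a) * H6.slX K 0 1 (u * a) := fun t u => by rw [add_mul, S.add h01]
    have := H6.addSubgroup_eq_top_of_sq (H6.famSub (x := fun t => H6.slX K 0 1 (t * a)) hadd H) (fun s => ?_) (t / a)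
    · change H6.slX K 0 1 (t / a * a) ∈ H at this
      rwa [div_mul_cancel₀ _ ha0] at this
    change H6.slX K 0 1 (s ^ 2 * a) ∈ H
    by_cases hs : s = 0
    · rw [hs, zero_pow two_ne_zero, zero_mul, S.zero h01]; exact one_mem _
    obtain ⟨m, hm⟩ := (mem_powers_iff_mem_zpowers (x := k)).mpr (hk (Units.mk0 s hs))
    have hm' : s = k ^ m := by simpa using (congrArg Units.val hm).symm
    rw [hm']
    clear hm hm'
    induction m with
    | zero => simpa using ha
    | succ m ih =>
      rw [show ((k : K) ^ (m + 1)) ^ 2 * a = k ^ 2 * ((k ^ m) ^ 2 * a) by ring, ← e1]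
      exact H.mul_mem (H.mul_mem hH ih) (H.inv_mem hH)
  refine H6.eq_top_of_cyc hn hε hw' H ?_ hall
  have := H.mul_mem (H.inv_mem (hall 1)) hg
  rwa [hx', inv_mul_cancel_left] at this

end Cfsg.Agent.S2402
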