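import Cfsg.Statements.S2403
import Cfsg.Agent.H6.SLGen

set_option autoImplicit false
open Cfsg

namespace Cfsg.Agent.S2403

/-- Explicit two-element generation of `PSL_{n+1}(K)` over the fields with two or three elements: with `x = 1 + E₁₂` and `w` the monomial matrix with entries `1` in positions `(i, i+1)` and `(−1)^n` in position `(n+1, 1)`, the elements `x` and `w` generate `SL_{n+1}(K)` modulo its centre. -/
theorem result {K : Type*} [Field K] [Fintype K] (hK : Fintype.card K ≤ 3) (n : ℕ) (hn : 1 ≤ n)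
    (x w : Matrix.SpecialLinearGroup (Fin (n + 1)) K)
    (hx : (x : Matrix (Fin (n + 1)) (Fin (n + 1)) K) = Matrix.transvection (0 : Fin (n + 1)) (1 : Fin (n + 1)) 1)
    (hw : (w : Matrix (Fin (n + 1)) (Fin (n + 1)) K) =
      Matrix.of (fun i j => if j.val = i.val + 1 then 1 else if i.val = n ∧ j.val = 0 then (-1) ^ n else 0)) :
    Subgroup.closure ({x, w} : Set (Matrix.SpecialLinearGroup (Fin (n + 1)) K)) ⊔
      Subgroup.center (Matrix.SpecialLinearGroup (Fin (n + 1)) K) = ⊤ := by
  obtain ⟨ε, hε, hw'⟩ := H6.cyc_conj hn hw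
  have h01 : (0 : Fin (n + 1)) ≠ 1 := fun h => by
    have := congrArg Fin.val h
    rw [Fin.val_one', Nat.mod_eq_of_lt (by omega)] at this
    simp at this
  have hx' : x = H6.slX K 0 1 1 := Subtype.ext (hx.trans (H6.slX_val h01 1).symm)
  rw [eq_top_iff]
  refine le_trans (le_of_eq ?_) le_sup_left
  symm
  set H := Subgroup.closure ({x, w} : Set (Matrix.SpecialLinearGroup (Fin (n + 1)) K))
  refine H6.eq_top_of_cyc hn hε hw' H (Subgroup.subset_closure (by simp)) fun t => ?_
  have h1 := Fintype.one_lt_card (α := K)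
  refine H6.addSubgroup_eq_top_of_sq (H6.famSub (H6.isSt0_slX.add h01) H) (fun s => ?_) t
  by_cases hs : s = 0
  · rw [hs, zero_pow two_ne_zero]; exact zero_mem _
  · have h23 : Fintype.card K = 2 ∨ Fintype.card K = 3 := by omega
    have := (FiniteField.forall_pow_eq_one_iff K 2).mpr
      (by rcases h23 with h | h <;> rw [h] <;> norm_num) (Units.mk0 s hs)
    have h2 : s ^ 2 = 1 := by simpa using congrArg Units.val this
    rw [h2]
    change H6.slX K 0 1 1 ∈ H
    rw [← hx']
    exact Subgroup.subset_closure (by simp)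

end Cfsg.Agent.S2403
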