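import Cfsg.Statements.S2162
import Cfsg.Agent.H4.SLConj

set_option autoImplicit false
open Cfsg

namespace Cfsg.Agent.S2162

open Polynomial in
theorem sq_zero {F : Type*} [Field F] [CharP F 2] {n : ℕ} (a : Matrix.SpecialLinearGroup (Fin n) F)
    (ha : orderOf a = 2) :
    aeval (Matrix.toLin' (a : Matrix (Fin n) (Fin n) F)) ((X - C 1) ^ 2 : F[X]) = 0 := by
  have h1 := H4.aeval_toLin'_SL_pow a (ha ▸ pow_orderOf_eq_one a : a ^ 2 = 1)
  have h2 : ((X - C 1) ^ 2 : F[X]) = X ^ 2 - C 1 := by
    rw [sub_pow_char, ← map_pow, one_pow]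
  rwa [h2]

/-- Conjugacy of involutions in the special linear group over a finite field of characteristic two, in dimension at least 3: two elements of order 2 of SL_n(F) are conjugate in SL_n(F) exactly when the matrices a − 1 and b − 1 have the same rank (the rank of a − 1 is the dimension of the commutator space [V, a]). -/
theorem result {F : Type*} [Field F] [Fintype F] [CharP F 2] {n : ℕ} (hn : 3 ≤ n) (a b : Matrix.SpecialLinearGroup (Fin n) F) (ha : orderOf a = 2) (hb : orderOf b = 2) :
    IsConj a b ↔ ((a : Matrix (Fin n) (Fin n) F) - 1).rank = ((b : Matrix (Fin n) (Fin n) F) - 1).rank := by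
  open Polynomial in
  have key : ∀ a : Matrix.SpecialLinearGroup (Fin n) F,
      H4.nul (Matrix.toLin' (a : Matrix (Fin n) (Fin n) F)) (X - C 1) +
        ((a : Matrix (Fin n) (Fin n) F) - 1).rank = n := by
    intro a
    have h := H4.nul_add_rank (a : Matrix (Fin n) (Fin n) F) (X - C 1)
    rwa [map_sub, aeval_X, aeval_C, map_one, Fintype.card_fin] at h
  have ha' := sq_zero a ha
  have hb' := sq_zero b hb
  constructor
  · intro h
    have h1 := (H4.sim_of_isConj_SL h).nul_eq (Polynomial.X - Polynomial.C 1)
    have := key a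
    have := key b
    omega
  · intro h
    refine H4.isConj_SL_of_sim (H4.sim_of_nul fun φ hφ hφ' k => ?_) fun μ hμ => ?_
    · by_cases h1 : φ = Polynomial.X - Polynomial.C 1
      · subst h1
        rcases k with _ | _ | k
        · rw [pow_zero, H4.nul_one, H4.nul_one]
        · have := key a
          have := key b
          rw [zero_add, pow_one]
          omega
        · rw [H4.nul_eq_finrank, H4.nul_eq_finrank]
          · rw [add_assoc, pow_add, map_mul, hb', mul_zero]
          · rw [add_assoc, pow_add, map_mul, ha', mul_zero]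
      · have hc := H4.isCoprime_of_ne hφ hφ' (Polynomial.monic_X_sub_C 1)
          (Polynomial.irreducible_X_sub_C 1) h1
        rw [H4.nul_eq_zero_of_coprime ha' hc.pow, H4.nul_eq_zero_of_coprime hb' hc.pow]
    · obtain ⟨s, hs⟩ := H4.exists_hasType (Matrix.toLin' (a : Matrix (Fin n) (Fin n) F))
      obtain ⟨y, hy⟩ := Multiset.exists_mem_of_ne_zero (hs.ne_zero (by simp; omega))
      obtain ⟨h1, h2, h3⟩ := hs.good y hy
      have h4 := (hs.aeval_eq_zero_iff _).1 ha' y hy
      have h5 : y.2 ≤ 2 := by
        have h6 := Polynomial.natDegree_le_of_dvd h4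
          (pow_ne_zero _ (Polynomial.monic_X_sub_C (1 : F)).ne_zero)
        rw [Polynomial.natDegree_pow, Polynomial.natDegree_pow,
          Polynomial.natDegree_X_sub_C] at h6
        have := h2.natDegree_pos
        nlinarith
      obtain ⟨ν, hν⟩ : ∃ ν : F, ν ^ y.2 = μ := by
        rcases (by omega : y.2 = 1 ∨ y.2 = 2) with h6 | h6
        · exact ⟨μ, by rw [h6, pow_one]⟩
        · obtain ⟨ν, hν⟩ := FiniteField.isSquare_of_char_two (ringChar.eq F 2) μ
          exact ⟨ν, by rw [h6, hν, sq]⟩
      exact hν ▸ hs.exists_matrix_commute_det hy ν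

end Cfsg.Agent.S2162
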