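import Cfsg.Statements.S2163

set_option autoImplicit false
open Cfsg

namespace Cfsg.Agent.S2163

open Matrix in
theorem aux {F : Type*} [Field F] [CharP F 2] {n : ℕ} (ℓ : ℕ) (h2 : 2 * ℓ ≤ n)
    (N : Matrix (Fin n) (Fin n) F)
    (hN : N = Matrix.of (fun i j : Fin n => if j.val < ℓ ∧ i.val = j.val + (n - ℓ) then (1 : F) else 0)) :
    N * N = 0 ∧ N.rank = ℓ := by
  constructor
  · ext i k
    rw [Matrix.mul_apply, Matrix.zero_apply]
    refine Finset.sum_eq_zero fun j _ => ?_
    simp only [hN, Matrix.of_apply]
    split_ifs with ha hb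
    · omega
    all_goals simp
  · let e : Fin ℓ → Fin n := fun i => ⟨i.val, by omega⟩
    let r : Fin ℓ → Fin n := fun i => ⟨i.val + (n - ℓ), by omega⟩
    let A : Matrix (Fin n) (Fin ℓ) F := Matrix.of fun i j => if i = r j then 1 else 0
    let B : Matrix (Fin ℓ) (Fin n) F := Matrix.of fun j k => if k = e j then 1 else 0
    have hAB : N = A * B := by
      ext i k
      rw [Matrix.mul_apply, hN, Matrix.of_apply]
      split_ifs with h
      · rw [Finset.sum_eq_single ⟨k.val, h.1⟩]
        · simp only [A, B, Matrix.of_apply]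
          rw [if_pos (Fin.ext h.2), if_pos rfl, mul_one]
        · intro j _ hj
          simp only [A, B, Matrix.of_apply]
          rw [if_neg (fun hk : k = e j => hj (Fin.ext (congrArg Fin.val hk).symm)), mul_zero]
        · simp
      · symm
        refine Finset.sum_eq_zero fun j _ => ?_
        simp only [A, B, Matrix.of_apply]
        split_ifs with ha hb
        · exact absurd ⟨by rw [hb]; exact j.2, by rw [ha, hb]⟩ h
        all_goals simp
    have hsub : N.submatrix r e = 1 := by
      ext i j
      simp only [hN, Matrix.submatrix_apply, Matrix.of_apply, Matrix.one_apply, r, e, j.2, true_and,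
        Fin.ext_iff]
      simp
    apply le_antisymm
    · rw [hAB]
      exact (Matrix.rank_mul_le_left A B).trans (by simpa using Matrix.rank_le_card_width A)
    · have h1 := Matrix.rank_submatrix_le N r e
      rwa [hsub, Matrix.rank_one, Fintype.card_fin] at h1

/-- Over a finite field of characteristic two and for n ≥ 3: for every ℓ with 1 ≤ ℓ and 2ℓ ≤ n, the matrix j_ℓ that is the identity plus the entries 1 in positions (n − ℓ + i, i) for i < ℓ (an identity block of size ℓ in the lower left corner) lies in SL_n(F), has order 2, and j_ℓ − 1 has rank ℓ. Together with the conjugacy criterion by rank, these matrices represent the conjugacy classes of involutions of SL_n(F). -/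
theorem result {F : Type*} [Field F] [Fintype F] [CharP F 2] {n : ℕ} (hn : 3 ≤ n) (ℓ : ℕ) (h1 : 1 ≤ ℓ) (h2 : 2 * ℓ ≤ n) :
    ∃ a : Matrix.SpecialLinearGroup (Fin n) F, (a : Matrix (Fin n) (Fin n) F) = 1 + Matrix.of (fun i j : Fin n => if j.val < ℓ ∧ i.val = j.val + (n - ℓ) then (1 : F) else 0) ∧ orderOf a = 2 ∧ ((a : Matrix (Fin n) (Fin n) F) - 1).rank = ℓ := by
  obtain ⟨hN, hr⟩ := aux (F := F) ℓ h2 _ rfl
  set N : Matrix (Fin n) (Fin n) F :=
    Matrix.of (fun i j : Fin n => if j.val < ℓ ∧ i.val = j.val + (n - ℓ) then (1 : F) else 0)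
  have h11 : (1 + N) * (1 + N) = 1 := by
    have : N + N = 0 := by
      ext i j
      exact CharTwo.add_self_eq_zero _
    rw [add_mul, mul_add, mul_add, hN, one_mul, one_mul, mul_one, add_zero, add_assoc, this,
      add_zero]
  have hdet : (1 + N).det = 1 := by
    have h := congrArg Matrix.det h11
    rw [Matrix.det_mul, Matrix.det_one, mul_self_eq_one_iff, CharTwo.neg_eq, or_self] at h
    exact h
  refine ⟨⟨1 + N, hdet⟩, rfl, ?_, ?_⟩
  · refine orderOf_eq_prime (Subtype.ext ?_) fun h => ?_
    · change (1 + N) ^ 2 = 1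
      rw [sq, h11]
    · have h' : 1 + N = 1 := congrArg Subtype.val h
      rw [add_eq_left] at h'
      rw [h', Matrix.rank_zero] at hr
      omega
  · change (1 + N - 1).rank = ℓ
    rwa [add_sub_cancel_left]

end Cfsg.Agent.S2163
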