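import Cfsg.Statements.S2166
import Cfsg.Agent.H5.Invol

set_option autoImplicit false
open Cfsg

namespace Cfsg.Agent.S2166

open Matrix Module H5

theorem rank_conj {F : Type*} [Field F] {ι : Type*} [Fintype ι] [DecidableEq ι] {A B P Q : Matrix ι ι F}
    (hPQ : P * Q = 1) (h : P * A = B * P) : (A - 1).rank = (B - 1).rank := by
  have hP : IsUnit P.det := by
    have := congrArg Matrix.det hPQ
    rw [det_mul, det_one] at this
    exact IsUnit.of_mul_eq_one _ this
  have : P * (A - 1) = (B - 1) * P := by rw [mul_sub, sub_mul, h]; simp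
  rw [← Matrix.rank_mul_eq_right_of_isUnit_det P _ hP, this, Matrix.rank_mul_eq_left_of_isUnit_det P _ hP]

theorem facts {F : Type*} [Field F] [CharP F 2] {m : ℕ} (a : Matrix.symplecticGroup (Fin m) F) (ha : orderOf a = 2) :
    (∀ u v, stdSp m F (Matrix.toLin' (a.1 - 1) u) v = stdSp m F u (Matrix.toLin' (a.1 - 1) v)) ∧
    (∀ v, Matrix.toLin' (a.1 - 1) (Matrix.toLin' (a.1 - 1) v) = 0) ∧
    (∀ v, stdSp m F (Matrix.toLin' (a.1 - 1) v) v = stdSp m F v (a.1 *ᵥ v)) := by
  have hAA : a.1 * a.1 = 1 := by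
    have := pow_orderOf_eq_one a
    rw [ha, sq] at this
    exact congrArg Subtype.val this
  have hpres : ∀ u v, stdSp m F (a.1 *ᵥ u) (a.1 *ᵥ v) = stdSp m F u v := mem_sp_iff.1 a.2
  have hsym : ∀ u v, stdSp m F (a.1 *ᵥ u) v = stdSp m F u (a.1 *ᵥ v) := by
    intro u v
    rw [← hpres, Matrix.mulVec_mulVec, hAA, Matrix.one_mulVec]
  refine ⟨fun u v => ?_, fun v => ?_, fun v => ?_⟩
  · simp [Matrix.sub_mulVec, hsym]
  · simp only [Matrix.toLin'_apply, Matrix.mulVec_mulVec]
    have : (a.1 - 1) * (a.1 - 1) = 0 := by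
      have h2 : (a.1 - 1) * (a.1 - 1) = a.1 * a.1 + 1 - (a.1 + a.1) := by noncomm_ring
      rw [h2, hAA]
      ext i j
      simp [CharTwo.add_self_eq_zero]
    rw [this]; simp
  · simp [Matrix.sub_mulVec, hsym, (isSp_std m).alt]


/-- Conjugacy of involutions in the symplectic group Sp_{2m}(F), F a finite field of characteristic two, m ≥ 2 (Sp taken as the matrices A with A J Aᵀ = J, acting on column vectors, with the alternating form f(u, v) = u ⬝ (J v)). For an involution t write V(t) for the set of vectors v with f(v, t v) = 0 (a subspace). Two involutions a, b are conjugate in Sp_{2m}(F) exactly when a − 1 and b − 1 have the same rank and, in case that rank is even, V(a) and V(b) have the same number of elements. -/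
theorem result {F : Type*} [Field F] [Fintype F] [CharP F 2] {m : ℕ} (hm : 2 ≤ m) (a b : ↥(Matrix.symplecticGroup (Fin m) F)) (ha : orderOf a = 2) (hb : orderOf b = 2) :
    IsConj a b ↔ ((((a : ↥(Matrix.symplecticGroup (Fin m) F)) : Matrix (Fin m ⊕ Fin m) (Fin m ⊕ Fin m) F) - 1).rank = (((b : ↥(Matrix.symplecticGroup (Fin m) F)) : Matrix (Fin m ⊕ Fin m) (Fin m ⊕ Fin m) F) - 1).rank ∧
      (Even (((a : ↥(Matrix.symplecticGroup (Fin m) F)) : Matrix (Fin m ⊕ Fin m) (Fin m ⊕ Fin m) F) - 1).rank → Nat.card {v : Fin m ⊕ Fin m → F // Cfsg.sympForm m F v (Matrix.mulVec ((a : ↥(Matrix.symplecticGroup (Fin m) F)) : Matrix (Fin m ⊕ Fin m) (Fin m ⊕ Fin m) F) v) = 0} = Nat.card {v : Fin m ⊕ Fin m → F // Cfsg.sympForm m F v (Matrix.mulVec ((b : ↥(Matrix.symplecticGroup (Fin m) F)) : Matrix (Fin m ⊕ Fin m) (Fin m ⊕ Fin m) F) v) = 0})) := by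
  classical
  simp only [← stdSp_eq_sympForm]
  constructor
  · intro h
    obtain ⟨c, hc⟩ := isConj_iff.1 h
    have h1 : c.1 * a.1 = b.1 * c.1 := by
      have : c * a = b * c := by rw [← hc]; simp
      exact congrArg Subtype.val this
    refine ⟨rank_conj (Q := (c⁻¹).1) (congrArg Subtype.val (mul_inv_cancel c)) h1, fun _ => ?_⟩
    refine Nat.card_congr ((spEquiv m F c).1.toEquiv.subtypeEquiv fun v => ?_)
    change _ ↔ stdSp m F (c.1 *ᵥ v) (b.1 *ᵥ c.1 *ᵥ v) = 0
    rw [Matrix.mulVec_mulVec, ← h1, ← Matrix.mulVec_mulVec, mem_sp_iff.1 c.2]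
  · rintro ⟨hr, hcard⟩
    obtain ⟨a1, a2, a3⟩ := facts a ha
    obtain ⟨b1, b2, b3⟩ := facts b hb
    set N := Matrix.toLin' (a.1 - 1) with hN
    set N' := Matrix.toLin' (b.1 - 1) with hN'
    set B := stdSp m F with hB
    have hsp : IsSp B := isSp_std m
    obtain ⟨C, hC⟩ := Submodule.exists_isCompl (LinearMap.ker N)
    obtain ⟨C', hC'⟩ := Submodule.exists_isCompl (LinearMap.ker N')
    have hβ := isEps_beta hsp.isEps a1 hC
    have hβ' := isEps_beta hsp.isEps b1 hC'
    have hdim : finrank F C = (a.1 - 1).rank := finrank_compl_ker hC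
    have hdim' : finrank F C' = (b.1 - 1).rank := finrank_compl_ker hC'
    have halt : ∀ (M : Module.End F (Fin m ⊕ Fin m → F)) (D : Submodule F (Fin m ⊕ Fin m → F)),
        (∀ u v, B (M u) v = B u (M v)) → IsCompl (LinearMap.ker M) D →
        (∀ v : D, B (M v) v = 0) → ∀ v, B (M v) v = 0 := by
      intro M D hM hD h v
      obtain ⟨k, c, rfl⟩ := exists_add_of_isCompl hD v
      have hk : M k = 0 := k.2
      rw [map_add M, hk, zero_add, map_add, h, hM, hk]
      simp
    have hiff : (∀ v, B (N v) v = 0) ↔ (∀ v, B (N' v) v = 0) := by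
      by_cases he : Even (a.1 - 1).rank
      · have hc := hcard he
        simp only [← a3, ← b3] at hc
        have key : ∀ M : Module.End F (Fin m ⊕ Fin m → F), (∀ v, B (M v) v = 0) ↔
            Nat.card {v // B (M v) v = 0} = Nat.card (Fin m ⊕ Fin m → F) := by
          intro M
          constructor
          · intro h; exact Nat.card_congr (Equiv.subtypeUnivEquiv h)
          · intro h v
            have := (Nat.bijective_iff_injective_and_card
              (Subtype.val : {v // B (M v) v = 0} → _)).2 ⟨Subtype.val_injective, h⟩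
            obtain ⟨w, rfl⟩ := this.2 v
            exact w.2
        rw [key, key, hc]
      · constructor
        · intro h
          exact absurd (hdim ▸ IsSp.even_finrank ⟨fun v => h v, hβ.nondeg⟩) he
        · intro h
          exact absurd (hr ▸ hdim' ▸ IsSp.even_finrank ⟨fun v => h v, hβ'.nondeg⟩) he
    have : ∃ φ : C ≃ₗ[F] C', ∀ u v, B (N' (φ u)) (φ v) = B (N u) v := by
      by_cases h : ∀ v, B (N v) v = 0
      · have h' := hiff.1 h
        have s1 : IsSp (res (B.comp N) C) := ⟨fun v => h v, hβ.nondeg⟩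
        have s2 : IsSp (res (B.comp N') C') := ⟨fun v => h' v, hβ'.nondeg⟩
        exact exists_isometry s1.good s2.good (by rw [hdim, hdim', hr])
      · have h' := fun hh => h (hiff.2 hh)
        refine exists_isometry_nonalt hβ hβ' ?_ ?_ (by rw [hdim, hdim', hr])
        · by_contra hh
          push Not at hh
          exact h (halt N C a1 hC hh)
        · by_contra hh
          push Not at hh
          exact h' (halt N' C' b1 hC' hh)
    obtain ⟨φ, hφ⟩ := this
    obtain ⟨g, hg⟩ := conj_of_beta hsp.good a1 b1 a2 b2 hC hC' φ hφ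
    obtain ⟨g, rfl⟩ := (spEquiv m F).surjective g
    refine isConj_iff.2 ⟨g, ?_⟩
    rw [mul_inv_eq_iff_eq_mul]
    apply Subtype.ext
    apply Matrix.toLin'.injective
    apply LinearMap.ext
    intro v
    have := hg v
    simpa [hN, hN', Matrix.sub_mulVec, Matrix.mulVec_sub] using this

end Cfsg.Agent.S2166
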