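import Cfsg.Statements.S2164
import Cfsg.Agent.S2166

set_option autoImplicit false
open Cfsg

namespace Cfsg.Agent.S2164

open Matrix Module H5

theorem facts {F : Type*} [Field F] [Fintype F] [CharP F 2] {σ : F →+* F} {n q : ℕ} (h : UF σ q)
    (a : Cfsg.SU n F q) (ha : orderOf a = 2) :
    (∀ u v, stdU _ σ (Matrix.toLin' (a.1.1 - 1) u) v = stdU _ σ u (Matrix.toLin' (a.1.1 - 1) v)) ∧
    (∀ v, Matrix.toLin' (a.1.1 - 1) (Matrix.toLin' (a.1.1 - 1) v) = 0) := by
  have hAA : a.1.1 * a.1.1 = 1 := by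
    have := pow_orderOf_eq_one a
    rw [ha, sq] at this
    exact congrArg (fun x : Cfsg.SU n F q => x.1.1) this
  have hpres : ∀ u v, stdU _ σ (a.1.1 *ᵥ u) (a.1.1 *ᵥ v) = stdU _ σ u v := h.mem_SU.1 a.2
  have hsym : ∀ u v, stdU _ σ (a.1.1 *ᵥ u) v = stdU _ σ u (a.1.1 *ᵥ v) := by
    intro u v
    rw [← hpres, Matrix.mulVec_mulVec, hAA, Matrix.one_mulVec]
  refine ⟨fun u v => ?_, fun v => ?_⟩
  · simp [Matrix.sub_mulVec, hsym]
  · simp only [Matrix.toLin'_apply, Matrix.mulVec_mulVec]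
    have : (a.1.1 - 1) * (a.1.1 - 1) = 0 := by
      have h2 : (a.1.1 - 1) * (a.1.1 - 1) = a.1.1 * a.1.1 + 1 - (a.1.1 + a.1.1) := by noncomm_ring
      rw [h2, hAA]
      ext i j
      simp [CharTwo.add_self_eq_zero]
    rw [this]; simp

theorem conj_of_rank {F : Type*} [Field F] [Fintype F] [CharP F 2] {σ : F →+* F} {n q : ℕ} (h : UF σ q)
    (a b : Cfsg.SU n F q) (ha : orderOf a = 2) (hb : orderOf b = 2)
    (hr : (a.1.1 - 1).rank = (b.1.1 - 1).rank) : IsConj a b := by
  obtain ⟨a1, a2⟩ := facts h a ha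
  obtain ⟨b1, b2⟩ := facts h b hb
  set N := Matrix.toLin' (a.1.1 - 1) with hN
  set N' := Matrix.toLin' (b.1.1 - 1) with hN'
  set B := stdU (Fin n) σ with hB
  have hU : IsEps B 1 := h.isEps_std _
  obtain ⟨C, hC⟩ := Submodule.exists_isCompl (LinearMap.ker N)
  obtain ⟨C', hC'⟩ := Submodule.exists_isCompl (LinearMap.ker N')
  have hβ := isEps_beta hU a1 hC
  have hβ' := isEps_beta hU b1 hC'
  have hdim : finrank F C = (a.1.1 - 1).rank := finrank_compl_ker hC
  have hdim' : finrank F C' = (b.1.1 - 1).rank := finrank_compl_ker hC'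
  obtain ⟨φ, hφ⟩ := exists_isometry (h.good hβ) (h.good hβ') (by rw [hdim, hdim', hr])
  obtain ⟨g, hg⟩ := conj_of_beta (h.good hU) a1 b1 a2 b2 hC hC' φ hφ
  have hN0 : N ≠ 0 := by
    intro h0
    have h1 : a.1.1 - 1 = 0 := Matrix.toLin'.injective (by rw [← hN, h0]; simp)
    have : a = 1 := Subtype.ext (Subtype.ext (sub_eq_zero.1 h1))
    rw [this] at ha
    simp at ha
  obtain ⟨v, -, hv⟩ := h.exists_aniso (B := B.comp N) (W := ⊤) (fun hh => hN0 (by
    apply LinearMap.ext
    intro u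
    exact hU.nondeg _ fun w => hh Submodule.mem_top w Submodule.mem_top))
  have hv : B (N v) v ≠ 0 := hv
  have hv2 : B v (N v) ≠ 0 := by rwa [← a1]
  have hv3 : B (N v) (N v) = 0 := by rw [a1, a2]; simp
  have hli : LinearIndependent F ![v, N v] := by
    rw [LinearIndependent.pair_iff]
    intro s t hst
    have e1 := congrArg (fun x => B x (N v)) hst
    simp [hv3, hv2] at e1
    have e2 := congrArg (fun x => B x v) hst
    simp [e1, hv] at e2
    exact ⟨e1, e2⟩
  set W := Submodule.span F (Set.range ![v, N v]) with hW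
  have hdis : Disjoint W (perp B W) := by
    rw [Submodule.disjoint_def]
    intro x hx hx'
    obtain ⟨c, rfl⟩ := (Submodule.mem_span_range_iff_exists_fun F).1 hx
    rw [mem_perp_span] at hx'
    have e1 := hx' (N v) ⟨1, rfl⟩
    have e2 := hx' v ⟨0, rfl⟩
    simp [hv3, hv2] at e1
    simp [e1, hv] at e2
    simp [e1, e2]
  have hWN : ∀ w ∈ W, N w ∈ W := by
    intro w hw
    obtain ⟨c, rfl⟩ := (Submodule.mem_span_range_iff_exists_fun F).1 hw
    simp only [Fin.sum_univ_two, map_add, map_smul, Matrix.cons_val_zero, Matrix.cons_val_one, a2,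
      smul_zero, add_zero]
    exact W.smul_mem _ (Submodule.subset_span ⟨1, rfl⟩)
  have hWN' : ∀ w ∈ perp B W, N w ∈ perp B W := by
    intro w hw x hx
    rw [a1]
    exact hw _ (hWN x hx)
  obtain ⟨g', rfl⟩ := (h.guEquiv n).surjective g
  have hdet := h.det_norm g'
  obtain ⟨μ, hμ⟩ := FiniteField.isSquare_of_char_two (ringChar.eq F 2) (σ g'.1.1.det)
  have hμ1 : μ * σ μ = 1 := by
    have : (μ * σ μ) ^ 2 = 1 ^ 2 := by
      rw [mul_pow, sq, sq, ← map_mul, ← hμ, h.invol, mul_comm, hdet, one_pow]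
    exact (frobenius_inj F 2) this
  obtain ⟨z, -, -, hz1, hz2⟩ := exists_scalar_on hU hdis hμ1
  rw [finrank_span_eq_card hli, Fintype.card_fin, sq, ← hμ] at hz1
  obtain ⟨z', rfl⟩ := (h.guEquiv n).surjective z
  rw [h.guEquiv_coe, LinearMap.det_toLin'] at hz1
  obtain ⟨k, hk⟩ := exists_su_of_det (g' * z') (by
    change (g'.1.1 * z'.1.1).det = 1
    rw [det_mul, hz1, hdet])
  have hk' : k.1.1 = g'.1.1 * z'.1.1 := congrArg (fun x : Cfsg.GU n F q => x.1.1) hk
  refine isConj_iff.2 ⟨k, ?_⟩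
  rw [mul_inv_eq_iff_eq_mul]
  apply Subtype.ext
  apply Subtype.ext
  change k.1.1 * a.1.1 = b.1.1 * k.1.1
  apply Matrix.toLin'.injective
  apply LinearMap.ext
  intro u
  have e1 := hz2 N hWN hWN' u
  have e2 := hg (z'.1.1 *ᵥ u)
  simp only [UF.guEquiv_apply] at e1 e2
  rw [← e1] at e2
  simpa [hk', hN, hN', Matrix.sub_mulVec, Matrix.mulVec_sub, Matrix.mul_assoc] using e2


/-- Conjugacy of involutions in the special unitary group SU_n(q), q even, n ≥ 3, realised over the field F with q² elements as the matrices of determinant 1 preserving the form Σ u_i v_i^q: for two elements of order 2 of SU_n(q) the following are equivalent — they are conjugate in SU_n(q); they are conjugate in SL_n(F); the matrices a − 1 and b − 1 have the same rank. -/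
theorem result {F : Type*} [Field F] [Fintype F] [CharP F 2] {n q : ℕ} (hF : Fintype.card F = q ^ 2) (hn : 3 ≤ n) (a b : ↥(Cfsg.SU n F q)) (ha : orderOf a = 2) (hb : orderOf b = 2) :
    (IsConj a b ↔ IsConj (a : Matrix.SpecialLinearGroup (Fin n) F) (b : Matrix.SpecialLinearGroup (Fin n) F)) ∧
    (IsConj a b ↔ (((a : Matrix.SpecialLinearGroup (Fin n) F) : Matrix (Fin n) (Fin n) F) - 1).rank = (((b : Matrix.SpecialLinearGroup (Fin n) F) : Matrix (Fin n) (Fin n) F) - 1).rank) := by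
  have h1 : IsConj a b → IsConj (a : Matrix.SpecialLinearGroup (Fin n) F) (b : Matrix.SpecialLinearGroup (Fin n) F) :=
    fun h => (Cfsg.SU n F q).subtype.map_isConj h
  have h2 : IsConj (a : Matrix.SpecialLinearGroup (Fin n) F) (b : Matrix.SpecialLinearGroup (Fin n) F) →
      (a.1.1 - 1).rank = (b.1.1 - 1).rank := by
    intro h
    obtain ⟨c, hc⟩ := isConj_iff.1 h
    have h1 : c.1 * a.1.1 = b.1.1 * c.1 := by
      have : c * a.1 = b.1 * c := by rw [← hc]; simp
      exact congrArg Subtype.val this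
    exact S2166.rank_conj (Q := (c⁻¹).1) (congrArg Subtype.val (mul_inv_cancel c)) h1
  have h3 := conj_of_rank (uf_frob hF) a b ha hb
  exact ⟨⟨h1, fun h => h3 (h2 h)⟩, ⟨fun h => h2 (h1 h), h3⟩⟩

end Cfsg.Agent.S2164
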