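import Cfsg.Statements.S2165
import Cfsg.Agent.H5.Uni

set_option autoImplicit false
open Cfsg

namespace Cfsg.Agent.S2165

open Matrix Module H5


/-- In SU_n(q), q even, n ≥ 3 (matrices of determinant 1 over the field with q² elements preserving Σ u_i v_i^q): for every ℓ with 1 ≤ ℓ and 2ℓ ≤ n, the permutation matrix of the involution of {0, …, n−1} exchanging i and n − ℓ + i for each i < ℓ lies in SU_n(q), has order 2, and differs from the identity by a matrix of rank ℓ. So every rank between 1 and n/2 occurs for involutions of SU_n(q). -/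
theorem result {F : Type*} [Field F] [Fintype F] [CharP F 2] {n q : ℕ} (hF : Fintype.card F = q ^ 2) (hn : 3 ≤ n) (ℓ : ℕ) (h1 : 1 ≤ ℓ) (h2 : 2 * ℓ ≤ n) :
    ∃ a : ↥(Cfsg.SU n F q), (((a : Matrix.SpecialLinearGroup (Fin n) F) : Matrix (Fin n) (Fin n) F) = Matrix.of (fun i j : Fin n => if (j.val < ℓ ∧ i.val = j.val + (n - ℓ)) ∨ (i.val < ℓ ∧ j.val = i.val + (n - ℓ)) ∨ (i = j ∧ ℓ ≤ i.val ∧ i.val < n - ℓ) then (1 : F) else 0)) ∧ orderOf a = 2 ∧ ((((a : Matrix.SpecialLinearGroup (Fin n) F) : Matrix (Fin n) (Fin n) F)) - 1).rank = ℓ := by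
  classical
  have h := uf_frob hF
  set σ := frob hF
  let f : Fin n → Fin n := fun i =>
    if h1 : i.val < ℓ then ⟨i.val + (n - ℓ), by omega⟩
    else if h2 : n - ℓ ≤ i.val then ⟨i.val - (n - ℓ), by omega⟩ else i
  have hfv : ∀ i, (f i).val = if i.val < ℓ then i.val + (n - ℓ) else if n - ℓ ≤ i.val then i.val - (n - ℓ) else i.val := by
    intro i
    simp only [f]
    split_ifs <;> rfl
  have hf : Function.Involutive f := by
    intro i
    apply Fin.ext
    have := i.2
    rw [hfv, hfv]
    split_ifs <;> omega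
  let π : Equiv.Perm (Fin n) := hf.toPerm
  set M : Matrix (Fin n) (Fin n) F := Matrix.of (fun i j : Fin n => if (j.val < ℓ ∧ i.val = j.val + (n - ℓ)) ∨ (i.val < ℓ ∧ j.val = i.val + (n - ℓ)) ∨ (i = j ∧ ℓ ≤ i.val ∧ i.val < n - ℓ) then (1 : F) else 0) with hM
  have hMπ : M = π.permMatrix F := by
    ext i j
    simp only [hM, Matrix.of_apply, Equiv.Perm.permMatrix, PEquiv.toMatrix_apply, Equiv.toPEquiv_apply,
      Option.mem_def, Option.some.injEq]
    congr 1
    apply propext
    change _ ↔ f i = j
    simp only [Fin.ext_iff, hfv]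
    have := i.2
    have := j.2
    split_ifs <;> omega
  have hππ : π * π = 1 := by ext i; exact congrArg Fin.val (hf i)
  have hinv : π⁻¹ = π := inv_eq_of_mul_eq_one_right hππ
  have hMM : M * M = 1 := by rw [hMπ, ← Matrix.permMatrix_mul, hππ]; simp
  have hU : Mᵀ * M.map σ = 1 := by
    have e1 : M.map σ = M := by
      ext a b
      simp [hM, apply_ite σ]
    rw [e1]
    nth_rewrite 1 [hMπ]
    rw [Matrix.transpose_permMatrix, hinv, ← hMπ, hMM]
  have hdet : M.det = 1 := by
    rw [hMπ, det_permutation]
    rcases Int.units_eq_one_or (Equiv.Perm.sign π) with h1 | h1 <;> simp [h1, CharTwo.neg_eq]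
  let P : Matrix (Fin n) (Fin ℓ) F := Matrix.of fun a i => if a.val = i.val ∨ a.val = i.val + (n - ℓ) then 1 else 0
  let Q : Matrix (Fin ℓ) (Fin n) F := Matrix.of fun i a => if a.val = i.val then 1 else 0
  have hQP : Q * P = 1 := by
    ext i j
    rw [Matrix.mul_apply, Finset.sum_eq_single (⟨i.val, by omega⟩ : Fin n)]
    · have := i.2
      have := j.2
      simp only [P, Q, Matrix.of_apply, Matrix.one_apply, Fin.ext_iff, if_true, one_mul]
      congr 1
      apply propext
      omega
    · intro a _ ha
      have : a.val ≠ i.val := fun hh => ha (Fin.ext hh)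
      simp [Q, this]
    · simp
  have hPP : M - 1 = P * Pᵀ := by
    ext a b
    have ha := a.2
    have hb := b.2
    rw [Matrix.mul_apply]
    by_cases h3 : a.val < ℓ ∨ n - ℓ ≤ a.val
    · let i : Fin ℓ := ⟨if a.val < ℓ then a.val else a.val - (n - ℓ), by split_ifs <;> omega⟩
      rw [Finset.sum_eq_single i]
      · simp only [hM, P, i, Matrix.sub_apply, Matrix.of_apply, Matrix.transpose_apply, Matrix.one_apply,
          Fin.ext_iff]
        split_ifs <;> first | omega | simp [CharTwo.neg_eq]
      · intro j _ hj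
        have : ¬ (a.val = j.val ∨ a.val = j.val + (n - ℓ)) := by
          intro hh
          apply hj
          apply Fin.ext
          have := j.2
          simp only [i]
          split_ifs <;> omega
        simp [P, this]
      · simp
    · rw [Finset.sum_eq_zero]
      · simp only [hM, Matrix.sub_apply, Matrix.of_apply, Matrix.one_apply, Fin.ext_iff]
        split_ifs <;> first | omega | simp
      · intro j _
        have := j.2
        have : ¬ (a.val = j.val ∨ a.val = j.val + (n - ℓ)) := by omega
        simp [P, this]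
  have hrank : (M - 1).rank = ℓ := by
    apply le_antisymm
    · rw [hPP]
      exact (Matrix.rank_mul_le_left _ _).trans (by simpa using Matrix.rank_le_width P)
    · have : Q * (M - 1) * Qᵀ = 1 := by
        rw [hPP, Matrix.mul_assoc, Matrix.mul_assoc, ← Matrix.transpose_mul, hQP, ← Matrix.mul_assoc, hQP]
        simp
      calc ℓ = (Q * (M - 1) * Qᵀ).rank := by rw [this]; simp
        _ ≤ (Q * (M - 1)).rank := Matrix.rank_mul_le_left _ _
        _ ≤ _ := Matrix.rank_mul_le_right _ _
  refine ⟨h.mkSU M hU hdet, rfl, ?_, hrank⟩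
  apply orderOf_eq_prime
  · rw [sq]
    exact Subtype.ext (Subtype.ext hMM)
  · intro h0
    have : M = 1 := congrArg (fun x : Cfsg.SU n F q => x.1.1) h0
    rw [this] at hrank
    simp at hrank
    omega

end Cfsg.Agent.S2165
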