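import Cfsg.Statements.S2167
import Cfsg.Agent.H5.Sp

set_option autoImplicit false
open Cfsg

namespace Cfsg.Agent.S2167

/-- For an involution t of the symplectic group Sp_{2m}(F), m ≥ 2, F a finite field of characteristic two (matrices A with A J Aᵀ = J acting on column vectors, alternating form f(u, v) = u ⬝ (J v)): the set V(t) of vectors v with f(v, t v) = 0 has either q^{2m} or q^{2m−1} elements, q the order of F (it is a subspace of codimension at most 1), and if it is the whole space then t − 1 has even rank. -/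
theorem result {F : Type*} [Field F] [Fintype F] [CharP F 2] {m : ℕ} (hm : 2 ≤ m) (a : ↥(Matrix.symplecticGroup (Fin m) F)) (ha : orderOf a = 2) :
    (Nat.card {v : Fin m ⊕ Fin m → F // Cfsg.sympForm m F v (Matrix.mulVec ((a : ↥(Matrix.symplecticGroup (Fin m) F)) : Matrix (Fin m ⊕ Fin m) (Fin m ⊕ Fin m) F) v) = 0} = Fintype.card F ^ (2 * m) ∨ Nat.card {v : Fin m ⊕ Fin m → F // Cfsg.sympForm m F v (Matrix.mulVec ((a : ↥(Matrix.symplecticGroup (Fin m) F)) : Matrix (Fin m ⊕ Fin m) (Fin m ⊕ Fin m) F) v) = 0} * Fintype.card F = Fintype.card F ^ (2 * m)) ∧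
    ((∀ v : Fin m ⊕ Fin m → F, Cfsg.sympForm m F v (Matrix.mulVec ((a : ↥(Matrix.symplecticGroup (Fin m) F)) : Matrix (Fin m ⊕ Fin m) (Fin m ⊕ Fin m) F) v) = 0) → Even (((a : ↥(Matrix.symplecticGroup (Fin m) F)) : Matrix (Fin m ⊕ Fin m) (Fin m ⊕ Fin m) F) - 1).rank) := by
  classical
  set A : Matrix (Fin m ⊕ Fin m) (Fin m ⊕ Fin m) F := a.1 with hA
  simp only [← H5.stdSp_eq_sympForm]
  set B := H5.stdSp m F with hB
  have hsp : H5.IsSp B := H5.isSp_std m
  have hAA : A * A = 1 := by
    have := pow_orderOf_eq_one a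
    rw [ha, sq] at this
    exact congrArg Subtype.val this
  have hpres : ∀ u v, B (A.mulVec u) (A.mulVec v) = B u v := H5.mem_sp_iff.1 a.2
  have h2 : (2 : F) = 0 := CharTwo.two_eq_zero
  have hsym : ∀ u v, B u (A.mulVec v) = B v (A.mulVec u) := by
    intro u v
    rw [← hpres, Matrix.mulVec_mulVec, hAA, Matrix.one_mulVec, hsp.skew, CharTwo.neg_eq]
  constructor
  · let φ : (Fin m ⊕ Fin m → F) →+ F :=
      { toFun := fun v => B v (A.mulVec v)
        map_zero' := by simp
        map_add' := fun u v => by
          simp only [Matrix.mulVec_add, map_add, LinearMap.add_apply, hsym u v]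
          linear_combination (B v (A.mulVec u)) * h2 }
    have hcard : Nat.card (Fin m ⊕ Fin m → F) = Fintype.card F ^ (2 * m) := by
      simp [two_mul]
    have h1 := φ.ker.card_mul_index
    rw [AddSubgroup.index_ker, hcard] at h1
    by_cases h0 : ∀ v, φ v = 0
    · left
      rw [← hcard]
      exact Nat.card_congr (Equiv.subtypeUnivEquiv h0)
    · right
      push Not at h0
      obtain ⟨v, hv⟩ := h0
      have : φ.range = ⊤ := by
        rw [eq_top_iff]
        intro c _
        obtain ⟨s, hs⟩ := FiniteField.isSquare_of_char_two (ringChar.eq F 2) (c / φ v)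
        refine ⟨s • v, ?_⟩
        have : φ (s • v) = s * s * φ v := by
          simp [φ, Matrix.mulVec_smul, mul_assoc]
        rw [this, ← hs, div_mul_cancel₀ _ hv]
      rw [this, AddSubgroup.card_top, Nat.card_eq_fintype_card (α := F)] at h1
      exact h1
  · intro hv
    let N := Matrix.toLin' (A - 1)
    let β : H5.Bil F (Fin m ⊕ Fin m → F) := B.comp N
    have hβ : ∀ v, β v v = 0 := by
      intro v
      have : β v v = B (A.mulVec v) v - B v v := by simp [β, N, Matrix.sub_mulVec]
      rw [this, hsp.alt, hsp.skew, hv]; simp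
    have h1 := H5.even_rank_of_alt hβ
    have h3 : LinearMap.ker β = LinearMap.ker N := by
      ext v
      simp only [LinearMap.mem_ker, β, LinearMap.comp_apply]
      constructor
      · intro h; exact hsp.nondeg _ fun w => by rw [h]; rfl
      · intro h; rw [h]; simp
    have h4 := N.finrank_range_add_finrank_ker
    rw [h3, ← h4, Nat.add_sub_cancel] at h1
    exact h1

end Cfsg.Agent.S2167
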