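import Cfsg.Statements.S2173
import Cfsg.Agent.H6.OrthChar2

set_option autoImplicit false
open Cfsg

namespace Cfsg.Agent.S2173

/-- For the quadratic form Σ x_i y_i + (z₁² + c z₁ z₂ + d z₂²) in dimension 2m with anisotropic binary part over a finite field F of characteristic two, m ≥ 4 (minus type): two involutions of the commutator subgroup Ω that are conjugate in the full isometry group O are conjugate by an element of Ω (no class of involutions of O inside Ω splits). -/
theorem result {F : Type*} [Field F] [Fintype F] [CharP F 2] {m : ℕ} (hm : 4 ≤ m) (c d : F) (hcd : ∀ z₁ z₂ : F, z₁ ^ 2 + c * z₁ * z₂ + d * z₂ ^ 2 = 0 → z₁ = 0 ∧ z₂ = 0) (t s : ↥(Cfsg.isometryGroup F (Cfsg.quadFormMinus (m - 1) F c d))) (ht : orderOf t = 2) (hs : orderOf s = 2) (htO : t ∈ Cfsg.Omega F (Cfsg.quadFormMinus (m - 1) F c d)) (hsO : s ∈ Cfsg.Omega F (Cfsg.quadFormMinus (m - 1) F c d)) (hconj : IsConj t s) :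
    ∃ g ∈ Cfsg.Omega F (Cfsg.quadFormMinus (m - 1) F c d), g * t * g⁻¹ = s := by
  refine H6.exists_conj_Omega (H6.qMinus (m - 1) F c d) (H6.qMinus_nondeg (m - 1) F hcd)
    (by simp; omega) hconj fun hT => ?_
  have h1 := H6.finrank_le_of_totSing_qMinus (m - 1) hcd hT
  have h2 := H6.finrank_fxS_invol (H6.mul_self_of_orderOf (H6.ogEquiv (H6.qMinus (m - 1) F c d)) ht)
  simp at h2
  omega

end Cfsg.Agent.S2173
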