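import Cfsg.Statements.S2186
import Cfsg.Agent.H7.Misc
import Cfsg.Agent.H7.All

set_option autoImplicit false
open Cfsg

namespace Cfsg.Agent.S2186

open Cfsg.Lie Cfsg.Agent.H7 Cfsg.Agent.H8

theorem map_conj_single {D : ChevalleyDatum} {K G : Type*} [Field K] [Group G] {x : ℕ → K → G} (hx : IsSt D x) {g : G}
    {r s : ℕ} {c : K} (hc : c ≠ 0) (h : ∀ t, g * x r t * g⁻¹ = x s (c * t)) :
    (XS x {r}).map (MulAut.conj g).toMonoidHom = XS x {s} := by
  ext y
  constructor
  · rintro ⟨z, hz, rfl⟩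
    obtain ⟨t, rfl⟩ := hx.mem_XS_singleton hz
    show g * x r t * g⁻¹ ∈ _
    rw [h]; exact x_mem_XS (S := {s}) rfl _
  · intro hy
    obtain ⟨t, rfl⟩ := hx.mem_XS_singleton hy
    exact ⟨x r (c⁻¹ * t), x_mem_XS (S := {r}) rfl _, (h _).trans (by rw [mul_inv_cancel_left₀ hc])⟩

theorem map_map_conj {G : Type*} [Group G] (A : Subgroup G) (g h : G) :
    (A.map (MulAut.conj g).toMonoidHom).map (MulAut.conj h).toMonoidHom = A.map (MulAut.conj (h * g)).toMonoidHom := by
  rw [Subgroup.map_map]; congr 1; ext y; simp [mul_assoc]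

/-- Let G be the Chevalley group of type G₂ (over a field with at least four elements), D₄, E₆, E₇ or E₈ over a finite field F of characteristic two, and let X be the root subgroup of the highest root (the last root index) — a long root subgroup, of order |F|. For every g in G, the subgroup generated by X and its conjugate g X g⁻¹ is either a 2-group or is conjugate by an element of G to the subgroup generated by X and the root subgroup of the lowest root (index 0, the negative of the highest root), which is a copy of SL₂(F). -/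
theorem result {F : Type*} [Field F] [Fintype F] [CharP F 2] (D : Cfsg.Lie.ChevalleyDatum) (hD : D ∈ [Cfsg.Lie.chevG2, Cfsg.Lie.chevD4, Cfsg.Lie.chevE6, Cfsg.Lie.chevE7, Cfsg.Lie.chevE8]) (hF : D = Cfsg.Lie.chevG2 → 4 ≤ Fintype.card F) (g : GL D.Idx F) (hg : g ∈ D.group F) :
    IsPGroup 2 ↥(D.rootSubgroup F (D.nroots - 1) ⊔ (D.rootSubgroup F (D.nroots - 1)).map (MulAut.conj g).toMonoidHom) ∨
    ∃ h ∈ D.group F, (D.rootSubgroup F (D.nroots - 1) ⊔ (D.rootSubgroup F (D.nroots - 1)).map (MulAut.conj g).toMonoidHom).map (MulAut.conj h).toMonoidHom = D.rootSubgroup F (D.nroots - 1) ⊔ D.rootSubgroup F 0 := by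
  have hD' : D ∈ [chevG2, chevB2, chevD4, chevF4, chevE6, chevE7, chevE8] := by
    simp only [List.mem_cons, List.not_mem_nil, or_false] at hD
    rcases hD with rfl | rfl | rfl | rfl | rfl <;> simp
  obtain ⟨_, _, _, _, _⟩ := facts_of_mem hD'
  have hx := isChev_xu (D := D) (F := F)
  rw [← GG_xu] at hg ⊢
  rw [← XS_single_xu, ← XS_single_xu]
  obtain ⟨w, hw, b, hb, n, hn, b', hb', rfl⟩ := hx.toIsSt.exists_cell hg
  obtain ⟨c, hc, h1⟩ := BB_conj_theta hx.toIsSt (inv_mem hb)
  obtain ⟨c', hc', h2⟩ := BB_conj_theta hx.toIsSt hb'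
  obtain ⟨d, hd, h3⟩ := hn.acts hx.toIsSt
  have key : (XS (xu D F) {D.nroots - 1} ⊔ (XS (xu D F) {D.nroots - 1}).map (MulAut.conj (b * n * b')).toMonoidHom).map
      (MulAut.conj b⁻¹).toMonoidHom = XS (xu D F) {D.nroots - 1} ⊔ XS (xu D F) {w (D.nroots - 1)} := by
    rw [Subgroup.map_sup, map_conj_single hx.toIsSt hc h1, map_map_conj, mul_assoc, inv_mul_cancel_left, ← map_map_conj,
      map_conj_single hx.toIsSt hc' h2, map_conj_single hx.toIsSt (hd.ne_zero theta_lt) (h3 _)]
  by_cases h4 : w (D.nroots - 1) = D.neg (D.nroots - 1)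
  · exact Or.inr ⟨b⁻¹, inv_mem (BB_le_GG _ hb), by rw [key, h4, neg_theta]⟩
  · left
    obtain ⟨v, hv, h5, h6⟩ := exists_W_pos_pair theta_lt (W_lt hw theta_lt) h4
    obtain ⟨m, hm⟩ := NRep.exists_rep (xu D F) hv
    have : Fact (Nat.Prime 2) := ⟨Nat.prime_two⟩
    have h7 : (XS (xu D F) {D.nroots - 1} ⊔ XS (xu D F) {w (D.nroots - 1)}).map (MulAut.conj m).toMonoidHom ≤
        UU D (xu D F) := by
      rw [← XS_union]
      rintro _ ⟨y, hy, rfl⟩
      refine hm.conj_XS hx.toIsSt (T := {r | D.IsPosRoot r}) ?_ hy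
      rintro s (rfl | rfl)
      exacts [h5, h6]
    rw [← key, map_map_conj] at h7
    exact ((hx.isPGroup_UU 2).to_le h7).of_equiv
      (Subgroup.equivMapOfInjective _ _ (MulAut.conj (m * b⁻¹)).injective).symm

end Cfsg.Agent.S2186
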