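import Cfsg.Statements.S2189
import Cfsg.Agent.H7.Spec

set_option autoImplicit false
open Cfsg

namespace Cfsg.Agent.S2189

open Cfsg.Lie Cfsg.Agent.H7 Cfsg.Agent.H8

/-- Finite subgroups of an adjoint Chevalley group over an algebraically closed field that contain the group over a finite subfield. Let k be an algebraically closed field of prime characteristic p, G the Chevalley group of type G₂, B₂, D₄, F₄, E₆, E₇ or E₈ over k (the matrix group generated by the root elements x_s(t), t ∈ k), and q = p^a with a ≥ 1. Let L be the subgroup generated by the root elements x_s(t) with t^q = t (the Chevalley group over the field of q elements inside G), and let M be a finite subgroup of G containing L. Then for some r ≥ 1, M contains every root element x_s(t) with t^(q^r) = t and every element of M is a matrix all of whose entries c satisfy c^(q^r) = c (so M lies between the Chevalley group over the field with q^r elements and the group of points of G fixed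 by the q^r-th power map). -/
theorem result {k : Type*} [Field k] [IsAlgClosed k] (p : ℕ) [Fact p.Prime] [CharP k p] (D : Cfsg.Lie.ChevalleyDatum) (hD : D ∈ [Cfsg.Lie.chevG2, Cfsg.Lie.chevB2, Cfsg.Lie.chevD4, Cfsg.Lie.chevF4, Cfsg.Lie.chevE6, Cfsg.Lie.chevE7, Cfsg.Lie.chevE8]) (a : ℕ) (ha : 1 ≤ a) (M : Subgroup (GL D.Idx k)) (hMfin : Finite ↥M) (hMG : M ≤ D.group k)
    (hLM : Subgroup.closure {g : GL D.Idx k | ∃ (s : ℕ) (t : k), t ^ (p ^ a) = t ∧ (g : Matrix D.Idx D.Idx k) = D.x k s t} ≤ M) :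
    ∃ r : ℕ, 1 ≤ r ∧ Subgroup.closure {g : GL D.Idx k | ∃ (s : ℕ) (t : k), t ^ ((p ^ a) ^ r) = t ∧ (g : Matrix D.Idx D.Idx k) = D.x k s t} ≤ M ∧
      ∀ g ∈ M, ∀ i j : D.Idx, ((g : Matrix D.Idx D.Idx k) i j) ^ ((p ^ a) ^ r) = (g : Matrix D.Idx D.Idx k) i j := by
  classical
  obtain ⟨_, _, _, _, _⟩ := facts_of_mem hD
  have hq := Nat.one_lt_pow (show a ≠ 0 by omega) (Fact.out : p.Prime).one_lt
  have hL : ∀ s t, t ^ p ^ a = t → xu D k s t ∈ M := fun s t ht => hLM (Subgroup.subset_closure ⟨s, t, ht, rfl⟩)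
  choose E₀ h1 h2 using fun g : M => exists_params (hMG g.2)
  have h3 : {t : k | ∃ n ∈ Set.Ioc 1 (Nat.card M), t ^ n = t}.Finite :=
    ((Set.finite_Ioc 1 (Nat.card M)).biUnion fun n hn => finite_pow_eq k hn.1).subset fun t ⟨n, hn, e⟩ => Set.mem_biUnion hn e
  obtain ⟨R, K, _, _, π, h4, h5⟩ := exists_spec p (E := (((⋃ g, E₀ g) ∪ {t : k | ∃ n ∈ Set.Ioc 1 (Nat.card M), t ^ n = t}) ∪
      {t | t ^ p ^ a = t}) ∪ ((⋃ (g : M) (i) (j), (g.1.1 i j ^ ·) '' Set.Iic (Nat.card M)) ∪
      ⋃ (i) (j), Set.image2 (fun s t => D.x k s t i j) (Set.Iio D.nroots) {t : k | ∃ n ∈ Set.Ioc 1 (Nat.card M), t ^ n = t}))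
    ((((Set.finite_iUnion h1).union h3).union (finite_pow_eq k hq)).union
      ((Set.finite_iUnion fun _ => Set.finite_iUnion fun _ => Set.finite_iUnion fun _ => (Set.finite_Iic _).image _).union
        (Set.finite_iUnion fun _ => Set.finite_iUnion fun _ => (Set.finite_Iio _).image2 _ h3)))
  have : CharP K p := (CharP.charP_iff_prime_eq_zero Fact.out).2 (by rw [← map_natCast π, CharP.cast_eq_zero, map_zero])
  choose X y h6 h7 using fun g : M => h2 g R (fun t ht => h4 (Or.inl (Or.inl (Or.inl (Set.mem_iUnion.2 ⟨g, ht⟩))))) K π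
  have h8 : ∀ (g : M) (Y : Matrix D.Idx D.Idx R) (z : D.group K), Y.map R.subtype = g.1 → Y.map π = z.1 → y g = z := fun g Y z e e' =>
    Subtype.ext (Units.ext (by rw [← h7, ← e', Matrix.map_injective R.subtype_injective ((h6 g).trans e.symm)]))
  let ψ := MonoidHom.mk' y fun g g' => h8 _ (X g * X g') _ (by rw [Matrix.map_mul, h6, h6]; rfl) (by rw [Matrix.map_mul, h7, h7]; rfl)
  have h9 : ∀ s (t : R), xu D k s t ∈ M → xg D K s (π t) ∈ ψ.range := fun s t ht =>
    ⟨⟨_, ht⟩, h8 _ _ _ (xR_map _ s t) (xR_map _ s t)⟩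
  obtain ⟨A, h10, h11, h12⟩ := chev_over p hD (isChev_xg (D := D) (F := K)) H7.GG_xg (H := ψ.range) fun r => by
    simpa using h9 r 1 (hL r _ (by simp))
  obtain ⟨r, hr⟩ := card_eq_pow_of_hom (F := (iterateFrobenius k p a).eqLocusField (RingHom.id k)) (K := A) ((π.comp (Subring.inclusion (S := ((iterateFrobenius k p a).eqLocusField
    (RingHom.id k)).toSubring) fun t ht => h4 (Or.inl (Or.inr ht)))).codRestrict A fun t => (h10 _).2 (h9 _ _ (hL _ _ t.2)))
  replace hr := hr.trans (congrArg (· ^ r) (card_pow_eq k p (by omega)))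
  have h13 : 1 < Nat.card A := Finite.one_lt_card
  have h14 : Nat.card A ≤ Nat.card M := (Nat.card_le_card_of_injective (fun t : A => (⟨_, h11 (D.nroots - 1) _ t.2⟩ : ψ.range))
    fun t u e => Subtype.ext ((isChev_xg (D := D) (F := K)).x_inj theta_lt (congrArg Subtype.val e))).trans
    (Nat.card_le_card_of_surjective _ ψ.rangeRestrict_surjective)
  have h15 : ∀ (g : M) i j, (X g i j : k) = g.1.1 i j := fun g i j => congrFun (congrFun (h6 g) i) j
  refine ⟨r, Nat.pos_of_ne_zero (by rintro rfl; simp [hr] at h13), (Subgroup.closure_le _).2 ?_, fun g hg i j => ?_⟩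
  · rintro g ⟨s, t, ht, e⟩
    obtain rfl : g = xu D k s t := Units.ext e
    by_cases hs : s < D.nroots
    swap
    · rw [xu_ge (not_lt.1 hs)]; exact one_mem _
    have h16 : ∃ n ∈ Set.Ioc 1 (Nat.card M), t ^ n = t := ⟨_, ⟨h13, h14⟩, hr ▸ ht⟩
    obtain ⟨g, hg⟩ := h11 s (π ⟨t, h4 (Or.inl (Or.inl (Or.inr h16)))⟩) ((pow_card_iff A _).1 (by
      rw [← map_pow, hr]; exact congrArg π (Subtype.ext ht)))
    have h17 := xR_map (D := D) R.subtype s ⟨t, h4 (Or.inl (Or.inl (Or.inr h16)))⟩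
    refine (show g.1 = xu D k s t from Units.ext ?_) ▸ g.2
    rw [← h6, xu_val, ← show _ = D.x k s t from h17]
    refine congrArg (Matrix.map · _) (Matrix.ext fun i j => ?_)
    refine h5 _ _ (Or.inr (Or.inl (by simp only [Set.mem_iUnion]; exact ⟨g, i, j, 1, h13.le.trans h14, (pow_one _).trans (h15 _ i j).symm⟩)))
      (Or.inr (Or.inr (by simp only [Set.mem_iUnion]; exact ⟨i, j, s, hs, t, h16, (congrFun (congrFun h17 i) j).symm⟩))) ?_
    exact congrFun (congrFun ((h7 g).trans ((congrArg (·.1.1) hg).trans (xR_map π s _).symm)) i) j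
  · have h16 := (frobG_eq_iff _ _).1 (h12 _ _ (frobG_xg (iterateFrobenius K p (a * r))) (fun t => by
      rw [← pow_card_iff, hr, ← pow_mul]; rfl) _ ⟨⟨g, hg⟩, rfl⟩) i j
    rw [← h15 ⟨g, hg⟩]
    refine congrArg Subtype.val (h5 (X ⟨g, hg⟩ i j ^ (p ^ a) ^ r) _
      (Or.inr (Or.inl (by simp only [Set.mem_iUnion]; exact ⟨⟨g, hg⟩, i, j, _, hr ▸ h14, by simp [h15]⟩)))
      (Or.inr (Or.inl (by simp only [Set.mem_iUnion]; exact ⟨⟨g, hg⟩, i, j, 1, h13.le.trans h14, (pow_one _).trans (h15 _ i j).symm⟩))) ?_)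
    rw [map_pow, ← pow_mul, show π _ = _ from congrFun (congrFun (h7 ⟨g, hg⟩) i) j]
    exact h16

end Cfsg.Agent.S2189
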