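import Cfsg.Statements.S2190
import Cfsg.Agent.H7.Spec

set_option autoImplicit false
open Cfsg

namespace Cfsg.Agent.S2190

open Cfsg.Lie Cfsg.Agent.H7 Cfsg.Agent.H8

/-- Subfield subgroups of prime degree are maximal. Let K be a finite field with q^r elements, r a prime, q a power of the characteristic, and G the Chevalley group of type G₂, B₂, D₄, F₄, E₆, E₇ or E₈ over K (the matrix group generated by the root elements). Let M be the subgroup of G consisting of the matrices all of whose entries lie in the subfield with q elements (entries c with c^q = c). Then M is a proper subgroup of G and is maximal: every subgroup of G containing M is M or G. -/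
theorem result {K : Type*} [Field K] [Fintype K] (p : ℕ) [Fact p.Prime] [CharP K p] (D : Cfsg.Lie.ChevalleyDatum) (hD : D ∈ [Cfsg.Lie.chevG2, Cfsg.Lie.chevB2, Cfsg.Lie.chevD4, Cfsg.Lie.chevF4, Cfsg.Lie.chevE6, Cfsg.Lie.chevE7, Cfsg.Lie.chevE8]) (a r : ℕ) (ha : 1 ≤ a) (hr : r.Prime) (hK : Fintype.card K = (p ^ a) ^ r) (M : Subgroup (GL D.Idx K))
    (hM : ∀ g : GL D.Idx K, g ∈ M ↔ g ∈ D.group K ∧ ∀ i j : D.Idx, ((g : Matrix D.Idx D.Idx K) i j) ^ (p ^ a) = (g : Matrix D.Idx D.Idx K) i j) :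
    M ≠ D.group K ∧ ∀ H : Subgroup (GL D.Idx K), M ≤ H → H ≤ D.group K → H = M ∨ H = D.group K := by
  obtain ⟨_, _, _, _, _⟩ := facts_of_mem hD
  have hx := isChev_xg (D := D) (F := K)
  let σ : K →+* K := iterateFrobenius K p a
  have hM' : ∀ g : D.group K, g.1 ∈ M ↔ frobG D σ g = g := fun g => by
    rw [hM, frobG_eq_iff, and_iff_right g.2]; rfl
  have h1 : ∀ r t, xu D K r t ∈ M ↔ xg D K r (σ t) = xg D K r t := fun r t => (hM' (xg D K r t)).trans (by rw [frobG_xg])
  have h2 : Nat.card (σ.eqLocusField (RingHom.id K)) = p ^ a := card_fixed hK hr.ne_zero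
  have h3 := Nat.one_lt_pow (show a ≠ 0 by omega) (Fact.out : p.Prime).one_lt
  rw [← Nat.card_eq_fintype_card] at hK
  refine ⟨fun e => hr.ne_one (Nat.pow_right_injective h3 ?_), fun H h4 h5 => ?_⟩
  · rw [eq_top_iff.2 (show ⊤ ≤ σ.eqLocusField (RingHom.id K) from fun t _ =>
      hx.x_inj theta_lt ((h1 _ t).1 (e ▸ xu_mem _ t))), Nat.card_congr Subfield.topEquiv.toEquiv] at h2
    simp only [← hK, h2, pow_one]
  obtain ⟨A, h6, h7, h8⟩ := chev_over p hD hx H7.GG_xg (H := H.subgroupOf (D.group K)) fun r => h4 ((h1 r 1).2 (by rw [map_one]))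
  obtain ⟨s, hs⟩ := card_eq_pow_of_hom (Subfield.inclusion (show σ.eqLocusField (RingHom.id K) ≤ A from fun t ht =>
    (h6 t).2 (h4 ((h1 _ t).2 (congrArg _ ht)))))
  obtain ⟨m, hm⟩ := card_eq_pow_of_hom A.subtype
  rw [hK, hs, h2, ← pow_mul (p ^ a)] at hm
  rcases (Nat.dvd_prime hr).1 ⟨m, Nat.pow_right_injective h3 hm⟩ with rfl | rfl
  · refine Or.inl (le_antisymm (fun g hg => (hM' ⟨g, h5 hg⟩).2 (h8 _ σ (frobG_xg σ) (fun t => ?_) _ hg)) h4)
    rw [← pow_card_iff, hs, h2, pow_one]; rfl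
  · refine Or.inr (le_antisymm h5 (GG_xu (D := D) (F := K) ▸ XS_le.2 fun r _ t => h7 r t ((pow_card_iff A t).1 ?_)))
    rw [hs, h2, ← hK, Nat.card_eq_fintype_card, FiniteField.pow_card]

end Cfsg.Agent.S2190
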