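import Cfsg.Statements.S2195
import Cfsg.Agent.H5.SpR11

set_option autoImplicit false
open Cfsg

namespace Cfsg.Agent.S2195

/-- Primitive rank 3 actions of the projective symplectic groups in dimension at least 6 over fields of odd order. Let G ≅ PSp_{2k}(F), k ≥ 3, F a finite field with q elements, q odd, act faithfully and primitively on a finite set X so that a point stabilizer has exactly three orbits. Then X has as many points as the projective space of F^{2k}: |X|·(q − 1) = q^{2k} − 1. (The action is in fact the one on the points of the projective space, all of which are isotropic for the symplectic form; only the number of points is asserted here.) -/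
theorem result {G X : Type*} [Group G] [Finite G] [MulAction G X] [FaithfulSMul G X] [Fintype X] {F : Type*} [Field F] [Fintype F] (k : ℕ) (hk : 3 ≤ k) (hq : Odd (Fintype.card F)) (e : G ≃* Cfsg.PSp k F) (hprim : MulAction.IsPreprimitive G X) (x : X) (h3 : Nat.card (MulAction.orbitRel.Quotient ↥(MulAction.stabilizer G x) X) = 3) :
    Fintype.card X * (Fintype.card F - 1) = Fintype.card F ^ (2 * k) - 1 := by
  classical
  have hB := H5.isSp_std (F := F) k
  have hd := H5.finrank_std_sp (F := F) k
  have h2 : (2 : F) ≠ 0 := fun e => by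
    have := FiniteField.even_card_iff_char_two (F := F).1 (CharP.ringChar_of_prime_eq_zero Nat.prime_two
      (by exact_mod_cast e))
    have := Nat.odd_iff.1 hq
    omega
  let φ : H5.Isom (H5.stdSp k F) →* G := e.symm.toMonoidHom.comp
    ((QuotientGroup.mk' _).comp (H5.spEquiv k F).symm.toMonoidHom)
  have hφ : Function.Surjective φ :=
    e.symm.surjective.comp ((QuotientGroup.mk'_surjective _).comp (H5.spEquiv k F).symm.surjective)
  have ker : ∀ g, φ g = 1 → ∃ c : F, ∀ v, g.1 v = c • v := fun g hg => by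
    refine hB.scalar_of_mem_center (Subgroup.mem_center_iff.2 fun a => (H5.spEquiv k F).symm.injective ?_)
    have : (H5.spEquiv k F).symm g ∈ Subgroup.center _ :=
      (QuotientGroup.eq_one_iff _).1 ((map_eq_one_iff _ e.symm.injective).1 hg)
    rw [map_mul, map_mul, Subgroup.mem_center_iff.1 this]
  obtain ⟨u, w, z, h1, z0, h4, h5⟩ := H5.exists_hyp hB (by omega)
  have hl : H5.Hyp _ (H5.ln F u w) := ⟨u, w, h1, rfl⟩
  obtain ⟨i, hi⟩ := hl.exists_isI hB
  have ni : φ i ≠ 1 := fun e => by
    obtain ⟨c, hc⟩ := ker i e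
    have e1 := congrArg (H5.stdSp k F w) ((hc u).symm.trans (hi.1 u (H5.left_mem_ln u w)))
    have e2 := (hc z).symm.trans (hi.2 z (H5.mem_perp_ln.2 ⟨h4, h5⟩))
    have c1 : c = 1 := smul_left_injective F z0 (by simpa using e2)
    simp only [map_smul, map_neg, h1, c1, RingHom.id_apply, smul_eq_mul] at e1
    exact h2 (by linear_combination e1)
  obtain ⟨y, hy⟩ : ∃ y : X, φ i • y ≠ y := by
    by_contra hn
    push Not at hn
    exact ni (eq_of_smul_eq_smul (α := X) fun y => by rw [hn, one_smul])
  obtain ⟨adj, h⟩ := H5.exists_rk3 hprim x h3 (t := φ i) (by rw [← map_mul, hi.sq hB hl, map_one]) hy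
  letI := MulAction.compHom X φ
  have sm : ∀ (g : H5.Isom (H5.stdSp k F)) (a : X), g • a = φ g • a := fun _ _ => rfl
  haveI : Nontrivial X := ⟨⟨_, _, hy⟩⟩
  have hp : MulAction.IsPreprimitive (H5.Isom (H5.stdSp k F)) X := by
    haveI : MulAction.IsPretransitive (H5.Isom (H5.stdSp k F)) X := ⟨fun a b => by
      obtain ⟨g, hg⟩ := h.tr a b
      obtain ⟨g, rfl⟩ := hφ g
      exact ⟨g, hg⟩⟩
    refine ⟨fun {S} hS => hprim.isTrivialBlock_of_isBlock fun g g' hg => ?_⟩
    obtain ⟨g, rfl⟩ := hφ g
    obtain ⟨g', rfl⟩ := hφ g'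
    exact hS hg
  refine H5.sp_rank3 hB (adj := adj) (ω := x) ⟨⟨h.symm, h.irrefl, fun g => h.inv (φ g), fun a b => ?_,
    fun a b c d => ?_, hp.exists_smul_eq, h.conn, h.coconn⟩, fun g hg => ker g ?_,
    (MulAction.isCoatom_stabilizer_iff_preprimitive _ x).2 hp⟩ hq hk hd
  · obtain ⟨g, hg⟩ := h.tE a b
    obtain ⟨g, rfl⟩ := hφ g
    exact ⟨g, hg⟩
  · obtain ⟨g, hg⟩ := h.tN a b c d
    obtain ⟨g, rfl⟩ := hφ g
    exact ⟨g, hg⟩
  · exact eq_of_smul_eq_smul (α := X) fun y => by rw [one_smul]; exact hg y

end Cfsg.Agent.S2195
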