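import Cfsg.Statements.S2196
import Cfsg.Agent.H1.URh
import Cfsg.Agent.H5.UZ1

set_option autoImplicit false
open Cfsg

namespace Cfsg.Agent.S2196

/-- Primitive rank 3 actions of the projective special unitary groups in dimension at least 6 with q ≥ 3. Let G ≅ PSU_n(q), n ≥ 6, q ≥ 3 (realised over the field with q² elements), act faithfully and primitively on a finite set X so that a point stabilizer has exactly three orbits. Then X has as many points as there are isotropic points of the unitary space: |X|·(q² − 1) = (q^n − (−1)^n)(q^(n−1) − (−1)^(n−1)), written with natural numbers as |X|·(q² − 1) = (q^n − 1)(q^(n−1) + 1) for n even and (q^n + 1)(q^(n−1) − 1) for n odd. -/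
theorem result {G X : Type*} [Group G] [Finite G] [MulAction G X] [FaithfulSMul G X] [Fintype X] {F : Type*} [Field F] [Fintype F] (n q : ℕ) (hn : 6 ≤ n) (hq : 3 ≤ q) (hF : Fintype.card F = q ^ 2) (e : G ≃* Cfsg.PSU n F q) (hprim : MulAction.IsPreprimitive G X) (x : X) (h3 : Nat.card (MulAction.orbitRel.Quotient ↥(MulAction.stabilizer G x) X) = 3) :
    (Even n → Fintype.card X * (q ^ 2 - 1) = (q ^ n - 1) * (q ^ (n - 1) + 1)) ∧
    (Odd n → Fintype.card X * (q ^ 2 - 1) = (q ^ n + 1) * (q ^ (n - 1) - 1)) := by
  exact H5.UZ.top n q hn hq hF e hprim x h3 fun hU hB _ _ hs k hk => H1.UR.su_rank3 hB hU hq hs hk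

end Cfsg.Agent.S2196
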