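import Cfsg.Statements.S2205
import Cfsg.Agent.H3.DT4

set_option autoImplicit false
open Cfsg

namespace Cfsg.Agent.S2205

/-- A finite group acting faithfully and 2-transitively on a set with p² + 1 points, p a prime, is doubly primitive — a point stabilizer acts primitively on the remaining p² points — unless p = 2 and the group is the Frobenius group of order 20. -/
theorem result {G Ω : Type*} [Group G] [Finite G] [Fintype Ω] [MulAction G Ω] [FaithfulSMul G Ω] (p : ℕ) (hp : p.Prime) (hΩ : Fintype.card Ω = p ^ 2 + 1) (h2 : MulAction.IsMultiplyPretransitive G Ω 2) (a : Ω) :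
    MulAction.IsPreprimitive ↥(MulAction.stabilizer G a) ↥(SubMulAction.ofStabilizer G a) ∨ (p = 2 ∧ Nat.card G = 20) := by
  refine or_iff_not_imp_left.2 fun h => ?_
  obtain ⟨R, hR⟩ := H3.DT.exists_sys hp (Nat.card_eq_fintype_card.trans hΩ) h2 a h
  have := Fact.mk hp
  obtain rfl : p = 2 := by_contra fun e => hR.odd_false e
  exact ⟨rfl, hR.card_two⟩

end Cfsg.Agent.S2205
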