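import Cfsg.Statements.S2207
import Cfsg.Agent.H2.R3i

set_option autoImplicit false
open Cfsg

namespace Cfsg.Agent.S2207

open MulAction in
theorem rel_cases {G X : Type*} [Group G] [MulAction G X] (hprim : IsPreprimitive G X) (r : X → X → Prop)
    (h1 : ∀ x y, r x y → r y x) (h2 : ∀ x y w, r x y → r y w → r x w)
    (h3 : ∀ (g : G) x y, r x y → r (g • x) (g • y)) {a b : X} (hab : r a b) (hne : a ≠ b) (c : X) : r a c := by
  have hB : IsBlock G {x | r a x} := by
    rw [isBlock_iff_smul_eq_of_mem]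
    intro g x hx hgx
    have h4 : r a (g • a) := h2 _ _ _ hgx (h1 _ _ (h3 g _ _ hx))
    ext y
    rw [Set.mem_smul_set_iff_inv_smul_mem]
    exact ⟨fun h => h2 _ _ _ h4 (by simpa using h3 g _ _ h), fun h => by
      simpa using h3 g⁻¹ _ _ (h2 _ _ _ (h1 _ _ h4) h)⟩
  rcases hprim.isTrivialBlock_of_isBlock hB with h | h
  · exact absurd (h (h2 _ _ _ hab (h1 _ _ hab)) hab) hne
  · exact (h ▸ Set.mem_univ c : c ∈ {x | r a x})

/-- Primitive rank 3 groups whose point stabilizer acts as a Frobenius group on one of its two non-trivial orbits. Let a finite group G of even order act faithfully and primitively on a finite set X so that the stabilizer of a point A has exactly three orbits, and suppose that on one of its non-trivial orbits I the stabilizer of A acts faithfully as a Frobenius group: transitively, some non-identity element fixing a point of I, and no non-identity element fixing two points of I. Then either G ≅ A₅ and X has 10 points (the action on unordered pairs),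 or G is solvable and has a normal subgroup of order 16 acting regularly on X. -/
theorem result {G X : Type*} [Group G] [Finite G] [Fintype X] [MulAction G X] [FaithfulSMul G X] (heven : Even (Nat.card G)) (hprim : MulAction.IsPreprimitive G X) (A : X)
    (h3 : Nat.card (MulAction.orbitRel.Quotient ↥(MulAction.stabilizer G A) X) = 3) (B : X) (hBA : B ≠ A)
    (hfaith : ∀ g ∈ MulAction.stabilizer G A, (∀ h ∈ MulAction.stabilizer G A, g • (h • B) = h • B) → g = 1)
    (hfix : ∃ g ∈ MulAction.stabilizer G A, g ≠ 1 ∧ g • B = B)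
    (hfrob : ∀ g ∈ MulAction.stabilizer G A, ∀ h ∈ MulAction.stabilizer G A, g • B = B → g • (h • B) = h • B → h • B ≠ B → g = 1) :
    (Nonempty (G ≃* ↥(alternatingGroup (Fin 5))) ∧ Fintype.card X = 10) ∨
    (IsSolvable G ∧ ∃ N : Subgroup G, N.Normal ∧ Nat.card N = 16 ∧ ∀ x y : X, ∃! n : ↥N, (n : G) • x = y) := by
  classical
  have := Fintype.ofFinite G
  let adj : X → X → Prop := fun x y => ∃ g : G, g • A = x ∧ g • B = y
  have htr : ∀ x y : X, ∃ g : G, g • x = y := fun x y => hprim.toIsPretransitive.exists_smul_eq x y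
  have hinv : ∀ (g : G) {a b}, adj a b → adj (g • a) (g • b) := by
    rintro g _ _ ⟨t, rfl, rfl⟩
    exact ⟨g * t, mul_smul _ _ _, mul_smul _ _ _⟩
  have hirr : ∀ a, ¬ adj a a := fun a ⟨g, h1, h2⟩ => hBA (smul_left_cancel g (h2.trans h1.symm))
  have hAB : adj A B := ⟨1, one_smul _ _, one_smul _ _⟩
  let q : X → MulAction.orbitRel.Quotient (MulAction.stabilizer G A) X := Quotient.mk _
  have hq : ∀ x y, q x = q y ↔ ∃ g : G, g • A = A ∧ g • y = x := fun x y =>
    Quotient.eq.trans ⟨fun ⟨g, hg⟩ => ⟨g, g.2, hg⟩, fun ⟨g, h1, h2⟩ => ⟨⟨g, h1⟩, h2⟩⟩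
  have hqA : ∀ x, A ≠ x → q x ≠ q A := fun x h e => by
    obtain ⟨g, h1, h2⟩ := (hq _ _).mp e
    exact h (h1.symm.trans h2)
  have := Fintype.ofFinite (MulAction.orbitRel.Quotient (MulAction.stabilizer G A) X)
  rw [Nat.card_eq_fintype_card] at h3
  have hN0 : ∀ c c', A ≠ c → ¬ adj A c → A ≠ c' → ¬ adj A c' → ∃ g : G, g • A = A ∧ g • c = c' := by
    intro c c' h1 h2 h4 h5
    by_contra h6
    have h7 := Finset.card_le_univ {q c', q c, q B, q A}
    rw [Finset.card_insert_of_notMem (by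
      simp only [Finset.mem_insert, Finset.mem_singleton, not_or]
      exact ⟨fun e => h6 ((hq _ _).mp e), fun e => h5 ((hq _ _).mp e), hqA _ h4⟩),
      Finset.card_insert_of_notMem (by
      simp only [Finset.mem_insert, Finset.mem_singleton, not_or]
      exact ⟨fun e => h2 ((hq _ _).mp e), hqA _ h1⟩), Finset.card_pair (hqA _ hBA.symm)] at h7
    omega
  obtain ⟨C, hC1, hC2⟩ : ∃ C, A ≠ C ∧ ¬ adj A C := by
    by_contra h
    push Not at h
    have h7 : (Finset.univ : Finset (MulAction.orbitRel.Quotient (MulAction.stabilizer G A) X)) ⊆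
        {q A, q B} := by
      intro w _
      obtain ⟨x, rfl⟩ := Quotient.exists_rep w
      by_cases e : A = x
      · exact Finset.mem_insert.mpr (Or.inl (e ▸ rfl))
      · exact Finset.mem_insert.mpr (Or.inr (Finset.mem_singleton.mpr ((hq _ _).mpr (h x e))))
    have := (Finset.card_le_card h7).trans Finset.card_le_two
    rw [Finset.card_univ] at this
    omega
  have htN : ∀ {a c a' c'}, a ≠ c → ¬ adj a c → a' ≠ c' → ¬ adj a' c' → ∃ g : G, g • a = a' ∧ g • c = c' := by
    intro a c a' c' h1 h2 h4 h5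
    obtain ⟨s, rfl⟩ := htr A a
    obtain ⟨t, rfl⟩ := htr A a'
    obtain ⟨g, e1, e2⟩ := hN0 (s⁻¹ • c) (t⁻¹ • c') (fun e => h1 (by rw [e, smul_inv_smul]))
      (fun h => h2 (by simpa using hinv s h)) (fun e => h4 (by rw [e, smul_inv_smul]))
      (fun h => h5 (by simpa using hinv t h))
    exact ⟨t * g * s⁻¹, by rw [mul_smul, mul_smul, inv_smul_smul, e1],
      by rw [mul_smul, mul_smul, e2, smul_inv_smul]⟩
  have hBA' : adj B A := by
    have := Nat.fact_prime_two
    obtain ⟨t, ht⟩ := exists_prime_orderOf_dvd_card' (G := G) 2 heven.two_dvd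
    obtain ⟨x, hx⟩ : ∃ x : X, x ≠ t • x := by
      by_contra h
      push Not at h
      rw [eq_of_smul_eq_smul (m₁ := t) (m₂ := 1) (α := X) (fun x => by rw [← h x, one_smul]),
        orderOf_one] at ht
      omega
    have h1 : t • t • x = x := by rw [← mul_smul, ← pow_two, ← ht, pow_orderOf_eq_one, one_smul]
    by_contra h
    by_cases h2 : adj x (t • x)
    · obtain ⟨g, e1, e2⟩ := h2
      exact h ⟨g⁻¹ * t * g, by rw [mul_smul, mul_smul, e1, ← e2, inv_smul_smul],
        by rw [mul_smul, mul_smul, e2, h1, ← e1, inv_smul_smul]⟩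
    · obtain ⟨g, e1, e2⟩ := htN hBA h hx h2
      exact h2 ⟨t * g, by rw [mul_smul, e2, h1], by rw [mul_smul, e1]⟩
  have hsymm : ∀ {a b}, adj a b → adj b a := by
    rintro _ _ ⟨g, rfl, rfl⟩
    exact hinv g hBA'
  refine H2.R3.main (adj := adj) ⟨hsymm, hirr, hinv, ?_, htN, htr, ?_, ?_, ?_, ?_, ?_⟩
  · rintro _ _ _ _ ⟨g, rfl, rfl⟩ ⟨g', rfl, rfl⟩
    exact ⟨g' * g⁻¹, by rw [mul_smul, inv_smul_smul], by rw [mul_smul, inv_smul_smul]⟩
  · rintro g _ _ _ ⟨s, rfl, rfl⟩ ⟨t, e, rfl⟩ h1 h2 h4 h5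
    have := hfrob (s⁻¹ * g * s) (by rw [MulAction.mem_stabilizer_iff, mul_smul, mul_smul, h2, inv_smul_smul])
      (s⁻¹ * t) (by rw [MulAction.mem_stabilizer_iff, mul_smul, e, inv_smul_smul])
      (by rw [mul_smul, mul_smul, h4, inv_smul_smul])
      (by rw [mul_smul, mul_smul, mul_smul, smul_inv_smul, h5])
      (fun e => h1 (by rw [mul_smul, inv_smul_eq_iff] at e; exact e.symm))
    simpa [mul_assoc, inv_mul_eq_one] using this
  · obtain ⟨g, h1, h2, h4⟩ := hfix
    exact ⟨A, B, g, hAB, h2, h1, h4⟩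
  · by_contra h
    push Not at h
    rcases rel_cases hprim (fun x y => x = y ∨ adj x y) (fun x y h => h.imp Eq.symm hsymm) (by
      rintro x y w (rfl | h1) (rfl | h2)
      · exact Or.inl rfl
      · exact Or.inr h2
      · exact Or.inr h1
      · exact or_iff_not_imp_left.mpr (h x y w h1 h2))
      (fun g x y h => h.imp (congrArg _) (hinv g)) (Or.inr hAB) hBA.symm C with e | e
    · exact hC1 e
    · exact hC2 e
  · by_contra h
    push Not at h
    refine rel_cases hprim (fun x y => ¬ adj x y) (fun x y h h' => h (hsymm h')) (fun x y w h1 h2 h4 => ?_)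
      (fun g x y h h' => h (by simpa using hinv g⁻¹ h')) hC2 hC1 B hAB
    by_cases e1 : y = x
    · exact h2 (e1 ▸ h4)
    by_cases e2 : y = w
    · exact h1 (e2 ▸ h4)
    exact h y x w e1 (fun h' => h1 (hsymm h')) e2 h2 h4
  · intro N hN hN0 a a'
    obtain ⟨⟨n, hn⟩, hn1⟩ := Subgroup.ne_bot_iff_exists_ne_one.mp hN0
    obtain ⟨x, hx⟩ : ∃ x : X, x ≠ n • x := by
      by_contra h
      push Not at h
      exact hn1 (Subtype.ext (eq_of_smul_eq_smul (m₁ := n) (m₂ := 1) (α := X)
        (fun x => by rw [← h x, one_smul])))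
    have key := rel_cases hprim (fun x y => ∃ n ∈ N, n • x = y)
      (fun x y ⟨m, hm, e⟩ => ⟨m⁻¹, inv_mem hm, inv_smul_eq_iff.mpr e.symm⟩)
      (fun x y w ⟨m, hm, e⟩ ⟨m', hm', e'⟩ => ⟨m' * m, mul_mem hm' hm, by rw [mul_smul, e, e']⟩)
      (fun g x y ⟨m, hm, e⟩ => ⟨g * m * g⁻¹, hN.conj_mem m hm g, by
        rw [mul_smul, mul_smul, inv_smul_smul, e]⟩) ⟨n, hn, rfl⟩ hx
    obtain ⟨m, hm, e⟩ := key a
    obtain ⟨m', hm', e'⟩ := key a'
    exact ⟨m' * m⁻¹, mul_mem hm' (inv_mem hm), by rw [mul_smul, ← e, inv_smul_smul, e']⟩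

end Cfsg.Agent.S2207
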