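import Cfsg.Statements.S2208
import Cfsg.Agent.H5.TB5
import Cfsg.Agent.H1.TV4
import Cfsg.Agent.H4.PG

set_option autoImplicit false
open Cfsg

namespace Cfsg.Agent.S2208

/-- Let a finite group G act faithfully and 2-transitively on a finite set Ω, and suppose the stabilizer of a point has a normal subgroup N isomorphic to PSL₂(q), to a Suzuki group Sz(q), or to PSU₃(q), with q = 2^n ≥ 4. Then either Ω has 6 points, G is isomorphic to A₆ or S₆ and N ≅ PSL₂(4); or Ω has 11 points, G ≅ PSL₂(11) and N ≅ PSL₂(4); or G has a normal subgroup acting regularly on Ω. -/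
theorem result {G Ω : Type*} [Group G] [Finite G] [Fintype Ω] [MulAction G Ω] [FaithfulSMul G Ω] (h2 : MulAction.IsMultiplyPretransitive G Ω 2) (a : Ω) (N : Subgroup G) (hNle : N ≤ MulAction.stabilizer G a) (hNnormal : ∀ g ∈ MulAction.stabilizer G a, ∀ n ∈ N, g * n * g⁻¹ ∈ N)
    (hN : ∃ (F : Type) (_ : Field F) (_ : Fintype F) (m : ℕ), Fintype.card F = 2 ^ m ∧ 2 ≤ m ∧
      (Nonempty (↥N ≃* Matrix.ProjectiveSpecialLinearGroup (Fin 2) F) ∨ (Odd m ∧ Nonempty (↥N ≃* ↥(Cfsg.Lie.Sz F (2 ^ ((m + 1) / 2))))) ∨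
       (∃ (K : Type) (_ : Field K) (_ : Fintype K), Fintype.card K = (2 ^ m) ^ 2 ∧ Nonempty (↥N ≃* Cfsg.PSU 3 K (2 ^ m))))) :
    (Fintype.card Ω = 6 ∧ (Nonempty (G ≃* ↥(alternatingGroup (Fin 6))) ∨ Nonempty (G ≃* Equiv.Perm (Fin 6))) ∧ ∃ (F : Type) (_ : Field F) (_ : Fintype F), Fintype.card F = 4 ∧ Nonempty (↥N ≃* Matrix.ProjectiveSpecialLinearGroup (Fin 2) F)) ∨
    (Fintype.card Ω = 11 ∧ (∃ (F : Type) (_ : Field F) (_ : Fintype F), Fintype.card F = 11 ∧ Nonempty (G ≃* Matrix.ProjectiveSpecialLinearGroup (Fin 2) F)) ∧ ∃ (F : Type) (_ : Field F) (_ : Fintype F), Fintype.card F = 4 ∧ Nonempty (↥N ≃* Matrix.ProjectiveSpecialLinearGroup (Fin 2) F)) ∨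
    (∃ R : Subgroup G, R.Normal ∧ (∀ x y : Ω, ∃ r ∈ R, r • x = y) ∧ ∀ x : Ω, ∀ r ∈ R, r • x = x → r = 1) := by
  haveI : Nonempty Ω := ⟨a⟩
  refine H5.TA.final h2 a N hNle hNnormal hN fun F K _ _ m i C =>
    H5.TA.core' C fun h1 hF a b t hab ht _ hZ hc => ?_
  have H := H1.TV.h2_of C h1 hF hab ht hZ hc
  obtain ⟨R⟩ := C.loc a
  exact H.main R (fun hκ _ hh _ hb ne k => H4.PA.torus_B H R hκ hh hb ne k) fun _ hκ => H4.PA.torus_C H R hκ

end Cfsg.Agent.S2208
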