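import Cfsg.Statements.S2209
import Cfsg.Agent.H7.Misc
import Cfsg.Agent.H7.All

set_option autoImplicit false
open Cfsg

namespace Cfsg.Agent.S2209

open Cfsg.Lie Cfsg.Agent.H7 Cfsg.Agent.H8

theorem aux {D : ChevalleyDatum} [RootFacts D] [NFacts D] [DiagFacts D] {K G : Type*} [Field K] [Group G]
    {x : ℕ → K → G} (hx : IsChev D x) (i0 : Fin D.rank) (h0 : ∀ i, wt D (D.nroots - 1) i = if i = i0 then 1 else 0) :
    GG x ⊓ Subgroup.centralizer {x (D.nroots - 1) 1} =
      UU D x ⊔ XS x {s | ∃ i : Fin D.rank, i ≠ i0 ∧ s = D.neg (D.simple i)} := by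
  set M := UU D x ⊔ XS x {s | ∃ i : Fin D.rank, i ≠ i0 ∧ s = D.neg (D.simple i)}
  have hM : M ≤ GG x ⊓ Subgroup.centralizer {x (D.nroots - 1) 1} := by
    refine sup_le (le_inf (XS_le_GG x _) fun u hu =>
      Subgroup.mem_centralizer_singleton_iff.2 (theta_commute hx.toIsSt hu 1)) (le_inf (XS_le_GG x _) (XS_le.2 ?_))
    rintro _ ⟨i, hi, rfl⟩ t
    have hs : sref D i (D.nroots - 1) = D.nroots - 1 := sref_of_wt_zero (by rw [h0, if_neg hi])
    obtain ⟨c, hc, ha⟩ := (NRep.simple x i).acts hx.toIsSt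
    have h1 := (theta_commute hx.toIsSt (x_mem_UU x (simple_pos i) ((c (D.simple i))⁻¹ * t))
      ((c (D.nroots - 1))⁻¹ * 1)).map (MulAut.conj (nE D x (D.simple i) 1))
    rw [MulAut.conj_apply, MulAut.conj_apply, ha, ha, mul_inv_cancel_left₀ (hc.ne_zero (simple_lt i)),
      mul_inv_cancel_left₀ (hc.ne_zero theta_lt), hs, sref_simple] at h1
    exact Subgroup.mem_centralizer_singleton_iff.2 h1
  have hn : ∀ i : Fin D.rank, i ≠ i0 → ∀ t, nE D x (D.simple i) t ∈ M := fun i hi t =>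
    mul_mem (mul_mem (Subgroup.mem_sup_left (x_mem_UU x (simple_pos i) _))
      (Subgroup.mem_sup_right (x_mem_XS (S := {s | ∃ i : Fin D.rank, i ≠ i0 ∧ s = D.neg (D.simple i)}) ⟨i, hi, rfl⟩ _))) (Subgroup.mem_sup_left (x_mem_UU x (simple_pos i) _))
  refine le_antisymm (fun g hg => ?_) hM
  obtain ⟨w, hw, hc⟩ := hx.toIsSt.exists_cell hg.1
  have hw1 : w (D.nroots - 1) = D.nroots - 1 := by
    obtain ⟨b, hb, n, hn, b', hb', rfl⟩ := hc
    obtain ⟨c, hc, h1⟩ := BB_conj_theta hx.toIsSt (inv_mem hb)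
    obtain ⟨c', hc', h2⟩ := BB_conj_theta hx.toIsSt hb'
    obtain ⟨d, hd, h3⟩ := hn.acts hx.toIsSt
    refine hx.root_eq (W_lt hw theta_lt) (mul_ne_zero (hd.ne_zero theta_lt) (mul_ne_zero hc' one_ne_zero)) (u := c * 1) ?_
    have h4 := Subgroup.mem_centralizer_singleton_iff.1 hg.2
    rw [← h3, ← h2, ← h1, inv_inv]
    conv_rhs => rw [← mul_inv_eq_iff_eq_mul.2 h4]
    simp [mul_assoc]
  obtain ⟨l, hl, rfl, -⟩ := exists_word_WJ (mem_WJ_of_fix theta_dom hw hw1)
  obtain ⟨u, hu, a, ha, v, hv, rfl⟩ := hx.toIsSt.cell_sharp' (NRep.nWd x l) hc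
  have h1 : nWd D x l ∈ M := Subgroup.list_prod_mem _ fun g hg => by
    obtain ⟨i, hi, rfl⟩ := List.mem_map.1 hg
    obtain ⟨_, h⟩ := hl i hi
    refine hn i (fun e => ?_) 1
    rw [h0] at h; simp [e] at h
  have hu' : u ∈ M := Subgroup.mem_sup_left hu
  have hv' : v ∈ M := Subgroup.mem_sup_left (Um_le_UU x _ hv)
  refine mul_mem (mul_mem (mul_mem hu' ?_) h1) hv'
  have h2 : a ∈ Subgroup.centralizer {x (D.nroots - 1) 1} := by
    have hM' := hM.trans inf_le_right
    simpa [mul_assoc] using mul_mem (mul_mem (mul_mem (inv_mem (hM' hu')) (inf_le_right (a := GG x) hg)) (inv_mem (hM' hv')))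
      (inv_mem (hM' h1))
  obtain ⟨a, rfl⟩ := hx.toIsSt.exists_hProd hx.R3 ha
  have h3 := hx.toIsSt.acts_hProd a (D.nroots - 1) 1
  rw [mul_inv_eq_iff_eq_mul.2 (Subgroup.mem_centralizer_singleton_iff.1 h2), mul_one] at h3
  have h4 : 1 = ((torChar a (wt D (D.nroots - 1)) : Kˣ) : K) := hx.x_inj theta_lt h3
  have h5 : torChar a (wt D (D.nroots - 1)) = a i0 := by
    unfold torChar
    rw [Finset.prod_eq_single i0] <;> simp +contextual [h0]
  refine Subgroup.list_prod_mem _ fun g hg => ?_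
  obtain ⟨i, -, rfl⟩ := List.mem_map.1 hg
  by_cases hi : i = i0
  · rw [hi, ← h5, ← h4, hx.toIsSt.hE_one]; exact one_mem _
  · exact mul_mem (hn i hi _) (hn i hi _)

theorem aux2 {D : ChevalleyDatum} (hD : D ∈ [chevG2, chevB2, chevD4, chevF4, chevE6, chevE7, chevE8]) {F : Type*} [Field F]
    (L : List ℕ) (i0 : Fin D.rank) (h0 : ∀ i : Fin D.rank, D.cartan i (D.nroots - 1) = if i = i0 then 1 else 0)
    (hL : ∀ s ∈ L, ∃ i : Fin D.rank, i ≠ i0 ∧ s = D.neg (D.simple i))
    (hL' : ∀ i : Fin D.rank, i ≠ i0 → D.neg (D.simple i) ∈ L)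
    (t : GL D.Idx F) (ht : (t : Matrix D.Idx D.Idx F) = D.x F (D.nroots - 1) 1) :
    D.group F ⊓ Subgroup.centralizer {t} = D.posUnipotent F ⊔
      Subgroup.closure {g : GL D.Idx F | ∃ s ∈ L, ∃ c : F, (g : Matrix D.Idx D.Idx F) = D.x F s c} := by
  obtain ⟨_, _, _, _, _⟩ := facts_of_mem hD
  rw [eq_xu_iff.1 ht, ← GG_xu, ← UU_xu, aux isChev_xu i0 h0, XS]
  congr 2
  ext g
  simp only [eq_xu_iff, Set.mem_ofPred_eq]
  exact ⟨fun ⟨_, ⟨i, hi, h⟩, h'⟩ => ⟨_, h ▸ hL' i hi, h'⟩, fun ⟨s, hs, h⟩ => ⟨s, hL s hs, h⟩⟩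

/-- Centralizer of a long root involution in the Chevalley groups of type E₆, E₇, E₈ over a finite field F of characteristic two. Let G be the group generated by the root elements, U the subgroup generated by the positive root subgroups, r the highest root (the last root index: 71, 125, 239 respectively), and t the element of G with matrix x_r(1). Then the centralizer of t in G is the subgroup generated by U together with the root subgroups X_{−p} for the fundamental roots p orthogonal to r — all fundamental roots except p₂ for E₆, except p₁ for E₇, except p₈ for E₈ (numbering with p₁–p₃–p₄–…–p_l the long chain and p₂ joined to p₄); the indices of these negative fundamental roots are 15, 29, 32, 34, 35 (E₆), 47, 52, 56, 59, 61, 62 (E₇), 77, 98, 104, 109, 113, 116, 118 (E₈). (This is the unipotent radical of the corresponding maximal parabolic subgroup extended by the root subgroups of its Levi factor, of type A₅, D₆, E₇ respectively.) -/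
theorem result {F : Type*} [Field F] [Fintype F] [CharP F 2] (d : Cfsg.Lie.ChevalleyDatum × List ℕ)
    (hd : d ∈ [(Cfsg.Lie.chevE6, [15, 29, 32, 34, 35]), (Cfsg.Lie.chevE7, [47, 52, 56, 59, 61, 62]), (Cfsg.Lie.chevE8, [77, 98, 104, 109, 113, 116, 118])])
    (t : GL d.1.Idx F) (ht : (t : Matrix d.1.Idx d.1.Idx F) = d.1.x F (d.1.nroots - 1) 1) :
    d.1.group F ⊓ Subgroup.centralizer {t} = d.1.posUnipotent F ⊔ Subgroup.closure {g : GL d.1.Idx F | ∃ s ∈ d.2, ∃ c : F, (g : Matrix d.1.Idx d.1.Idx F) = d.1.x F s c} := by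
  simp only [List.mem_cons, List.not_mem_nil, or_false] at hd
  rcases hd with rfl | rfl | rfl
  · exact aux2 (by simp) _ ⟨1, by decide⟩ (by decide +kernel) (by decide +kernel) (by decide +kernel) t ht
  · exact aux2 (by simp) _ ⟨0, by decide⟩ (by decide +kernel) (by decide +kernel) (by decide +kernel) t ht
  · exact aux2 (by simp) _ ⟨7, by decide⟩ (by decide +kernel) (by decide +kernel) (by decide +kernel) t ht

end Cfsg.Agent.S2209
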