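import Cfsg.Statements.S2214
import Cfsg.Agent.H7.Misc
import Cfsg.Agent.H7.All

set_option autoImplicit false
open Cfsg

namespace Cfsg.Agent.S2214

open Cfsg.Lie Cfsg.Agent.H7 Cfsg.Agent.H8

/-- Let k be an algebraically closed field of prime characteristic p, G the adjoint Chevalley group of type G₂, B₂, D₄, F₄, E₆, E₇ or E₈ over k (the matrix group generated by the root elements x_s(t), t ∈ k, acting on the Lie algebra), q = p^a with a ≥ 1, and K a subgroup of G containing every root element x_s(t) with t^q = t and consisting of matrices all of whose entries c satisfy c^q = c. Then the centralizer of K in G is trivial, and the normalizer of K in G is exactly the set of elements of G all of whose entries c satisfy c^q = c. -/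
theorem result {k : Type*} [Field k] [IsAlgClosed k] (p : ℕ) [Fact p.Prime] [CharP k p] (D : Cfsg.Lie.ChevalleyDatum) (hD : D ∈ [Cfsg.Lie.chevG2, Cfsg.Lie.chevB2, Cfsg.Lie.chevD4, Cfsg.Lie.chevF4, Cfsg.Lie.chevE6, Cfsg.Lie.chevE7, Cfsg.Lie.chevE8]) (a : ℕ) (ha : 1 ≤ a) (K : Subgroup (GL D.Idx k)) (hKG : K ≤ D.group k)
    (hLK : Subgroup.closure {g : GL D.Idx k | ∃ (s : ℕ) (t : k), t ^ (p ^ a) = t ∧ (g : Matrix D.Idx D.Idx k) = D.x k s t} ≤ K)
    (hKfix : ∀ g ∈ K, ∀ i j : D.Idx, ((g : Matrix D.Idx D.Idx k) i j) ^ (p ^ a) = (g : Matrix D.Idx D.Idx k) i j) :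
    D.group k ⊓ Subgroup.centralizer (K : Set (GL D.Idx k)) = ⊥ ∧
    ∀ g : GL D.Idx k, g ∈ D.group k → (g ∈ Subgroup.normalizer (K : Set (GL D.Idx k)) ↔ ∀ i j : D.Idx, ((g : Matrix D.Idx D.Idx k) i j) ^ (p ^ a) = (g : Matrix D.Idx D.Idx k) i j) := by
  obtain ⟨_, _, _, _, _⟩ := facts_of_mem hD
  have hx := isChev_xu (D := D) (F := k)
  let σ : k →+* k := iterateFrobenius k p a
  have hσ : ∀ t, σ t = t ^ p ^ a := fun t => rfl
  let φ := Matrix.GeneralLinearGroup.map (n := D.Idx) σ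
  have hφ : ∀ r t, φ (xu D k r t) = xu D k r (σ t) := map_xu σ
  have hfix : ∀ g : GL D.Idx k, φ g = g ↔
      ∀ i j : D.Idx, ((g : Matrix D.Idx D.Idx k) i j) ^ (p ^ a) = (g : Matrix D.Idx D.Idx k) i j := map_eq_iff σ
  let ι := (σ.eqLocusField (RingHom.id k)).subtype
  have hι : ∀ t, σ t = t → ∃ s, t = ι s := fun t ht => ⟨⟨t, ht⟩, rfl⟩
  have hL : GG (fun r t => xu D k r (ι t)) ≤ K := XS_le.2 fun r _ t => hLK (Subgroup.subset_closure ⟨r, t, t.2, rfl⟩)
  have h1 : ∀ g ∈ D.group k, (∀ y ∈ K, Commute g y) → g = 1 := fun g hg h =>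
    hx.eq_one_of_commute_one (GG_xu (D := D) (F := k) ▸ hg) fun r => h _ (hL (by simpa using x_mem_GG (fun r t => xu D k r (ι t)) r 1))
  refine ⟨eq_bot_iff.2 fun g hg => h1 g hg.1 fun y hy => (Subgroup.mem_centralizer_iff.1 hg.2 y hy).symm, fun g hg => ?_⟩
  rw [← hfix]
  constructor
  · intro hn
    have h2 : φ g ∈ D.group k := by rw [← GG_xu] at hg ⊢; exact frob_XS hφ hg
    refine (inv_mul_eq_one.1 (h1 _ (mul_mem (inv_mem hg) h2) fun y hy => ?_)).symm
    have h3 := (hfix _).2 (hKfix _ ((Subgroup.mem_normalizer_iff.1 hn y).1 hy))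
    rw [map_mul, map_mul, map_inv, (hfix _).2 (hKfix y hy)] at h3
    rw [Commute, SemiconjBy, mul_assoc, mul_inv_eq_iff_eq_mul.1 h3]
    simp [mul_assoc]
  · intro hf
    have dec : ∀ g ∈ D.group k, φ g = g → ∃ u ∈ GG (fun r t => xu D k r (ι t)), ∃ h ∈ HH D (xu D k), φ h = h ∧
        ∃ v ∈ GG (fun r t => xu D k r (ι t)), g = u * h * v := fun g hg hf => by
      obtain ⟨u, hu, h, hh, hh', l, v, hv, rfl⟩ := hx.fix_decomp hφ hι (GG_xu (D := D) (F := k) ▸ hg) hf
      refine ⟨u, XS_le_GG _ _ hu, h, hh, hh', _, mul_mem ?_ (XS_le_GG _ _ hv), mul_assoc _ _ _⟩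
      rw [← nWd_comap ι]; exact NN_le_GG _ (nWd_mem_NN _ l)
    have hconj : ∀ h ∈ HH D (xu D k), φ h = h → ∀ y ∈ K, h * y * h⁻¹ ∈ K := fun h hh hh' y hy => by
      have h2 : ∀ y ∈ GG (fun r t => xu D k r (ι t)), h * y * h⁻¹ ∈ K := fun y hy => by
        refine conj_mem_of_XS (fun r _ t => ?_) hy
        obtain ⟨c, hc⟩ := hx.toIsSt.acts_of_mem_HH hh
        by_cases hr : r < D.nroots
        · have h3 := congrArg φ (hc r 1)
          rw [map_mul, map_mul, map_inv, hh', hφ, hφ, map_one, hc] at h3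
          obtain ⟨s, hs⟩ := hι _ (hx.x_inj hr h3).symm
          rw [hc, ← one_mul (ι t), ← mul_assoc, hs, ← map_mul]
          exact hL (x_mem_GG (fun r t => xu D k r (ι t)) r _)
        · simp [xu_ge (not_lt.1 hr)]
      obtain ⟨u, hu, h', hh', -, v, hv, rfl⟩ := dec y (hKG hy) ((hfix _).2 (hKfix y hy))
      have h3 : h' ∈ K := by simpa [mul_assoc] using mul_mem (mul_mem (inv_mem (hL hu)) hy) (inv_mem (hL hv))
      have h4 := mul_mem (mul_mem (h2 u hu) h3) (h2 v hv)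
      rw [← mul_inv_eq_iff_eq_mul.2 (hx.HH_commute hh hh').eq] at h4
      simpa [mul_assoc] using h4
    obtain ⟨u, hu, h, hh, hh', v, hv, rfl⟩ := dec g hg hf
    refine mul_mem (mul_mem (Subgroup.le_normalizer (hL hu)) ?_) (Subgroup.le_normalizer (hL hv))
    refine Subgroup.mem_normalizer_iff.2 fun y => ⟨hconj h hh hh' y, fun hy => ?_⟩
    simpa [mul_assoc] using hconj _ (inv_mem hh) (by rw [map_inv, hh']) _ hy

end Cfsg.Agent.S2214
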