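import Cfsg.Statements.S2221
import Cfsg.Agent.H4.SD3

set_option autoImplicit false
open Cfsg

namespace Cfsg.Agent.S2221

theorem small4 : ∀ g : Equiv.Perm (Fin 4), Equiv.Perm.sign g = 1 → g ^ 4 = 1 → g * g = 1 := by
  decide +kernel

theorem small5 : ∀ g : Equiv.Perm (Fin 5), Equiv.Perm.sign g = 1 → g ^ 4 = 1 → g * g = 1 := by
  decide +kernel

/-- Direct decomposability of the Sylow 2-subgroups of the alternating groups. Let n ≥ 4 and let P be a Sylow 2-subgroup of the alternating group of degree n. Then P is the internal direct product of two nontrivial subgroups if and only if n = 4, n = 5, or n ≡ 2, 3 (mod 4) with 4⌊n/4⌋ not a power of 2. In the remaining cases (n ≡ 0, 1 (mod 4) with n ≥ 8, or n ≡ 2, 3 (mod 4) with 4⌊n/4⌋ a power of 2) P is directly indecomposable. -/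
theorem result (n : ℕ) (hn : 4 ≤ n)
    (P : Sylow 2 (alternatingGroup (Fin n))) :
    (∃ S₁ S₂ : Subgroup (alternatingGroup (Fin n)), S₁ ≠ ⊥ ∧ S₂ ≠ ⊥ ∧
        Cfsg.IsInternalDirectProduct S₁ S₂ (P : Subgroup (alternatingGroup (Fin n)))) ↔
      (n = 4 ∨ n = 5 ∨ ((n % 4 = 2 ∨ n % 4 = 3) ∧ ∀ r : ℕ, 4 * (n / 4) ≠ 2 ^ r)) := by
  by_cases h45 : n = 4 ∨ n = 5
  · refine iff_of_true ?_ (by tauto)
    have h1 := H3.card_sylow_alt (α := Fin n) (by simp; omega) P
    have hc : Nat.card (P : Subgroup (alternatingGroup (Fin n))) = 4 := by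
      have : H3.w2 (Fintype.card (Fin n)) = 8 := by
        rcases h45 with rfl | rfl <;> decide +kernel
      omega
    obtain ⟨S1, S2, a, b, c⟩ := H4.exists_split_of_four _ hc fun g hg => by
      have h4 := pow_card_eq_one' (x := (⟨g, hg⟩ : (P : Subgroup (alternatingGroup (Fin n)))))
      rw [hc] at h4
      have h5 : (g : Equiv.Perm (Fin n)) ^ 4 = 1 := congrArg (fun x => x.1.1) h4
      apply Subtype.ext
      rcases h45 with rfl | rfl
      · exact small4 _ g.2 h5
      · exact small5 _ g.2 h5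
    exact ⟨S1, S2, a, b, c⟩
  · obtain ⟨Q, hQ⟩ := P.exists_comap_subtype_eq
    have hm : ∀ g : alternatingGroup (Fin n), g ∈ (P : Subgroup (alternatingGroup (Fin n))) ↔
        (g : Equiv.Perm (Fin n)) ∈ (Q : Subgroup (Equiv.Perm (Fin n))) := fun g => by
      rw [← hQ]; rfl
    have key := H4.dcp_iff Q (by simp; omega)
    rw [Fintype.card_fin] at key
    rw [← or_assoc, or_iff_right h45, ← key]
    constructor
    · rintro ⟨S1, S2, n1, n2, l1, l2, cm, dj, sp⟩
      refine ⟨S1.map (alternatingGroup (Fin n)).subtype, S2.map (alternatingGroup (Fin n)).subtype,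
        ?_, ?_, ?_, ?_, ?_, ?_, ?_⟩
      · rintro _ ⟨a, ha, rfl⟩; exact ⟨(hm a).1 (l1 ha), a.2⟩
      · rintro _ ⟨a, ha, rfl⟩; exact ⟨(hm a).1 (l2 ha), a.2⟩
      · rintro _ ⟨a, ha, rfl⟩ _ ⟨b, hb, rfl⟩; exact congrArg Subtype.val (cm a ha b hb)
      · rintro _ ⟨a, ha, rfl⟩ ⟨b, hb, e⟩
        have e' : b = a := Subtype.ext e
        subst e'
        have : b ∈ S1 ⊓ S2 := ⟨ha, hb⟩
        rw [dj, Subgroup.mem_bot] at this
        rw [this]; rfl
      · intro g hg hs
        let T : Subgroup (alternatingGroup (Fin n)) :=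
          { carrier := {x | ∃ a ∈ S1, ∃ b ∈ S2, x = a * b}
            one_mem' := ⟨1, one_mem _, 1, one_mem _, by simp⟩
            mul_mem' := by
              rintro _ _ ⟨a, ha, b, hb, rfl⟩ ⟨c, hc, d, hd, rfl⟩
              refine ⟨a * c, mul_mem ha hc, b * d, mul_mem hb hd, ?_⟩
              rw [mul_assoc, ← mul_assoc b, ← cm c hc b hb]; group
            inv_mem' := by
              rintro _ ⟨a, ha, b, hb, rfl⟩
              exact ⟨a⁻¹, inv_mem ha, b⁻¹, inv_mem hb, by rw [cm a ha b hb, mul_inv_rev]⟩ }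
        have hT : S1 ⊔ S2 ≤ T := sup_le (fun a ha => ⟨a, ha, 1, one_mem _, by simp⟩)
          (fun a ha => ⟨1, one_mem _, a, ha, by simp⟩)
        rw [sp] at hT
        obtain ⟨a, ha, b, hb, e⟩ := hT ((hm ⟨g, hs⟩).2 hg)
        exact ⟨a, ⟨a, ha, rfl⟩, b, ⟨b, hb, rfl⟩, congrArg Subtype.val e⟩
      · rwa [Ne, Subgroup.map_eq_bot_iff_of_injective _ (Subgroup.subtype_injective _)]
      · rwa [Ne, Subgroup.map_eq_bot_iff_of_injective _ (Subgroup.subtype_injective _)]
    · rintro ⟨S1, S2, D⟩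
      refine ⟨S1.subgroupOf _, S2.subgroupOf _, ?_, ?_, fun a ha => (hm a).2 (D.m1 _ ha).1,
        fun a ha => (hm a).2 (D.m2 _ ha).1, fun a ha b hb => Subtype.ext (D.cm _ ha _ hb), ?_, ?_⟩
      · intro e
        apply D.n1
        rw [Subgroup.eq_bot_iff_forall] at e ⊢
        exact fun a ha => congrArg Subtype.val (e ⟨a, (D.m1 a ha).2⟩ ha)
      · intro e
        apply D.n2
        rw [Subgroup.eq_bot_iff_forall] at e ⊢
        exact fun a ha => congrArg Subtype.val (e ⟨a, (D.m2 a ha).2⟩ ha)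
      · rw [Subgroup.eq_bot_iff_forall]
        exact fun a ha => Subtype.ext (D.dj _ ha.1 ha.2)
      · refine le_antisymm (sup_le (fun a ha => (hm a).2 (D.m1 _ ha).1) fun a ha => (hm a).2 (D.m2 _ ha).1)
          fun g hg => ?_
        obtain ⟨a, ha, b, hb, e⟩ := D.gen _ ((hm g).1 hg) g.2
        have : g = ⟨a, (D.m1 a ha).2⟩ * ⟨b, (D.m2 b hb).2⟩ := Subtype.ext e
        rw [this]
        exact Subgroup.mul_mem_sup ha hb

end Cfsg.Agent.S2221
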