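import Cfsg.Statements.S2222
import Cfsg.Agent.H3.Syl2c

set_option autoImplicit false
open Cfsg

namespace Cfsg.Agent.S2222

/-- In the alternating group of degree n ≥ 5 every subgroup H of odd index is pronormal: for every element g, the subgroups H and gHg⁻¹ are conjugate by an element of the subgroup they generate. -/
theorem result (n : ℕ) (hn : 5 ≤ n)
    (H : Subgroup (alternatingGroup (Fin n))) (hH : Odd H.index) : Cfsg.IsPronormal H := by
  obtain ⟨S, hS⟩ : ∃ S : Sylow 2 (alternatingGroup (Fin n)),
      (S : Subgroup (alternatingGroup (Fin n))) ≤ H := by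
    obtain ⟨S0⟩ : Nonempty (Sylow 2 (alternatingGroup (Fin n))) := inferInstance
    obtain ⟨g, hg⟩ := H3.exists_conj_le_of_not_dvd_index S0.isPGroup' H hH.not_two_dvd_nat
    refine ⟨g⁻¹ • S0, fun x hx => ?_⟩
    rw [H3.mem_sylow_smul] at hx
    simpa [mul_assoc] using hg _ hx
  refine H3.isPronormal_of_sylow S H hS ?_
  rcases hn.eq_or_lt with rfl | h6
  · obtain ⟨x0, h1, h2, h3⟩ := H3.alt_overgroup S (k := 2) le_rfl (by simp)
    have hc : Nat.card (alternatingGroup (Fin 5)) = 60 := by
      rw [nat_card_alternatingGroup]; simp; rfl
    have hS4 : Nat.card (S : Subgroup (alternatingGroup (Fin 5))) = 4 := by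
      rw [S.card_eq_multiplicity, hc, show 60 = 2 ^ 2 * 15 by norm_num,
        Nat.factorization_mul (by norm_num) (by norm_num), Nat.Prime.factorization_pow Nat.prime_two,
        Finsupp.add_apply, Nat.factorization_eq_zero_of_not_dvd (by norm_num)]
      simp
    have hSi : (S : Subgroup (alternatingGroup (Fin 5))).index = 15 := by
      have := (S : Subgroup (alternatingGroup (Fin 5))).card_mul_index
      rw [hS4, hc] at this; omega
    have : MulAction.IsPretransitive (alternatingGroup (Fin 5)) (Fin 5) :=
      alternatingGroup.isPretransitive_of_three_le_card _ (by simp)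
    have hst := MulAction.index_stabilizer_of_transitive (alternatingGroup (Fin 5)) x0
    rw [Nat.card_fin] at hst
    rcases h3 H hS with e | e
    · have d1 := Subgroup.index_dvd_of_le hS
      have d2 := Subgroup.index_dvd_of_le e
      rw [hSi] at d1
      rw [hst] at d2
      have : H.index = 5 ∨ H.index = 15 := by
        have := Nat.le_of_dvd (by norm_num) d1
        interval_cases H.index <;> omega
      rcases this with f | f
      · have hH' : H = MulAction.stabilizer (alternatingGroup (Fin 5)) x0 := by
          apply Subgroup.eq_of_le_of_card_ge e
          have a1 := H.card_mul_index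
          have a2 := (MulAction.stabilizer (alternatingGroup (Fin 5)) x0).card_mul_index
          rw [f, hc] at a1
          rw [hst, hc] at a2
          omega
        rcases h3 _ (Subgroup.le_normalizer (H := (S : Subgroup (alternatingGroup (Fin 5))))) with
          e2 | e2
        · rw [← hH'] at e2
          exact e2.trans Subgroup.le_normalizer
        · have hN := Subgroup.normalizer_eq_top_iff.1 e2
          rcases hN.eq_bot_or_eq_top with e3 | e3
          · rw [e3] at hS4; simp at hS4
          · rw [e3] at hSi; simp at hSi
      · have hH' : (S : Subgroup (alternatingGroup (Fin 5))) = H := by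
          apply Subgroup.eq_of_le_of_card_ge hS
          have a1 := H.card_mul_index
          rw [f, hc] at a1
          omega
        rw [hH']
    · rw [e]
      intro g _
      rw [Subgroup.mem_normalizer_iff]; simp
  · rw [H3.normalizer_sylow_two_alt (by simpa) S]
    exact hS.trans Subgroup.le_normalizer

end Cfsg.Agent.S2222
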