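import Cfsg.Statements.S2231
import Cfsg.Agent.H2.PSL2

set_option autoImplicit false
open Cfsg

namespace Cfsg.Agent.S2231

open Cfsg.Agent.H2 in
theorem aux {p : ℕ} [Fact p.Prime] (hp : p ≠ 2) {K : Type*} [Field K] [Finite K] [CharP K p]
    {P : Subgroup (Matrix.ProjectiveSpecialLinearGroup (Fin 2) K)} (hP : IsPGroup p P) :
    ∀ x ∈ P, ∀ y ∈ P, x * y = y * x := by
  by_cases h : P = ⊥
  · subst h
    intro x hx y _
    rw [Subgroup.mem_bot.1 hx, one_mul, mul_one]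
  have hp' : p.Prime := Fact.out
  have h2 := two_ne_zero_of_charP (F := K) p hp
  obtain ⟨z, -, h1, h3⟩ := exists_center_of_isPGroup hP h
  obtain ⟨g, rfl⟩ := pj_surjective z
  have h4 : ¬ Sc g := fun h => by
    rw [pj_eq_one_iff.2 h, orderOf_one] at h1
    exact hp'.one_lt.ne h1
  have h5 : tr g ≠ 0 := fun h => by
    have : (pj K g) ^ 2 = 1 := by rw [← map_pow, sq_eq_neg_one_of_tr h, pj_neg, map_one]
    exact hp ((Nat.prime_dvd_prime_iff_eq hp' Nat.prime_two).1 (h1 ▸ orderOf_dvd_of_pow_eq_one this))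
  intro x hx y hy
  obtain ⟨a, rfl⟩ := pj_surjective x
  obtain ⟨b, rfl⟩ := pj_surjective y
  have e := comap_Cen_of_ne (Or.inr h5)
  rw [← map_mul, ← map_mul, Cen_comm h4 (e ▸ h3 hx) (e ▸ h3 hy)]

theorem det_aux {R : Type*} [CommRing R] (a b c : R) : Matrix.det !![1, a, b; 0, 1, c; 0, 0, 1] = 1 := by
  simp [Matrix.det_fin_three]

/-- unitriangular elements -/
def ut (p : ℕ) (a b c : ZMod p) : Cfsg.qd p :=
  ⟨⟨!![1, a, b; 0, 1, c; 0, 0, 1], det_aux a b c⟩, Subgroup.subset_closure ⟨rfl, rfl, rfl⟩⟩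

theorem ut_mul (p : ℕ) (a b c a' b' c' : ZMod p) :
    ut p a b c * ut p a' b' c' = ut p (a + a') (b + b' + a * c') (c + c') := by
  apply Subtype.ext; apply Subtype.ext
  change !![1, a, b; 0, 1, c; 0, 0, 1] * !![1, a', b'; 0, 1, c'; 0, 0, 1] = !![1, a + a', b + b' + a * c'; 0, 1, c + c'; 0, 0, 1]
  ext i j
  fin_cases i <;> fin_cases j <;> simp [Matrix.mul_apply, Fin.sum_univ_three] <;> ring

theorem ut_zero (p : ℕ) : ut p 0 0 0 = 1 := by
  apply Subtype.ext; apply Subtype.ext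
  change !![1, 0, 0; 0, 1, 0; 0, 0, 1] = (1 : Matrix (Fin 3) (Fin 3) (ZMod p))
  ext i j
  fin_cases i <;> fin_cases j <;> simp

theorem ut_pow (p : ℕ) (a b c : ZMod p) (n : ℕ) : ∃ b', ut p a b c ^ n = ut p (n * a) b' (n * c) := by
  induction n with
  | zero => exact ⟨0, by simp [ut_zero]⟩
  | succ n ih =>
    obtain ⟨b', h⟩ := ih
    exact ⟨_, by rw [pow_succ, h, ut_mul]; congr 1 <;> push_cast <;> ring⟩

theorem ut_pow' (p : ℕ) (b : ZMod p) (n : ℕ) : ut p 0 b 0 ^ n = ut p 0 (n * b) 0 := by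
  induction n with
  | zero => simp [ut_zero]
  | succ n ih => rw [pow_succ, ih, ut_mul]; congr 1 <;> push_cast <;> ring

/-- the unitriangular subgroup -/
def UT (p : ℕ) : Subgroup (Cfsg.qd p) where
  carrier := {g | ∃ a b c, g = ut p a b c}
  mul_mem' := by
    rintro _ _ ⟨a, b, c, rfl⟩ ⟨a', b', c', rfl⟩
    exact ⟨_, _, _, ut_mul ..⟩
  one_mem' := ⟨0, 0, 0, (ut_zero p).symm⟩
  inv_mem' := by
    rintro _ ⟨a, b, c, rfl⟩
    refine ⟨-a, a * c - b, -c, ?_⟩
    rw [inv_eq_iff_mul_eq_one, ut_mul, ← ut_zero]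
    congr 1 <;> ring

theorem isPGroup_UT (p : ℕ) : IsPGroup p (UT p) := by
  rintro ⟨_, a, b, c, rfl⟩
  refine ⟨2, Subtype.ext ?_⟩
  change ut p a b c ^ p ^ 2 = 1
  obtain ⟨b', h⟩ := ut_pow p a b c p
  rw [sq, pow_mul, h, ZMod.natCast_self, zero_mul, zero_mul, ut_pow', ZMod.natCast_self, zero_mul, ut_zero]

/-- Let p be an odd prime and K a finite field of characteristic p. Then Qd(p) (the natural semidirect product of an elementary abelian group of order p² by SL₂(p)) is not involved in the projective special linear group PSL₂(K). -/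
theorem result {p : ℕ} [Fact p.Prime] (hp : p ≠ 2) {K : Type*} [Field K] [Fintype K] [CharP K p] : ¬ Cfsg.Involves ↥(Cfsg.qd p) (Matrix.ProjectiveSpecialLinearGroup (Fin 2) K) := by
  rintro ⟨M, R, _, ⟨e⟩⟩
  let f : M →* Cfsg.qd p := e.toMonoidHom.comp (QuotientGroup.mk' _)
  have hf : Function.Surjective f := e.surjective.comp (QuotientGroup.mk'_surjective _)
  obtain ⟨Q, hQ⟩ := (isPGroup_UT p).exists_le_sylow
  obtain ⟨P, rfl⟩ := Sylow.mapSurjective_surjective hf p Q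
  obtain ⟨x, hx, e1⟩ := hQ ⟨1, 0, 0, rfl⟩
  obtain ⟨y, hy, e2⟩ := hQ ⟨0, 0, 1, rfl⟩
  have h := aux hp (P.isPGroup'.map M.subtype) x ⟨x, hx, rfl⟩ y ⟨y, hy, rfl⟩
  have h1 : f (x * y) = f (y * x) := congrArg f (Subtype.ext h)
  rw [map_mul, map_mul, e1, e2, ut_mul, ut_mul] at h1
  have h2 := congrArg (fun g : Cfsg.qd p => g.1.1 0 2) h1
  simp [ut] at h2

end Cfsg.Agent.S2231
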