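import Cfsg.Statements.S2232
import Cfsg.Agent.H5.SU3Pt

set_option autoImplicit false
open Cfsg

namespace Cfsg.Agent.S2232

open Cfsg.Agent.H5 Function

theorem exists_pelt_lift {G M : Type*} [Group G] [Finite G] [Monoid M] {p : ℕ} (hp : p.Prime)
    (f : G →* M) (x : G) (hx : f x ^ p = 1) :
    ∃ y ∈ Subgroup.zpowers x, (∃ k, y ^ p ^ k = 1) ∧ f y = f x := by
  obtain ⟨k, m, hm, h⟩ := Nat.exists_eq_pow_mul_and_not_dvd (orderOf_pos x).ne' p hp.ne_one
  obtain ⟨a, -, ha⟩ := Nat.exists_mul_mod_eq_one_of_coprime (hp.coprime_iff_not_dvd.2 hm).symm hp.one_lt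
  refine ⟨x ^ (m * a), Subgroup.npow_mem_zpowers _ _, ⟨k, ?_⟩, ?_⟩
  · rw [← pow_mul, ← orderOf_dvd_iff_pow_eq_one, h, mul_comm (m * a), ← mul_assoc]
    exact dvd_mul_right _ _
  · rw [map_pow, ← Nat.div_add_mod (m * a) p, pow_add, pow_mul, hx, one_pow, one_mul, ha, pow_one]

theorem mem_qd {p : ℕ} [Fact p.Prime] {M : Matrix.SpecialLinearGroup (Fin 3) (ZMod p)} (h : M ∈ Cfsg.qd p) :
    M.1 2 0 = 0 ∧ M.1 2 1 = 0 ∧ M.1 2 2 = 1 := by
  induction h using Subgroup.closure_induction'' with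
  | one => simp
  | mem x hx => exact hx
  | mul x y _ _ hx hy => simp [Matrix.mul_apply, Fin.sum_univ_three, hx, hy]
  | inv_mem x hx =>
    obtain ⟨h1, h2, h3⟩ := hx
    have h4 := x.2
    rw [Matrix.det_fin_three] at h4
    simp [Matrix.adjugate_fin_three, h1, h2, h3] at h4 ⊢
    linear_combination h4

/-- The upper left block. -/
def blk (p : ℕ) [Fact p.Prime] : Cfsg.qd p →* Matrix (Fin 2) (Fin 2) (ZMod p) where
  toFun M := M.1.1.submatrix Fin.castSucc Fin.castSucc
  map_one' := by ext i j; fin_cases i <;> fin_cases j <;> simp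
  map_mul' x y := by
    have := mem_qd y.2
    ext i j; fin_cases i <;> fin_cases j <;> simp [Matrix.mul_apply, Fin.sum_univ_three, this]

/-- A unipotent element. -/
def elt (p : ℕ) [Fact p.Prime] (a b c : ZMod p) (h : a * b = 0) : Cfsg.qd p :=
  ⟨⟨!![1, a, c; b, 1, 0; 0, 0, 1], by simp [Matrix.det_fin_three, h]⟩, Subgroup.subset_closure ⟨rfl, rfl, rfl⟩⟩

theorem blk_elt (p : ℕ) [Fact p.Prime] (a b c : ZMod p) (h : a * b = 0) :
    blk p (elt p a b c h) = !![1, a; b, 1] := by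
  ext i j; fin_cases i <;> fin_cases j <;> rfl

theorem pow_elt {p : ℕ} (a b : ZMod p) (h : a * b = 0) (k : ℕ) :
    (!![1, a; b, 1] : Matrix (Fin 2) (Fin 2) (ZMod p)) ^ k = !![1, k * a; k * b, 1] := by
  induction k with
  | zero => simp [Matrix.one_fin_two]
  | succ k ih =>
    rw [pow_succ, ih]
    ext i j; fin_cases i <;> fin_cases j <;> simp [Matrix.mul_apply, Fin.sum_univ_two]
    · rw [mul_assoc, h, mul_zero]
    · ring
    · ring
    · rw [mul_assoc, mul_comm b, h, mul_zero]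

/-- Let p be an odd prime, q a power of p and K a finite field with q² elements. Then Qd(p) (the natural semidirect product of an elementary abelian group of order p² by SL₂(p)) is not involved in the projective special unitary group PSU₃(q) realised over K. -/
theorem result {p : ℕ} [Fact p.Prime] (hp : p ≠ 2) {K : Type*} [Field K] [Fintype K] [CharP K p] (n : ℕ) (hn : 1 ≤ n) (hK : Fintype.card K = (p ^ n) ^ 2) : ¬ Cfsg.Involves ↥(Cfsg.qd p) (Cfsg.PSU 3 K (p ^ n)) := by
  rintro ⟨L, R, _, ⟨e⟩⟩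
  have h := uf_frob hK
  have hpp : p.Prime := Fact.out
  let f : L →* Cfsg.qd p := e.toMonoidHom.comp (QuotientGroup.mk' _)
  have hf : Surjective f := e.surjective.comp (QuotientGroup.mk'_surjective _)
  let W := ((blk p).comp f).ker
  obtain ⟨Q⟩ : Nonempty (Sylow p W) := inferInstance
  have hQ : Q.1 ≠ ⊥ := by
    refine Q.ne_bot_of_dvd_card ?_
    obtain ⟨w, hw⟩ := hf (elt p 0 0 1 (mul_zero _))
    have h1 : w ∈ W := by
      change blk p (f w) = 1
      rw [hw, blk_elt, Matrix.one_fin_two]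
    have h2 : orderOf (elt p 0 0 1 (mul_zero _)) = p := by
      refine orderOf_eq_prime ?_ fun h3 => by simpa [elt] using congrArg (fun x => x.1.1 0 2) h3
      have : ∀ k : ℕ, elt p 0 0 1 (mul_zero _) ^ k = elt p 0 0 k (mul_zero _) := fun k => by
        induction k with
        | zero => exact Subtype.ext (Subtype.ext (by simp [elt, Matrix.one_fin_three]))
        | succ k ih =>
          rw [pow_succ, ih]
          refine Subtype.ext (Subtype.ext ?_)
          change (!![1, 0, (k : ZMod p); 0, 1, 0; 0, 0, 1] * !![1, 0, 1; 0, 1, 0; 0, 0, 1]) = _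
          simp [elt, add_comm]
      rw [this]
      exact Subtype.ext (Subtype.ext (by simp [elt, Matrix.one_fin_three]))
    refine dvd_trans ?_ (W.orderOf_dvd_natCard h1)
    nth_rewrite 1 [← h2, ← hw]
    exact orderOf_map_dvd f w
  have hF := Q.normalizer_sup_eq_top
  have key : ∀ a b (hab : a * b = 0), ∃ y ∈ Subgroup.normalizer ((Q.1.map W.subtype : Subgroup L) : Set L),
      (∃ k, y ^ p ^ k = 1) ∧ blk p (f y) = !![1, a; b, 1] := fun a b hab => by
    obtain ⟨x, hx⟩ := hf (elt p a b 0 hab)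
    obtain ⟨y, hy, w, hw, rfl⟩ := Subgroup.mem_sup_of_normal_right.1 (hF.ge (Subgroup.mem_top x))
    have h1 : blk p (f y) = !![1, a; b, 1] := by
      rw [← blk_elt p a b 0 hab, ← hx, map_mul, map_mul, show blk p (f w) = 1 from hw, mul_one]
    obtain ⟨z, h2, h3, h4⟩ := exists_pelt_lift hpp ((blk p).comp f) y (by
      rw [MonoidHom.comp_apply, h1, pow_elt a b hab]; simp [Matrix.one_fin_two])
    exact ⟨z, Subgroup.zpowers_le.2 hy h2, h3, h4.trans h1⟩
  obtain ⟨x, x1, ⟨k, x2⟩, x3⟩ := key 1 0 (mul_zero _)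
  obtain ⟨y, y1, ⟨l, y2⟩, y3⟩ := key 0 (-2) (zero_mul _)
  obtain ⟨m, hm⟩ := h.psu3_pelt_mul p (Q := (Q.1.map W.subtype).map L.subtype)
    ((Q.2.map _).map _) (by
      rwa [Ne, Subgroup.map_eq_bot_iff_of_injective _ (Subgroup.subtype_injective _), Subgroup.map_eq_bot_iff_of_injective _ (Subgroup.subtype_injective _)]) (Subgroup.le_normalizer_map _ ⟨x, x1, rfl⟩)
    (Subgroup.le_normalizer_map _ ⟨y, y1, rfl⟩) ⟨k, congrArg Subtype.val x2⟩ ⟨l, congrArg Subtype.val y2⟩
  have h1 : blk p (f (x * y)) ^ p ^ m = 1 := by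
    rw [← map_pow, ← map_pow, show (x * y) ^ p ^ m = 1 from Subtype.ext hm, map_one, map_one]
  have h2 : blk p (f (x * y)) = !![-1, 1; -2, 1] := by
    rw [map_mul, map_mul, x3, y3]; norm_num
  have h3 : blk p (f (x * y)) ^ 4 = 1 := by
    rw [h2]; norm_num [pow_succ]; exact Matrix.one_fin_two.symm
  have h4 := pow_gcd_eq_one.2 ⟨h1, h3⟩
  rw [((Nat.coprime_primes hpp Nat.prime_two).2 hp).pow m 2, pow_one, h2] at h4
  simpa using congrFun (congrFun h4 0) 1

end Cfsg.Agent.S2232
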