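import Cfsg.Statements.S2238
import Cfsg.Agent.H2.SzSub

set_option autoImplicit false
open Cfsg

namespace Cfsg.Agent.S2238

open Cfsg.Agent.H2 Cfsg.Agent.H2.Suz in
theorem aux {F : Type*} [Field F] {m : ℕ} [SzF F m] {U : Subgroup (Cfsg.Sz F m)} (hc : IsCyclic U)
    (hU : Nat.card U ∈ TorSet m) {g : Cfsg.Sz F m} (hg : g ≠ 1) (hgU : g ∈ U) :
    (∀ p, g ∉ Qp p) ∧ U = Cen g := by
  have := finite_Sz F m
  have ht := torSet_facts (SzF.pos F (m := m)) hU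
  have hQ : ∀ p, g ∉ Qp p := not_mem_Qp_of_odd hg (Odd.of_dvd_nat ht.1 (by
    rw [← Subgroup.orderOf_mk g hgU]; exact orderOf_dvd_natCard _))
  refine ⟨hQ, ?_⟩
  have hle : U ≤ Cen g := fun y hy =>
    mem_Cen.2 (congrArg Subtype.val (IsCyclic.commGroup.mul_comm (⟨y, hy⟩ : U) ⟨g, hgU⟩))
  exact Subgroup.eq_of_le_of_card_ge hle
    (ht.2.2 _ (odd_elt hQ).2.1 (Subgroup.card_dvd_of_le hle)).ge

/-- The partition of the Suzuki group: with q = 2^(2m+1), m ≥ 1, r = 2^m and the Suzuki group realised as the stabiliser in SL₄ of the Suzuki–Tits ovoid, every non-identity element lies in exactly one subgroup that is either a Sylow 2-subgroup or a cyclic subgroup of order q − 1, q + 2r + 1 or q − 2r + 1. -/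
theorem result {F : Type*} [Field F] [Fintype F] {m : ℕ} (hm : 1 ≤ m) (hF : Fintype.card F = 2 ^ (2 * m + 1)) (g : ↥(Cfsg.Sz F m)) (hg : g ≠ 1) :
    ∃! U : Subgroup ↥(Cfsg.Sz F m), ((∃ P : Sylow 2 ↥(Cfsg.Sz F m), U = (P : Subgroup ↥(Cfsg.Sz F m))) ∨
      (IsCyclic ↥U ∧ Nat.card ↥U ∈ ({2 ^ (2 * m + 1) - 1, 2 ^ (2 * m + 1) + 2 ^ (m + 1) + 1, 2 ^ (2 * m + 1) - 2 ^ (m + 1) + 1} : Set ℕ))) ∧ g ∈ U := by
  open Cfsg.Agent.H2 Cfsg.Agent.H2.Suz in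
  have := SzF.of_fintype hm hF
  by_cases hQ : ∃ p, g ∈ Qp p
  · obtain ⟨p, hp⟩ := hQ
    refine ⟨Qp p, ⟨Or.inl ⟨sylQ p, rfl⟩, hp⟩, ?_⟩
    rintro U ⟨⟨P, rfl⟩ | ⟨h1, h2⟩, h3⟩
    · obtain ⟨p', hp'⟩ := sylow_eq_Qp P
      rw [hp'] at h3 ⊢
      rw [Qp_eq_of_mem h3 hp hg]
    · exact absurd hp ((aux h1 h2 hg h3).1 p)
  · push Not at hQ
    have h := odd_elt hQ
    refine ⟨Cen g, ⟨Or.inr ⟨h.1, h.2.1⟩, self_mem_Cen g⟩, ?_⟩
    rintro U ⟨⟨P, rfl⟩ | ⟨h1, h2⟩, h3⟩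
    · obtain ⟨p', hp'⟩ := sylow_eq_Qp P
      rw [hp'] at h3
      exact absurd h3 (hQ p')
    · exact (aux h1 h2 hg h3).2

end Cfsg.Agent.S2238
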