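import Cfsg.Statements.S2239
import Cfsg.Agent.H2.SzClass2

set_option autoImplicit false
open Cfsg

namespace Cfsg.Agent.S2239

open Cfsg.Agent.H2 Cfsg.Agent.H2.Suz in
theorem aux {F : Type*} [Field F] {m : ℕ} [SzF F m] {K : Type*} [Field K] {k : ℕ} [SzF K k]
    (S : Subgroup (Cfsg.Sz F m)) (e : S ≃* Cfsg.Sz K k) :
    ∃ (L : Subfield F) (x : Cfsg.Sz F m), Nat.card L = 2 ^ (2 * k + 1) ∧ conjS x S = SzK m L := by
  let φ : Cfsg.Sz K k →* Cfsg.Sz F m := S.subtype.comp e.symm.toMonoidHom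
  have hφ : Function.Injective φ := S.subtype_injective.comp e.symm.injective
  have hS : ∀ g, φ g ∈ S := fun g => (e.symm g).2
  obtain ⟨y, hy0, hy1⟩ := exists_ne_zero_one K k
  have hB : Big S := by
    intro p
    by_contra h
    push Not at h
    have h1 : (Qp p).comap φ = ⊤ := eq_top_of_forall_Qp_le fun r g hg =>
      ⟨h _ (hS g), by rw [← map_pow, hg.2, map_one]⟩
    have h2 : Suz.h k (Units.mk0 y hy0) ∈ (Qp p).comap φ := by rw [h1]; trivial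
    have h3 := h2.2
    rw [← map_pow, map_eq_one_iff _ hφ, ← h_pow, h_eq_one_iff] at h3
    exact hy1 (congrArg Units.val (units_eq_one_of_pow_two_pow (m := k) (n := 2) h3))
  obtain ⟨p, hp⟩ := exists_le_Qp ((isPGroup_Qp (inf K k)).map φ)
  obtain ⟨L, x, hy, h⟩ := hB.exists_SzK (hS (u k 0 1)) (hS (u k 0 y)) (hp ⟨_, u_mem_Qp _ _, rfl⟩)
    (hp ⟨_, u_mem_Qp _ _, rfl⟩) (by rw [Ne, map_eq_one_iff _ hφ]; exact u_zero_ne_one one_ne_zero)
    (by rw [Ne, map_eq_one_iff _ hφ]; exact u_zero_ne_one hy0) (by rw [← map_pow, u_zero_sq, map_one])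
    (by rw [← map_pow, u_zero_sq, map_one]) (fun h => hy1 (u_inj (hφ h)).2.symm)
  obtain ⟨k', hk', -, hL⟩ := subfield_card (m := m) L hy
  have := SzF_galois (F := F) (m := m) hk'
  obtain ⟨e'⟩ := SzK_equiv (m := m) L (K' := GaloisField 2 (2 * k' + 1)) hL
  have h1 := Nat.card_congr (e.symm.trans (((conjSEquiv x S).trans (MulEquiv.subgroupCongr h)).trans e')).toEquiv
  rw [card_Sz, card_Sz, SzF.card (m := k), SzF.card (m := k')] at h1
  refine ⟨L, x, ?_, h⟩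
  rw [hL]
  have mono : ∀ a b : ℕ, 0 < a → a < b → a ^ 2 * (a - 1) * (a ^ 2 + 1) < b ^ 2 * (b - 1) * (b ^ 2 + 1) := by
    intro a b ha hab
    have h2 : a ^ 2 < b ^ 2 := Nat.pow_lt_pow_left hab two_ne_zero
    have h3 : a - 1 < b - 1 := by omega
    exact Nat.mul_lt_mul'' (Nat.mul_lt_mul'' h2 h3) (by omega)
  rcases lt_trichotomy (2 ^ (2 * k + 1)) (2 ^ (2 * k' + 1)) with h2 | h2 | h2
  · exact absurd h1 (mono _ _ (by positivity) h2).ne
  · exact h2.symm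
  · exact absurd h1 (mono _ _ (by positivity) h2).ne'

/-- Subfield subgroups of the Suzuki group: let q = 2^(2m+1) and s = 2^(2k+1) with m, k ≥ 1 and 2k+1 dividing 2m+1 (so q is a power of s), both groups realised as stabilisers in SL₄ of the Suzuki–Tits ovoid. Then Sz(q) has a subgroup isomorphic to Sz(s), and any two subgroups of Sz(q) isomorphic to Sz(s) are conjugate. -/
theorem result {F : Type*} [Field F] [Fintype F] {m : ℕ} (hm : 1 ≤ m) (hF : Fintype.card F = 2 ^ (2 * m + 1)) {K : Type*} [Field K] [Fintype K] {k : ℕ} (hk : 1 ≤ k) (hK : Fintype.card K = 2 ^ (2 * k + 1)) (hdiv : 2 * k + 1 ∣ 2 * m + 1) :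
    (∃ S : Subgroup ↥(Cfsg.Sz F m), Nonempty (↥S ≃* ↥(Cfsg.Sz K k))) ∧
    ∀ S₁ S₂ : Subgroup ↥(Cfsg.Sz F m), Nonempty (↥S₁ ≃* ↥(Cfsg.Sz K k)) → Nonempty (↥S₂ ≃* ↥(Cfsg.Sz K k)) →
      ∃ g : ↥(Cfsg.Sz F m), S₂ = S₁.map (MulAut.conj g).toMonoidHom := by
  open Cfsg.Agent.H2 Cfsg.Agent.H2.Suz in
  have := SzF.of_fintype hm hF
  have := SzF.of_fintype hk hK
  constructor
  · obtain ⟨L, hL⟩ := exists_subfield_card 2 _ _ (by omega) (SzF.card (F := F) (m := m)) hdiv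
    exact ⟨_, SzK_equiv L hL⟩
  · rintro S₁ S₂ ⟨e₁⟩ ⟨e₂⟩
    obtain ⟨L₁, x₁, a₁, b₁⟩ := aux S₁ e₁
    obtain ⟨L₂, x₂, a₂, b₂⟩ := aux S₂ e₂
    obtain rfl : L₁ = L₂ := subfield_eq_of_card (a₁.trans a₂.symm)
    refine ⟨x₂⁻¹ * x₁, ?_⟩
    change _ = conjS _ _
    rw [← conjS_conjS, b₁, ← b₂, conjS_conjS, inv_mul_cancel, conjS_one]

end Cfsg.Agent.S2239
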