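import Cfsg.Statements.S2240
import Cfsg.Agent.H2.SzTI

set_option autoImplicit false
open Cfsg

namespace Cfsg.Agent.S2240

/-- Elementary abelian TI-subgroups of the Suzuki group: let q = 2^(2m+1) with m ≥ 1, the group realised as the stabiliser in SL₄ of the Suzuki–Tits ovoid, and n ≥ 2. There is an elementary abelian 2-subgroup E of order 2^n that is a TI-subgroup (every conjugate of E meeting E nontrivially is E itself) if and only if n divides 2m + 1. -/
theorem result {F : Type*} [Field F] [Fintype F] {m : ℕ} (hm : 1 ≤ m) (hF : Fintype.card F = 2 ^ (2 * m + 1)) (n : ℕ) (hn : 2 ≤ n) :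
    (∃ E : Subgroup ↥(Cfsg.Sz F m), Cfsg.IsElementaryAbelian 2 E ∧ Nat.card ↥E = 2 ^ n ∧
      ∀ x : ↥(Cfsg.Sz F m), E ⊓ E.map (MulAut.conj x).toMonoidHom ≠ ⊥ → x ∈ Subgroup.normalizer (E : Set ↥(Cfsg.Sz F m))) ↔ n ∣ 2 * m + 1 := by
  have hS := H2.SzF.of_fintype hm hF
  open H2.Suz in
  constructor
  · rintro ⟨E, ⟨-, hE2⟩, hcard, hTI⟩
    obtain ⟨p, hp⟩ := exists_le_Qp (P := E) (fun g => ⟨1, Subtype.ext (hE2 g g.2)⟩)
    obtain ⟨t, rfl⟩ := exists_smul_inf_eq p
    have hE : ∀ g ∈ E, ∃ b, g = t * u m 0 b * t⁻¹ := by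
      intro g hg
      obtain ⟨b, hb⟩ := eq_u_zero_of_sq (mem_Qp_smul.1 (hp hg)) (conj_pow_eq_one (hE2 g hg))
      exact ⟨b, by rw [← hb]; group⟩
    have key : ∀ b b' c : F, b ≠ 0 → b' ≠ 0 → t * u m 0 b * t⁻¹ ∈ E → t * u m 0 b' * t⁻¹ ∈ E →
        t * u m 0 c * t⁻¹ ∈ E → t * u m 0 (b' / b * c) * t⁻¹ ∈ E := by
      intro b b' c hb hb' h1 h2 h3
      obtain ⟨k, hk⟩ := exists_unit_th_sq (m := m) (div_ne_zero hb' hb)
      have e : ∀ c, (t * h m k * t⁻¹) * (t * u m 0 c * t⁻¹) * (t * h m k * t⁻¹)⁻¹ =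
          t * u m 0 (b' / b * c) * t⁻¹ := by
        intro c
        rw [← hk, ← mul_zero (th m (k : F)), ← h_conj_u, mul_zero]; group
      have := hTI (t * h m k * t⁻¹) (by
        rw [Ne, Subgroup.eq_bot_iff_forall]
        intro h
        have := h _ ⟨h2, ⟨_, h1, by
          rw [MulEquiv.coe_toMonoidHom, MulAut.conj_apply, e, div_mul_cancel₀ _ hb]⟩⟩
        rw [conj_eq_one_iff, u_eq_one_iff] at this
        exact hb' this.2)
      rw [← e]
      exact (Subgroup.mem_normalizer_iff.1 this _).1 h3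
    have hnt : Nontrivial E := by
      rw [← Finite.one_lt_card_iff_nontrivial, hcard]
      exact Nat.one_lt_two_pow (by omega)
    obtain ⟨⟨g0, hg0⟩, hg1⟩ := exists_ne (1 : E)
    obtain ⟨b0, rfl⟩ := hE g0 hg0
    have hb0 : b0 ≠ 0 := by
      rintro rfl
      apply hg1; apply Subtype.ext; simp
    let K : Subfield F :=
      { carrier := {c | t * u m 0 (c * b0) * t⁻¹ ∈ E}
        zero_mem' := by simp
        one_mem' := by simpa using hg0
        add_mem' := fun {a b} ha hb => by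
          have := E.mul_mem ha hb
          rwa [conj_mul, u_zero_mul, ← add_mul] at this
        neg_mem' := fun {a} ha => by
          have h2 := two_eq_zero F m
          have : -a = a := by linear_combination (-a) * h2
          rwa [this]
        mul_mem' := fun {a b} ha hb => by
          by_cases ha0 : a = 0
          · simp [ha0]
          · have := key b0 (a * b0) (b * b0) hb0 (mul_ne_zero ha0 hb0) hg0 ha hb
            rwa [mul_div_cancel_right₀ _ hb0, ← mul_assoc a] at this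
        inv_mem' := fun a ha => by
          by_cases ha0 : a = 0
          · simp [ha0]
          · have := key (a * b0) b0 b0 (mul_ne_zero ha0 hb0) hb0 ha hg0 hg0
            rwa [show b0 / (a * b0) = a⁻¹ by field_simp] at this }
    refine H2.dvd_of_subfield_card le_rfl hS.card K ?_
    rw [← hcard]
    refine Nat.card_eq_of_bijective (fun c => ⟨t * u m 0 (c * b0) * t⁻¹, c.2⟩) ⟨?_, ?_⟩
    · intro c c' h
      have h1 := congrArg Subtype.val h
      simp only [mul_left_inj, mul_right_inj] at h1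
      exact Subtype.ext (mul_right_cancel₀ hb0 (u_inj h1).2)
    · rintro ⟨g, hg⟩
      obtain ⟨b, rfl⟩ := hE g hg
      refine ⟨⟨b / b0, ?_⟩, ?_⟩
      · change t * u m 0 (b / b0 * b0) * t⁻¹ ∈ E
        rwa [div_mul_cancel₀ _ hb0]
      · simp [hb0]
  · intro hdvd
    obtain ⟨K, hK⟩ := H2.exists_subfield_card 2 n _ (by omega) hS.card hdvd
    let E : Subgroup (Cfsg.Sz F m) := (AddSubgroup.toSubgroup K.toAddSubgroup).map (zHom m)
    have hE : ∀ g, g ∈ E ↔ ∃ b ∈ K, g = u m 0 b := by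
      intro g
      constructor
      · rintro ⟨b, hb, rfl⟩; exact ⟨b.toAdd, hb, rfl⟩
      · rintro ⟨b, hb, rfl⟩; exact ⟨Multiplicative.ofAdd b, hb, rfl⟩
    refine ⟨E, ⟨inferInstance, fun a ha => ?_⟩, ?_, fun x hx => ?_⟩
    · obtain ⟨b, -, rfl⟩ := (hE a).1 ha
      exact u_sq_eq_one_iff.2 rfl
    · rw [Subgroup.card_map_of_injective zHom_injective, ← hK]; rfl
    · rw [Ne, Subgroup.eq_bot_iff_forall] at hx
      push Not at hx
      obtain ⟨g, ⟨hg, g', hg', hgg'⟩, hg1⟩ := hx
      obtain ⟨b, hb, rfl⟩ := (hE g).1 hg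
      obtain ⟨b', hb', rfl⟩ := (hE g').1 hg'
      rw [MulEquiv.coe_toMonoidHom, MulAut.conj_apply] at hgg'
      have hx : x • inf F m = inf F m := by
        have := conj_mem_Qp_smul x (u_mem_Qp (m := m) 0 b')
        rw [hgg'] at this
        exact Qp_eq_of_mem this (u_mem_Qp _ _) hg1
      obtain ⟨a, c, k, rfl⟩ := fix_inf_iff.1 hx
      rw [uh_conj_u_zero] at hgg'
      have e := (u_inj hgg').2
      have hb0 : b ≠ 0 := by rintro rfl; exact hg1 u_zero
      have hb0' : b' ≠ 0 := by rintro rfl; exact hb0 (by rw [← e, mul_zero])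
      have hk : th m (k : F) * (k : F) ^ 2 ∈ K := by
        have : th m (k : F) * (k : F) ^ 2 = b / b' := by rw [← e]; field_simp
        rw [this]; exact K.div_mem hb hb'
      apply Subgroup.mem_normalizer_fintype
      intro g hg
      obtain ⟨d, hd, rfl⟩ := (hE g).1 hg
      rw [uh_conj_u_zero]
      exact (hE _).2 ⟨_, K.mul_mem hk hd, rfl⟩

end Cfsg.Agent.S2240
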