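import Cfsg.Statements.S2249
import Cfsg.Agent.H4.NR
import Cfsg.Agent.H4.RegU

set_option autoImplicit false
open Cfsg

namespace Cfsg.Agent.S2249

open Cfsg.Agent.H4 Module

/-- The normal 2-rank of the general linear group over a finite field of odd order q: for n ≥ 1 and S a Sylow 2-subgroup of GL_n(F), the largest rank of an elementary abelian subgroup of S that is normal in S equals n when q ≡ 1 (mod 4) and ⌊(n + 1)/2⌋ when q ≡ 3 (mod 4). -/
theorem result {F : Type*} [Field F] [Fintype F] {q : ℕ} (hF : Fintype.card F = q) (hodd : Odd q) (n : ℕ) (hn : 1 ≤ n) (S : Sylow 2 (Matrix.GeneralLinearGroup (Fin n) F)) :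
    (q % 4 = 1 → ((∃ E : Subgroup ↥(S : Subgroup (Matrix.GeneralLinearGroup (Fin n) F)), E.Normal ∧ Cfsg.IsElementaryAbelian 2 E ∧ 2 ^ (n) ≤ Nat.card ↥E) ∧
      ∀ E : Subgroup ↥(S : Subgroup (Matrix.GeneralLinearGroup (Fin n) F)), E.Normal → Cfsg.IsElementaryAbelian 2 E → Nat.card ↥E ≤ 2 ^ (n))) ∧
    (q % 4 = 3 → ((∃ E : Subgroup ↥(S : Subgroup (Matrix.GeneralLinearGroup (Fin n) F)), E.Normal ∧ Cfsg.IsElementaryAbelian 2 E ∧ 2 ^ ((n + 1) / 2) ≤ Nat.card ↥E) ∧
      ∀ E : Subgroup ↥(S : Subgroup (Matrix.GeneralLinearGroup (Fin n) F)), E.Normal → Cfsg.IsElementaryAbelian 2 E → Nat.card ↥E ≤ 2 ^ ((n + 1) / 2))) := by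
  classical
  subst hF
  have hq := Fintype.one_lt_card (α := F)
  have h2 : (2 : F) ≠ 0 := Ring.two_ne_zero fun h => by
    have := FiniteField.even_card_iff_char_two.1 h
    rw [Nat.odd_iff] at hodd
    omega
  have hq2 := hodd.not_two_dvd_nat
  let ρ : Representation F (GL (Fin n) F) (Fin n → F) :=
    (Matrix.toLinAlgEquiv' : Matrix (Fin n) (Fin n) F ≃ₐ[F] _).toMonoidHom.comp (Units.coeHom _)
  have hρ : Function.Injective ρ := fun x y h =>
    Units.ext ((Matrix.toLinAlgEquiv' : Matrix (Fin n) (Fin n) F ≃ₐ[F] _).injective h)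
  have low : ∀ m d k : ℕ, 0 < d → k ≤ 1 → m * d + k = n →
      m * (Nat.card (GL (Fin d) F)).factorization 2 + m.factorial.factorization 2 +
        (Nat.card (GL (Fin k) F)).factorization 2 = (Nat.card (GL (Fin n) F)).factorization 2 →
      ∃ E : Subgroup ↥(S : Subgroup (GL (Fin n) F)), E.Normal ∧ IsElementaryAbelian 2 E ∧
        2 ^ (m + k) ≤ Nat.card E := by
    intro m d k hd hk hn h
    obtain ⟨ι, hι⟩ := exists_wr_hom F m d k hd hn
    obtain ⟨E, a1, a2, a3⟩ := exists_normal_elem ι hι (by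
      rw [← h, card_wr, Nat.factorization_mul (mul_ne_zero (pow_ne_zero _ Nat.card_pos.ne')
        m.factorial_ne_zero) Nat.card_pos.ne', Nat.factorization_mul (pow_ne_zero _ Nat.card_pos.ne')
        m.factorial_ne_zero, Nat.factorization_pow]
      simp) (wrSigns F m d k) (wrSigns_elem F m d k) S
    exact ⟨E, a1, a2, by rw [a3, card_wrSigns F m d k h2 hd hk]⟩
  have up : ∀ E : Subgroup ↥(S : Subgroup (GL (Fin n) F)), IsElementaryAbelian 2 E →
      ∃ (b : Basis (Fin (finrank F (Fin n → F))) F (Fin n → F)) (χ : _ → E →* ℤˣ),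
        (∀ i (e : E), ρ e (b i) = χ i e • b i) ∧ Nat.card E ≤ 2 ^ (Finset.univ.image χ).card := by
    intro E hE
    obtain ⟨b, χ, h⟩ := exists_signs h2 (ρ.comp ((S : Subgroup (GL (Fin n) F)).subtype.comp E.subtype))
      (fun e => Subtype.ext (hE.2 e e.2)) hE.1.1.1
    refine ⟨b, χ, h, card_le_of_signs χ fun e he => Subtype.ext (Subtype.ext (hρ ?_))⟩
    refine b.ext fun i => ?_
    have := h i e
    rw [he, one_smul] at this
    simpa using this
  refine ⟨fun h4 => ⟨low n 1 0 one_pos zero_le_one (by simp) ?_, fun E _ hE => ?_⟩,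
    fun h4 => ⟨?_, fun E hn hE => ?_⟩⟩
  · simp only [factorization_card_GL Nat.prime_two hq2, sum_fact_one hq h4]
    simp
  · obtain ⟨b, χ, -, h⟩ := up E hE
    exact h.trans (Nat.pow_le_pow_right two_pos (Finset.card_image_le.trans (by simp)))
  · rw [show (n + 1) / 2 = n / 2 + n % 2 by omega]
    refine low (n / 2) 2 (n % 2) two_pos (by omega) (by omega) ?_
    simp only [factorization_card_GL Nat.prime_two hq2]
    conv_rhs => rw [show n = n / 2 * 2 + n % 2 by omega, Finset.sum_range_add, sum_fact_two hq hodd]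
    rcases Nat.mod_two_eq_zero_or_one n with h | h
    · simp [h, Finset.sum_range_succ]
    · simp [h, Finset.sum_range_succ, fact_pow_sub_one_odd hq hodd (i := n / 2 * 2 + 1) ⟨n / 2, by ring⟩]
  · obtain ⟨b, χ, h1, h⟩ := up E hE
    refine h.trans (Nat.pow_le_pow_right two_pos ?_)
    have := two_mul_card_image_le χ fun i j hi hj => isolated_unique h4 ρ hρ (fun f hf =>
      exists_GL_toLin' (IsUnit.of_pow_eq_one hf (by norm_num))) S E b χ h1 hi hj
    simp at this
    omega

end Cfsg.Agent.S2249
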