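import Cfsg.Statements.S2253
import Cfsg.Agent.H3.Nilp

set_option autoImplicit false
open Cfsg

namespace Cfsg.Agent.S2253

/-- Let n be a natural number not congruent to 3 modulo 4. Then every nilpotent subgroup of the symmetric group on n letters has order at most the order of a Sylow 2-subgroup (so the nilpotent subgroups of largest order are exactly the Sylow 2-subgroups). -/
theorem result  (n : ℕ) (hn : n % 4 ≠ 3)
    (N : Subgroup (Equiv.Perm (Fin n))) (hN : Group.IsNilpotent N)
    (P : Sylow 2 (Equiv.Perm (Fin n))) :
    Nat.card N ≤ Nat.card P := by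
  have hP := H3.card_sylow_perm P
  change _ ≤ Nat.card (P : Subgroup (Equiv.Perm (Fin n)))
  rw [hP]
  rcases H3.nilp_sym N with h | ⟨h1, h2, -⟩
  · exact h
  · rw [Fintype.card_fin] at h1 h2 ⊢
    obtain ⟨m, rfl⟩ := Nat.exists_eq_add_of_le' h1
    have := H3.four_mul_le_w2_add_three (n := m) (by omega)
    rw [Nat.add_sub_cancel] at h2
    omega

end Cfsg.Agent.S2253
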