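import Cfsg.Statements.S2254
import Cfsg.Agent.H3.Nilp

set_option autoImplicit false
open Cfsg

namespace Cfsg.Agent.S2254

/-- Let n ≡ 3 (mod 4). Then every nilpotent subgroup of the symmetric group on n letters has order at most 3 times the order of a Sylow 2-subgroup of the symmetric group on n − 3 letters; the bound is attained by a nilpotent subgroup isomorphic to the direct product of such a Sylow 2-subgroup with a cyclic group of order 3; and any two nilpotent subgroups attaining the bound are conjugate. -/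
theorem result  (n : ℕ) (hn : n % 4 = 3)
    (P : Sylow 2 (Equiv.Perm (Fin (n - 3)))) :
    (∀ N : Subgroup (Equiv.Perm (Fin n)), Group.IsNilpotent N → Nat.card N ≤ 3 * Nat.card P) ∧
    (∃ M : Subgroup (Equiv.Perm (Fin n)), Group.IsNilpotent M ∧ Nat.card M = 3 * Nat.card P ∧
      Nonempty (M ≃* (↥(P : Subgroup (Equiv.Perm (Fin (n - 3)))) × Multiplicative (ZMod 3)))) ∧
    (∀ N₁ N₂ : Subgroup (Equiv.Perm (Fin n)), Group.IsNilpotent N₁ → Group.IsNilpotent N₂ →
      Nat.card N₁ = 3 * Nat.card P → Nat.card N₂ = 3 * Nat.card P →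
      ∃ g : Equiv.Perm (Fin n), N₂ = N₁.map (MulAut.conj g).toMonoidHom) := by
  have hP : Nat.card P = H3.w2 (n - 3) := by
    have := H3.card_sylow_perm P
    rwa [Fintype.card_fin] at this
  have h3 : 3 ≤ n := by omega
  have hw : H3.w2 n = 2 * H3.w2 (n - 3) := by
    have := H3.w2_add_three (n := n - 3) (by omega)
    rwa [Nat.sub_add_cancel h3] at this
  have hpos := H3.w2_pos (n - 3)
  refine ⟨fun N hN => ?_, ?_, fun N₁ N₂ h1 h2 c1 c2 => ?_⟩
  · rcases H3.nilp_sym N with h | ⟨-, h2, -⟩
    · rw [Fintype.card_fin] at h; omega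
    · rw [Fintype.card_fin] at h2; omega
  · obtain ⟨φ, hφ, -⟩ := H3.exists_prod_three h3 (P : Subgroup (Equiv.Perm (Fin (n - 3)))).subtype
      (Subgroup.subtype_injective _)
    exact ⟨φ.range, H3.range_prod_three P.isPGroup' φ hφ⟩
  · have key : ∀ N : Subgroup (Equiv.Perm (Fin n)), Group.IsNilpotent N →
        Nat.card N = 3 * Nat.card P → ∃ M, H3.Ext3 N M := by
      intro N hN c
      rcases H3.nilp_sym N with h | ⟨-, -, h2⟩
      · rw [Fintype.card_fin] at h; omega
      · apply h2; rw [Fintype.card_fin]; omega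
    obtain ⟨M1, a1⟩ := key N₁ h1 c1
    obtain ⟨M2, a2⟩ := key N₂ h2 c2
    obtain ⟨g, hg⟩ := a1.cj_sym a2 (by rw [Fintype.card_fin]; omega) (by rw [Fintype.card_fin]; omega)
    exact ⟨g, hg.eq_map⟩

end Cfsg.Agent.S2254
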