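import Cfsg.Statements.S2255
import Cfsg.Agent.H3.Nilp

set_option autoImplicit false
open Cfsg

namespace Cfsg.Agent.S2255

/-- Let n be a natural number not congruent to 3 modulo 4, with n ∉ {5, 6, 9}. Then every nilpotent subgroup of the alternating group on n letters has order at most the order of a Sylow 2-subgroup of the alternating group (so the nilpotent subgroups of largest order are exactly the Sylow 2-subgroups). -/
theorem result  (n : ℕ) (hn : n % 4 ≠ 3)
    (h5 : n ≠ 5) (h6 : n ≠ 6) (h9 : n ≠ 9)
    (N : Subgroup (alternatingGroup (Fin n))) (hN : Group.IsNilpotent N)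
    (P : Sylow 2 (alternatingGroup (Fin n))) :
    Nat.card N ≤ Nat.card P := by
  by_cases h2 : 2 ≤ n
  swap
  · rw [Subgroup.eq_bot_of_card_le N (by
      have h0 := alternatingGroup.eq_bot_of_card_le_two (α := Fin n) (by simp; omega)
      refine (Subgroup.card_le_card_group N).trans ?_
      rw [h0]; simp), Subgroup.card_bot]
    exact Nat.card_pos
  have hP := H3.card_sylow_alt (by simpa) P
  change _ ≤ Nat.card (P : Subgroup (alternatingGroup (Fin n)))
  have : Group.IsNilpotent (N.map (alternatingGroup (Fin n)).subtype) :=
    Group.nilpotent_of_mulEquiv (N.equivMapOfInjective _ (Subgroup.subtype_injective _))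
  have := H3.nilp_alt (N.map (alternatingGroup (Fin n)).subtype) (by rintro _ ⟨g, -, rfl⟩; exact g.2)
    (by simpa) (by simp; omega) (by simpa) (by simpa) (by simpa)
  rw [Subgroup.card_map_of_injective (Subgroup.subtype_injective _)] at this
  rw [Fintype.card_fin] at this hP
  rcases this with h | h | ⟨h1, h2, -⟩
  · omega
  · omega
  · obtain ⟨m, rfl⟩ : ∃ m, n = m + 3 := ⟨n - 3, by omega⟩
    have := H3.four_mul_le_w2_add_three (n := m) (by omega)
    rw [Nat.add_sub_cancel] at h2
    omega

end Cfsg.Agent.S2255
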