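import Cfsg.Statements.S2256
import Cfsg.Agent.H3.Nilp

set_option autoImplicit false
open Cfsg

namespace Cfsg.Agent.S2256

/-- Let n ≡ 3 (mod 4) with n ≥ 7. Then every nilpotent subgroup of the alternating group on n letters has order at most 3 times the order of a Sylow 2-subgroup of the alternating group on n − 3 letters; the bound is attained by a nilpotent subgroup isomorphic to the direct product of such a Sylow 2-subgroup with a cyclic group of order 3; and any two nilpotent subgroups of the alternating group attaining the bound are conjugate in it. -/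
theorem result  (n : ℕ) (hn : n % 4 = 3) (h7 : 7 ≤ n)
    (P : Sylow 2 (alternatingGroup (Fin (n - 3)))) :
    (∀ N : Subgroup (alternatingGroup (Fin n)), Group.IsNilpotent N → Nat.card N ≤ 3 * Nat.card P) ∧
    (∃ M : Subgroup (alternatingGroup (Fin n)), Group.IsNilpotent M ∧ Nat.card M = 3 * Nat.card P ∧
      Nonempty (M ≃* (↥(P : Subgroup (alternatingGroup (Fin (n - 3)))) × Multiplicative (ZMod 3)))) ∧
    (∀ N₁ N₂ : Subgroup (alternatingGroup (Fin n)), Group.IsNilpotent N₁ → Group.IsNilpotent N₂ →
      Nat.card N₁ = 3 * Nat.card P → Nat.card N₂ = 3 * Nat.card P →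
      ∃ g : alternatingGroup (Fin n), N₂ = N₁.map (MulAut.conj g).toMonoidHom) := by
  have hP : 2 * Nat.card P = H3.w2 (n - 3) := by
    have := H3.card_sylow_alt (by simp; omega) P
    rwa [Fintype.card_fin] at this
  have h3 : 3 ≤ n := by omega
  have hw : H3.w2 n = 2 * H3.w2 (n - 3) := by
    have := H3.w2_add_three (n := n - 3) (by omega)
    rwa [Nat.sub_add_cancel h3] at this
  have hpos := H3.w2_pos (n - 3)
  have h7' : n = 7 → H3.w2 (n - 3) = 8 := by
    rintro rfl; rw [H3.w2_small (by norm_num)]; rfl
  have key : ∀ N : Subgroup (alternatingGroup (Fin n)), Group.IsNilpotent N →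
      Nat.card N ≤ 3 * Nat.card P ∧ (Nat.card N = 3 * Nat.card P →
        ∃ M, H3.Ext3 (N.map (alternatingGroup (Fin n)).subtype) M) := by
    intro N hN
    have : Group.IsNilpotent (N.map (alternatingGroup (Fin n)).subtype) :=
      Group.nilpotent_of_mulEquiv (N.equivMapOfInjective _ (Subgroup.subtype_injective _))
    have := H3.nilp_alt (N.map (alternatingGroup (Fin n)).subtype)
      (by rintro _ ⟨g, -, rfl⟩; exact g.2)
      (by simp; omega) (by simp; omega) (by simp; omega) (by simp; omega) (by simp; omega)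
    rw [Subgroup.card_map_of_injective (Subgroup.subtype_injective _), Fintype.card_fin] at this
    rcases this with h | h | ⟨h1, h2, h4⟩
    · exact ⟨by omega, fun _ => by omega⟩
    · have := h7' h.1
      exact ⟨by omega, fun _ => by omega⟩
    · exact ⟨by omega, fun _ => h4 (by omega)⟩
  refine ⟨fun N hN => (key N hN).1, ?_, fun N₁ N₂ h1 h2 c1 c2 => ?_⟩
  · obtain ⟨φ, hφ, hs⟩ := H3.exists_prod_three h3
      ((alternatingGroup (Fin (n - 3))).subtype.comp (P : Subgroup (alternatingGroup (Fin (n - 3)))).subtype)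
      ((Subgroup.subtype_injective _).comp (Subgroup.subtype_injective _))
    let ψ := φ.codRestrict (alternatingGroup (Fin n)) fun p => by
      rw [Equiv.Perm.mem_alternatingGroup, hs]; exact p.1.1.2
    exact ⟨ψ.range, H3.range_prod_three P.isPGroup' ψ fun a b h => hφ (congrArg Subtype.val h)⟩
  · obtain ⟨M1, a1⟩ := (key N₁ h1).2 c1
    obtain ⟨M2, a2⟩ := (key N₂ h2).2 c2
    obtain ⟨g, hg, hg'⟩ := a1.cj_alt a2 (by rintro _ ⟨g, -, rfl⟩; exact g.2)
      (by rintro _ ⟨g, -, rfl⟩; exact g.2) (by simp; omega)
      (by rw [Subgroup.card_map_of_injective (Subgroup.subtype_injective _), Fintype.card_fin]; omega)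
      (by rw [Subgroup.card_map_of_injective (Subgroup.subtype_injective _), Fintype.card_fin]; omega)
    exact ⟨⟨g, hg⟩, (H3.cj_of_cj_map (g := ⟨g, hg⟩) hg').eq_map⟩

end Cfsg.Agent.S2256
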