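import Cfsg.Statements.S2257
import Cfsg.Agent.H2.SL2Sol

set_option autoImplicit false
open Cfsg

namespace Cfsg.Agent.S2257

/-- Let G = PSL_2(F) with F a field of order q = 2^p, p prime, and for x ∈ G call the solubilizer of x the set of y ∈ G such that x and y generate a solvable subgroup. Then the solubilizer of an involution has 3q(q − 1) elements; that of a non-identity element of order dividing q − 1 has 2q(q − 1) elements; and that of a non-identity element of order dividing q + 1 has 2(q + 1) elements. -/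
theorem result (p : ℕ) (hp : p.Prime) {F : Type*} [Field F] [Fintype F]
    (hF : Fintype.card F = 2 ^ p) (x : Matrix.ProjectiveSpecialLinearGroup (Fin 2) F) :
    (orderOf x = 2 → Nat.card {y : Matrix.ProjectiveSpecialLinearGroup (Fin 2) F // Group.IsSolvable ↥(Subgroup.closure ({x, y} : Set (Matrix.ProjectiveSpecialLinearGroup (Fin 2) F)))} = 3 * 2 ^ p * (2 ^ p - 1)) ∧
    (x ≠ 1 → orderOf x ∣ 2 ^ p - 1 → Nat.card {y : Matrix.ProjectiveSpecialLinearGroup (Fin 2) F // Group.IsSolvable ↥(Subgroup.closure ({x, y} : Set (Matrix.ProjectiveSpecialLinearGroup (Fin 2) F)))} = 2 * 2 ^ p * (2 ^ p - 1)) ∧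
    (x ≠ 1 → orderOf x ∣ 2 ^ p + 1 → Nat.card {y : Matrix.ProjectiveSpecialLinearGroup (Fin 2) F // Group.IsSolvable ↥(Subgroup.closure ({x, y} : Set (Matrix.ProjectiveSpecialLinearGroup (Fin 2) F)))} = 2 * (2 ^ p + 1)) := by
  open Cfsg.Agent.H2 in
  have hq : Nat.card F = 2 ^ p := by rw [Nat.card_eq_fintype_card, hF]
  obtain ⟨k, hk⟩ : 2 ∣ Nat.card F := hq ▸ dvd_pow_self 2 hp.ne_zero
  have h2 : (2 : F) = 0 := two_eq_zero_of_even ⟨k, hk⟩
  have hpos : 0 < Nat.card F := Nat.card_pos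
  have : CharP F 2 := ringChar.of_eq (ringChar_eq_two_of h2)
  obtain ⟨g, rfl⟩ := pj_surjective x
  have hc := card_Sol_pj g
  rw [card_center_of_eq h2, mul_one] at hc
  change (_ → Nat.card (Sol (pj F g)) = _) ∧ (_ → _ → Nat.card (Sol (pj F g)) = _) ∧
    (_ → _ → Nat.card (Sol (pj F g)) = _)
  rw [← hq, ← hc]
  have hQ : NoQ g := fun h => absurd h2 h
  have ho : orderOf (pj F g) ∣ Nat.card (Cen g) := (orderOf_map_dvd _ _).trans
    ((Cen g).orderOf_dvd_natCard (self_mem_Cen g))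
  have key : ∀ n, pj F g ≠ 1 → orderOf (pj F g) ∣ n → Odd n → SS g := fun n h1 h3 h4 => by
    by_contra h
    rw [unip_pow 2 (by rwa [Ne, pj_eq_one_iff] at h1) h] at h3
    exact (Nat.not_even_iff_odd.2 h4) (even_iff_two_dvd.2 h3)
  have ht : SS g → tr g ≠ 0 := fun h h' => h (by rw [h']; linear_combination (-2 : F) * h2)
  have cop : ∀ d, d ∣ Nat.card F - 1 → d ∣ Nat.card F + 1 → d = 1 := fun d h1 h3 => by
    have h4 : d ∣ 2 := by
      have := Nat.dvd_sub h3 h1
      rwa [show Nat.card F + 1 - (Nat.card F - 1) = 2 by omega] at this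
    rcases (Nat.dvd_prime Nat.prime_two).1 h4 with h | h
    · exact h
    · rw [h] at h3; omega
  refine ⟨fun h => ?_, fun h1 h => ?_, fun h1 h => ?_⟩
  · have h1 : ¬ Sc g := fun h' => by rw [pj_eq_one_iff.2 h', orderOf_one] at h; omega
    have h3 : ¬ SS g := fun h' => by
      rw [h] at ho
      rcases h'.card_Cen with ⟨-, e⟩ | ⟨-, e⟩ <;> omega
    obtain ⟨t, b, hb, e | e⟩ := exists_conj_uSL h1 h3
    · rw [e, card_Sol_conj, card_Sol_uSL_two h2 hb]
    · rw [← Sol_neg, e, card_Sol_conj, card_Sol_uSL_two h2 hb]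
  · have hS := key _ h1 h ⟨k - 1, by omega⟩
    rcases hS.card_Cen with ⟨⟨c, e⟩, -⟩ | ⟨-, e⟩
    · exact card_Sol_split (Or.inl h2) hS e (ht hS) hQ
    · exact absurd (orderOf_eq_one_iff.1 (cop _ h (e ▸ ho))) h1
  · have hS := key _ h1 h ⟨k, by omega⟩
    rcases hS.card_Cen with ⟨-, e⟩ | ⟨e, -⟩
    · exact absurd (orderOf_eq_one_iff.1 (cop _ (e ▸ ho) h)) h1
    · exact card_Sol_nonsplit (Or.inl h2) e (ht hS) hQ

end Cfsg.Agent.S2257
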