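import Cfsg.Statements.S2258
import Cfsg.Agent.H2.SL2Sol2

set_option autoImplicit false
open Cfsg

namespace Cfsg.Agent.S2258

/-- Let G = PSL_2(F) with F a field of order q = 3^p, p an odd prime, and for x ∈ G call the solubilizer of x the set of y ∈ G such that x and y generate a solvable subgroup. Then the solubilizer of an involution has q(q + 1) elements; that of an element of order 3 has q(q + 5)/2 elements; that of an element of order neither 1 nor 2 dividing q − 1 has q(q − 1) elements; and that of an element of order neither 1 nor 2 dividing q + 1 has q + 1 elements. -/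
theorem result (p : ℕ) (hp : p.Prime) (hodd : Odd p) {F : Type*} [Field F] [Fintype F]
    (hF : Fintype.card F = 3 ^ p) (x : Matrix.ProjectiveSpecialLinearGroup (Fin 2) F) :
    (orderOf x = 2 → Nat.card {y : Matrix.ProjectiveSpecialLinearGroup (Fin 2) F // Group.IsSolvable ↥(Subgroup.closure ({x, y} : Set (Matrix.ProjectiveSpecialLinearGroup (Fin 2) F)))} = 3 ^ p * (3 ^ p + 1)) ∧
    (orderOf x = 3 → 2 * Nat.card {y : Matrix.ProjectiveSpecialLinearGroup (Fin 2) F // Group.IsSolvable ↥(Subgroup.closure ({x, y} : Set (Matrix.ProjectiveSpecialLinearGroup (Fin 2) F)))} = 3 ^ p * (3 ^ p + 5)) ∧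
    (x ≠ 1 → orderOf x ≠ 2 → orderOf x ∣ 3 ^ p - 1 → Nat.card {y : Matrix.ProjectiveSpecialLinearGroup (Fin 2) F // Group.IsSolvable ↥(Subgroup.closure ({x, y} : Set (Matrix.ProjectiveSpecialLinearGroup (Fin 2) F)))} = 3 ^ p * (3 ^ p - 1)) ∧
    (x ≠ 1 → orderOf x ≠ 2 → orderOf x ∣ 3 ^ p + 1 → Nat.card {y : Matrix.ProjectiveSpecialLinearGroup (Fin 2) F // Group.IsSolvable ↥(Subgroup.closure ({x, y} : Set (Matrix.ProjectiveSpecialLinearGroup (Fin 2) F)))} = 3 ^ p + 1) := by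
  open Cfsg.Agent.H2 in
  have hq : Nat.card F = 3 ^ p := by rw [Nat.card_eq_fintype_card, hF]
  have h8 : Nat.card F % 8 = 3 := by
    obtain ⟨k, rfl⟩ := hodd
    rw [hq, pow_succ, pow_mul, Nat.mul_mod, Nat.pow_mod]; simp
  obtain ⟨k, hk⟩ : 3 ∣ Nat.card F := hq ▸ dvd_pow_self 3 hp.ne_zero
  have h3 : (3 : F) = 0 := by
    have := FiniteField.cast_card_eq_zero F
    rw [hF, Nat.cast_pow] at this
    exact_mod_cast pow_eq_zero_iff hp.ne_zero |>.1 this
  have h2 := two_ne_zero_of_h8 (Or.inl h8)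
  have : Fact (Nat.Prime 3) := ⟨Nat.prime_three⟩
  have : CharP F 3 := (CharP.charP_iff_prime_eq_zero Nat.prime_three).2 (by exact_mod_cast h3)
  obtain ⟨g, rfl⟩ := pj_surjective x
  have hc := card_Sol_pj g
  rw [card_center_of_ne h2] at hc
  change (_ → Nat.card (Sol (pj F g)) = _) ∧ (_ → 2 * Nat.card (Sol (pj F g)) = _) ∧
    (_ → _ → _ → Nat.card (Sol (pj F g)) = _) ∧ (_ → _ → _ → Nat.card (Sol (pj F g)) = _)
  rw [← hq]
  have ho : orderOf (pj F g) ∣ Nat.card (Cen g) := (orderOf_map_dvd _ _).trans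
    ((Cen g).orderOf_dvd_natCard (self_mem_Cen g))
  have key : ∀ n, pj F g ≠ 1 → orderOf (pj F g) ∣ n → ¬ 3 ∣ n → SS g := fun n h1 h3 h4 => by
    by_contra h
    rw [unip_pow 3 (by rwa [Ne, pj_eq_one_iff] at h1) h] at h3
    exact h4 h3
  have two : pj F g ≠ 1 → orderOf (pj F g) ≠ 2 → ¬ orderOf (pj F g) ∣ 2 := fun a b c =>
    ((Nat.dvd_prime Nat.prime_two).1 c).elim (fun h => a (orderOf_eq_one_iff.1 h)) b
  have ht : ¬ orderOf (pj F g) ∣ 2 → tr g ≠ 0 := fun h h' => h (orderOf_dvd_of_pow_eq_one (by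
    rw [← map_pow, sq_eq_neg_one_of_tr h', pj_neg, map_one]))
  have cop : ∀ d, d ∣ Nat.card F - 1 → d ∣ Nat.card F + 1 → d ∣ 2 := fun d h1 h3 => by
    have := Nat.dvd_sub h3 h1
    rwa [show Nat.card F + 1 - (Nat.card F - 1) = 2 by omega] at this
  refine ⟨fun h => ?_, fun h => ?_, fun h1 h0 h => ?_, fun h1 h0 h => ?_⟩
  · have h1 : ¬ Sc g := fun h' => by rw [pj_eq_one_iff.2 h', orderOf_one] at h; omega
    have h4 : tr g = 0 := tr_eq_zero_of_Sc_sq h1 (by rw [← pj_eq_one_iff, map_pow]; exact orderOf_dvd_iff_pow_eq_one.1 h.dvd)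
    rw [card_Sol_tr_zero h3 h8 h4, mul_assoc] at hc
    omega
  · have h1 : ¬ Sc g := fun h' => by rw [pj_eq_one_iff.2 h', orderOf_one] at h; omega
    have h4 : ¬ SS g := fun h' => by
      rw [h] at ho
      rcases h'.card_Cen with ⟨-, e⟩ | ⟨-, e⟩ <;> omega
    rw [mul_comm, ← hc]
    obtain ⟨t, b, hb, e | e⟩ := exists_conj_uSL h1 h4
    · rw [e, card_Sol_conj, card_Sol_uSL_three h3 (Or.inl h8) hb]
    · rw [← Sol_neg, e, card_Sol_conj, card_Sol_uSL_three h3 (Or.inl h8) hb]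
  · have hS := key _ h1 h (by omega)
    have h4 := ht (two h1 h0)
    rcases hS.card_Cen with ⟨⟨c, e⟩, -⟩ | ⟨-, e⟩
    · rw [card_Sol_split (Or.inr (Or.inl h8)) hS e h4 (noQ_of_three h3 (Or.inl h8) hS h4), mul_assoc] at hc
      omega
    · exact absurd (cop _ h (e ▸ ho)) (two h1 h0)
  · have hS := key _ h1 h (by omega)
    have h4 := ht (two h1 h0)
    rcases hS.card_Cen with ⟨-, e⟩ | ⟨e, -⟩
    · exact absurd (cop _ (e ▸ ho) h) (two h1 h0)
    · rw [card_Sol_nonsplit (Or.inr (Or.inl h8)) e h4 (noQ_of_three h3 (Or.inl h8) hS h4)] at hc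
      omega

end Cfsg.Agent.S2258
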