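import Cfsg.Statements.S2259
import Cfsg.Agent.H2.SzSol2

set_option autoImplicit false
open Cfsg

namespace Cfsg.Agent.S2259

/-- Let G be the Suzuki group Sz(q), q = 2^(2m+1) with 2m + 1 prime and m ≥ 1, realised inside Sp_4(F) for F the field of order q, write r = 2^(m+1) (so r² = 2q), and for x ∈ G call the solubilizer of x the set of y ∈ G such that x and y generate a solvable subgroup. Then the solubilizer of an involution has q²(4q − 3) elements; that of an element of order 4 has q²(q + 3) elements; that of a non-identity element of order dividing q − 1 has 2q²(q − 1) elements; that of a non-identity element of order dividing q + r + 1 has 4(q + r + 1) elements; and that of a non-identity element of order dividing q − r + 1 has 4(q − r + 1) elements. -/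
theorem result {F : Type*} [Field F] [Fintype F] {m : ℕ} (hm : 1 ≤ m)
    (hp : (2 * m + 1).Prime) (hF : Fintype.card F = 2 ^ (2 * m + 1)) (x : ↥(Cfsg.Lie.Sz F (2 ^ (m + 1)))) :
    (orderOf x = 2 → Nat.card {y : ↥(Cfsg.Lie.Sz F (2 ^ (m + 1))) // Group.IsSolvable ↥(Subgroup.closure ({x, y} : Set (↥(Cfsg.Lie.Sz F (2 ^ (m + 1))))))} = (2 ^ (2 * m + 1)) ^ 2 * (4 * 2 ^ (2 * m + 1) - 3)) ∧
    (orderOf x = 4 → Nat.card {y : ↥(Cfsg.Lie.Sz F (2 ^ (m + 1))) // Group.IsSolvable ↥(Subgroup.closure ({x, y} : Set (↥(Cfsg.Lie.Sz F (2 ^ (m + 1))))))} = (2 ^ (2 * m + 1)) ^ 2 * (2 ^ (2 * m + 1) + 3)) ∧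
    (x ≠ 1 → orderOf x ∣ 2 ^ (2 * m + 1) - 1 →
      Nat.card {y : ↥(Cfsg.Lie.Sz F (2 ^ (m + 1))) // Group.IsSolvable ↥(Subgroup.closure ({x, y} : Set (↥(Cfsg.Lie.Sz F (2 ^ (m + 1))))))} = 2 * (2 ^ (2 * m + 1)) ^ 2 * (2 ^ (2 * m + 1) - 1)) ∧
    (x ≠ 1 → orderOf x ∣ 2 ^ (2 * m + 1) + 2 ^ (m + 1) + 1 → Nat.card {y : ↥(Cfsg.Lie.Sz F (2 ^ (m + 1))) // Group.IsSolvable ↥(Subgroup.closure ({x, y} : Set (↥(Cfsg.Lie.Sz F (2 ^ (m + 1))))))} = 4 * (2 ^ (2 * m + 1) + 2 ^ (m + 1) + 1)) ∧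
    (x ≠ 1 → orderOf x ∣ 2 ^ (2 * m + 1) - 2 ^ (m + 1) + 1 → Nat.card {y : ↥(Cfsg.Lie.Sz F (2 ^ (m + 1))) // Group.IsSolvable ↥(Subgroup.closure ({x, y} : Set (↥(Cfsg.Lie.Sz F (2 ^ (m + 1))))))} = 4 * (2 ^ (2 * m + 1) - 2 ^ (m + 1) + 1)) := by
  open Cfsg.Agent.H2 Cfsg.Agent.H2.Suz in
  have := SzF.of_fintype hm hF
  have := finite_Sz F m
  obtain ⟨x, rfl⟩ := (equivLie F m).surjective x
  have e := card_Sol_equiv (equivLie F m) x
  change Nat.card {y // _} = _ at e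
  simp only [Sol, Set.mem_ofPred_eq] at e
  have hq := SzF.card (F := F) (m := m)
  have hr : (2 ^ (2 * m + 1) + 2 ^ (m + 1) + 1) * (2 ^ (2 * m + 1) - 2 ^ (m + 1) + 1) = Nat.card F ^ 2 + 1 := by
    have h1 : 2 ^ (m + 1) ≤ 2 ^ (2 * m + 1) := Nat.pow_le_pow_right (by norm_num) (by omega)
    have h2 : (2 ^ (m + 1)) ^ 2 = 2 * 2 ^ (2 * m + 1) := by ring
    rw [hq]
    obtain ⟨c, hc⟩ := Nat.exists_eq_add_of_le h1
    rw [hc] at h2 ⊢
    rw [Nat.add_sub_cancel_left]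
    nlinarith
  have hco : ∀ n, n ∣ 2 ^ (2 * m + 1) + 2 ^ (m + 1) + 1 → n ∣ 2 ^ (2 * m + 1) - 2 ^ (m + 1) + 1 → n = 1 := by
    intro n h1 h2
    have h0 : 2 ^ (m + 1) ≤ 2 ^ (2 * m + 1) := Nat.pow_le_pow_right (by norm_num) (by omega)
    have h3 : n ∣ 2 ^ (m + 2) := by
      have := Nat.dvd_sub h1 h2
      rwa [show 2 ^ (2 * m + 1) + 2 ^ (m + 1) + 1 - (2 ^ (2 * m + 1) - 2 ^ (m + 1) + 1) = 2 ^ (m + 2) by
        rw [pow_succ 2 (m + 1)]; omega] at this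
    have h4 : Odd n := Odd.of_dvd_nat (torSet_facts hm (Or.inr (Or.inl rfl))).1 h1
    exact Nat.eq_one_of_dvd_coprimes (Nat.Coprime.pow_right _ (Nat.coprime_two_right.2 h4)) dvd_rfl h3
  simp only [MulEquiv.orderOf_eq, ne_eq, EmbeddingLike.map_eq_one_iff, e]
  refine ⟨fun h => ?_, fun h => ?_, fun h1 h => ?_, fun h1 h => ?_, fun h1 h => ?_⟩
  · have h2 : x ^ 2 = 1 := by rw [← pow_orderOf_eq_one x, h]
    obtain ⟨p, hp⟩ := exists_mem_Qp_of_pow (g := x) (n := 1) h2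
    rw [← hq]
    exact card_Sol_invol hp h2 (by rintro rfl; simp at h)
  · rw [← hq]
    exact card_Sol_four h
  · have ho : OddE x := not_mem_Qp_of_odd h1 (Odd.of_dvd_nat (torSet_facts hm (Or.inl rfl)).1 h)
    rw [← hq] at h ⊢
    rcases ho.cases with ⟨p, p', hne, hx⟩ | hd
    · exact card_Sol_Tp hne hx h1
    · exact absurd (orderOf_eq_one_iff.1 (Nat.eq_one_of_dvd_coprimes (coprime_stab F m) hd.orderOf_dvd
        (h.mul_left _))) h1
  · have hd : Der x := der_of_orderOf_dvd h1 (hr ▸ h.mul_right _)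
    rcases hd.card_Cen with h2 | h2
    · rw [← h2]; exact hd.card_Sol
    · exact absurd (orderOf_eq_one_iff.1 (hco _ h (h2 ▸ (Cen x).orderOf_dvd_natCard (self_mem_Cen x)))) h1
  · have hd : Der x := der_of_orderOf_dvd h1 (hr ▸ h.mul_left _)
    rcases hd.card_Cen with h2 | h2
    · exact absurd (orderOf_eq_one_iff.1 (hco _ (h2 ▸ (Cen x).orderOf_dvd_natCard (self_mem_Cen x)) h)) h1
    · rw [← h2]; exact hd.card_Sol

end Cfsg.Agent.S2259
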