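import Cfsg.Statements.S2269
import Cfsg.Agent.H3.Syl2c
import Cfsg.Agent.H3.Automizer

set_option autoImplicit false
open Cfsg

namespace Cfsg.Agent.S2269

theorem burnside {G : Type*} [Group G] [Finite G] [IsSimpleGroup G] {p : ℕ} [Fact p.Prime]
    (P : Sylow p G) (h1 : (P : Subgroup G) ≠ ⊥) (h2 : (P : Subgroup G) ≠ ⊤) :
    ¬ Subgroup.normalizer ((P : Subgroup G) : Set G) ≤ Subgroup.centralizer ((P : Subgroup G) : Set G) := by
  intro h
  have hc := MonoidHom.ker_transferSylow_isComplement' P h
  rcases (MonoidHom.normal_ker (MonoidHom.transferSylow P h)).eq_bot_or_eq_top with e | e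
  · rw [e] at hc
    exact h2 (Subgroup.isComplement'_bot_left.1 hc)
  · rw [e] at hc
    exact h1 (Subgroup.isComplement'_top_left.1 hc)

theorem two_ne (n : ℕ) (hn : 5 ≤ n) (P : Sylow 2 (alternatingGroup (Fin n))) :
    (P : Subgroup (alternatingGroup (Fin n))) ≠ ⊥ ∧ (P : Subgroup (alternatingGroup (Fin n))) ≠ ⊤ := by
  have : Nontrivial (Fin n) := Fin.nontrivial_iff_two_le.2 (by omega)
  have h1 := two_mul_nat_card_alternatingGroup (α := Fin n)
  rw [Nat.card_perm, Nat.card_fin] at h1
  have h2 : 2 * 60 ∣ n.factorial := Nat.factorial_dvd_factorial hn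
  rw [← h1] at h2
  have h3 := Nat.dvd_of_mul_dvd_mul_left (by norm_num) h2
  refine ⟨P.ne_bot_of_dvd_card (dvd_trans (by norm_num) h3), fun e => ?_⟩
  obtain ⟨k, hk⟩ := IsPGroup.iff_card.1 P.isPGroup'
  rw [e, Subgroup.card_top] at hk
  rw [hk] at h3
  have := Nat.Prime.dvd_of_dvd_pow Nat.prime_three (dvd_trans (by norm_num) h3)
  omega

/-- Let n ≥ 5 and let P be an abelian Sylow p-subgroup of the alternating group A_n. Then N(P)/C(P) (taken in A_n) has even order, or P is cyclic, except when n = 5 and p = 2, where P is a four-group and N(P)/C(P) has order 3. -/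
theorem result (n : ℕ) (hn : 5 ≤ n) {p : ℕ} [Fact p.Prime]
    (P : Sylow p (alternatingGroup (Fin n))) (hP : IsMulCommutative (P : Subgroup (alternatingGroup (Fin n)))) :
    (¬ (n = 5 ∧ p = 2) → 2 ∣ ((Subgroup.centralizer ((P : Subgroup (alternatingGroup (Fin n))) : Set (alternatingGroup (Fin n)))).subgroupOf (Subgroup.normalizer ((P : Subgroup (alternatingGroup (Fin n))) : Set (alternatingGroup (Fin n))))).index ∨ IsCyclic (P : Subgroup (alternatingGroup (Fin n)))) ∧
    ((n = 5 ∧ p = 2) → ((Subgroup.centralizer ((P : Subgroup (alternatingGroup (Fin n))) : Set (alternatingGroup (Fin n)))).subgroupOf (Subgroup.normalizer ((P : Subgroup (alternatingGroup (Fin n))) : Set (alternatingGroup (Fin n))))).index = 3 ∧ IsKleinFour (P : Subgroup (alternatingGroup (Fin n)))) := by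
  have hsimple : IsSimpleGroup (alternatingGroup (Fin n)) := alternatingGroup.isSimpleGroup (by simpa)
  have hPC : (P : Subgroup (alternatingGroup (Fin n))) ≤
      Subgroup.centralizer ((P : Subgroup (alternatingGroup (Fin n))) : Set (alternatingGroup (Fin n))) :=
    Subgroup.le_centralizer_iff_isMulCommutative.2 hP
  have hp : p.Prime := Fact.out
  refine ⟨fun h => ?_, ?_⟩
  · by_cases hp2 : p = 2
    · subst hp2
      exfalso
      have h6 : 6 ≤ n := by omega
      obtain ⟨h1, h2⟩ := two_ne n hn P
      apply burnside P h1 h2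
      rw [H3.normalizer_sylow_two_alt (by simpa) P]
      exact hPC
    · by_cases hpn : p + 2 ≤ n
      · left
        obtain ⟨s, hs⟩ := (Equiv.Perm.exists_with_cycleType_iff (Fin n) (m := {p})).2
          ⟨by simp; omega, by simpa using hp.two_le⟩
        have hsign : Equiv.Perm.sign s = 1 := by
          rw [Equiv.Perm.sign_of_cycleType, hs]
          simp only [Multiset.sum_singleton, Multiset.card_singleton]
          exact Even.neg_one_pow (hp.odd_of_ne_two hp2).add_one
        refine H3.two_dvd_automizer_of_real P hP ⟨s, Equiv.Perm.mem_alternatingGroup.2 hsign⟩ ?_ hp2 ?_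
        · rw [Subgroup.orderOf_mk, ← Equiv.Perm.lcm_cycleType, hs]; simp
        · apply alternatingGroup.isConj_of
          · rw [Equiv.Perm.isConj_iff_cycleType_eq]
            simp [Equiv.Perm.cycleType_inv]
          · rw [← Equiv.Perm.sum_cycleType]
            simpa [hs] using hpn
      · right
        apply isCyclic_of_card_dvd_prime (p := p)
        rw [P.card_eq_multiplicity]
        have h1 : (Nat.card (alternatingGroup (Fin n))).factorization p ≤ n.factorial.factorization p := by
          apply (Nat.factorization_le_iff_dvd Nat.card_pos.ne' (Nat.factorial_ne_zero _)).2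
          have := Subgroup.card_subgroup_dvd_card (alternatingGroup (Fin n))
          rwa [Nat.card_perm, Nat.card_fin] at this
        have h2 := Nat.factorization_factorial_le_div_pred hp n
        have h3 : n / (p - 1) < 2 := (Nat.div_lt_iff_lt_mul (by omega)).2 (by omega)
        conv_rhs => rw [← pow_one p]
        exact pow_dvd_pow _ (by omega)
  · rintro ⟨rfl, rfl⟩
    obtain ⟨h1, h2⟩ := two_ne 5 hn P
    have hb := burnside P h1 h2
    obtain ⟨x0, -, -, h3⟩ := H3.alt_overgroup P (k := 2) le_rfl (by simp)
    have hc : Nat.card (alternatingGroup (Fin 5)) = 60 := by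
      rw [nat_card_alternatingGroup]; simp; rfl
    have hS4 : Nat.card (P : Subgroup (alternatingGroup (Fin 5))) = 4 := by
      rw [P.card_eq_multiplicity, hc, show 60 = 2 ^ 2 * 15 by norm_num,
        Nat.factorization_mul (by norm_num) (by norm_num), Nat.Prime.factorization_pow Nat.prime_two,
        Finsupp.add_apply, Nat.factorization_eq_zero_of_not_dvd (by norm_num)]
      simp
    have hSi : (P : Subgroup (alternatingGroup (Fin 5))).index = 15 := by
      have := (P : Subgroup (alternatingGroup (Fin 5))).card_mul_index
      rw [hS4, hc] at this; omega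
    have : MulAction.IsPretransitive (alternatingGroup (Fin 5)) (Fin 5) :=
      alternatingGroup.isPretransitive_of_three_le_card _ (by simp)
    have hst := MulAction.index_stabilizer_of_transitive (alternatingGroup (Fin 5)) x0
    rw [Nat.card_fin] at hst
    constructor
    · rcases h3 _ (Subgroup.le_normalizer (H := (P : Subgroup (alternatingGroup (Fin 5))))) with
          e2 | e2
      · have d1 := Subgroup.index_dvd_of_le hPC
        have d2 := Subgroup.index_dvd_of_le e2
        have d3 := Subgroup.relIndex_mul_index (Subgroup.centralizer_le_normalizer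
          (s := ((P : Subgroup (alternatingGroup (Fin 5))) : Set (alternatingGroup (Fin 5)))))
        have d4 := mt Subgroup.relIndex_eq_one.1 hb
        rw [hSi] at d1
        rw [hst] at d2
        change Subgroup.relIndex _ _ = 3
        rw [← d3] at d1
        obtain ⟨c, hc⟩ := d2
        rw [hc] at d1
        have d5 : ∀ r, r * (5 * c) ∣ 15 → r ∣ 3 := by
          intro r d1
          have : 5 * (r * c) ∣ 5 * 3 := by
            convert d1 using 1; ring
          exact (Dvd.intro _ rfl).trans (Nat.dvd_of_mul_dvd_mul_left (by norm_num) this)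
        exact ((Nat.dvd_prime Nat.prime_three).1 (d5 _ d1)).resolve_left d4
      · have hN := Subgroup.normalizer_eq_top_iff.1 e2
        rcases hN.eq_bot_or_eq_top with e3 | e3
        · exact absurd e3 h1
        · exact absurd e3 h2
    · refine ⟨hS4, (not_isCyclic_iff_exponent_eq_prime Nat.prime_two hS4).1 fun hcy => hb ?_⟩
      exact IsCyclic.normalizer_le_centralizer (by rw [hc]; norm_num) hcy

end Cfsg.Agent.S2269
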