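import Cfsg.Statements.S2270
import Cfsg.Agent.H3.Automizer

set_option autoImplicit false
open Cfsg

namespace Cfsg.Agent.S2270

/-- Let n ≥ 3, p an odd prime, and P an abelian Sylow p-subgroup of the symmetric group S_n (with p dividing n!, so that P ≠ 1). Then N(P)/C(P) has even order. -/
theorem result (n : ℕ) (hn : 3 ≤ n) {p : ℕ} [Fact p.Prime] (hp : p ≠ 2) (hpn : p ≤ n)
    (P : Sylow p (Equiv.Perm (Fin n))) (hP : IsMulCommutative (P : Subgroup (Equiv.Perm (Fin n)))) :
    2 ∣ ((Subgroup.centralizer ((P : Subgroup (Equiv.Perm (Fin n))) : Set (Equiv.Perm (Fin n)))).subgroupOf (Subgroup.normalizer ((P : Subgroup (Equiv.Perm (Fin n))) : Set (Equiv.Perm (Fin n))))).index := by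
  have hpp : p.Prime := Fact.out
  obtain ⟨s, hs⟩ := (Equiv.Perm.exists_with_cycleType_iff (α := Fin n) (m := {p})).2
    ⟨by simpa using hpn, by simpa using hpp.two_le⟩
  refine H3.two_dvd_automizer_of_real P hP s ?_ hp ?_
  · rw [← Equiv.Perm.lcm_cycleType, hs]; simp
  · rw [Equiv.Perm.isConj_iff_cycleType_eq, Equiv.Perm.cycleType_inv]

end Cfsg.Agent.S2270
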