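import Cfsg.Statements.S2278
import Cfsg.Agent.H4.GenT5

set_option autoImplicit false
open Cfsg

namespace Cfsg.Agent.S2278

open Cfsg.Agent.H4 Module Polynomial

theorem gens_of_ne {F : Type*} [Field F] [Fintype F] {p f : ℕ} (hp : p.Prime)
    (hq : Fintype.card F = p ^ f) {β : F} (h : ∀ j < f / 2, β ^ p ^ (j + 1) ≠ β) : Gens β := by
  refine gens_of_aeval ((H6.aeval_surj_or β).resolve_right ?_)
  rintro ⟨r, d, hr, hd, h1, h2⟩
  obtain ⟨j, -, rfl⟩ := (Nat.dvd_prime_pow hp).1 (show r ∣ p ^ f by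
    rw [← hq, h1]; exact dvd_pow_self r (by omega))
  rw [hq, ← pow_mul] at h1
  obtain rfl := Nat.pow_right_injective hp.two_le h1
  obtain ⟨j, rfl⟩ : ∃ i, j = i + 1 := Nat.exists_eq_succ_of_ne_zero (by rintro rfl; simp at hr)
  exact h j (by rw [Nat.lt_iff_add_one_le, Nat.le_div_iff_mul_le two_pos]; nlinarith) h2

theorem sum_pow_le {p : ℕ} (hp : 2 ≤ p) (m : ℕ) : ∑ j ∈ Finset.range m, p ^ (j + 1) ≤ 2 * p ^ m := by
  induction m with
  | zero => simp
  | succ m ih =>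
    rw [Finset.sum_range_succ, pow_succ]
    nlinarith [Nat.zero_le (p ^ m)]

theorem exists_good {F : Type*} [Field F] [Fintype F] (h4 : Fintype.card F ≠ 4) :
    ∃ γ : F, 12 + γ ^ 2 ≠ 0 ∧ Gens ((12 + γ ^ 2) ^ 3) := by
  obtain ⟨p, hp⟩ := CharP.exists F
  obtain ⟨⟨f, hf⟩, hpp, hq⟩ := FiniteField.card F p
  have := Fact.mk hpp
  simp only [PNat.mk_coe] at hq
  obtain ⟨ζ, h0, h1⟩ := exists_prim (F := F)
  by_cases h2 : p = 2
  · subst h2
    have h12 : (12 : F) = 0 := by exact_mod_cast (CharP.cast_eq_zero_iff F 2 12).2 (by norm_num)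
    obtain ⟨γ, hγ⟩ := FiniteField.isSquare_of_char_two (ringChar.eq F 2) ζ
    refine ⟨γ, ?_⟩
    rw [h12, zero_add, sq, ← hγ]
    exact ⟨h0, gens_of_aeval (H6.aeval_cube_surj h0 h1 h4)⟩
  by_cases h3 : p = 3
  · subst h3
    have h12 : (12 : F) = 0 := by exact_mod_cast (CharP.cast_eq_zero_iff F 3 12).2 (by norm_num)
    refine ⟨ζ, ?_⟩
    rw [h12, zero_add]
    refine ⟨pow_ne_zero _ h0, fun A hA => gens_of_aeval ((H6.aeval_surj_or (ζ ^ 2)).resolve_right ?_)
      A (mem_subring_of_pow 3 (e := 1) (by simpa using hA))⟩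
    rintro ⟨r, d, hr, hd, hc, h⟩
    obtain ⟨r, rfl⟩ : ∃ s, r = s + 1 := ⟨r - 1, by omega⟩
    rw [pow_succ, mul_eq_right₀ (pow_ne_zero 2 h0), ← pow_mul] at h
    have h1 := H6.card_le_of_pow_eq_one h1 (by omega) h
    have h2 : (r + 1) ^ 2 ≤ (r + 1) ^ d := Nat.pow_le_pow_right (by omega) hd
    nlinarith
  have h5 : 5 ≤ p := hpp.five_le_of_ne_two_of_ne_three h2 h3
  by_cases hf1 : f = 1
  · subst hf1
    refine ⟨0, ?_, gens_of_ne hpp hq (by simp)⟩
    intro h
    have h6 := (CharP.cast_eq_zero_iff F p 12).1 (by simpa using h)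
    have := Nat.le_of_dvd (by norm_num) h6
    interval_cases p <;> first | omega | norm_num at hpp
  suffices ∃ γ : F, ∀ j < f / 2, ((12 + γ ^ 2) ^ 3) ^ p ^ (j + 1) ≠ (12 + γ ^ 2) ^ 3 by
    obtain ⟨γ, hγ⟩ := this
    refine ⟨γ, fun h => hγ 0 (by omega) ?_, gens_of_ne hpp hq hγ⟩
    simp [h, hpp.ne_zero]
  by_cases h25 : f = 2 ∧ p = 5
  · obtain ⟨rfl, rfl⟩ := h25
    obtain ⟨γ, hγ⟩ := H6.exists_eval_ne_zero_of_lt_card
      (X ^ 20 + C 2 * X ^ 10 - X ^ 4 - C 2 * X ^ 2 : F[X])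
      (Monic.ne_zero (by monicity!)) (by rw [hq]; compute_degree!)
    refine ⟨γ, fun j hj h => hγ ?_⟩
    obtain rfl : j = 0 := by omega
    have h6 : (5 : F) = 0 := by exact_mod_cast CharP.cast_eq_zero F 5
    have h7 := FiniteField.pow_card γ
    have h12 : (12 : F) = 2 := by linear_combination 2 * h6
    rw [hq] at h7
    rw [zero_add, pow_one, ← pow_mul, mul_comm, pow_mul, add_pow_char, h12,
      show (2 : F) ^ 5 = 2 by linear_combination 6 * h6] at h
    simp only [eval_sub, eval_add, eval_pow, eval_X, eval_mul, eval_C]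
    linear_combination h - γ ^ 5 * h7 - (γ ^ 20 + 2 * γ ^ 10 - γ ^ 4 - 2 * γ ^ 2) * h6
  let Q : F[X] := (C 12 + X ^ 2) ^ 3
  have hQ : Q.natDegree = 6 := by rw [natDegree_pow, add_comm, natDegree_X_pow_add_C]
  have hd : ∀ j, (Q ^ p ^ (j + 1) - Q).natDegree = p ^ (j + 1) * 6 := fun j => by
    have : 1 < p ^ (j + 1) := Nat.one_lt_pow (by omega) hpp.one_lt
    rw [natDegree_sub_eq_left_of_natDegree_lt (by rw [natDegree_pow Q, hQ]; omega), natDegree_pow Q,
      hQ]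
  have hne : ∀ j, Q ^ p ^ (j + 1) - Q ≠ 0 := fun j h => by
    have := hd j
    rw [h, natDegree_zero] at this
    have : 0 < p ^ (j + 1) := pow_pos hpp.pos _
    omega
  obtain ⟨γ, hγ⟩ := H6.exists_eval_ne_zero_of_lt_card
    (∏ j ∈ Finset.range (f / 2), (Q ^ p ^ (j + 1) - Q)) (Finset.prod_ne_zero_iff.2 fun j _ => hne j)
    (by
      rw [natDegree_prod _ _ fun j _ => hne j, hq]
      simp only [hd, ← Finset.sum_mul]
      by_cases hf2 : f = 2
      · subst hf2
        have : 7 ≤ p := by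
          by_contra h
          have : p = 6 := by omega
          subst this
          norm_num at hpp
        simp; nlinarith
      · have a1 := sum_pow_le hpp.two_le (f / 2)
        have a2 : p ^ (f / 2 + 2) ≤ p ^ f := Nat.pow_le_pow_right hpp.pos (by omega)
        have a3 : 0 < p ^ (f / 2) := pow_pos hpp.pos _
        rw [pow_add] at a2
        nlinarith [Nat.pow_le_pow_left h5 2])
  refine ⟨γ, fun j hj h => hγ ?_⟩
  rw [eval_prod]
  exact Finset.prod_eq_zero (Finset.mem_range.2 hj) (by simpa [Q, sub_eq_zero] using h)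

/-- Let F be a finite field. Then SL_3(F) is generated by two conjugate regular unipotent elements: there are u with u − 1 nilpotent and (u − 1)² ≠ 0, and g, such that u and g u g⁻¹ generate SL_3(F). -/
theorem result {F : Type*} [Field F] [Fintype F] :
    ∃ u g : Matrix.SpecialLinearGroup (Fin 3) F, IsNilpotent ((u : Matrix (Fin 3) (Fin 3) F) - 1) ∧ ((u : Matrix (Fin 3) (Fin 3) F) - 1) ^ (3 - 1) ≠ 0 ∧
      Subgroup.closure ({u, g * u * g⁻¹} : Set (Matrix.SpecialLinearGroup (Fin 3) F)) = ⊤ := by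
  have h1 := ru_Ju (F := F) (n := 2)
  by_cases h4 : Fintype.card F = 4
  · obtain ⟨f, -, -, -, hf⟩ := exists_hom_R4 h4
    obtain ⟨g, hg⟩ := cert34 f
    obtain ⟨a1, a2⟩ := hg (Subgroup.closure {Ju F 2, g * Ju F 2 * g⁻¹})
      (Subgroup.subset_closure (by simp)) (Subgroup.subset_closure (by simp))
    replace a1 := a1.tv two_pos
    replace a2 := a2.tv two_pos
    rw [map_one] at a1
    refine ⟨Ju F 2, g, h1.1, h1.2, eq_top_of_full (ch_Ju.full_of_all (grp_endOf _)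
      (mem_endOf.2 (Subgroup.subset_closure (by simp))) fun c => ?_)⟩
    rcases hf c with rfl | rfl | rfl | rfl
    · rw [zero_smul]; exact tv_zero _
    · exact a1
    · exact a2
    · rw [add_smul]; exact a1.add a2
  obtain ⟨γ, h2, h3⟩ := exists_good h4
  have hJ : Jm F 2 = !![1, 0, 0; 1, 1, 0; 0, 1, 1] := by
    ext i j; fin_cases i <;> fin_cases j <;> simp [Jm]
  obtain ⟨g, hg⟩ := exists_inM_conj (n := 2) (RingHom.id F) !![-1, -γ, 2 - γ; 0, -1, -2; 0, 0, 1]
    (!![-1, 2 + γ, -4 - γ ^ 2; 0, 1, 2 - γ; 0, 0, -1] * Jm F 2) ⟨by simp [Matrix.det_fin_three], by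
      rw [hJ]
      ext i j
      fin_cases i <;> fin_cases j <;> simp [Matrix.mul_apply, Fin.sum_univ_three] <;> ring⟩
  have a1 : InM (Subgroup.closure {Ju F 2, g * Ju F 2 * g⁻¹}) (RingHom.id F) (Jm F 2) :=
    inM_Ju (Subgroup.subset_closure (by simp))
  have a2 := hg (Subgroup.closure {Ju F 2, g * Ju F 2 * g⁻¹}) (Subgroup.subset_closure (by simp))
  have a3 := a1.inv !![1, 0, 0; -1, 1, 0; 1, -1, 1] (by
    rw [hJ]; ext i j; fin_cases i <;> fin_cases j <;> simp [Matrix.mul_apply, Fin.sum_univ_three])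
  have a4 := a2.mul a3 !![-1, 2 + γ, -4 - γ ^ 2; 0, 1, 2 - γ; 0, 0, -1] (by
    rw [hJ]
    ext i j
    fin_cases i <;> fin_cases j <;> simp [Matrix.mul_apply, Fin.sum_univ_three] <;> ring)
  have a5 := a4.mul a4 (1 + Matrix.single 0 (Fin.last 2) (12 + γ ^ 2)) (by
    ext i j
    fin_cases i <;> fin_cases j <;> simp [Matrix.mul_apply, Fin.sum_univ_three] <;> ring)
  exact ⟨Ju F 2, g, h1.1, h1.2, eq_top_of_corner (Subgroup.subset_closure (by simp)) h2
    (a5.tv two_pos) (Or.inr ⟨le_rfl, h3⟩)⟩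

end Cfsg.Agent.S2278
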