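import Cfsg.Statements.S2279
import Cfsg.Agent.H4.GenT5

set_option autoImplicit false
open Cfsg

namespace Cfsg.Agent.S2279

open Cfsg.Agent.H4 Module Polynomial

theorem two {F : Type*} [Field F] [Fintype F] {m : ℕ} (hm : 3 ≤ m) :
    ∃ v : Matrix.SpecialLinearGroup (Fin (m + 1)) F, RU (slEnd v) m ∧
      Subgroup.closure {Ju F m, v} = ⊤ := by
  by_cases h2 : (2 : F) = 0
  · obtain ⟨ζ, h0, h1⟩ := exists_prim (F := F)
    rcases hm.eq_or_lt with rfl | hm'
    · by_cases h4 : Fintype.card F = 4
      · obtain ⟨f, a1, a2, -⟩ := exists_hom_R4 h4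
        obtain ⟨g, hg⟩ := cert44 f
        exact ⟨g * Ju F 3 * g⁻¹, RU.conj_SL (ch_Ju (F := F) (n := 3)).ru g,
          eq_top_of_corner (Subgroup.subset_closure (by simp)) a1
            ((hg _ (Subgroup.subset_closure (by simp)) (Subgroup.subset_closure (by simp))).tv
              (by norm_num)) (Or.inl ⟨le_rfl, a2⟩)⟩
      · exact exists_two_gens_even hm h2 h0 (Or.inr (gens_of_aeval (H6.aeval_cube_surj h0 h1 h4)))
    · exact exists_two_gens_even hm h2 h0 (Or.inl ⟨hm', gens_of_prim h1⟩)
  · exact exists_two_gens_odd hm h2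

theorem conj {F : Type*} [Field F] [Fintype F] {m : ℕ} (hm : 3 ≤ m) (hp : (Fintype.card F).Prime) :
    ∃ g : Matrix.SpecialLinearGroup (Fin (m + 1)) F,
      Subgroup.closure {Ju F m, g * Ju F m * g⁻¹} = ⊤ := by
  by_cases h2 : Fintype.card F = 2
  · obtain ⟨v, h1, h3⟩ := two (F := F) hm
    have c := ch_Ju (F := F) (n := m)
    have key : ∀ f : End F (Fin (m + 1) → F), RU f m → Reg f := fun f hf => by
      by_contra h
      have a1 := LinearMap.finrank_range_add_finrank_ker (f - 1)
      refine hf.2 (LinearMap.range_eq_bot.1 (Submodule.finrank_eq_zero.1 ?_))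
      have a2 : ∀ k, finrank F (LinearMap.range ((f - 1) ^ (k + 1))) + k + 1 ≤ m ∨
          finrank F (LinearMap.range ((f - 1) ^ (k + 1))) = 0 := by
        intro k
        induction k with
        | zero =>
          left
          unfold Reg at h
          rw [zero_add, pow_one]
          simp at a1
          omega
        | succ k ih =>
          have b1 : LinearMap.range ((f - 1) ^ (k + 1 + 1)) ≤ LinearMap.range ((f - 1) ^ (k + 1)) := by
            rw [pow_succ]; exact LinearMap.range_comp_le_range _ _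
          rcases b1.eq_or_lt with b2 | b2
          · right
            obtain ⟨l, hl⟩ := hf.1
            have b3 : ∀ j, LinearMap.range ((f - 1) ^ (k + 1 + j)) =
                LinearMap.range ((f - 1) ^ (k + 1)) := by
              intro j
              induction j with
              | zero => rfl
              | succ j ih =>
                rw [← add_assoc, pow_succ', Module.End.mul_eq_comp, LinearMap.range_comp, ih,
                  ← LinearMap.range_comp, ← Module.End.mul_eq_comp, ← pow_succ', b2]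
            rw [b2, ← b3 l, pow_add, hl, mul_zero]
            simp
          · have := Submodule.finrank_lt_finrank_of_lt b2
            omega
      obtain ⟨k, rfl⟩ : ∃ k, m = k + 1 := ⟨m - 1, by omega⟩
      have := a2 k
      omega
    obtain ⟨g, hg⟩ := isConj_iff.1 (isConj_SL_of_sim (A := Ju F m) (B := v)
      (sim_of_reg_unip rfl c.ru.1 h1.1 (key _ c.ru) (key _ h1)) fun μ hμ => ⟨1, by simp, by
        have := FiniteField.pow_card_sub_one_eq_one μ hμ
        rw [h2, pow_one] at this
        simp [this]⟩)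
    exact ⟨g, hg ▸ h3⟩
  have := Fact.mk hp
  have : CharP F (Fintype.card F) := charP_of_card_eq_prime rfl
  rcases hm.eq_or_lt with rfl | hm'
  · obtain ⟨g, hg⟩ := cert4 (Int.castRingHom F)
    obtain ⟨a1, a2⟩ := hg (Subgroup.closure {Ju F 3, g * Ju F 3 * g⁻¹})
      (Subgroup.subset_closure (by simp)) (Subgroup.subset_closure (by simp))
    by_cases h3 : Fintype.card F = 3
    · have h4 : (3 : F) = 0 := by exact_mod_cast h3 ▸ FiniteField.cast_card_eq_zero F
      have a3 : InM (Subgroup.closure {Ju F 3, g * Ju F 3 * g⁻¹}) (Int.castRingHom F)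
          (1 + Matrix.single 0 (Fin.last 3) 1) := by
        obtain ⟨x, x1, x2⟩ := a2
        refine ⟨x, x1, x2.trans ?_⟩
        ext i j
        fin_cases i <;> fin_cases j <;> simp [h4]
      exact ⟨g, eq_top_of_corner (Subgroup.subset_closure (by simp)) (by simp)
        (a3.tv (by norm_num)) (Or.inl ⟨le_rfl, gens_of_prime hp _⟩)⟩
    · refine ⟨g, eq_top_of_corner (Subgroup.subset_closure (by simp)) (fun h => ?_)
        (a1.tv (by norm_num)) (Or.inl ⟨le_rfl, gens_of_prime hp _⟩)⟩
      have h6 := (CharP.cast_eq_zero_iff F (Fintype.card F) (2 * 3)).1 (by simpa using h)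
      rcases (Nat.Prime.dvd_mul hp).1 h6 with h6 | h6
      · exact h2 ((Nat.prime_dvd_prime_iff_eq hp Nat.prime_two).1 h6)
      · exact h3 ((Nat.prime_dvd_prime_iff_eq hp Nat.prime_three).1 h6)
  by_cases h63 : m = 5 ∧ Fintype.card F = 3
  · obtain ⟨rfl, h3⟩ := h63
    let e := ZMod.ringEquivOfPrime F Nat.prime_three h3
    obtain ⟨g, hg⟩ := cert63 (F := F) e
    exact ⟨g, eq_top_of_corner (Subgroup.subset_closure (by simp))
      ((map_ne_zero (e : ZMod 3 →+* F)).2 (by decide))
      ((hg _ (Subgroup.subset_closure (by simp)) (Subgroup.subset_closure (by simp))).tv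
        (by norm_num)) (Or.inl ⟨by norm_num, gens_of_prime hp _⟩)⟩
  · exact exists_conj_gens_prime hp h2 hm' h63

/-- Let F be a finite field with q elements and n ≥ 4. Then SL_n(F) is generated by two regular unipotent elements (elements u with u − 1 nilpotent and (u − 1)^(n−1) ≠ 0); if q is prime, the two can be taken conjugate in SL_n(F). -/
theorem result {F : Type*} [Field F] [Fintype F] (n : ℕ) (hn : 4 ≤ n) :
    (∃ u v : Matrix.SpecialLinearGroup (Fin n) F, (IsNilpotent ((u : Matrix (Fin n) (Fin n) F) - 1) ∧ ((u : Matrix (Fin n) (Fin n) F) - 1) ^ (n - 1) ≠ 0) ∧ (IsNilpotent ((v : Matrix (Fin n) (Fin n) F) - 1) ∧ ((v : Matrix (Fin n) (Fin n) F) - 1) ^ (n - 1) ≠ 0) ∧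
      Subgroup.closure ({u, v} : Set (Matrix.SpecialLinearGroup (Fin n) F)) = ⊤) ∧
    ((Fintype.card F).Prime → ∃ u g : Matrix.SpecialLinearGroup (Fin n) F, (IsNilpotent ((u : Matrix (Fin n) (Fin n) F) - 1) ∧ ((u : Matrix (Fin n) (Fin n) F) - 1) ^ (n - 1) ≠ 0) ∧
      Subgroup.closure ({u, g * u * g⁻¹} : Set (Matrix.SpecialLinearGroup (Fin n) F)) = ⊤) := by
  obtain ⟨m, rfl⟩ : ∃ m, n = m + 1 := ⟨n - 1, by omega⟩
  refine ⟨?_, fun hp => ?_⟩
  · obtain ⟨v, h1, h2⟩ := two (F := F) (m := m) (by omega)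
    exact ⟨Ju F m, v, ru_Ju, h1.matrix, h2⟩
  · obtain ⟨g, h⟩ := conj (F := F) (m := m) (by omega) hp
    exact ⟨Ju F m, g, ru_Ju, h⟩

end Cfsg.Agent.S2279
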