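import Cfsg.Statements.S2291
import Cfsg.Agent.H6.PU3
import Cfsg.Agent.H5.Gen2SU

set_option autoImplicit false
open Cfsg

namespace Cfsg.Agent.S2291

/-- Let F be a field with q² elements and n ≥ 3 with (n, q) ≠ (3, 2). Then the simple group PSU_n(q) (for the standard Hermitian form) has a presentation with 2 generators and at most 80 relations. -/
theorem result {F : Type*} [Field F] [Fintype F] (q n : ℕ) (hF : Fintype.card F = q ^ 2) (hn : 3 ≤ n) (h32 : ¬ (n = 3 ∧ q = 2)) :
    ∃ rels : Finset (FreeGroup (Fin 2)), rels.card ≤ 80 ∧ Nonempty (PresentedGroup (↑rels : Set (FreeGroup (Fin 2))) ≃* Cfsg.PSU n F q) := by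
  have hU := H5.uf_frob hF
  have := H6.isCyclic_center_su hU (n := n) (by omega)
  have h1 : H3.HasPres (SU n F q) 6 38 := by
    obtain rfl | h4 := hn.eq_or_lt
    · exact H6.hasPres_le (H6.hasPres_su_three (hU := hU) fun h => h32 ⟨rfl, h⟩) (by omega) (by omega)
    have h := (H6.hasPres_su hU (m := n / 2) (r := n % 2) (by omega) (by omega)).mono (m' := 38)
      (by split_ifs <;> norm_num)
    rwa [Nat.div_add_mod] at h
  obtain ⟨n, rfl⟩ := Nat.exists_eq_add_of_le' hn
  obtain ⟨a, b, h⟩ := hU.twoGen_su (n := n) fun h e => h32 ⟨by rw [h], e⟩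
  exact ((H6.hasPres_quot_center (H6.hasPres_two_of_gen h1 h)).mono (by omega)).out

end Cfsg.Agent.S2291
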