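import Cfsg.Statements.S2333
import Cfsg.Agent.H1.SpEta

set_option autoImplicit false
open Cfsg

namespace Cfsg.Agent.S2333

/-- For a finite field F of even order q and n ≥ 2 with (n, q) ≠ (2, 2), every irreducible complex representation of the symplectic group Sp_{2n}(F) of degree at least 2 has degree at least (q^n − 1)(q^n − q)/(2(q + 1)). -/
theorem result {F : Type*} [Field F] [Fintype F] [DecidableEq F] (n : ℕ) (hn : 2 ≤ n) (heven : Even (Fintype.card F)) (hex : (n, Fintype.card F) ≠ (2, 2)) :
    (∀ (k : ℕ) (ρ : Representation ℂ (Matrix.symplecticGroup (Fin n) F) (Fin k → ℂ)), ρ.IsIrreducible → 2 ≤ k → (Fintype.card F ^ n - 1) * (Fintype.card F ^ n - Fintype.card F) / (2 * (Fintype.card F + 1)) ≤ k) := by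
  intro k ρ hρ hk
  have := H1.finite_Isom (H5.stdSp n F)
  let e := (H5.spEquiv n F).symm
  have hirr := H1.isIrreducible_comp_equiv ρ hρ e.toMonoidHom e.surjective
  obtain ⟨ψ, hψ⟩ := H1.exists_psi_complex F
  have h2 : (2 : F) = 0 := by
    have := FiniteField.even_card_iff_char_two (F := F)
    have h := this.mpr (Nat.even_iff.mp heven)
    have := ringChar.spec F 2
    rw [h] at this
    exact_mod_cast this.mpr dvd_rfl
  rcases H1.rkOne_or_bound (H5.isSp_std n) (ρ.comp e.toMonoidHom) hψ (H5.finrank_std_sp n) with h | h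
  · have := H1.finrank_le_one_of_trivial _ hirr
      (H1.trivial_of_rkOne_even _ h2 (by rw [H5.finrank_std_sp]; omega) _ hψ h)
    simp at this
    omega
  · simp only [Module.finrank_fin_fun] at h
    exact Nat.div_le_of_le_mul h

end Cfsg.Agent.S2333
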