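import Cfsg.Statements.S2335
import Cfsg.Agent.H1.SUW

set_option autoImplicit false
open Cfsg

namespace Cfsg.Agent.S2335

/-- For even n ≥ 4 and a finite field F with q² elements, (n, q) not (4, 2) or (4, 3), every irreducible complex representation of the special unitary group SU_n(q) (the determinant-one isometries of the standard Hermitian form over F) of degree at least 2 has degree at least (q^n − 1)/(q + 1). -/
theorem result {F : Type*} [Field F] [Fintype F] [DecidableEq F] (n q : ℕ) (hn : 4 ≤ n) (heven : Even n) (hF : Fintype.card F = q ^ 2) (hex : (n, q) ≠ (4, 2) ∧ (n, q) ≠ (4, 3)) :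
    (∀ (k : ℕ) (ρ : Representation ℂ (Cfsg.SU n F q) (Fin k → ℂ)), ρ.IsIrreducible → 2 ≤ k → (q ^ n - 1) / (q + 1) ≤ k) := by
  intro k ρ hρ hk
  have hU := H5.uf_frob hF
  have := H1.finite_Isom (H5.stdU (Fin n) (H5.frob hF))
  obtain ⟨e, he⟩ := H1.exists_su_hom hU n
  have hirr := H1.isIrreducible_comp_equiv ρ hρ e he
  have := H1.su_min_degree hU (hU.isEps_std (Fin n)) (by simp; omega) (by
    simp only [Module.finrank_fin_fun]
    exact Or.inl hn) _ hirr (by simpa using hk)
  simp only [Module.finrank_fin_fun] at this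
  refine Nat.div_le_of_le_mul (le_trans (le_of_eq ?_) this)
  obtain ⟨m, rfl⟩ := heven
  rw [show (m + m) % 2 = 0 by omega, show 2 * ((m + m) / 2) = m + m by omega, pow_zero, one_mul]

end Cfsg.Agent.S2335
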