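import Cfsg.Statements.S2336
import Cfsg.Agent.H1.PermVec

set_option autoImplicit false
open Cfsg

namespace Cfsg.Agent.S2336

/-- Let F be a finite field with q elements and n ≥ 3. The permutation character of SL_n(F) on the non-zero vectors of F^n (the function sending a matrix to the number of non-zero vectors it fixes) is the sum of the principal character and q − 1 pairwise distinct irreducible complex characters. -/
theorem result {F : Type*} [Field F] [Fintype F] [DecidableEq F] (n : ℕ) (hn : 3 ≤ n) :
    ∃ χ : Fin (Fintype.card F - 1) → (Matrix.SpecialLinearGroup (Fin n) F → ℂ),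
      (∀ i, Cfsg.IsIrrCharacter (Matrix.SpecialLinearGroup (Fin n) F) (χ i)) ∧ Function.Injective χ ∧
      ∀ g : Matrix.SpecialLinearGroup (Fin n) F,
        (Nat.card {v : Fin n → F // v ≠ 0 ∧ (g : Matrix (Fin n) (Fin n) F).mulVec v = v} : ℂ) = 1 + ∑ i, χ i g := by
  classical
  let e := Matrix.SpecialLinearGroup.toLin'_equiv (n := Fin n) (R := F)
  let σ : Matrix.SpecialLinearGroup (Fin n) F →* Module.End F (Fin n → F) :=
    H1.slAct.comp e.toMonoidHom
  have hE : Module.finrank F (Fin n → F) = n := by simp
  obtain ⟨χ, h1, h2, h3, -⟩ := H1.permVec σ (by omega)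
    (fun v v' hv hv' => by
      obtain ⟨g, hg⟩ := H1.exists_move_one (F := F) (by omega) hv hv'
      exact ⟨e.symm g, by simpa [σ] using hg⟩)
    (fun x y y' hy hy' => by
      obtain ⟨g, hg⟩ := H1.exists_move_two (F := F) (by omega) x hy hy'
      exact ⟨e.symm g, by simpa [σ] using hg⟩)
  have hc : Fintype.card (IrrCharacter Fˣ) = Fintype.card F - 1 := by
    have hdeg : ∀ α : IrrCharacter Fˣ, (α : Fˣ → ℂ) 1 = 1 := by
      intro α
      obtain ⟨l, hl⟩ := H1.IsIrrCharacter.exists_hom_of_comm α.2
      rw [hl, map_one]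
    have := H1.sum_sq_degree (G := Fˣ)
    simp only [hdeg, one_pow, Finset.sum_const, Finset.card_univ, nsmul_eq_mul, mul_one,
      Nat.card_eq_fintype_card, Fintype.card_units] at this
    exact_mod_cast this
  let b := (Fintype.equivFinOfCardEq hc).symm
  refine ⟨χ ∘ b, fun i => h1 _, h2.comp b.injective, fun g => ?_⟩
  have := congrFun h3 g
  simp only [Pi.add_apply, Finset.sum_apply] at this
  rw [← b.sum_comp] at this
  exact this

end Cfsg.Agent.S2336
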