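import Cfsg.Statements.S2337
import Cfsg.Agent.H2.SzRep

set_option autoImplicit false
open Cfsg

namespace Cfsg.Agent.S2337

/-- For the Suzuki group Sz(q), q = 2^(2m+1) with m ≥ 1 (realised inside Sp₄ over the field with q elements), every irreducible complex representation of degree at least 2 has degree at least 2^m·(q − 1). -/
theorem result {F : Type*} [Field F] [Fintype F] (m : ℕ) (hm : 1 ≤ m) (hF : Fintype.card F = 2 ^ (2 * m + 1)) :
    (∀ (k : ℕ) (ρ : Representation ℂ (Cfsg.Lie.Sz F (2 ^ (m + 1))) (Fin k → ℂ)), ρ.IsIrreducible → 2 ≤ k → 2 ^ m * (2 ^ (2 * m + 1) - 1) ≤ k) := by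
  have := H2.SzF.of_fintype hm hF
  intro k ρ hρ hk
  have h := H2.Suz.degree_bound (m := m) (V := Fin k → ℂ) (ρ.comp (H2.Suz.equivLie F m).toMonoidHom) (by
    by_contra h
    push Not at h
    have h1 : ∀ g, ρ g = 1 := fun g => by simpa using h ((H2.Suz.equivLie F m).symm g)
    let S : Subrepresentation ρ := ⟨LinearMap.ker (LinearMap.proj (⟨0, by omega⟩ : Fin k)), fun g v hv => by
      rw [h1]; exact hv⟩
    rcases eq_bot_or_eq_top S with h2 | h2
    · have h3 : (Pi.single (⟨1, by omega⟩ : Fin k) (1 : ℂ) : Fin k → ℂ) ∈ S.toSubmodule := by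
        simp [S, Pi.single_apply]
      rw [h2] at h3
      have h4 : (Pi.single (⟨1, by omega⟩ : Fin k) (1 : ℂ) : Fin k → ℂ) = 0 := h3
      have := congrFun h4 ⟨1, by omega⟩
      simp at this
    · have h3 : (Pi.single (⟨0, by omega⟩ : Fin k) (1 : ℂ) : Fin k → ℂ) ∈ S.toSubmodule := by
        rw [h2]; trivial
      simp [S] at h3)
  simpa using h

end Cfsg.Agent.S2337
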