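import Cfsg.Statements.S2338
import Cfsg.Agent.H2.G2d
import Cfsg.Agent.H2.G2e
import Cfsg.Agent.H2.MinUn
import Cfsg.Agent.H2.ReeFaith

set_option autoImplicit false
open Cfsg

namespace Cfsg.Agent.S2338

open Cfsg.Lie Cfsg.Agent.H2 Cfsg.Agent.H8

theorem cert1 : CertAll [1, 1] [2, 6] 5 1 6 [([1], [-1, 1], [1, 4, 0, 1, 1, 2, -2, -3], [5, 3], 4)] [] := by decide +kernel

theorem cert2 : CertAll [2, 2, 1] [1, 2, 6] 20 2 6 [([1], [-1, 2, 2], [83, 108, -119, 0, 32, 64, -147, -76, 119], [-339, -281, -119], 256),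
    ([1], [-2, 2, 2], [132, 73, -124, 9, 24, 36, -162, -55, 130], [-453, -335, -130], 189)] [(2, 2)] := by decide +kernel

theorem cert3 : CertAll [0, 1, 0, 1] [2, 6] 55 2 6 [([1], [-1, 0, 1, 0], [3, 0, 1, 0, 1, 0, -3], [5, 0, 3], 2),
    ([-1, 0, 1], [2, 0], [13, 0, -6, 0, 3, 0, -1], [1], 27)] [(2, 2), (4, 2)] := by decide +kernel


/-- Lower bounds for the degrees of non-linear irreducible complex representations of the Chevalley group of type G₂ over a finite field with q elements: the degree is at least q³ + 1 when q ≡ 1 (mod 3) and q > 4, at least q³ − 1 when q ≡ 2 (mod 3) and q > 2, and at least q⁴ + q² + 1 when q ≡ 0 (mod 3) and q > 3. -/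
theorem result {F : Type*} [Field F] [Fintype F] (k : ℕ) (ρ : Representation ℂ (Cfsg.Lie.chevG2.group F) (Fin k → ℂ)) (hρ : ρ.IsIrreducible) (hk : 2 ≤ k) :
    (Fintype.card F % 3 = 1 → 4 < Fintype.card F → Fintype.card F ^ 3 + 1 ≤ k) ∧
    (Fintype.card F % 3 = 2 → 2 < Fintype.card F → Fintype.card F ^ 3 - 1 ≤ k) ∧
    (Fintype.card F % 3 = 0 → 3 < Fintype.card F → Fintype.card F ^ 4 + Fintype.card F ^ 2 + 1 ≤ k) := by
  classical
  have := H7.isChev_xg.finite_G (H7.GG_xg (D := chevG2) (F := F))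
  have hx := Ree.stb (K := F)
  have hk' : Module.finrank ℂ (Fin k → ℂ) = k := by simp
  have hq := FiniteField.isPrimePow_card F
  have hnt : ¬ ∀ r t, ρ (Ree.xx F r t) = 1 := fun h => absurd (H1.finrank_le_one_of_trivial ρ hρ fun y =>
    (XS_le (H := ρ.ker)).2 (fun r _ t => h r t) (Ree.mem_GG y)) (by omega)
  have hG : (Nat.card (chevG2.group F) : ℤ) ∣ Fintype.card F ^ 6 * ([2, 6].map fun d : ℕ => (Fintype.card F : ℤ) ^ d - 1).prod :=
    Nat.card_eq_fintype_card (α := F) ▸ Dvd.intro _ (card_group (c := (chevG2, [2, 6])) (by simp))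
  have h3 : Fintype.card F % 3 ≠ 0 → (3 : F) ≠ 0 := fun h e => h (Nat.mod_eq_zero_of_dvd
    ((prime_dvd_char_iff_dvd_card 3).1 (dvd_of_eq ((Nat.prime_dvd_prime_iff_eq (CharP.char_is_prime F _) Nat.prime_three).1
      ((ringChar.spec F 3).1 e)).symm)))
  refine ⟨fun h1 h2 => not_lt.1 fun h => ?_, fun h1 h2 => not_lt.1 fun h => ?_, fun h1 h2 => not_lt.1 fun h => ?_⟩
  · obtain ⟨ω, hω⟩ := exists_prime_orderOf_dvd_card (G := Fˣ) 3 (by rw [Fintype.card_units]; omega)
    have h4 : (ω : F) ^ 2 + ω + 1 = 0 := mul_left_cancel₀ (sub_ne_zero.2 fun e : (ω : F) = 1 => by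
      simp [show ω = 1 from Units.ext e] at hω) (by
        have : (ω : F) ^ 3 = 1 := by simpa [hω] using congrArg Units.val (pow_orderOf_eq_one ω)
        linear_combination this)
    obtain ⟨d, h5, h6⟩ := G2.bound1 hx (h3 (by omega)) h2 hnt (by omega) h4
    replace h5 := (Int.natCast_dvd_natCast.2 h5).trans hG
    rcases h6 with h6 | h6 <;> zify at h6
    · obtain ⟨j, hj, -⟩ := mem_of_certs cert1 hq (k := d) (by simp only [pv]; push_cast; linarith) (by simp only [pv]; linarith) h5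
      simp at hj
    · obtain ⟨j, hj, -⟩ := mem_of_certs cert2 hq (k := 3 * d) (by simp only [pv]; push_cast; linarith)
        (by simp only [pv]; push_cast; linarith) (by
          simpa [mul_left_comm] using mul_dvd_mul (by omega : (3 : ℤ) ∣ Fintype.card F - 1) h5)
      simp at hj; omega
  · have h4 : Fintype.card F ≠ 4 := by omega
    have := G2.bound2 hx (h3 (by omega)) (by omega) hnt (by omega)
    omega
  · have h4 : ringChar F = 3 := ((Nat.prime_dvd_prime_iff_eq Nat.prime_three (CharP.char_is_prime F _)).1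
      ((prime_dvd_char_iff_dvd_card 3).2 (Nat.dvd_of_mod_eq_zero h1))).symm
    have h5 : ((3 : ℕ) : F) = 0 := (ringChar.spec F 3).2 h4.dvd
    have h6 : 8 < Fintype.card F := by
      obtain ⟨n, -, hn⟩ := FiniteField.card F (ringChar F)
      rw [hn, h4] at h2 ⊢
      exact lt_of_lt_of_le (by norm_num) (Nat.pow_le_pow_right three_pos ((Nat.pow_lt_pow_iff_right (by norm_num)).1
        (h2.trans_eq' (pow_one 3).symm) : 2 ≤ (n : ℕ)))
    have h7 : Fintype.card F ^ 4 + Fintype.card F ^ 2 ≤ k + 2 := not_lt.1 fun h7 => by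
      obtain ⟨φ, hφ⟩ := Ree.exists_graph (K := F) h5 (RingHom.id F)
      have h8 : ∀ r t, ∃ u, Ree.xx F (Ree.piR r) t = φ (Ree.xx F r u) := fun r t => by
        have : Ree.exR r = 1 ∨ Ree.exR r = 3 := by
          by_cases hr : r < 12
          · interval_cases r <;> decide
          · left; rw [Ree.exR, List.getD_eq_default _ _ (by simpa using not_lt.1 hr)]
        rcases this with e | e
        · exact ⟨t, by simp [hφ, e]⟩
        · obtain ⟨u, rfl⟩ := G2.cube_surj h5 t
          exact ⟨u, by simp [hφ, e]⟩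
      refine absurd (G2.bound3 hx h5 h6 hnt (G2.side hx h5 h6 hnt (hk'.symm ▸ h7)) fun h9 =>
        G2.side (R := ρ) (hx.map φ) h5 h6 (fun h10 => hnt fun r t => ?_) (hk'.symm ▸ h7) fun v hv => mem_Wy_zero.2 fun t => ?_) (hk'.symm ▸ h7.not_ge)
      · by_cases hr : r < 12
        · obtain ⟨u, hu⟩ := h8 (Ree.piR r) t
          rw [← h10 _ u, ← hu, show Ree.piR (Ree.piR r) = r from by interval_cases r <;> rfl]
        · rw [hx.out r (not_lt.1 hr), map_one]
      · rw [hφ]
        refine mem_Wy_zero.1 (h9 (G2.mem_FZ.2 ⟨trivial, fun z hz => mem_Wy_zero.2 fun t => ?_⟩)) _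
        obtain ⟨r, hr, rfl⟩ := (by decide : ∀ z ∈ [6, 8, 9, 10, 11], ∃ r ∈ [7, 8, 9, 10, 11], Ree.piR r = z) z hz
        obtain ⟨u, hu⟩ := h8 r t
        exact hu ▸ mem_Wy_zero.1 (G2.FZ_fix hv r hr) u
    replace hG := (Int.natCast_dvd_natCast.2 (hk' ▸ finrank_dvd_card ρ hρ)).trans hG
    rcases (Nat.lt_succ_iff.1 h).eq_or_lt with rfl | h8
    · have h8 : (Fintype.card F : ℤ) ^ 2 + 1 ∣ 4 := by
        have h8 := Dvd.dvd.trans (Dvd.intro ((Fintype.card F : ℤ) ^ 2) (by push_cast; ring) : (Fintype.card F : ℤ) ^ 2 + 1 ∣ _) hG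
        simp only [List.map_cons, List.map_nil, List.prod_cons, List.prod_nil] at h8
        generalize (Fintype.card F : ℤ) = q at h8
        exact (dvd_add_right h8).1 ⟨q ^ 12 - 2 * q ^ 10 + 2 * q ^ 8 - 3 * q ^ 6 + 4 * q ^ 4 - 4 * q ^ 2 + 4, by ring⟩
      have := Int.le_of_dvd (by norm_num) h8
      nlinarith
    · zify at h7 h8
      obtain ⟨j, hj, -⟩ := mem_of_certs cert3 hq (k := k) (by simp only [pv]; push_cast; linarith) (by simp only [pv]; linarith) hG
      simp at hj; omega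

end Cfsg.Agent.S2338
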