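import Cfsg.Statements.S2340
import Cfsg.Agent.H2.MinUn
import Cfsg.Agent.H8.LiftTabE6

set_option autoImplicit false
open Cfsg

namespace Cfsg.Agent.S2340

open Cfsg.Lie Cfsg.Agent.H2 Cfsg.Agent.H7 Cfsg.Agent.H8

theorem cert : CertAll [1, 0, 0, 1, 1, 0, 1, 1, 0, 0, 1] [2, 5, 6, 8, 9, 12] 37 6 36
    [([1, -1, 1], [-1, 0, 1, 1, 1, 1, 0, 0, 1], [-3401703, 21750857, -7819205, 8084270, 13499495, -1359952, -12052084, -1919107, 4902033, -25656049, -21404397, 9414762, -3837150, -34825400, 15871241, 29601921, -11165718, 504814, 36147581, 13157820, -18002502, 18660632, 28454445, -16881846, -15545254, 15384873, -12623931, -35873936, 1556050, 4585050, -22095497, -7988713, 16350469, 3995417, -6300048, 13217084, 14784107, 939670, -2178105, 5187745, -3139827, -7979912], [16598297, 21750857, 12180795, 11485973, 15150341, 8110099, 5931994, 11119739, 7979912], 20000000),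
    ([1, 0, 1], [-2, 1, 2, -1, -1, 2, 1, -1, 0], [67066805, 103637562, 18635348, 48845898, 60691864, -21662747, -121018419, -66504956, -79236483, -191780031, -142652188, 4851931, -85649059, -113543419, 147005038, 182704297, 40087630, 145101514, 270767743, 58657865, -20065284, 165414947, 112222021, -141835970, -84628562, -10113641, -200914670, -250306933, -30883537, -41225879, -145434124, 5912691, 102128967, 33656284, 41887767, 145763239, 88182016, 16597098, 21733484, 27535938, -59926357, -74921688], [187701610, 140208319, -12798866, 79056448, 193172635, 53188204, -27535938, 59926357, 74921688], 53568000),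
    ([1], [-3, 1, 0, 0, 1, 1, 0, 1, 1, 0, 0], [204080366, 248932719, 61944555, 74173745, 80317830, -139854021, -379843730, -204953454, -235465161, -495827865, -334084919, 70919761, -149862092, -175015678, 488414596, 556222289, 167715069, 419174562, 715205524, 132114943, -85611604, 364350346, 197001798, -464999141, -307130078, -108738236, -575247781, -668020829, -79242938, -81034842, -325560794, 73927511, 317265265, 138011519, 149606621, 395168380, 230042804, 35910195, 37412130, 44158795, -172601461, -197196699], [677581098, 542717791, 614482044, 703294471, 577181423, 427982591, 486925869, 332386030, 153037904, 172601461, 197196699], 65340000),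
    ([1], [-4, 1, 0, 0, 1, 1, 0, 1, 1, 0, 0], [83412867809, 90246662648, 12951160168, 13967829032, 14838366706, -68317229697, -157403738769, -85035039616, -91465716427, -182369854907, -111676896890, 48184931617, -32425831385, -34796046951, 215256465548, 231204059579, 79959611294, 170200954244, 267118759547, 34414044375, -47229590350, 117714376539, 42323885831, -207142793572, -138395646778, -64417136305, -237596855932, -255392331699, -21854086901, -23435285219, -109416664874, 50741300041, 138748240889, 64920148928, 69709113267, 159078166755, 86797461970, 9086825408, 9745332424, 10485113648, -72890956987, -78328134528], [336683152196, 277573782783, 298241130220, 320493938743, 260213900203, 195410274988, 209975286987, 141473759091, 67843020880, 72890956987, 78328134528], 3031680960),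
    ([1], [-5, 1, 0, 0, 1, 1, 0, 1, 1, 0, 0], [60313918686580, 62232378335065, 3883335691207, 4006730903847, 4132051801766, -56060235915557, -118157687138050, -61580433068862, -63532675054995, -125867499086035, -69532755808391, 48907231769395, -9865357638330, -10177415453466, 170468531617768, 175869708470513, 60797102221031, 123047155978822, 187269085663024, 12235176204715, -47699633635942, 71434591437418, 13375561860586, -167168753113613, -112143463125304, -55374098837014, -177774266386205, -183408152837295, -8252198804964, -8513568638930, -69106212310094, 49348921503587, 111235544717577, 54437922418377, 56162830206125, 118265185983658, 61690487365214, 3322800594855, 3428035335550, 3536728232695, -56673719191193, -58469686784895], [301612797603140, 250847972988745, 258797097724110, 266998291816773, 215136707142513, 161631561018717, 166753563933433, 111715370640538, 54932958552200, 56673719191193, 58469686784895], 43204170240),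
    ([-1, 1], [6, 5, 5, 5, 4, 3, 3, 2, 1, 1], [3288912756985, -2738327361233, -453869637168, -83848038492, 533755777056, 189463025003, -504265119560, 362721197525, 237271717667, -363521578808, -217831633747, 561211426693, -120407067906, -176982031626, -184269538515, 238485234687, 136849092367, -239091503374, 17654499771, 157663962822, -40965579475, -147397800419, 72562696590, 96360587667, -50995480274, -103325429929, 75218555907, 63027607977, -78231834150, -14652552066, 58274947469, -636387227, -44821571152, 12065029147, 30349610437, -12456703000, -19911993125, 12449707908, 9218409216, -11332376652, -2105584393, 4209564197], [11753230890, -14599617527, -17955924862, 4909820505, 4083569327, -13734431626, -6303556369, 5018832651, -2103979804, -4209564197], 19745229772800)] [(2, 2), (4, 4)] := by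
  decide +kernel

theorem dvd_centralizer {G : Type*} [Group G] [Finite G] {X P : Subgroup G} (hP : P ≤ Subgroup.normalizer (X : Set G))
    {p : ℕ} (hp : p.Prime) (h1 : p ∣ Nat.card P) (h2 : Nat.card X < p) {g : G} (hg : g ∈ X) :
    p ∣ Nat.card (Subgroup.centralizer {g}) := by
  have h3 : ∀ a b : P, (QuotientGroup.leftRel ((Subgroup.centralizer {g}).subgroupOf P)) a b ↔
      a.1 * g * a.1⁻¹ = b.1 * g * b.1⁻¹ := fun a b => by
    rw [QuotientGroup.leftRel_apply, Subgroup.mem_subgroupOf, Subgroup.mem_centralizer_singleton_iff]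
    refine ⟨fun h => ?_, fun h => ?_⟩
    · simpa [mul_assoc] using congrArg (fun y => a.1 * y * b.1⁻¹) h.symm
    · simpa [mul_assoc] using congrArg (fun y => a.1⁻¹ * y * b.1) h.symm
  have h4 : ((Subgroup.centralizer {g}).subgroupOf P).index ≤ Nat.card X := Nat.card_le_card_of_injective
    (Quotient.lift (fun a : P => (⟨_, (Subgroup.mem_normalizer_iff.1 (hP a.2) g).1 hg⟩ : X))
      fun a b h => Subtype.ext ((h3 a b).1 h))
    fun a b => Quotient.inductionOn₂ a b fun a b h => Quotient.sound ((h3 a b).2 (congrArg Subtype.val h))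
  rw [← Subgroup.card_mul_index ((Subgroup.centralizer {g}).subgroupOf P)] at h1
  refine ((hp.dvd_mul.1 h1).resolve_right fun h => ?_).trans (Subgroup.card_comap_dvd_of_injective _ _ P.subtype_injective)
  have := Nat.le_of_dvd (Nat.pos_of_ne_zero Subgroup.index_ne_zero_of_finite) h
  omega

theorem poinA4 (y : ℕ) : poin chevE6 {j | j ∈ [0, 2, 3, 4]} y = hor [1, 1, 1, 1, 1] y * poin chevE6 {j | j ∈ ([2, 3, 4] : List ℕ)} y :=
  poin_step' agrE6 (S := [56, 46, 42, 39, 37, 36]) (k := 0) [(8947849, 0, 1), (8948103, 1, 4311875584), (8951688, 2, 8640331778), (9009304, 3, 17213620227), (9930904, 4, 12952272900)] (by decide +kernel) (by decide +kernel) y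

theorem dvd_cent {D : ChevalleyDatum} [RootFacts D] [NFacts D] [SLFacts D] {F G : Type*} [Field F] [Finite F] [Group G]
    [Finite G] {x : ℕ → F → G} (hx : IsFaith D x) {θ p : ℕ} {J : List ℕ} (h3 : θ < D.nroots ∧
      (∀ r < D.nroots, D.IsPosRoot r → 0 ≤ A D r θ) ∧ ∀ j ∈ J, A D (D.simple j) θ = 0) (hp : p.Prime)
    (h4 : p ∣ poin D {j | j ∈ J} (Nat.card F)) (h5 : Nat.card F < p) : p ∣ Nat.card (Subgroup.centralizer {x θ 1}) := by
  have h1 := Nrm.of_nonneg (D := D) (T := {r | r < D.nroots ∧ 0 ≤ A D r θ}) (U := {θ})
    fun r hr s hs => ⟨hr.1, hs ▸ h3.1, hs ▸ hr.2⟩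
  have h2 := hx.toIsSt.XS_le_normalizer h1.1 h1.2
  refine dvd_centralizer (P := hx.toIsSt.cellSubgroup {j | j ∈ J}) (X := XS x {θ}) ?_ hp
    ((h4.mul_left _).trans (card_cellSubgroup hx _).symm.dvd)
    ((Nat.card_le_card_of_surjective (fun t => (⟨x θ t, x_mem_XS (Set.mem_singleton θ) t⟩ : XS x {θ}))
      fun y => let ⟨t, ht⟩ := hx.toIsSt.mem_XS_singleton y.2; ⟨t, Subtype.ext ht.symm⟩).trans_lt h5) (x_mem_XS (Set.mem_singleton θ) 1)
  rw [IsSt.cellSubgroup_eq]
  refine sup_le (sup_le ((XS_mono x (T := {r | r < D.nroots ∧ 0 ≤ A D r θ}) fun r hr => ⟨hr.1, h3.2.1 r hr.1 hr⟩).trans h2)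
    (hx.toIsSt.HH_le_normalizer _)) ((Subgroup.closure_le _).2 ?_)
  rintro _ ⟨j, hj, hj', rfl⟩
  have h6 := simple_lt (D := D) ⟨j, hj'⟩
  have h7 := fun t => h2 (x_mem_XS (r := D.simple j) (And.intro h6 (h3.2.2 j hj).ge) t)
  have h8 := fun t => h2 (x_mem_XS (r := D.neg (D.simple j)) (And.intro (neg_lt h6) (by rw [A_neg_left h6, h3.2.2 j hj]; rfl)) t)
  exact mul_mem (mul_mem (h7 _) (h8 _)) (h7 _)

theorem not_dvd_index {F : Type*} [Field F] [Finite F] (hq : Nat.card F = 2 ∨ Nat.card F = 4) :
    ¬ 31 ∣ (Subgroup.centralizer {xg chevE6 F (chevE6.nroots - 1) 1}).index := fun h => by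
  have := H7.isChev_xg.finite_G (H7.GG_xg (D := chevE6) (F := F))
  have h4 := dvd_cent (H7.isChev_xg (D := chevE6) (F := F)).toIsFaith (θ := chevE6.nroots - 1) (p := 31) (J := [0, 2, 3, 4])
    (by rw [A_tab tablesE6]; decide +kernel) (by norm_num) (by
      rw [poinA4]; exact Dvd.dvd.mul_right (by rcases hq with h | h <;> rw [h] <;> decide) _) (by omega)
  have h5 := mul_dvd_mul h4 h
  rw [Subgroup.card_mul_index] at h5
  replace h5 := ((Int.natCast_dvd_natCast.2 h5).mul_right _).trans
    (card_group (F := F) (c := (chevE6, [2, 5, 6, 8, 9, 12])) (by simp)).dvd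
  rcases hq with h | h <;> rw [h] at h5 <;> revert h5 <;> decide +kernel


/-- For the Chevalley group of type E₆ over a finite field with q elements (the group generated by the root elements), every irreducible complex representation of degree at least 2 has degree at least q(q⁶ + q³ + 1)(q⁴ + 1). -/
theorem result {F : Type*} [Field F] [Fintype F] :
    (∀ (k : ℕ) (ρ : Representation ℂ (Cfsg.Lie.chevE6.group F) (Fin k → ℂ)), ρ.IsIrreducible → 2 ≤ k → Fintype.card F * (Fintype.card F ^ 6 + Fintype.card F ^ 3 + 1) * (Fintype.card F ^ 4 + 1) ≤ k) := by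
  intro k ρ hρ hk
  rw [← Nat.card_eq_fintype_card]
  by_contra h
  have hq : IsPrimePow (Nat.card F) := Nat.card_eq_fintype_card (α := F) ▸ FiniteField.isPrimePow_card F
  have h0 : (k : ℤ) < pv (Nat.card F) (0 :: [1, 0, 0, 1, 1, 0, 1, 1, 0, 0, 1]) := by
    zify at h; simp only [pv]; linarith
  have hk' : Module.finrank ℂ (Fin k → ℂ) = k := by simp
  obtain ⟨d, h1, h2, h3⟩ := boundU (c := ocE6) tablesE6 (by decide +kernel) ρ (i := ⟨1, by decide⟩)
    (dep := fun j => [3, 0, 2, 1, 2, 3].getD j 0) (N := 9) (g := 39) (E := [0, 0, 1, 0, 1, 2, 0, 1, 2, 3, 0, 1, 2, 3, 2, 3, 4, 4, 5, 6, 0, 1, 2, 3, 4, 3, 4, 5, 5, 6, 7, 6, 7, 8, 9]) (by decide +kernel) hρ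
    (hk'.symm ▸ hk) (hk'.symm ▸ lt_of_psh hq.two_le (by decide +kernel) h0)
  obtain ⟨j, hj, h4⟩ := mem_of_certs cert hq (le_of_filt (r := 6) hq.one_lt.le (by decide +kernel) h1 (hk' ▸ h2)) h0
    (hk' ▸ finrank_dvd_order ρ hρ (card_group (c := (chevE6, [2, 5, 6, 8, 9, 12])) (by simp)))
  simp only [List.mem_cons, Prod.mk.injEq, List.not_mem_nil, or_false] at hj
  have h5 := not_dvd_index (F := F) (by omega)
  rw [hk'] at h2 h3
  have h6 : 31 ∣ k → 31 ∣ Nat.card F * d := fun h6 => ((by norm_num : Nat.Prime 31).dvd_mul.1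
    (h6.trans (Int.natCast_dvd_natCast.1 (by push_cast; exact h3)))).resolve_left h5
  rcases hj with ⟨h7, rfl⟩ | ⟨h7, rfl⟩ <;> rw [h7] at h1 h2 h4 h6 <;> simp [pv] at h1 h2 h4 <;> omega

end Cfsg.Agent.S2340
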