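import Cfsg.Statements.S2341
import Cfsg.Agent.H2.MinT2
import Cfsg.Agent.H8.LiftTabE6

set_option autoImplicit false
open Cfsg

namespace Cfsg.Agent.S2341

open Cfsg.Lie Cfsg.Agent.H2 Cfsg.Agent.H7 Cfsg.Agent.H8

theorem cert : CertAll [1, 0, 0, -1, 1, 0, 1, -1, 0, 0, 1] [4, 10, 12, 16, 18, 24] 168 2 72
    [([1, 0, -1, 0, 1], [-1, 1, -1, 1, -1, 1, 0], [3970107879098, 6710589669073, 29045974653798, 30137501194454, 9724475775028, 18208036689045, 10661121116086, 1224133209880, 4210351671596, 19153702282960, 7379118977149, 8856750257044, -16244185828984, -28576536724763, -22674844431264, -23757350719063, -11464160835656, -1894227378921, -26020828710549, -38436872463821, -35012708992678, -55932969668061, -12783012351868, 3346052117089, -7299779733288, -8549826331501, -21746755869314, -45358388994121, 9604498504627, 14848560211081, 34664196102541, 57228012779499, 17368910146326, 7501465417519, 17410212761299, 9394804446488, 42922433166646, 71929870364165, 24973904164930, 32017399423877,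 604128029564, -17217047412848, 21453191530992, 31634107026553, 29399028045261, 51880675993706, -13530424131502, -27530211177254, -20548151807142, -31388415415384, -4961803469956, 10681612246036, -26483078091412, -31409558545360, -48447428002335, -72320480698160, -14818489596407, -12871416615911, -5099321135510, 1839605480300, -25582947803333, -40488704088080, -5837719767652, -11040424445803, 15578246184740, 25935833428742, 9707119609870, 10172917850588, 6034949999082, 597887450702, 24712614087043, 32946555334797, 18738341231019, 26740108682171, 6593488580770, 4876290794963, 2520144243442, 2060129299886, 5144202231700, 11003705157459, -9456894152171, -11003375343579, -15056051034623, -20680936856163], [25791844755345, 2740481789975, 26305492863823, 3832008330631, 31684312199742, 15056051034623, 20680936856163], 21821736876247),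
    ([-1, 1], [2, 1, 1, 1, 2, 1, 1, 0, 1, 1], [8317242306277, -1678284073304, -675136628060, -1956704951117, -7444491119934, -7349990370, 556002487650, 7296715223382, 2112481859394, -3121930598514, -5187332820451, -6538511407426, 1445222416825, 4369014965155, 8140082665532, 1333272641573, -5791137939271, -7437650825902, -5666134321643, 4590403680967, 8796470546456, 8976710127641, 381878773855, -7579145679002, -8123476618119, -4317371436927, 7060667051229, 10004970616161, 8475688062216, -389388016863, -9686083580919, -9356700980286, -3630047088380, 6892912572019, 10603792542572, 6738659412782, -3892165201809, -11333015662428, -10293455629083, -2993427925995, 8307668520260, 10771367276093, 5423983301419, -4244588833094, -12155226762459, -8876795185083, -733617373254, 7801120609437, 9347540329342, 3409753797148, -5628098948611, -9741693587002, -5806217026572, 1612797934467, 9033470912883, 7778744514354, 2109770686941, -3840402894087, -6630860778663, -2959310348031, 2638351824344,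 5830031469497, 5281100131039, 1264921484230, -3194222044669, -4591842892687, -2043376374080, 1444118331007, 4195782771907, 2987461130146, -344576446489, -2653387052035, -3911810973404, -1900312312133, 731420458626, 2490103383078, 1639015769154, -760816806594, -2635883186910, -2289950344266, -425627861539, 996461457158, 1709995271966, 774716194067], [-2182584819146, -4960674159669, -5288684976853, -2050411702679, 382038460649, 169684360513, -2280828867585, -3481172923191, -2484711466033, -774716194067], 14451899793408)] [] := by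
  decide +kernel

theorem comm {K G k V : Type*} [Field K] [Group G] [Finite G] [Field k] [Finite k] [AddCommGroup V] [Module ℂ V]
    [FiniteDimensional ℂ V] {M : MD chevE6 K G k} {R : M.S →* Module.End ℂ V} {q : ℕ} (hρ : M.ρ = rhoE6)
    (hS : M.S = twS M.x (e6Words K q)) (h1 : ∀ t, R (M.z 46 t) = 1) (h2 : ∀ t, R (M.z 39 t) = 1) (a b : M.S) :
    Commute (R a) (R b) := by
  have h0 : (∀ r ∈ [46, 25, 39, 32, 44, 60], r < chevE6.nroots ∧ M.ρ r = r) ∧
      (∀ p ∈ [(39, 43, 42), (44, 59, 56), (60, 56, 26), (44, 26, 35), (39, 34, 31), (44, 31, 42)],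
        2 ≤ A chevE6 p.2.2 p.2.1 - A chevE6 p.1 p.2.1 * A chevE6 p.2.2 p.1) ∧
      (∀ p ∈ [(37, 43, 44), (36, 59, 60)], p.1 < chevE6.nroots ∧ p.2.1 < chevE6.nroots ∧ A chevE6 p.1 p.2.1 = -1 ∧
        2 ≤ A chevE6 p.2.2 p.2.1 + A chevE6 p.2.2 p.1) ∧
      (∀ p ∈ [(56, 36), (15, 35), (42, 37), (29, 34)], M.ρ p.1 = p.2 ∧ M.ρ p.2 = p.1) ∧
      chevE6.neg 46 = 25 ∧ chevE6.neg 39 = 32 := by
    rw [hρ, A_tab tablesE6]; decide +kernel
  have h3 : (∀ r ∈ [35, 15, 42, 37], ∀ s ∈ [35, 15, 42, 37], r < chevE6.nroots ∧ s < chevE6.nroots ∧ 0 ≤ A chevE6 r s) ∧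
      ∀ r ∈ [35, 15, 42, 37], M.ρ r ∈ [35, 15, 42, 37] ∧ M.ρ⁻¹ r ∈ [35, 15, 42, 37] := by
    rw [hρ, A_tab tablesE6]; decide +kernel
  simp only [List.forall_mem_cons] at h0
  obtain ⟨⟨f1, f2, f3, f4, f5, f6, -⟩, ⟨a1, a2, a3, a4, a5, a6, -⟩, ⟨⟨b1, b2, b3, b4⟩, ⟨b5, b6, b7, b8⟩, -⟩,
    ⟨c1, c2, c3, c4, -⟩, d1, d2⟩ := h0
  have h4 := MD.triv_of_comm f5 (sm_of_A b1 b2 b3 b4) ((MD.le_refl_of f3 h2 a1).trans (c3.1 ▸ MD.le_rho))
  have h5 := MD.triv_of_comm f6 (sm_of_A b5 b6 b7 b8) ((MD.le_refl_of f5 h4 a2).trans (c1.1 ▸ MD.le_rho))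
  have h6 : ∀ r s t u, M.ρ r = s → ev M.x [(r, t), (s, u)] ∈ XS M.x (orb M.ρ r) := fun r s t u e =>
    ev_mem (by simpa using ⟨x_mem_XS (MD.mem_orb r) t, x_mem_XS (e ▸ (MD.mem_orb r).apply_right) u⟩)
  refine MD.comm_all hS (T := {r | r ∈ [35, 15, 42, 37]}) (fun r hr s hs u hu v hv => (MD.commute_Y (fun r' h7 s' h8 =>
    h3.1 r' (MD.mem_of_orb h3.2 hr h7) s' (MD.mem_of_orb h3.2 hs h8)) hu hv).map R) ?_ a b
  rintro _ (⟨t, -, r, hr, rfl⟩ | ⟨t, r, hr, rfl⟩)
  · refine ⟨r, mul_mem (x_mem_XS (MD.mem_orb r) t) (one_mem _), 35, by simp, ?_⟩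
    simp only [List.mem_cons, List.not_mem_nil, or_false] at hr
    rcases hr with rfl | rfl | rfl | rfl
    exacts [MD.le_fx f1 h1, MD.le_fx f2 (d1 ▸ MD.triv_neg f1 h1 :), MD.le_fx f3 h2, MD.le_fx f4 (d2 ▸ MD.triv_neg f3 h2 :)]
  · simp only [List.mem_cons, List.not_mem_nil, or_false] at hr
    rcases hr with rfl | rfl | rfl | rfl
    · exact ⟨56, h6 _ _ _ _ c1.1, 35, by simp, (MD.le_refl_of f6 h5 a3).trans (MD.le_refl_of f5 h4 a4)⟩
    · exact ⟨15, h6 _ _ _ _ c2.1, 35, by simp, c2.1 ▸ MD.le_rho⟩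
    · exact ⟨42, h6 _ _ _ _ c3.1, 37, by simp, c3.1 ▸ MD.le_rho⟩
    · exact ⟨29, h6 _ _ _ _ c4.1, 42, by simp, MD.Le.trans (c4.1 ▸ MD.le_rho)
        ((MD.le_refl_of f3 h2 a5).trans (MD.le_refl_of f5 h4 a6))⟩


/-- For the twisted group ²E₆(q), realised over the field with q² elements (q a prime power), every irreducible complex representation of degree at least 2 has degree at least q(q⁶ − q³ + 1)(q⁴ + 1). -/
theorem result {K : Type*} [Field K] [Fintype K] (q : ℕ) (hq : IsPrimePow q) (hK : Fintype.card K = q ^ 2) :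
    (∀ (k : ℕ) (ρ : Representation ℂ (Cfsg.Lie.twistedE6 K q) (Fin k → ℂ)), ρ.IsIrreducible → 2 ≤ k → q * (q ^ 6 - q ^ 3 + 1) * (q ^ 4 + 1) ≤ k) := by
  intro k ρ hρ hk
  by_contra h
  have h0 : (k : ℤ) < pv q (0 :: [1, 0, 0, -1, 1, 0, 1, -1, 0, 0, 1]) := by
    have := Nat.pow_le_pow_right hq.pos (show 3 ≤ 6 by omega)
    zify [this] at h; simp only [pv]; linarith
  have hk' : Module.finrank ℂ (Fin k → ℂ) = k := by simp
  obtain ⟨φ, hφ⟩ := exists_frob hK two_ne_zero
  have hx : IsChev chevE6 (xg chevE6 K) := H7.isChev_xg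
  have := hx.finite_G H7.GG_xg
  obtain ⟨σ, h1⟩ := exists_twistE6 hx H7.GG_xg φ
  have h2 := twSubE6 hx.toIsFaith hφ (fun t => by rw [hφ, hφ, ← pow_mul, ← pow_two, ← hK, FiniteField.pow_card]) h1
  have h3 : TwChk chevE6.nroots 2 (A chevE6) (fun r => (fun i : Fin chevE6.rank => [2241586, 2377282, 3434595, 4623492, 3434595, 2241586].getD i 0) ⬝ᵥ wt chevE6 r)
      rhoE6 fun r => (twT H7.twE6 r).2.2 := by rw [A_tab tablesE6, F_tab tablesE6]; decide +kernel
  have h4 := card_eqLocus hK hφ two_ne_zero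
  let M := (th_of hK hφ le_rfl okE6 h2 h1 hx.toIsFaith h3).md _ (h3.c_rho h1.lt) (fun r hr => by
    rw [ord_eq_pk tablesE6 _ hr.1]
    exact (by decide +kernel : ∀ r < 72, chevE6.IsPosRoot r → 0 < ordOf chevE6 H8.twE6 [2241586, 2377282, 3434595, 4623492, 3434595, 2241586] r) r hr.1 hr)
    (by rw [h4, Nat.card_eq_fintype_card, hK])
  have h5 : MinChk chevE6.nroots chevE6.rank (A chevE6) (fun r => (fun i : Fin chevE6.rank => [2241586, 2377282, 3434595, 4623492, 3434595, 2241586].getD i 0) ⬝ᵥ wt chevE6 r)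
      rhoE6 chevE6.simple (fun j => [0, 0, 0, 1].getD j 0) 1 9 [0, 2, 0, 1, 3, 4, 4, 5, 6, 8, 9] ∧ rhoE6 39 = 39 ∧
      A chevE6 (chevE6.nroots - 1) 39 = 0 ∧ A chevE6 (chevE6.simple 1) 39 = -1 ∧ rhoE6 (chevE6.simple 3) = chevE6.simple 3 := by
    rw [A_tab tablesE6, F_tab tablesE6]; decide +kernel
  obtain ⟨h6, h7⟩ := MD.boundE (M := M) (R := ρ.comp (twEquiv (e6Words K q)).toMonoidHom) (i := ⟨1, by decide⟩) h5.1
    ⟨by decide, h5.2.1⟩ h5.2.2.1 h5.2.2.2.1 (by
      by_contra h6
      push Not at h6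
      refine absurd (finrank_le_one_of_comm ρ hρ fun a b => ?_) (by omega)
      obtain ⟨a, rfl⟩ := (twEquiv (e6Words K q)).surjective a
      obtain ⟨b, rfl⟩ := (twEquiv (e6Words K q)).surjective b
      exact comm (M := M) rfl rfl h6 (MD.triv_simple (i := ⟨1, by decide⟩) h5.1 h6 ⟨3, by decide⟩ ⟨by decide, h5.2.2.2.2⟩) a b)
    (by rw [h4, hk']; exact lt_of_psh hq.two_le (by decide +kernel) h0)
  rw [h4] at h6 h7
  have h8 := (Int.natCast_dvd_natCast.2 ((finrank_dvd_card ρ hρ).trans ((Nat.card_congr (twEquiv _).toEquiv).symm.dvd.trans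
    (Subgroup.card_subgroup_dvd_card _)))).trans (Dvd.intro _ (card_group (F := K) (c := (chevE6, [2, 5, 6, 8, 9, 12])) (by simp)))
  obtain ⟨j, hj, -⟩ := mem_of_certs cert hq (le_of_filt (r := 2) hq.one_lt.le (by decide +kernel) h6 (hk' ▸ h7)) h0
    (by simpa [hK, ← pow_mul, show chevE6.nroots = 72 from rfl] using h8)
  simp at hj

end Cfsg.Agent.S2341
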