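import Cfsg.Statements.S2342
import Cfsg.Agent.H2.MinD4
import Cfsg.Agent.H8.LiftTabSmall

set_option autoImplicit false
open Cfsg

namespace Cfsg.Agent.S2342

open Cfsg.Lie Cfsg.Agent.H1 Cfsg.Agent.H2 Cfsg.Agent.H7 Cfsg.Agent.H8 Module

theorem cert : CertAll [1, 0, -1, 0, 1] [6, 12, 12, 18] 211 1 36
    [([-1, 1], [1, 0, 0, 1], [4549681, 274603, 7121914, 624457, -4824284, -7396517, -2946627, 3925224, 5098887, 5169006, -978597, -9024111, -668405, -4739615, -4241120, -655760, 5408020, 8980735, 97136, -4477657, -7266841, -3903733, 4380521, 11744498, 1571086, 72418, -1881191, -2967308, -1643504, 1808773, 48755, 4885415, 6956645, 3316610, -4934170, -11842060, -673767, 1068354, 2532402, 2167551, -394587, -3600756, 99791, -2047567, -3126571, -1673173, 1947776, 5174138], [4799744, -274603, -7121914, -5174138], 9349425)] [(2, 1)] := by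
  decide +kernel

theorem wJ_eq (i : Fin chevD4.rank) : wJ chevD4 {j | j ∈ oLD4 i} = wordW chevD4 (fl chevD4 (oLD4 i)) :=
  (wordW_eq_wJ (J := {j | j ∈ oLD4 i}) (by revert i; simp only [Set.mem_ofPred_eq]; decide +kernel)
    (by revert i; simp only [Set.mem_ofPred_eq]; decide +kernel)).symm

/-- The relative Weyl group. -/
def wd (i : Fin 12) : Equiv.Perm ℕ := wordW chevD4 (fl chevD4 ([[], [1], [0, 2, 3], [1, 0, 2, 3], [0, 2, 3, 1], [1, 0, 2, 3, 1], [0, 2, 3, 1, 0, 2, 3], [1, 0, 2, 3, 1, 0, 2, 3], [0, 2, 3, 1, 0, 2, 3, 1], [1, 0, 2, 3, 1, 0, 2, 3, 1], [0, 2, 3, 1, 0, 2, 3, 1, 0, 2, 3], [1, 0, 2, 3, 1, 0, 2, 3, 1, 0, 2, 3]].getD i []))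

variable {K G k V : Type*} [Field K] [Group G] [Finite G] [Field k] [Finite k] [AddCommGroup V] [Module ℂ V]
  [FiniteDimensional ℂ V] {M : MD chevD4 K G k} {R : M.S →* Module.End ℂ V} (hρ : M.ρ = rhoD4)
  (hO : M.O = fun i : Fin chevD4.rank => {j | j ∈ oLD4 i})
include hρ hO

theorem not_five [Finite K] (hx : IsChev chevD4 M.x) (hX : ∀ r < chevD4.nroots, Nat.card (M.X r) = Nat.card k ^ (orb M.ρ r).ncard)
    (hk : Nat.card k = 2) (hK : Nat.card K = 8) : ¬ 5 ∣ Nat.card M.S := by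
  have h1 := MD.card_S hX wd (fun i j e => (by decide +kernel : ∀ i j, wd i 14 = wd j 14 → wd i 18 = wd j 18 → i = j) i j
    (by rw [e]) (by rw [e])) (fun i => ⟨wordW_mem _, Equiv.ext fun r => ?_⟩) fun w hW hw =>
      M.sub.induction M.tw M.faith (P := fun w => ∃ i, wd i = w) ⟨0, rfl⟩ (fun w _ _ j h ⟨i, hi⟩ => ?_) hW hw
  · rw [h1, hk, (by decide +kernel : ∑ i, 2 ^ len chevD4 (wd i) = 7371)]
    have h2 := Subgroup.card_comap_dvd_of_injective (UU chevD4 M.x) _ M.S.subtype_injective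
    have h3 := (Subgroup.card_comap_dvd_of_injective (HH chevD4 M.x) _ M.S.subtype_injective).trans
      (Dvd.intro _ (card_HH_mul hx))
    rw [hx.toIsFaith.card_UU, hK] at h2
    rw [Nat.card_units, hK] at h3
    simp only [Nat.prime_five.dvd_mul, not_or]
    exact ⟨⟨fun h => absurd (h.trans h2) (by decide +kernel), fun h => absurd (h.trans h3) (by decide +kernel)⟩, by decide⟩
  · rw [hρ]
    by_cases hr : r < 24
    · revert i r; decide +kernel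
    · have h := show rhoD4 r = r from congrArg Prod.fst (twT_ge (not_lt.1 hr))
      rw [Equiv.Perm.mul_apply, Equiv.Perm.mul_apply, h, wd, W_apply_ge (wordW_mem _) (not_lt.1 hr), h]
  · rw [hO, wJ_eq, ← hi]
    exact ⟨_, W_ext (wordW_mem _) (mul_mem (wordW_mem _) (wordW_mem _)) fun r hr => congrArg _ ((by decide +kernel :
      ∀ (i : Fin 12) (j : Fin chevD4.rank), ∀ r < 24, wd ((if j.1 = 1 then [1, 0, 4, 5, 2, 3, 8, 9, 6, 7, 11, 10] else [2, 3, 0, 1, 6, 7, 4, 5, 10, 11, 8, 9]).getD i 0) r =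
        (wd i * wordW chevD4 (fl chevD4 (oLD4 j))) r) i j r hr)⟩

theorem comm {q : ℕ} (hS : M.S = twS M.x (d4Words K q)) (h1 : ∀ t, R (M.z 14 t) = 1) (a b : M.S) : Commute (R a) (R b) := by
  have h0 : (∀ r ∈ [14, 9, 22], r < chevD4.nroots ∧ M.ρ r = r) ∧ 2 ≤ A chevD4 17 5 - A chevD4 22 5 * A chevD4 17 22 ∧
      (∀ p ∈ [(18, 13), (13, 12), (5, 10), (10, 11)], M.ρ p.1 = p.2) ∧ chevD4.neg 14 = 9 ∧
      wordW chevD4 (fl chevD4 (oLD4 0)) 14 = 22 := by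
    rw [hρ, A_tab tablesD4]; decide +kernel
  have h3 : ∀ r ∈ [18, 13, 12, 17, 20, 21], (M.ρ r ∈ [18, 13, 12, 17, 20, 21] ∧ M.ρ⁻¹ r ∈ [18, 13, 12, 17, 20, 21]) ∧
      r < chevD4.nroots ∧ A chevD4 22 r = 1 := by
    rw [hρ, A_tab tablesD4]; decide +kernel
  simp only [List.forall_mem_cons] at h0
  obtain ⟨⟨f1, f2, f3, -⟩, a1, ⟨c1, c2, c3, c4, -⟩, d1, d2⟩ := h0
  obtain ⟨n, hn, h4⟩ := M.sub.rep ⟨0, by decide⟩
  rw [hO, wJ_eq] at h4
  have h5 := d2 ▸ MD.triv_conj (n := ⟨n, hn⟩) h4 f1 h1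
  have h6 : ∀ r s g t u v, M.ρ r = s → M.ρ s = g → ev M.x [(r, t), (s, u), (g, v)] ∈ XS M.x (orb M.ρ r) :=
    fun r s g t u v e e' => ev_mem (by simpa using ⟨x_mem_XS (MD.mem_orb r) t, x_mem_XS (e ▸ (MD.mem_orb r).apply_right) u,
      x_mem_XS (e' ▸ e ▸ (MD.mem_orb r).apply_right.apply_right) v⟩)
  have h7 : ∀ r ∈ [18, 13, 12, 17, 20, 21], ∀ s ∈ orb M.ρ r, s < chevD4.nroots ∧ A chevD4 22 s = 1 := fun r hr s e =>
    (h3 s (MD.mem_of_orb (fun r hr => (h3 r hr).1) hr e)).2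
  have h8 : ∀ r ∈ [18, 13, 12, 17, 20, 21], Nrm chevD4 (orb M.ρ r) {22} := fun r hr => Nrm.of_nonneg fun s e _ e' =>
    e' ▸ ⟨(h7 r hr s e).1, f3.1, by rw [A_symm, (h7 r hr s e).2]; omega⟩
  refine MD.comm_all hS (T := {r | r ∈ [18, 13, 12, 17, 20, 21]}) (fun r hr s hs u hu v hv => ?_) ?_ a b
  · obtain ⟨t, ht⟩ := MD.exists_z f3 (MD.X_fx f3 ▸ MD.comm_Y (h8 r hr) (h8 s hs) (fun r' e s' e' => ⟨(h7 r hr r' e).1,
      (h7 s hs s' e').1, fun e'' => by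
        have := (h7 s hs s' e').2
        rw [e'', A_neg_right _ (h7 r hr r' e).1, (h7 r hr r' e).2] at this; omega,
      fun c hc => eq_of_A (by rw [hc.add, (h7 r hr r' e).2, (h7 s hs s' e').2]; rfl)⟩) hu hv)
    rw [mul_inv_eq_iff_eq_mul, mul_inv_eq_iff_eq_mul] at ht
    show _ = _
    rw [← map_mul, ht, map_mul, map_mul, h5, one_mul]
  rintro _ (⟨t, -, r, hr, rfl⟩ | ⟨t, r, hr, rfl⟩)
  · refine ⟨r, mul_mem (x_mem_XS (MD.mem_orb r) t) (one_mem _), 18, by simp, ?_⟩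
    simp only [List.mem_cons, List.not_mem_nil, or_false] at hr
    rcases hr with rfl | rfl
    exacts [MD.le_fx f1 h1, MD.le_fx f2 (d1 ▸ MD.triv_neg f1 h1 :)]
  · simp only [List.mem_cons, List.not_mem_nil, or_false] at hr
    rcases hr with rfl | rfl
    · exact ⟨18, h6 _ _ _ _ _ _ c1 c2, 13, by simp, c1 ▸ MD.le_rho⟩
    · exact ⟨5, h6 _ _ _ _ _ _ c3 c4, 17, by simp, MD.le_refl_of f3 h5 a1⟩

omit hO in
theorem bad (hB : M.Base 23 ⟨1, by decide⟩) (hk : Nat.card k = 2) (h2 : ((2 : ℕ) : K) = 0)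
    (hy : M.x 18 1 * (M.x 13 1 * M.x 12 1) ∈ M.S) {v : V} (hm : finrank ℂ (MD.EE R 14 1 (MD.La chevD4 14)) ≤ 1)
    (hv : v ∈ MD.EE R 14 1 (MD.La chevD4 14)) (h0 : v ≠ 0) (h1 : ¬ M.X 22 ≤ Stb R v) :
    Fix R (M.Y {23}) ⊓ MD.Wz R 14 0 ≠ ⊥ := by
  have h3 : (∀ r ∈ [14, 22, 23], r < chevD4.nroots ∧ M.ρ r = r) ∧ A chevD4 23 22 = 1 ∧
      (∀ r ∈ [18, 13, 12], r < chevD4.nroots ∧ 0 ≤ A chevD4 r 23) := by rw [hρ, A_tab tablesD4]; decide +kernel
  have h4 : ∀ r ∈ [15, 16, 19, 17, 20, 21, 23], (M.ρ r ∈ [15, 16, 19, 17, 20, 21, 23] ∧ M.ρ⁻¹ r ∈ [15, 16, 19, 17, 20, 21, 23]) ∧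
      chevD4.IsPosRoot r ∧ 1 ≤ A chevD4 23 r ∧ 0 ≤ A chevD4 14 r ∧ r ≠ 14 := by rw [hρ, A_tab tablesD4]; decide +kernel
  simp only [List.forall_mem_cons] at h3
  obtain ⟨⟨f1, f2, f3, -⟩, a1, a2, a3, a4, -⟩ := h3
  have h5 : M.Y {r | r ∈ [15, 16, 19, 17, 20, 21, 23]} ≤ Stb R v := MD.gen (Nrm.of_sm fun r hr s hs => ⟨(h4 r hr).2.1.1,
    (h4 s hs).2.1.1, ne_neg_pos (h4 r hr).2.1 (h4 s hs).2.1, fun c e => by
      rw [eq_of_A (D := chevD4) (r := 23) (s := c) (by have := h4 r hr; have := h4 s hs; rw [e.add]; omega)]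
      exact (by decide : 23 ∈ [15, 16, 19, 17, 20, 21, 23])⟩).1
    (fun r hr => (h4 r hr).2.1) (fun r s e hr => MD.mem_of_orb (fun r hr => (h4 r hr).1) hr e) fun r hr =>
      have := h4 r hr; hB.fix0 hm hv h0 this.2.1.1 (by omega) this.2.2.2.1 this.2.2.2.2 (by omega)
  have h6 : ∀ t : k, t = 0 ∨ t = 1 := fun t => by
    obtain ⟨a, b, -, h⟩ := Nat.card_eq_two_iff.1 hk
    have h1 := h.ge (Set.mem_univ 0)
    have h2 := h.ge (Set.mem_univ 1)
    have h3 := h.ge (Set.mem_univ t)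
    simp only [Set.mem_insert_iff, Set.mem_singleton_iff] at h1 h2 h3
    grind
  have h7 : ∀ r, M.Fx r → M.z r 1 ∈ StbS R (ℂ ∙ v) → ¬ M.X r ≤ Stb R v → R (M.z r 1) v = -v := fun r hr h h' => by
    obtain ⟨c, hc⟩ := Submodule.mem_span_singleton.1 (h.1 v (Submodule.mem_span_singleton_self v))
    have h8 : (c * c) • v = (1 : ℂ) • v := by
      rw [mul_smul, hc, ← map_smul, hc, ← rmul, ← MD.z_add hr, (h6 (1 + 1)).resolve_right (by simp), MD.z_zero hr]; simp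
    rcases mul_self_eq_one_iff.1 (smul_left_injective ℂ h0 h8) with rfl | rfl
    · refine absurd (fun y hy => ?_) h'
      obtain ⟨t, rfl⟩ := MD.exists_z hr hy
      rcases h6 t with rfl | rfl
      exacts [MD.z_zero hr ▸ one_mem _, hc.symm.trans (one_smul _ _)]
    · rw [← hc, neg_one_smul]
  have h8 := h7 14 f1 (mem_StbS_span (Submodule.mem_span_singleton.2 ⟨_, (hv.1 1).symm⟩))
    fun h => h0 (MD.eq_zero_of_fix f1 one_ne_zero hv.1 h)
  have h9 := h7 22 f2 (hB.line0 hm hv h0 f2.1 (by omega) (by omega) (MD.z_mem f2 1)) h1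
  have h10 := MD.st.evS_scol (x := M.x) agrD4 h2 (fun _ => 0) id [(22, [(-1, [])]), (14, [(-1, [])]), (12, [(-1, [])]),
    (13, [(-1, [])]), (18, [(-1, [])]), (14, [(1, [])]), (18, [(1, [])]), (13, [(1, [])]), (12, [(1, [])])]
  have h11 := h5 (x := (M.z 22 1)⁻¹ * (M.z 14 1)⁻¹ * ⟨_, hy⟩⁻¹ * M.z 14 1 * ⟨_, hy⟩) (by
    have := h10 ▸ evS_mem (x := M.x) (v := fun _ => 0) (S := {r | r ∈ [15, 16, 19, 17, 20, 21, 23]})
      (by simp only [Set.mem_ofPred_eq]; decide +kernel)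
    simpa [MD.mem_Y, MD.z_val f1, MD.z_val f2, mev, MD.st.neg, mul_assoc] using this)
  have h12 : R (M.z 14 1) (R ⟨_, hy⟩ v) = R ⟨_, hy⟩ v := by
    have := congrArg (R (⟨_, hy⟩ * M.z 14 1 * M.z 22 1)) (mem_Stb.1 h11)
    rw [← rmul, rmul _ (M.z 22 1), h9, map_neg, rmul _ (M.z 14 1), h8, map_neg, neg_neg] at this
    refine Eq.trans ?_ this
    rw [← rmul]; congr 2; generalize (⟨_, hy⟩ : M.S) = y; group
  refine (Submodule.ne_bot_iff _).2 ⟨_, ⟨fun y hy' => mem_Stb_conj.2 ?_, fun t => ?_⟩, rne h0 ⟨_, hy⟩⟩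
  · rw [mul_assoc, (MD.commute_Y (T := {23}) (U := {18, 13, 12}) (y' := ⟨_, hy⟩) ?_ hy' (mul_mem (x_mem_XS (Or.inl rfl) _)
      (mul_mem (x_mem_XS (Or.inr (Or.inl rfl)) _) (x_mem_XS (Or.inr (Or.inr rfl)) _)))).eq, inv_mul_cancel_left]
    · exact h5 (MD.Y_mono (by simp) hy')
    · rintro _ rfl _ (rfl | rfl | rfl) <;> rw [A_symm]
      exacts [⟨f3.1, a2⟩, ⟨f3.1, a3⟩, ⟨f3.1, a4⟩]
  · rw [chi_zero, one_smul]
    rcases h6 t with rfl | rfl
    exacts [by simp [MD.z_zero f1], h12]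

omit hO in
theorem lower (hF : M.F = fun r => (fun i : Fin chevD4.rank => [3, 5, 3, 3].getD i 0) ⬝ᵥ wt chevD4 r)
    (hy : M.x 18 1 * (M.x 13 1 * M.x 12 1) ∈ M.S) (h2 : Nat.card k = 2 → ((2 : ℕ) : K) = 0) (h3 : Nat.card k ≠ 2 → ∃ n : M.S,
      (n : G) ∈ HH chevD4 M.x ∧ ∃ c : k, c ≠ 0 ∧ c ≠ 1 ∧ ∀ r, M.Fx r → ∀ t, n * M.z r t * n⁻¹ = M.z r (c ^ A chevD4 18 r * t))
    (h1 : ∃ t, R (M.z 14 t) ≠ 1) (h0 : finrank ℂ V < H2.pv (Nat.card k) (0 :: [1, 0, -1, 0, 1])) :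
    H2.pv (Nat.card k) (0 :: [1, 0, -1, 0, 1]) ≤ finrank ℂ V + (1 : ℕ) := by
  have h5 : MinChk chevD4.nroots chevD4.rank (A chevD4) M.F M.ρ chevD4.simple (fun _ => 0) 1 3 [0, 3] ∧
      (∀ j : Fin chevD4.rank, M.ρ (chevD4.simple j) = chevD4.simple j → j = ⟨1, by decide⟩) ∧
      (22 < chevD4.nroots ∧ M.ρ 22 = 22) ∧ (14 < chevD4.nroots ∧ M.ρ 14 = 14) ∧ chevD4.IsPosRoot 22 ∧ A chevD4 22 14 = -1 ∧
      A chevD4 14 22 = -1 ∧ A chevD4 18 14 = -1 ∧ A chevD4 18 22 = 1 ∧ A chevD4 23 22 = 1 ∧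
      2 ≤ A chevD4 23 14 - A chevD4 22 14 * A chevD4 23 22 ∧ (MD.La chevD4 14).card = 3 + 1 := by
    rw [hF, hρ, MD.La, A_tab tablesD4, F_tab tablesD4]; decide +kernel
  obtain ⟨h5, a1, f2, f1, a5, a6, a7, a8, a9, a10, a11, a12⟩ := h5
  have hB := MD.base_of (i := ⟨1, by decide⟩) h5
  have hm := MD.m1_of (R := R) (i := ⟨1, by decide⟩) h5 (lt_of_psh Finite.one_lt_card (by decide +kernel) h0) ⟨1, by decide⟩ f1
  have hE := fun s => MD.exists_base (R := R) (i := ⟨1, by decide⟩) h5 (s := s) h1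
  by_cases h6 : ∀ s ≠ 0, ∀ v ∈ MD.EE R 14 s (MD.La chevD4 14), v ≠ 0 → M.X 22 ≤ Stb R v
  · obtain ⟨h7, h8⟩ := MD.bound_of (R := R) (i := ⟨1, by decide⟩) h5 fun j hj s hs => by
      obtain rfl := a1 j hj.2
      obtain ⟨v, hv, h0⟩ := hE s hs
      refine (Submodule.ne_bot_iff _).2 ⟨v, hB.fix2 (hm s hs) hv h0 fun b e => ?_, h0⟩
      rw [e.eq (sm_of_A (b := 14) (g := 22) (r := 23) f1.1 f2.1 a7 (by rw [a6] at a11; omega))]
      exact h6 s hs v hv h0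
    exact le_of_filt Nat.card_pos (by decide +kernel) h7 h8
  push Not at h6
  obtain ⟨s, hs, v, hv, h7, h6⟩ := h6
  by_cases h8 : Nat.card k = 2
  · obtain rfl : s = 1 := by
      have := Fintype.ofFinite k
      simpa [← Nat.card_eq_fintype_card, h8] using FiniteField.pow_card_sub_one_eq_one s hs
    have h9 := MD.base_bound (R := R) (i := ⟨1, by decide⟩) f1 f2 a5 a6 a12 fun s hs => (Submodule.ne_bot_iff _).2 (hE s hs)
    have h10 := Submodule.one_le_finrank_iff.2 (bad hρ hB h8 (h2 h8) hy (hm 1 hs) hv h7 h6)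
    rw [show refl chevD4 22 (chevD4.simple (⟨1, by decide⟩ : Fin chevD4.rank)) = 23 from refl_eq a11, h8] at h9
    have := (Nat.add_le_add_right h10 _).trans h9
    simp [H2.pv, h8]; omega
  obtain ⟨n, h10, c, hc, hc', h13⟩ := h3 h8
  obtain ⟨n', h14, h15⟩ := MD.exists_hE f1 hc
  have h16 : ∀ r, M.Fx r → ∀ t, (n' * n * n) * M.z r t * (n' * n * n)⁻¹ =
      M.z r (c ^ A chevD4 14 r * (c ^ A chevD4 18 r * c ^ A chevD4 18 r) * t) := fun r hr t => by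
    rw [mul_assoc _ _ t, mul_assoc _ _ t, ← h15 r hr, ← h13 r hr, ← h13 r hr]; group
  refine absurd (MD.fix_of_tor f1 (hm s hs) hv h7 f2 (hB.line0 (hm s hs) hv h7 f2.1 (zero_le_one.trans a10.ge) (fun e => ?_))
    (n := n' * n * n) ((h14.mul_HH MD.st h10).mul_HH MD.st h10) (fun t => ?_) hc' fun t => ?_) h6
  · exact absurd (e.symm.trans a10) (by omega)
  · rw [h16 _ f1, A_self f1.1, a8]; congr 2; field_simp
  · rw [h16 _ f2, a7, a9]; congr 2; field_simp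

omit hρ hO

/-- For the twisted group ³D₄(q), realised over the field with q³ elements (q a prime power), every irreducible complex representation of degree at least 2 has degree at least q(q⁴ − q² + 1). -/
theorem result {K : Type*} [Field K] [Fintype K] (q : ℕ) (hq : IsPrimePow q) (hK : Fintype.card K = q ^ 3) :
    (∀ (k : ℕ) (ρ : Representation ℂ (Cfsg.Lie.twistedD4 K q) (Fin k → ℂ)), ρ.IsIrreducible → 2 ≤ k → q * (q ^ 4 - q ^ 2 + 1) ≤ k) := by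
  intro k ρ hρ hk
  by_contra h
  have h0 : (k : ℤ) < H2.pv q (0 :: [1, 0, -1, 0, 1]) := by
    have := Nat.pow_le_pow_right hq.pos (show 2 ≤ 4 by omega)
    zify [this] at h; simp only [H2.pv]; linarith
  have hk' : Module.finrank ℂ (Fin k → ℂ) = k := by simp
  obtain ⟨φ, hφ⟩ := exists_frob hK three_ne_zero
  have hx : IsChev chevD4 (xg chevD4 K) := H7.isChev_xg
  have := hx.finite_G H7.GG_xg
  obtain ⟨σ, h1⟩ := exists_twistD4 hx H7.GG_xg φ
  have h2 := twSubD4 hx.toIsFaith hφ (fun t => by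
    rw [hφ, hφ, hφ, ← pow_mul, ← pow_mul, ← pow_two, ← pow_succ', ← hK, FiniteField.pow_card]) h1
  have h3 : TwChk chevD4.nroots 3 (A chevD4) (fun r => (fun i : Fin chevD4.rank => [3, 5, 3, 3].getD i 0) ⬝ᵥ wt chevD4 r)
      rhoD4 fun r => (twT triD4 r).2.2 := by rw [A_tab tablesD4, F_tab tablesD4]; decide +kernel
  have h4 := card_eqLocus hK hφ three_ne_zero
  have hT := th_of hK hφ (by omega) okD4 h2 h1 hx.toIsFaith h3
  let M := hT.md _ (h3.c_rho h1.lt) (fun r hr => by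
    rw [ord_eq_pk tablesD4 _ hr.1]
    exact (by decide +kernel : ∀ r < 24, chevD4.IsPosRoot r → 0 < ordOf chevD4 twD4 [3, 5, 3, 3] r) r hr.1 hr)
    (by rw [h4, Nat.card_eq_fintype_card, hK])
  have h6 := lower (M := M) (R := ρ.comp (twEquiv (d4Words K q)).toMonoidHom) rfl rfl
    (by simpa using! mem_d4b (x := xg chevD4 K) (q := q) (r := 18) (s := 13) (k := 12) (by simp) 1) (fun h8 => by
      simpa [hK, ← h4.symm.trans h8, show (8 : K) = 2 ^ 3 by norm_num] using FiniteField.cast_card_eq_zero K) (fun h8 => by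
      obtain ⟨g, hg⟩ : ∃ g : Kˣ, g ^ (1 + q + q ^ 2) ≠ 1 := by
        by_contra h
        push Not at h
        have h2 := Nat.le_of_dvd (by omega) ((FiniteField.forall_pow_eq_one_iff K _).1 h)
        have h3 := hq.two_le
        rw [hK, Nat.sub_le_iff_le_add] at h2
        rw [h4] at h8
        nlinarith [Nat.mul_le_mul_right (q ^ 2) (show 3 ≤ q by omega), Nat.mul_le_mul_right q (show 3 ≤ q by omega)]
      obtain ⟨h9, n, hn, h10, h11⟩ := hT.exists_tor (r := 18) (by decide) (by decide +kernel) g.ne_zero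
      have h12 : (∏ i ∈ Finset.range 3, φ^[i] g) = (g ^ (1 + q + q ^ 2) : Kˣ) := by
        simp [Finset.prod_range_succ, hφ, pow_add, pow_two, pow_mul]
      refine ⟨⟨n, hn⟩, h10, ⟨_, h9⟩, fun e => (g ^ _).ne_zero (h12.symm.trans (congrArg Subtype.val e)),
        fun e => hg (Units.ext (h12.symm.trans (congrArg Subtype.val e))), fun r hr t => Subtype.ext ?_⟩
      rw [Subgroup.coe_mul, Subgroup.coe_mul, MD.z_val hr, MD.z_val hr, map_mul, map_zpow₀]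
      exact h11 r hr.1 hr.2 _) (by
      by_contra h6
      push Not at h6
      refine absurd (finrank_le_one_of_comm ρ hρ fun a b => ?_) (by omega)
      obtain ⟨a, rfl⟩ := (twEquiv (d4Words K q)).surjective a
      obtain ⟨b, rfl⟩ := (twEquiv (d4Words K q)).surjective b
      exact comm (M := M) rfl rfl rfl h6 a b) (by rw [h4, hk']; exact h0)
  rw [h4, hk'] at h6
  have h7 := (finrank_dvd_card ρ hρ).trans (Nat.card_congr (twEquiv _).toEquiv).symm.dvd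
  have h8 := (Int.natCast_dvd_natCast.2 (h7.trans (Subgroup.card_subgroup_dvd_card _))).trans
    (Dvd.intro _ (card_group (F := K) (c := (chevD4, [2, 4, 4, 6])) (by simp)))
  obtain ⟨j, hj, h9⟩ := mem_of_certs cert hq h6 h0 (by simpa [hK, ← pow_mul, show chevD4.nroots = 24 from rfl] using h8)
  simp only [List.mem_cons, Prod.mk.injEq, List.not_mem_nil, or_false] at hj
  obtain ⟨rfl, rfl⟩ := hj
  refine not_five (M := M) rfl rfl hx (fun r hr => ?_) h4 (by simp [hK]) (Dvd.dvd.trans ?_ h7)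
  · by_cases e : rhoD4 r = r
    · rw [MD.card_X_fx ⟨hr, e⟩, MD.orb_fx ⟨hr, e⟩, Set.ncard_singleton, pow_one]
    · exact (hT.card_XO hr e).trans (by rw [show (orb M.ρ r).ncard = 3 from hT.ncard_orb hr e, h4]; simp [hK])
  · simp [H2.pv] at h9
    rw [hk']; omega

end Cfsg.Agent.S2342
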