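import Cfsg.Statements.S2343
import Cfsg.Agent.H2.ReeRep

set_option autoImplicit false
open Cfsg

namespace Cfsg.Agent.S2343

/-- For the Ree group ²G₂(q), q = 3^(2m+1) with m ≥ 1 (realised over the field with q elements), every irreducible complex representation of degree at least 2 has degree at least q² − q + 1. -/
theorem result {K : Type*} [Field K] [Fintype K] (m : ℕ) (hm : 1 ≤ m) (hK : Fintype.card K = 3 ^ (2 * m + 1)) :
    (∀ (k : ℕ) (ρ : Representation ℂ (Cfsg.Lie.twistedG2 K (3 ^ m)) (Fin k → ℂ)), ρ.IsIrreducible → 2 ≤ k → (3 ^ (2 * m + 1)) ^ 2 - 3 ^ (2 * m + 1) + 1 ≤ k) := by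
  have hF := Cfsg.Agent.H2.ReeF.of_fintype hm hK
  intro k ρ hρ hk
  have h := Cfsg.Agent.H2.Ree.degree_bound (m := m) (V := Fin k → ℂ) ρ (by
    by_contra h1
    push Not at h1
    let S : Subrepresentation ρ := ⟨LinearMap.ker (LinearMap.proj (⟨0, by omega⟩ : Fin k)), fun g v hv => by
      rw [h1]; exact hv⟩
    rcases eq_bot_or_eq_top S with h2 | h2
    · have h3 : (Pi.single (⟨1, by omega⟩ : Fin k) (1 : ℂ) : Fin k → ℂ) ∈ S.toSubmodule := by
        simp [S, Pi.single_apply]
      rw [h2] at h3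
      have h4 : (Pi.single (⟨1, by omega⟩ : Fin k) (1 : ℂ) : Fin k → ℂ) = 0 := h3
      have := congrFun h4 ⟨1, by omega⟩
      simp at this
    · have h3 : (Pi.single (⟨0, by omega⟩ : Fin k) (1 : ℂ) : Fin k → ℂ) ∈ S.toSubmodule := by
        rw [h2]; trivial
      simp [S] at h3)
  rw [hF.card] at h
  simpa using h

end Cfsg.Agent.S2343
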