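import Cfsg.Statements.S2344
import Cfsg.Agent.H1.OmMin

set_option autoImplicit false
open Cfsg

namespace Cfsg.Agent.S2344

/-- For a finite field F of odd order q > 3 and n ≥ 3, every irreducible complex representation of degree at least 2 of Ω_{2n+1}(F) (the commutator subgroup of the isometry group of the quadratic form x₀² + x₁y₁ + ⋯ + x_ny_n) has degree at least (q^{2n} − 1)/(q² − 1). -/
theorem result {F : Type*} [Field F] [Fintype F] (n : ℕ) (hn : 3 ≤ n) (hodd : Odd (Fintype.card F)) (h3 : 3 < Fintype.card F) :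
    (∀ (k : ℕ) (ρ : Representation ℂ (Cfsg.Omega F (Cfsg.quadFormOdd n F)) (Fin k → ℂ)), ρ.IsIrreducible → 2 ≤ k → (Fintype.card F ^ (2 * n) - 1) / (Fintype.card F ^ 2 - 1) ≤ k) := by
  intro k ρ hρ hk
  classical
  obtain ⟨m, rfl⟩ : ∃ m, n = m + 2 := ⟨n - 2, by omega⟩
  have h : H1.OH (H6.qOdd (m + 2) F) :=
    ⟨H6.qOdd_nondeg _ _ (H6.two_ne_zero_of_odd_card _ hodd), by simp; omega⟩
  have := H1.finite_Om (Q := H6.qOdd (m + 2) F)
  let e := (H6.commutatorEquiv (H6.ogEquiv (H6.qOdd (m + 2) F))).symm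
  have hirr := H1.isIrreducible_comp_equiv ρ hρ e.toMonoidHom e.surjective
  have := H1.om_odd (h := h) (n := m) (by simp; ring) (by omega) h3 hirr
    (H1.nontriv_of_two_le _ hirr hk)
  rw [Module.finrank_fin_fun] at this
  exact Nat.div_le_of_le_mul this

end Cfsg.Agent.S2344
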