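import Cfsg.Statements.S2345
import Cfsg.Agent.H1.OmMin

set_option autoImplicit false
open Cfsg

namespace Cfsg.Agent.S2345

/-- For a finite field F with q > 3 elements and n ≥ 4, every irreducible complex representation of degree at least 2 of Ω⁺_{2n}(F) (the commutator subgroup of the isometry group of the hyperbolic quadratic form x₁y₁ + ⋯ + x_ny_n) has degree at least (q^n − 1)(q^{n−1} + q)/(q² − 1). -/
theorem result {F : Type*} [Field F] [Fintype F] (n : ℕ) (hn : 4 ≤ n) (h3 : 3 < Fintype.card F) :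
    (∀ (k : ℕ) (ρ : Representation ℂ (Cfsg.Omega F (Cfsg.quadFormPlus n F)) (Fin k → ℂ)), ρ.IsIrreducible → 2 ≤ k → (Fintype.card F ^ n - 1) * (Fintype.card F ^ (n - 1) + Fintype.card F) / (Fintype.card F ^ 2 - 1) ≤ k) := by
  intro k ρ hρ hk
  classical
  obtain ⟨m, rfl⟩ : ∃ m, n = m + 2 := ⟨n - 2, by omega⟩
  have h : H1.OH (H6.qPlus (m + 2) F) := ⟨H6.qPlus_nondeg _ _, by simp; omega⟩
  have := H1.finite_Om (Q := H6.qPlus (m + 2) F)
  let e := (H6.commutatorEquiv (H6.ogEquiv (H6.qPlus (m + 2) F))).symm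
  have hirr := H1.isIrreducible_comp_equiv ρ hρ e.toMonoidHom e.surjective
  let j : (Fin (m + 2) → F) →ₗ[F] (Fin (m + 2) ⊕ Fin (m + 2) → F) :=
    LinearMap.pi fun i => Sum.elim LinearMap.proj (fun _ => 0) i
  have := H1.om_plus (h := h) (n := m) (by simp; ring) (by omega) h3 (T := LinearMap.range j)
    (by rintro _ ⟨x, rfl⟩; simp [H6.qPlus_apply, j]) (by
      rw [LinearMap.finrank_range_of_inj fun x y e => funext fun i => congrFun e (.inl i)]
      simp) hirr (H1.nontriv_of_two_le _ hirr hk)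
  rw [Module.finrank_fin_fun] at this
  exact Nat.div_le_of_le_mul this

end Cfsg.Agent.S2345
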