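import Cfsg.Statements.S2346
import Cfsg.Agent.H1.OmMin

set_option autoImplicit false
open Cfsg

namespace Cfsg.Agent.S2346

/-- For a finite field F with q elements, n ≥ 4, and a, b ∈ F with z₁² + a z₁z₂ + b z₂² anisotropic, every irreducible complex representation of degree at least 2 of Ω⁻_{2n}(F) (the commutator subgroup of the isometry group of x₁y₁ + ⋯ + x_{n−1}y_{n−1} + z₁² + a z₁z₂ + b z₂²) has degree at least (q^n + 1)(q^{n−1} − q)/(q² − 1). -/
theorem result {F : Type*} [Field F] [Fintype F] (n : ℕ) (hn : 4 ≤ n) (a b : F) (hab : ∀ z₁ z₂ : F, z₁ ^ 2 + a * z₁ * z₂ + b * z₂ ^ 2 = 0 → z₁ = 0 ∧ z₂ = 0) :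
    (∀ (k : ℕ) (ρ : Representation ℂ (Cfsg.Omega F (Cfsg.quadFormMinus (n - 1) F a b)) (Fin k → ℂ)), ρ.IsIrreducible → 2 ≤ k → (Fintype.card F ^ n + 1) * (Fintype.card F ^ (n - 1) - Fintype.card F) / (Fintype.card F ^ 2 - 1) ≤ k) := by
  intro k ρ hρ hk
  classical
  obtain ⟨m, rfl⟩ : ∃ m, n = m + 4 := ⟨n - 4, by omega⟩
  have h : H1.OH (H6.qMinus (m + 3) F a b) := ⟨H6.qMinus_nondeg _ _ hab, by simp; omega⟩
  have := H1.finite_Om (Q := H6.qMinus (m + 3) F a b)
  let e := (H6.commutatorEquiv (H6.ogEquiv (H6.qMinus (m + 3) F a b))).symm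
  have hirr := H1.isIrreducible_comp_equiv ρ hρ e.toMonoidHom e.surjective
  have := H1.om_minus m h (by simp; ring) (fun T hT =>
    Nat.lt_succ_of_le (H6.finrank_le_of_totSing_qMinus _ hab hT)) k _ hirr
    (H1.nontriv_of_two_le _ hirr hk)
  refine Nat.div_le_of_le_mul ?_
  rw [← Nat.cast_le (α := ℝ)]
  push_cast [Nat.cast_sub (Nat.one_le_pow _ _ Fintype.card_pos),
    Nat.cast_sub (Nat.le_self_pow (n := m + 3) (by omega) _)]
  linear_combination this

end Cfsg.Agent.S2346
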