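import Cfsg.Statements.S2347
import Cfsg.Agent.H1.Weil

set_option autoImplicit false
open Cfsg

namespace Cfsg.Agent.S2347

/-- Smallest degree of a non-linear irreducible complex representation of the symplectic group Sp_{2n} over a finite field of odd order q, n ≥ 2: every irreducible complex representation of degree at least 2 has degree at least (q^n − 1)/2, and there is an irreducible complex representation of exactly that degree (a Weil representation). -/
theorem result {F : Type*} [Field F] [Fintype F] [DecidableEq F] (n : ℕ) (hn : 2 ≤ n) (hodd : Odd (Fintype.card F)) :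
    (∀ (k : ℕ) (ρ : Representation ℂ (Matrix.symplecticGroup (Fin n) F) (Fin k → ℂ)), ρ.IsIrreducible → 2 ≤ k → (Fintype.card F ^ n - 1) / 2 ≤ k) ∧
    (∃ ρ : Representation ℂ (Matrix.symplecticGroup (Fin n) F) (Fin ((Fintype.card F ^ n - 1) / 2) → ℂ), ρ.IsIrreducible) := by
  have := H1.finite_Isom (H5.stdSp n F)
  have hB := H5.isSp_std (F := F) n
  obtain ⟨ψ, hψ⟩ := H1.exists_psi_complex F
  have h2 : (2 : F) ≠ 0 := by
    intro h
    have h1 : ringChar F = 2 := by
      have := (ringChar.spec F 2).mp (by exact_mod_cast h)
      exact (Nat.prime_dvd_prime_iff_eq (CharP.char_is_prime F _) Nat.prime_two).mp this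
    have := (FiniteField.even_card_iff_char_two (F := F)).mp h1
    exact absurd this (by have := Nat.odd_iff.mp hodd; omega)
  constructor
  · intro k ρ hρ hk
    let e := (H5.spEquiv n F).symm
    have hirr := H1.isIrreducible_comp_equiv ρ hρ e.toMonoidHom e.surjective
    by_cases h : ∀ v c, (ρ.comp e.toMonoidHom) (hB.transv v c) = 1
    · have := H1.finrank_le_one_of_trivial _ hirr (H1.sp_eq_one hB _ h)
      simp at this
      omega
    · push Not at h
      obtain ⟨v, c, h⟩ := h
      have := H1.sp_bound_one hB h2 _ hψ h (H5.finrank_std_sp n)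
      simp only [Module.finrank_fin_fun] at this
      omega
  · let H := H1.stdHeis n hψ h2
    have h1 := (H.isIrreducible_sub (by rw [H5.finrank_std_sp]; omega)).2
    have h3 := H1.isIrreducible_comp_equiv _ h1 (H5.spEquiv n F).toMonoidHom
      (H5.spEquiv n F).surjective
    have h4 := H.finrank_Wp'
    simp only [Module.finrank_fintype_fun_eq_card, Fintype.card_fun, Fintype.card_fin] at h4
    obtain ⟨σ, hσ, -⟩ := H1.exists_irreducible_fin_of_rep _ h3
      (n := (Fintype.card F ^ n - 1) / 2) (by change Module.finrank ℂ (H.Wp (-1)) = _; omega)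
    exact ⟨σ, hσ⟩

end Cfsg.Agent.S2347
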