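import Cfsg.Statements.S2352


set_option autoImplicit false
open Cfsg

namespace Cfsg.Agent.S2352

/-- A non-trivial law holds in only finitely many alternating groups: for every non-trivial element w of the free group on countably many generators there is N such that for all n ≥ N some substitution of elements of the alternating group of degree n into w is not the identity. -/
theorem result (w : FreeGroup ℕ) (hw : w ≠ 1) :
    ∃ N : ℕ, ∀ n : ℕ, N ≤ n → ∃ f : ℕ → alternatingGroup (Fin n), FreeGroup.lift f w ≠ 1 := by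
  classical
  obtain ⟨L, rfl⟩ : ∃ L, FreeGroup.mk L = w := ⟨w.toWord, FreeGroup.mk_toWord⟩
  let S : Finset (FreeGroup ℕ) := (L.tails.map FreeGroup.mk).toFinset
  have hS : ∀ M, M <:+ L → FreeGroup.mk M ∈ S := fun M hM => by
    simp only [S, List.mem_toFinset, List.mem_map, List.mem_tails]
    exact ⟨M, hM, rfl⟩
  refine ⟨Fintype.card S + 2, fun n hn => ?_⟩
  obtain ⟨ι⟩ : Nonempty (S ⊕ Bool ↪ Fin n) :=
    Function.Embedding.nonempty_of_card_le (by simpa using hn)
  have key : ∀ a : ℕ, ∃ σ : alternatingGroup (Fin n), ∀ s t : S,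
      (t : FreeGroup ℕ) = FreeGroup.of a * s → (σ : Equiv.Perm (Fin n)) (ι (.inl s)) = ι (.inl t) := by
    intro a
    obtain ⟨σ, hσ⟩ := Equiv.Perm.exists_extending_pair
      (α := {s : S // FreeGroup.of a * (s : FreeGroup ℕ) ∈ S})
      (f := fun d => ι (.inl d.1)) (g := fun d => ι (.inl ⟨_, d.2⟩))
      (fun d e h => Subtype.ext (Sum.inl_injective (ι.injective h)))
      (fun d e h => Subtype.ext (Subtype.ext (by
        have := congrArg Subtype.val (Sum.inl_injective (ι.injective h))
        simpa using this)))
    have h1 : ∀ s t : S, (t : FreeGroup ℕ) = FreeGroup.of a * s → σ (ι (.inl s)) = ι (.inl t) := by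
      intro s t h
      have := hσ ⟨s, h ▸ t.2⟩
      rw [this]
      congr 2
      exact Subtype.ext h.symm
    rcases Int.units_eq_one_or (Equiv.Perm.sign σ) with e | e
    · exact ⟨⟨σ, Equiv.Perm.mem_alternatingGroup.2 e⟩, h1⟩
    · refine ⟨⟨Equiv.swap (ι (.inr true)) (ι (.inr false)) * σ,
        Equiv.Perm.mem_alternatingGroup.2 ?_⟩, fun s t h => ?_⟩
      · rw [Equiv.Perm.sign_mul, e, Equiv.Perm.sign_swap (fun h => by simpa using ι.injective h)]
        simp
      · simp only [Equiv.Perm.mul_apply]
        rw [h1 s t h, Equiv.swap_apply_of_ne_of_ne (fun h => by simpa using ι.injective h)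
          (fun h => by simpa using ι.injective h)]
  choose σ hσ using key
  have main : ∀ M (hM : M <:+ L), ((FreeGroup.lift σ (FreeGroup.mk M) : alternatingGroup (Fin n)) :
      Equiv.Perm (Fin n)) (ι (.inl ⟨FreeGroup.mk [], hS [] List.nil_suffix⟩)) =
      ι (.inl ⟨FreeGroup.mk M, hS M hM⟩) := by
    intro M
    induction M with
    | nil => intro _; rfl
    | cons x M ih =>
      intro hM
      have hM' : M <:+ L := (List.suffix_cons x M).trans hM
      obtain ⟨a, b⟩ := x
      cases b
      · have e : FreeGroup.mk ((a, false) :: M) = (FreeGroup.of a)⁻¹ * FreeGroup.mk M := rfl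
        have e2 : FreeGroup.lift σ (FreeGroup.mk ((a, false) :: M)) =
            (σ a)⁻¹ * FreeGroup.lift σ (FreeGroup.mk M) := by rw [e]; simp
        rw [e2, Subgroup.coe_mul, Equiv.Perm.mul_apply, ih hM', Subgroup.coe_inv,
          Equiv.Perm.inv_eq_iff_eq]
        exact (hσ a _ _ (by simp only [e]; group)).symm
      · have e : FreeGroup.mk ((a, true) :: M) = FreeGroup.of a * FreeGroup.mk M := rfl
        have e2 : FreeGroup.lift σ (FreeGroup.mk ((a, true) :: M)) =
            σ a * FreeGroup.lift σ (FreeGroup.mk M) := by rw [e]; simp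
        rw [e2, Subgroup.coe_mul, Equiv.Perm.mul_apply, ih hM']
        exact hσ a _ _ e
  refine ⟨σ, fun h => hw ?_⟩
  have := main L (List.suffix_refl L)
  rw [h] at this
  have := congrArg Subtype.val (Sum.inl_injective (ι.injective this))
  exact this.symm

end Cfsg.Agent.S2352
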