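import Cfsg.Statements.S2353
import Cfsg.Agent.H2.SL2Conj
import Cfsg.Agent.H2.Laws

set_option autoImplicit false
open Cfsg

namespace Cfsg.Agent.S2353

/-- A non-trivial law holds in PSL_2 over only finitely many finite fields: for every non-trivial element w of the free group on countably many generators there is N such that over every finite field with at least N elements some substitution of elements of PSL_2 into w is not the identity. -/
theorem result (w : FreeGroup ℕ) (hw : w ≠ 1) :
    ∃ N : ℕ, ∀ (F : Type*) [Field F] [Fintype F], N ≤ Fintype.card F →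
      ∃ f : ℕ → Matrix.ProjectiveSpecialLinearGroup (Fin 2) F, FreeGroup.lift f w ≠ 1 := by
  refine ⟨2 * w.toWord.length, fun F _ _ hN => ?_⟩
  rw [← Nat.card_eq_fintype_card] at hN
  obtain ⟨β, Γ, δ₁, δ₂, h1, h2, h3⟩ := H2.Laws.exists_gamma w hw (A := F) hN
  open Polynomial in
  obtain ⟨s, hs⟩ := H2.Laws.exists_eval_ne_zero (F := F) (1 : Fin 2) 1
    (fun γ => !![0, 1; -1, C (-γ) * X]) (by
      intro γ hγ
      simp only [Matrix.of_apply, Matrix.cons_val', Matrix.cons_val_one, Matrix.cons_val_fin_one]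
      exact degree_C_mul_X (neg_ne_zero.2 hγ)) (by
      intro γ i j hij
      fin_cases i <;> fin_cases j <;> simp at hij ⊢) Γ h1 (by omega)
  let W : Matrix.SpecialLinearGroup (Fin 2) F := H2.toSL !![0, 1; -1, 0] (by simp [Matrix.det_fin_two_of])
  have hW : W * W = -1 := by
    apply H2.SL_ext; apply H2.m2_ext <;> simp [W, H2.m2_mul_apply]
  let π := QuotientGroup.mk' (Subgroup.center (Matrix.SpecialLinearGroup (Fin 2) F))
  have h4 := h3 (Matrix.ProjectiveSpecialLinearGroup (Fin 2) F) (fun c => π (H2.uSL (c * s))) (π W)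
    (fun a b => by rw [← map_mul, ← H2.uSL_add, add_mul]) (by
      rw [← map_mul, hW]
      exact (QuotientGroup.eq_one_iff _).2 (H2.mem_center_SL_iff'.2 (Or.inr rfl)))
  refine ⟨_, ne_of_eq_of_ne h4 fun h => hs ?_⟩
  · have h5 : π (H2.uSL (δ₁ * s) * (Γ.map fun γ => W * H2.uSL (γ * s)).prod * W * H2.uSL (δ₂ * s)) = 1 := by
      rw [← h]
      simp only [map_mul, map_list_prod, List.map_map]
      rfl
    have h6 := H2.mem_center_SL_iff.1 ((QuotientGroup.eq_one_iff _).1 h5)
    let φ : Matrix.SpecialLinearGroup (Fin 2) F →* Matrix (Fin 2) (Fin 2) F :=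
      Matrix.SpecialLinearGroup.coeMonoidHom
    have h8 := map_list_prod φ (Γ.map fun γ => W * H2.uSL (γ * s))
    rw [List.map_map] at h8
    set P := (Γ.map fun γ => W * H2.uSL (γ * s)).prod with hP
    have h7 : (P : Matrix (Fin 2) (Fin 2) F) 1 1 = 0 := by
      have := h6.2.1
      simp only [Matrix.SpecialLinearGroup.coe_mul, H2.m2_mul_apply] at this
      simpa [W] using this
    change φ P 1 1 = 0 at h7
    rw [h8] at h7
    refine Eq.trans ?_ h7
    refine congrArg (fun l : List (Matrix (Fin 2) (Fin 2) F) => l.prod 1 1) (List.map_congr_left fun γ _ => ?_)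
    change _ = ((W * H2.uSL (γ * s) : Matrix.SpecialLinearGroup (Fin 2) F) : Matrix (Fin 2) (Fin 2) F)
    apply H2.m2_ext <;> simp [W, H2.m2_mul_apply]

end Cfsg.Agent.S2353
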