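import Cfsg.Statements.S2354
import Cfsg.Agent.H2.SzGen
import Cfsg.Agent.H2.Laws

set_option autoImplicit false
open Cfsg

namespace Cfsg.Agent.S2354

/-- A non-trivial law holds in only finitely many Suzuki groups: for every non-trivial element w of the free group on countably many generators there is N such that for q = 2^(2m+1) with m ≥ N some substitution of elements of the Suzuki group over the field with q elements into w is not the identity. -/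
theorem result (w : FreeGroup ℕ) (hw : w ≠ 1) :
    ∃ N : ℕ, ∀ (F : Type*) [Field F] [Fintype F] (m : ℕ), 1 ≤ m → N ≤ m →
      Fintype.card F = 2 ^ (2 * m + 1) →
      ∃ f : ℕ → ↥(Cfsg.Lie.Sz F (2 ^ (m + 1))), FreeGroup.lift f w ≠ 1 := by
  refine ⟨4 * w.toWord.length, fun F _ _ m hm hN hF => ?_⟩
  have hS := H2.SzF.of_fintype hm hF
  have hlt : 4 * w.toWord.length < 2 ^ m := hN.trans_lt Nat.lt_two_pow_self
  have hq : Nat.card F = 2 ^ (m + 1) * 2 ^ m := by rw [hS.card, ← pow_add]; congr 1; ring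
  have hpos : 1 ≤ 2 ^ m := Nat.one_le_two_pow
  have he : 2 ^ (m + 1) = 2 * 2 ^ m := by ring
  obtain ⟨β, Γ, δ₁, δ₂, h1, h2, h3⟩ := H2.Laws.exists_gamma w hw (A := F) (by rw [hq, he]; nlinarith)
  open Polynomial in
  obtain ⟨s, hs⟩ := H2.Laws.exists_eval_ne_zero (F := F) (3 : Fin 4) (2 ^ (m + 1))
    (fun γ => !![0, 0, 0, 1; 0, 0, 1, 0; 0, 1, 0, C γ * X;
      1, 0, C γ * X, C (H2.Suz.th m γ) * X ^ 2 ^ (m + 1)]) (by
      intro γ hγ
      simp only [Matrix.of_apply, Matrix.cons_val', Matrix.cons_val]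
      exact degree_C_mul_X_pow _ (H2.Suz.th_ne_zero m hγ)) (by
      intro γ i j hij
      have k1 : (1 : WithBot ℕ) < (2 ^ (m + 1) : ℕ) := by
        exact_mod_cast (show 1 < 2 ^ (m + 1) by omega)
      have k0 : (0 : WithBot ℕ) < (2 ^ (m + 1) : ℕ) := zero_lt_one.trans k1
      have k2 : (C γ * X : F[X]).degree < (2 ^ (m + 1) : ℕ) := (degree_C_mul_X_le γ).trans_lt k1
      have k3 : (0 : F[X]).degree < (2 ^ (m + 1) : ℕ) := by rw [degree_zero]; exact WithBot.bot_lt_coe _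
      have k4 : (1 : F[X]).degree < (2 ^ (m + 1) : ℕ) := by rw [degree_one]; exact k0
      fin_cases i <;> fin_cases j <;> first | exact k2 | exact k3 | exact k4 | simp at hij) Γ h1 (by
      rw [hq]
      exact Nat.mul_lt_mul_of_pos_left (by omega) (by omega))
  have h4 := h3 (Cfsg.Sz F m) (fun c => H2.Suz.u m 0 (c * s)) (H2.Suz.w F m)
    (fun a b => by rw [H2.Suz.u_zero_mul, add_mul]) H2.Suz.w_mul_w
  refine ⟨fun i => H2.Suz.equivLie F m (H2.Suz.u m 0 (β (2 * i) * s) * H2.Suz.w F m * H2.Suz.u m 0 (-β (2 * i) * s) *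
    (H2.Suz.u m 0 (β (2 * i + 1) * s) * H2.Suz.w F m * H2.Suz.u m 0 (-β (2 * i + 1) * s))), fun h => ?_⟩
  have h5 : H2.Suz.u m 0 (δ₁ * s) * (Γ.map fun γ => H2.Suz.w F m * H2.Suz.u m 0 (γ * s)).prod * H2.Suz.w F m *
      H2.Suz.u m 0 (δ₂ * s) = 1 := by
    rw [← h4]
    apply (H2.Suz.equivLie F m).injective
    rw [map_one, ← h]
    exact FreeGroup.lift_unique ((H2.Suz.equivLie F m).toMonoidHom.comp (FreeGroup.lift _)) (by simp)
  have h6 : (Γ.map fun γ => H2.Suz.w F m * H2.Suz.u m 0 (γ * s)).prod =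
      (H2.Suz.u m 0 (δ₁ * s))⁻¹ * (H2.Suz.u m 0 (δ₂ * s))⁻¹ * H2.Suz.w F m := by
    rw [← H2.Suz.w_inv]
    nth_rewrite 1 [H2.Suz.w_inv]
    calc _ = (H2.Suz.u m 0 (δ₁ * s))⁻¹ * (H2.Suz.u m 0 (δ₁ * s) *
        (Γ.map fun γ => H2.Suz.w F m * H2.Suz.u m 0 (γ * s)).prod * H2.Suz.w F m *
          H2.Suz.u m 0 (δ₂ * s)) * (H2.Suz.u m 0 (δ₂ * s))⁻¹ * (H2.Suz.w F m)⁻¹ := by group
      _ = _ := by rw [h5, mul_one]
  rw [H2.Suz.u_inv, H2.Suz.u_inv, H2.Suz.u_mul] at h6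
  have h7 := congrArg (fun g => H2.Suz.mat g 3 3) h6
  apply hs
  let φ : Cfsg.Sz F m →* Matrix (Fin 4) (Fin 4) F :=
    { toFun := H2.Suz.mat, map_one' := rfl, map_mul' := fun _ _ => rfl }
  have h8 := map_list_prod φ (Γ.map fun γ => H2.Suz.w F m * H2.Suz.u m 0 (γ * s))
  rw [List.map_map] at h8
  change H2.Suz.mat _ = _ at h8
  simp only [h8, H2.Suz.mat_mul, H2.Suz.mat_u, H2.Suz.mat_w, H2.Suz.mul4] at h7
  simp [H2.Suz.uM, H2.Suz.wM] at h7
  refine Eq.trans ?_ h7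
  refine congrArg (fun l : List (Matrix (Fin 4) (Fin 4) F) => l.prod 3 3) (List.map_congr_left fun γ _ => ?_)
  ext i j
  change _ = H2.Suz.mat (_ * _) i j
  simp only [H2.Suz.mat_mul, H2.Suz.mat_u, H2.Suz.mat_w, H2.Suz.mul4]
  fin_cases i <;> fin_cases j <;> simp [H2.Suz.uM, H2.Suz.wM, H2.Suz.ff, H2.Suz.th, mul_pow]

end Cfsg.Agent.S2354
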