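import Cfsg.Statements.S2355
import Cfsg.Agent.S2353
import Cfsg.Agent.H5.UField

set_option autoImplicit false
open Cfsg

namespace Cfsg.Agent.S2355

open Matrix Subgroup

/-- `w` is not a law modulo the centre -/
def Bad (w : FreeGroup ℕ) (H : Type*) [Group H] : Prop :=
  ∃ f : ℕ → H, FreeGroup.lift f w ∉ center H

theorem map_lift {H X : Type*} [Group H] [Group X] (φ : H →* X) (f : ℕ → H) (w : FreeGroup ℕ) :
    φ (FreeGroup.lift f w) = FreeGroup.lift (φ ∘ f) w := by
  have : φ.comp (FreeGroup.lift f) = FreeGroup.lift (φ ∘ f) := by ext; simp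
  exact DFunLike.congr_fun this w

theorem Bad.inj {w : FreeGroup ℕ} {H X : Type*} [Group H] [Group X] (h : Bad w H) (φ : H →* X)
    (hφ : Function.Injective φ) : Bad w X := by
  obtain ⟨f, hf⟩ := h
  refine ⟨φ ∘ f, fun e => hf (mem_center_iff.2 fun g => hφ ?_)⟩
  rw [map_mul, map_mul, map_lift]
  exact mem_center_iff.1 e _

theorem Bad.not_law {w : FreeGroup ℕ} {X G : Type*} [Group X] [Group G] (h : Bad w X)
    (e : G ≃* X ⧸ center X) : ¬ ∀ f : ℕ → G, FreeGroup.lift f w = 1 := by
  obtain ⟨f, hf⟩ := h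
  intro h1
  apply hf
  have := h1 ((e.symm.toMonoidHom.comp (QuotientGroup.mk' (center X))) ∘ f)
  rw [← map_lift] at this
  exact (QuotientGroup.eq_one_iff _).1 (e.symm.injective (this.trans (map_one _).symm))

theorem bad_of_quot {w : FreeGroup ℕ} {X : Type*} [Group X]
    (h : ∃ f : ℕ → X ⧸ center X, FreeGroup.lift f w ≠ 1) : Bad w X := by
  obtain ⟨f, hf⟩ := h
  choose g hg using fun i => QuotientGroup.mk'_surjective (center X) (f i)
  refine ⟨g, fun e => hf ?_⟩
  rw [← funext hg]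
  exact (map_lift _ g w).symm.trans ((QuotientGroup.eq_one_iff _).2 e)

theorem card_le_of {X G M : Type*} [Group X] [Group G] [Finite M] (e : G ≃* X ⧸ center X)
    (c : X → M) (hc : Function.Injective c) : Nat.card G ≤ Nat.card M := by
  have : Finite X := Finite.of_injective c hc
  rw [Nat.card_congr e.toEquiv]
  exact (Nat.card_le_card_of_surjective _ QuotientGroup.mk_surjective).trans
    (Nat.card_le_card_of_injective c hc)

theorem card_mat_le {ι F : Type} [Fintype ι] [Fintype F] {N : ℕ} (h1 : Fintype.card ι ≤ 2 * N + 2)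
    (h2 : Fintype.card F ≤ N ^ 2) (hN : 0 < N) :
    Nat.card (Matrix ι ι F) ≤ (N ^ 2) ^ ((2 * N + 2) * (2 * N + 2)) := by
  change Nat.card (ι → ι → F) ≤ _
  rw [Nat.card_fun, Nat.card_fun, ← pow_mul, Nat.card_eq_fintype_card, Nat.card_eq_fintype_card]
  exact (Nat.pow_le_pow_left h2 _).trans
    (Nat.pow_le_pow_right (by positivity) (Nat.mul_le_mul h1 h1))

theorem perfect_SL2 (F : Type) [Field F] [Fintype F] (h : 4 ≤ Fintype.card F) :
    _root_.commutator (SpecialLinearGroup (Fin 2) F) = ⊤ := by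
  classical
  obtain ⟨a, ha⟩ : ∃ a : F, a ∉ ({0, 1, -1} : Finset F) := by
    by_contra h1
    push Not at h1
    have := Finset.card_le_card (fun a _ => h1 a : Finset.univ ⊆ ({0, 1, -1} : Finset F))
    have h2 : ({0, 1, -1} : Finset F).card ≤ 3 := Finset.card_le_three
    rw [Finset.card_univ] at this
    omega
  simp only [Finset.mem_insert, Finset.mem_singleton, not_or] at ha
  refine SL2.commutator_eq_top ha.1 fun e => ?_
  rcases sq_eq_one_iff.1 e with e | e
  exacts [ha.2.1 e, ha.2.2 e]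

/-- block embedding -/
def blk {ι κ μ F : Type} [Fintype ι] [Fintype κ] [Fintype μ] [DecidableEq ι] [DecidableEq κ]
    [DecidableEq μ] [Field F] (e : ι ⊕ κ ≃ μ) : Matrix ι ι F →* Matrix μ μ F where
  toFun A := reindex e e (fromBlocks A 0 0 1)
  map_one' := by simp
  map_mul' A B := by simp [fromBlocks_multiply]

theorem blk_inj {ι κ μ F : Type} [Fintype ι] [Fintype κ] [Fintype μ] [DecidableEq ι] [DecidableEq κ]
    [DecidableEq μ] [Field F] (e : ι ⊕ κ ≃ μ) : Function.Injective (blk (F := F) e) := by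
  intro A B h
  exact (fromBlocks_inj.1 ((reindex e e).injective h)).1

theorem det_eq_one {H ι F : Type} [Group H] [Fintype ι] [DecidableEq ι] [Field F]
    (hH : _root_.commutator H = ⊤) (ψ : H →* Matrix ι ι F) (h : H) : (ψ h).det = 1 := by
  have := Abelianization.commutator_subset_ker
    (detMonoidHom.comp ψ).toHomUnits (hH ▸ mem_top h)
  exact congrArg Units.val (MonoidHom.mem_ker.1 this)

theorem perm_emb (H : Type) [Group H] [Finite H] {m : ℕ} (hm : Nat.card H ≤ m) :
    ∃ ρ : H →* Equiv.Perm (Fin m), Function.Injective ρ := by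
  classical
  have := Fintype.ofFinite H
  obtain ⟨e⟩ := Function.Embedding.nonempty_of_card_le (α := H) (β := Fin m)
    (by rwa [Fintype.card_fin, ← Nat.card_eq_fintype_card])
  exact ⟨(Equiv.Perm.viaEmbeddingHom e).comp (MulAction.toPermHom H H),
    (Equiv.Perm.viaEmbeddingHom_injective e).comp MulAction.toPerm_injective⟩

theorem permMat_inj {ι F : Type} [Fintype ι] [DecidableEq ι] [Field F] :
    Function.Injective (permMatrixHom (n := ι) (R := F)) := by
  rw [injective_iff_map_eq_one]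
  intro σ h
  ext i
  have : (σ⁻¹.permMatrix F) (σ i) i = _ := congrFun (congrFun h (σ i)) i
  by_contra e
  have e' : σ i ≠ i := e
  simp [PEquiv.toMatrix_apply, one_apply, e'] at this

/-- test data -/
def Test (w : FreeGroup ℕ) (ι F : Type) [Fintype ι] [DecidableEq ι] [Field F]
    (P : Matrix ι ι F → Prop) : Prop :=
  ∃ (H : Type) (_ : Group H) (ψ : H →* Matrix ι ι F), _root_.commutator H = ⊤ ∧ Bad w H ∧
    Function.Injective ψ ∧ ∀ h, P (ψ h)

theorem Test.omega {w : FreeGroup ℕ} {ι F : Type} [Fintype ι] [DecidableEq ι] [Field F]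
    {Q : (ι → F) → F} (h : Test w ι F fun A => ∀ v, Q (A *ᵥ v) = Q v) : Bad w (Omega F Q) := by
  obtain ⟨H, _, ψ, h1, h2, h3, h4⟩ := h
  let φ : H →* isometryGroup F Q := ψ.toHomUnits.codRestrict _ fun h u _ => h4 h u
  have h5 : ∀ h, φ h ∈ Omega F Q := fun h => by
    have : (_root_.commutator H).map φ ≤ Omega F Q := by
      rw [commutator_def, map_commutator]
      exact commutator_mono le_top le_top
    exact this ⟨h, h1 ▸ mem_top h, rfl⟩
  exact h2.inj (φ.codRestrict _ h5) fun a b e =>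
    h3 (congrArg (fun x : Omega F Q => x.1.1.1) e)

/-- `g ↦ diag(g, g⁻ᵀ)` -/
def dbl {H ι F : Type} [Group H] [Fintype ι] [DecidableEq ι] [Field F] (ψ : H →* Matrix ι ι F) :
    H →* Matrix (ι ⊕ ι) (ι ⊕ ι) F where
  toFun h := fromBlocks (ψ h) 0 0 (ψ h⁻¹)ᵀ
  map_one' := by simp
  map_mul' A B := by simp [fromBlocks_multiply]

theorem Test.plus {w : FreeGroup ℕ} {m : ℕ} {F : Type} [Field F] (h : Test w (Fin m) F fun _ => True) :
    Test w (Fin m ⊕ Fin m) F fun A => (∀ v, quadFormPlus m F (A *ᵥ v) = quadFormPlus m F v) ∧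
      A ∈ symplecticGroup (Fin m) F := by
  obtain ⟨H, _, ψ, h1, h2, h3, -⟩ := h
  refine ⟨H, _, dbl ψ, h1, h2, fun a b e => h3 (fromBlocks_inj.1 e).1, fun h => ⟨fun v => ?_, ?_⟩⟩
  · have : quadFormPlus m F (dbl ψ h *ᵥ v) =
        (ψ h *ᵥ (v ∘ Sum.inl)) ⬝ᵥ ((ψ h⁻¹)ᵀ *ᵥ (v ∘ Sum.inr)) := by
      simp [quadFormPlus, dbl, fromBlocks_mulVec, dotProduct]
    rw [this, mulVec_transpose, dotProduct_comm, ← dotProduct_mulVec, mulVec_mulVec, ← map_mul,
      inv_mul_cancel, map_one, one_mulVec, dotProduct_comm]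
    rfl
  · rw [SymplecticGroup.mem_iff]
    simp [dbl, J, fromBlocks_multiply, fromBlocks_transpose, ← map_mul, ← transpose_mul]

theorem Test.blk {w : FreeGroup ℕ} {ι κ μ F : Type} [Fintype ι] [Fintype κ] [Fintype μ]
    [DecidableEq ι] [DecidableEq κ] [DecidableEq μ] [Field F] (e : ι ⊕ κ ≃ μ)
    {P : Matrix ι ι F → Prop} {P' : Matrix μ μ F → Prop} (h : Test w ι F P)
    (hP : ∀ A, P A → P' (blk e A)) : Test w μ F P' := by
  obtain ⟨H, _, ψ, h1, h2, h3, h4⟩ := h
  exact ⟨H, _, (S2355.blk e).comp ψ, h1, h2, (blk_inj e).comp h3, fun h => hP _ (h4 h)⟩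

theorem blk_mulVec {ι κ μ F : Type} [Fintype ι] [Fintype κ] [Fintype μ] [DecidableEq ι]
    [DecidableEq κ] [DecidableEq μ] [Field F] (e : ι ⊕ κ ≃ μ) (A : Matrix ι ι F) (v : μ → F) :
    (∀ i, (blk e A *ᵥ v) (e (.inl i)) = (A *ᵥ fun i => v (e (.inl i))) i) ∧
      ∀ k, (blk e A *ᵥ v) (e (.inr k)) = v (e (.inr k)) := by
  constructor <;> intro i <;>
    simp [blk, submatrix_mulVec_equiv, fromBlocks_mulVec, Function.comp_def]

theorem main (w : FreeGroup ℕ) (hw : w ≠ 1) : ∃ N, 0 < N ∧
    (∀ (F : Type) [Field F] (m : ℕ), N ≤ m → ∀ σ : F →+* F,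
      Test w (Fin m) F fun A => Aᵀ * A.map σ = 1) ∧
    (∀ (F : Type) [Field F] [Fintype F], N ≤ Fintype.card F → Test w (Fin 2) F fun _ => True) ∧
    (∀ (F : Type) [Field F] [Fintype F] (σ : F →+* F) (q : ℕ), H5.UF σ q → N ≤ q →
      Test w (Fin 2) F fun A => Aᵀ * A.map σ = 1) ∧
    ∀ m, N ≤ m → Bad w (alternatingGroup (Fin m)) := by
  obtain ⟨N0, h0⟩ := S2353.result.{0} w hw
  obtain ⟨p, hp1, hp⟩ := Nat.exists_infinite_primes (N0 + 4)
  have := Fact.mk hp
  have b0 : Bad w (SpecialLinearGroup (Fin 2) (ZMod p)) :=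
    bad_of_quot (h0 _ (by rw [ZMod.card]; omega))
  have p0 := perfect_SL2 (ZMod p) (by rw [ZMod.card]; omega)
  refine ⟨Nat.card (SpecialLinearGroup (Fin 2) (ZMod p)) + N0 + 4, by omega, ?_, ?_, ?_, ?_⟩
  · intro F _ m hm σ
    obtain ⟨ρ, hρ⟩ := perm_emb (SpecialLinearGroup (Fin 2) (ZMod p)) (m := m) (by omega)
    refine ⟨_, _, permMatrixHom.comp ρ, p0, b0, permMat_inj.comp hρ, fun h => ?_⟩
    have e1 : ∀ τ : Equiv.Perm (Fin m), (τ.permMatrix F).map σ = τ.permMatrix F := fun τ => by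
      ext i j
      simp [PEquiv.toMatrix_apply]
    change ((ρ h)⁻¹.permMatrix F)ᵀ * ((ρ h)⁻¹.permMatrix F).map σ = 1
    rw [e1, transpose_permMatrix, ← permMatrix_mul]
    simp
  · intro F _ _ hF
    exact ⟨_, _, SpecialLinearGroup.coeMonoidHom, perfect_SL2 F (by omega),
      bad_of_quot (h0 _ (by omega)), Subtype.val_injective, fun _ => trivial⟩
  · intro F _ _ σ q hq hN
    classical
    let K := σ.eqLocusField (RingHom.id F)
    have hK : Fintype.card K = q := by rw [← Nat.card_eq_fintype_card]; exact hq.card_fixed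
    obtain ⟨c, hc⟩ := hq.norm_surj (c := -1) (by simp)
    obtain ⟨θ, hθ⟩ := hq.exists_trace_one
    obtain ⟨δ, hδ0, hδ⟩ := hq.exists_trace_zero
    let P : Matrix (Fin 2) (Fin 2) F := !![1, -δ * θ; c, δ * σ θ * c]
    have hP : IsUnit P.det := by
      have : P.det = δ * c := by
        simp only [P, det_fin_two_of]
        linear_combination δ * c * hθ
      rw [this]
      exact (mul_ne_zero hδ0 fun e => by simp [e] at hc).isUnit
    have hP2 : Pᵀ * P.map σ = !![0, δ; -δ, 0] := by
      ext i j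
      fin_cases i <;> fin_cases j <;> simp [P, mul_apply, Fin.sum_univ_two, hδ, hq.invol]
      · linear_combination hc
      · linear_combination δ * hθ - δ * θ * hc
      · linear_combination -δ * hθ + δ * σ θ * hc
      · linear_combination -δ ^ 2 * θ * σ θ * hc
    let ψ : SpecialLinearGroup (Fin 2) K →* Matrix (Fin 2) (Fin 2) F :=
      { toFun := fun g => P * g.1.map K.subtype * P⁻¹
        map_one' := by simp [mul_nonsing_inv _ hP]
        map_mul' := fun a b => by
          change P * (a.1 * b.1).map K.subtype * P⁻¹ = _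
          simp only [Matrix.map_mul, Matrix.mul_assoc, nonsing_inv_mul_cancel_left _ _ hP] }
    refine ⟨_, _, ψ, perfect_SL2 K (by omega), bad_of_quot (h0 _ (by omega)), fun a b e => ?_,
      fun g => ?_⟩
    · have e1 : P * a.1.map K.subtype * P⁻¹ = P * b.1.map K.subtype * P⁻¹ := e
      have e2 := congrArg (fun X => P⁻¹ * X * P) e1
      simp only [Matrix.mul_assoc, nonsing_inv_mul _ hP, Matrix.mul_one,
        nonsing_inv_mul_cancel_left _ _ hP] at e2
      exact Subtype.ext (map_injective K.subtype_injective e2)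
    · set A := g.1.map K.subtype with hA
      have e1 : A.map σ = A := by
        ext i j
        exact (g.1 i j).2
      have e2 : A.det = 1 := by
        rw [hA, ← RingHom.mapMatrix_apply, ← RingHom.map_det, g.2, map_one]
      have e3 : Aᵀ * !![0, δ; -δ, 0] * A = !![0, δ; -δ, 0] := by
        rw [det_fin_two] at e2
        ext i j
        fin_cases i <;> fin_cases j <;> simp [mul_apply, Fin.sum_univ_two]
        · ring
        · linear_combination δ * e2
        · linear_combination -δ * e2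
        · ring
      have e4 : P.map σ * P⁻¹.map σ = 1 := by
        rw [← Matrix.map_mul, mul_nonsing_inv _ hP]; simp
      have e5 : P⁻¹ᵀ * Pᵀ = 1 := by rw [← transpose_mul, mul_nonsing_inv _ hP]; simp
      change (P * A * P⁻¹)ᵀ * (P * A * P⁻¹).map σ = 1
      calc _ = P⁻¹ᵀ * (Aᵀ * (Pᵀ * P.map σ) * A) * P⁻¹.map σ := by
            simp only [transpose_mul, Matrix.map_mul, e1, Matrix.mul_assoc]
        _ = 1 := by
            rw [hP2, e3, ← hP2, ← Matrix.mul_assoc, e5, Matrix.one_mul, e4]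
  · intro m hm
    obtain ⟨ρ, hρ⟩ := perm_emb (SpecialLinearGroup (Fin 2) (ZMod p)) (m := m) (by omega)
    have : ∀ h, ρ h ∈ alternatingGroup (Fin m) := fun h =>
      Abelianization.commutator_subset_ker (Equiv.Perm.sign.comp ρ) (p0 ▸ mem_top h)
    exact b0.inj (ρ.codRestrict _ this) fun a b e => hρ (congrArg Subtype.val e)

/-- A non-trivial law is satisfied by only finitely many finite simple groups that are alternating or classical, up to isomorphism: for every non-trivial element w of the free group on countably many generators there is a bound N such that every alternating group of degree ≥ 5 and every simple classical group (linear, symplectic, unitary or orthogonal, in this problem's sense) in which w is a law has order at most N. -/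
theorem result (w : FreeGroup ℕ) (hw : w ≠ 1) :
    ∃ N : ℕ, ∀ (G : Type*) [Group G] [Finite G],
      (Cfsg.IsAlternating G ∨ Cfsg.IsPSL G ∨ Cfsg.IsPSp G ∨ Cfsg.IsPSU G ∨ Cfsg.IsPOmegaOdd G ∨
          Cfsg.IsPOmegaPlus G ∨ Cfsg.IsPOmegaMinus G) →
      (∀ f : ℕ → G, FreeGroup.lift f w = 1) → Nat.card G ≤ N := by
  obtain ⟨N, hN, t1, t2, t3, t4⟩ := main w hw
  have t5 : ∀ (F : Type) [Field F] [Fintype F] (m : ℕ), 2 ≤ m → (N ≤ m ∨ N ≤ Fintype.card F) →
      Test w (Fin m) F fun _ => True := by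
    rintro F _ _ m hm (h | h)
    · obtain ⟨H, _, ψ, h1, h2, h3, -⟩ := t1 F m h (RingHom.id F)
      exact ⟨H, _, ψ, h1, h2, h3, fun _ => trivial⟩
    · obtain ⟨k, rfl⟩ := Nat.exists_eq_add_of_le hm
      exact (t2 F h).blk finSumFinEquiv fun _ _ => trivial
  have hsq : N ≤ N ^ 2 := Nat.le_self_pow (by norm_num) N
  refine ⟨(N ^ 2) ^ ((2 * N + 2) * (2 * N + 2)) + N.factorial, fun G _ _ hG hl => ?_⟩
  rcases hG with ⟨n, hn, ⟨e⟩⟩ | ⟨F, _, _, n, hn, -, ⟨e⟩⟩ | ⟨F, _, _, n, hn, -, ⟨e⟩⟩ |
    ⟨F, _, _, n, q, hq, hn, -, ⟨e⟩⟩ | ⟨F, _, _, n, hn, -, ⟨e⟩⟩ | ⟨F, _, _, n, hn, ⟨e⟩⟩ |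
    ⟨F, _, _, n, a, b, hn, -, ⟨e⟩⟩
  · by_cases h : N ≤ n
    · obtain ⟨f, hf⟩ := t4 n h
      have := hl (e.symm.toMonoidHom ∘ f)
      rw [← map_lift] at this
      exact absurd (e.symm.injective (this.trans (map_one _).symm) ▸ one_mem _) hf
    · rw [Nat.card_congr e.toEquiv]
      have := (alternatingGroup (Fin n)).card_le_card_group
      rw [Nat.card_perm, Nat.card_fin] at this
      have := Nat.factorial_le (show n ≤ N by omega)
      omega
  · by_cases h : N ≤ n ∨ N ≤ Fintype.card F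
    · obtain ⟨H, _, ψ, h1, h2, h3, -⟩ := t5 F n hn h
      let φ : H →* SpecialLinearGroup (Fin n) F :=
        ⟨⟨fun h => ⟨ψ h, det_eq_one h1 ψ h⟩, Subtype.ext (map_one ψ)⟩,
          fun a b => Subtype.ext (map_mul ψ a b)⟩
      exact absurd hl ((h2.inj φ fun a b e => h3 (congrArg Subtype.val e)).not_law e)
    · exact ((card_le_of e _ Subtype.val_injective).trans
        (card_mat_le (by simp; omega) (by omega) hN)).trans (Nat.le_add_right _ _)
  · by_cases h : N ≤ n ∨ N ≤ Fintype.card F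
    · obtain ⟨H, _, ψ, h1, h2, h3, h4⟩ := (t5 F n hn h).plus
      exact absurd hl ((h2.inj (ψ.codRestrict _ fun h => (h4 h).2)
        fun a b e => h3 (congrArg Subtype.val e)).not_law e)
    · exact ((card_le_of e _ Subtype.val_injective).trans
        (card_mat_le (by simp; omega) (by omega) hN)).trans (Nat.le_add_right _ _)
  · by_cases h : N ≤ n ∨ N ≤ q
    · have hu := H5.uf_frob hq
      obtain ⟨H, _, ψ, h1, h2, h3, h4⟩ : Test w (Fin n) F fun A => Aᵀ * A.map (H5.frob hq) = 1 := by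
        rcases h with h | h
        · exact t1 F n h _
        · obtain ⟨k, rfl⟩ := Nat.exists_eq_add_of_le (show 2 ≤ n by omega)
          refine (t3 F _ q hu h).blk finSumFinEquiv fun A hA => ?_
          simp [blk, transpose_submatrix, ← submatrix_map, fromBlocks_map, fromBlocks_transpose,
            fromBlocks_multiply, hA]
      let φ : H →* SpecialLinearGroup (Fin n) F :=
        ⟨⟨fun h => ⟨ψ h, det_eq_one h1 ψ h⟩, Subtype.ext (map_one ψ)⟩,
          fun a b => Subtype.ext (map_mul ψ a b)⟩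
      have h5 : ∀ h, φ h ∈ SU n F q := fun h u v => by
        change (ψ h *ᵥ u) ⬝ᵥ (H5.frob hq ∘ (ψ h *ᵥ v)) = u ⬝ᵥ (H5.frob hq ∘ v)
        have : H5.frob hq ∘ (ψ h *ᵥ v) = (ψ h).map (H5.frob hq) *ᵥ (H5.frob hq ∘ v) :=
          funext fun i => RingHom.map_mulVec _ _ _ i
        rw [this, ← vecMul_transpose, ← dotProduct_mulVec, mulVec_mulVec, h4, one_mulVec]
      exact absurd hl ((h2.inj (φ.codRestrict _ h5)
        fun a b e => h3 (congrArg (fun x : SU n F q => x.1.1) e)).not_law e)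
    · exact ((card_le_of e (fun x => x.1.1) fun a b e => Subtype.ext (Subtype.ext e)).trans
        (card_mat_le (by simp; omega) (hq ▸ Nat.pow_le_pow_left (by omega) _) hN)).trans
        (Nat.le_add_right _ _)
  · by_cases h : N ≤ n ∨ N ≤ Fintype.card F
    · refine absurd hl (((t5 F n (by omega) h).plus.blk (Equiv.sumComm _ _) ?_).omega.not_law e)
      rintro A ⟨hA, -⟩ v
      obtain ⟨b1, b2⟩ := blk_mulVec (Equiv.sumComm _ Unit) A v
      exact congrArg₂ (· + ·) (congrArg (· ^ 2) (b2 ()))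
        ((congrArg (quadFormPlus n F) (funext b1)).trans (hA _))
    · exact ((card_le_of e (fun x => x.1.1.1)
        fun a b e => Subtype.ext (Subtype.ext (Units.ext e))).trans
        (card_mat_le (by simp; omega) (by omega) hN)).trans (Nat.le_add_right _ _)
  · by_cases h : N ≤ n ∨ N ≤ Fintype.card F
    · obtain ⟨H, _, ψ, h1, h2, h3, h4⟩ := (t5 F n (by omega) h).plus
      exact absurd hl ((Test.omega ⟨H, _, ψ, h1, h2, h3, fun h => (h4 h).1⟩).not_law e)
    · exact ((card_le_of e (fun x => x.1.1.1)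
        fun a b e => Subtype.ext (Subtype.ext (Units.ext e))).trans
        (card_mat_le (by simp; omega) (by omega) hN)).trans (Nat.le_add_right _ _)
  · by_cases h : N ≤ n - 1 ∨ N ≤ Fintype.card F
    · refine absurd hl (((t5 F (n - 1) (by omega) h).plus.blk (Equiv.refl _) ?_).omega.not_law e)
      rintro A ⟨hA, -⟩ v
      obtain ⟨b1, b2⟩ := blk_mulVec (Equiv.refl (_ ⊕ Fin 2)) A v
      simp only [Equiv.refl_apply] at b1 b2
      unfold quadFormMinus
      rw [b2, b2]
      exact congrArg (· + _) ((congrArg (quadFormPlus (n - 1) F) (funext b1)).trans (hA _))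
    · exact ((card_le_of e (fun x => x.1.1.1)
        fun a b e => Subtype.ext (Subtype.ext (Units.ext e))).trans
        (card_mat_le (by simp; omega) (by omega) hN)).trans (Nat.le_add_right _ _)

end Cfsg.Agent.S2355
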