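import Cfsg.Statements.S2356
import Cfsg.Agent.H5.SU3Inv

set_option autoImplicit false
open Cfsg

namespace Cfsg.Agent.S2356

open Cfsg.Agent.H5 Function


/-- Let q be odd, F the field with q² elements, S = SU_3(F) (determinant-one isometries of the standard Hermitian form) and t an involution of S. Then: exactly q(q−1) involutions other than t commute with t; exactly q(q−2)(q²−1) involutions do not commute with t but commute with some involution commuting with t; exactly (q+1)(q²−1) involutions x do not commute with t and admit no involution commuting with both t and x; and every involution can be reached from t in at most three steps, each step going to an involution that commutes with the previous one (the commuting involution graph is connected of diameter 3). -/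
theorem result {F : Type*} [Field F] [Fintype F] {q : ℕ} (hq : Odd q)
    (hF : Fintype.card F = q ^ 2) (t : ↥(Cfsg.SU 3 F q)) (ht : t ≠ 1) (ht2 : t * t = 1) :
    Nat.card {x : ↥(Cfsg.SU 3 F q) // x ≠ 1 ∧ x * x = 1 ∧ x ≠ t ∧ Commute t x} = q * (q - 1) ∧
    Nat.card {x : ↥(Cfsg.SU 3 F q) // x ≠ 1 ∧ x * x = 1 ∧ ¬ Commute t x ∧
        ∃ y : ↥(Cfsg.SU 3 F q), y ≠ 1 ∧ y * y = 1 ∧ Commute t y ∧ Commute y x} = q * (q - 2) * (q ^ 2 - 1) ∧
    Nat.card {x : ↥(Cfsg.SU 3 F q) // x ≠ 1 ∧ x * x = 1 ∧ ¬ Commute t x ∧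
        ∀ y : ↥(Cfsg.SU 3 F q), y ≠ 1 → y * y = 1 → ¬ (Commute t y ∧ Commute y x)} = (q + 1) * (q ^ 2 - 1) ∧
    ∀ x : ↥(Cfsg.SU 3 F q), x ≠ 1 → x * x = 1 →
      ∃ y z : ↥(Cfsg.SU 3 F q), y ≠ 1 ∧ y * y = 1 ∧ z ≠ 1 ∧ z * z = 1 ∧
        Commute t y ∧ Commute y z ∧ Commute z x := by
  classical
  have h := uf_frob hF
  set σ := frob hF
  have h2 := h.two_ne_zero hq
  have hB := h.isEps_std (Fin 3)
  obtain ⟨e, he⟩ := h.exists_rf_of_inv hq ht ht2
  have hq2 := h.two_le
  have hN : (Finset.univ.filter fun a : F => a * σ a = 1).card = q + 1 := by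
    rw [← h.card_norm_one, Nat.card_eq_fintype_card, Fintype.card_subtype]
  refine ⟨?_, ?_, ?_, fun x a b => ?_⟩
  · have := h.card_inv hq (fun y => y ≠ t ∧ Commute t y) (fun y => stdU (Fin 3) σ y e = 0)
      fun y u hy => by
        rw [he.commute_iff h hq hy, Ne, he.eq_iff h2 hy]
        refine ⟨by tauto, fun h5 => ?_⟩
        simp [h5, hy.ne_zero]
    have h3 := h.card_decomp he.1 (· = 0)
    rw [Finset.sum_filter, Finset.sum_ite_eq', if_pos (Finset.mem_univ _), if_neg (by simp),
      Nat.card_congr (Equiv.subtypeEquivRight (q := fun v => stdU (Fin 3) σ v v = 1 ∧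
        stdU (Fin 3) σ v e = 0) fun v => and_congr_right fun h3 => and_iff_right_of_imp fun h4 h5 => by
          rw [h4, zero_smul] at h5; simp [h5] at h3)] at h3
    refine Nat.eq_of_mul_eq_mul_right (Nat.succ_pos q) (this.trans (h3.trans ?_))
    rw [← one_pow 2, Nat.sq_sub_sq, Nat.succ_eq_add_one]; ring
  · have := h.card_inv hq (fun x => ¬ Commute t x ∧ ∃ y : Cfsg.SU 3 F q, y ≠ 1 ∧ y * y = 1 ∧
      Commute t y ∧ Commute y x) (fun v => v ≠ stdU (Fin 3) σ v e • e ∧ (stdU (Fin 3) σ v e ≠ 0 ∧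
        stdU (Fin 3) σ v e * σ (stdU (Fin 3) σ v e) ≠ 1)) fun y u hy => by
          rw [and_congr_right (he.mid_iff h hq hy), he.commute_iff h hq hy, he.eq_iff h2 hy]
          tauto
    rw [h.card_decomp he.1 (fun a => a ≠ 0 ∧ a * σ a ≠ 1), Finset.sum_congr rfl
      fun a ha => if_neg (Finset.mem_filter.1 ha).2.2, Finset.sum_const, smul_eq_mul] at this
    have h3 : (Finset.univ.filter fun a : F => a ≠ 0 ∧ a * σ a ≠ 1).card + (q + 1) + 1 = q ^ 2 := by
      rw [← hN, ← hF, ← Finset.card_univ, ← Finset.card_union_of_disjoint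
        (Finset.disjoint_filter.2 fun a _ ha => ha.2), ← Finset.card_insert_of_notMem (a := 0) (by simp)]
      congr 1
      ext a
      simp only [Finset.mem_insert, Finset.mem_union, Finset.mem_filter, Finset.mem_univ]
      tauto
    refine Nat.eq_of_mul_eq_mul_right (Nat.succ_pos q) (this.trans ?_)
    obtain ⟨k, rfl⟩ := Nat.exists_eq_add_of_le' hq2
    rw [show (Finset.univ.filter fun a : F => a ≠ 0 ∧ a * σ a ≠ 1).card = k * (k + 3) by nlinarith,
      Nat.add_sub_cancel, Nat.succ_eq_add_one]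
    ring
  · have := h.card_inv hq (fun x => ¬ Commute t x ∧ ∀ y : Cfsg.SU 3 F q, y ≠ 1 → y * y = 1 →
      ¬ (Commute t y ∧ Commute y x)) (fun v => v ≠ stdU (Fin 3) σ v e • e ∧
        stdU (Fin 3) σ v e * σ (stdU (Fin 3) σ v e) = 1) fun y u hy => by
          rw [and_congr_right fun hc => ((he.mid_iff h hq hy hc).not_left.symm.trans
            (by simp only [not_exists, not_and])).symm, he.commute_iff h hq hy, he.eq_iff h2 hy]
          refine ⟨by tauto, fun h5 => ⟨fun h6 => h6.elim h5.1 fun h7 => ?_, h5.2⟩⟩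
          simpa [h7] using h5.2
    rw [h.card_decomp he.1 (fun a => a * σ a = 1), Finset.sum_congr rfl
      fun a ha => if_pos (Finset.mem_filter.1 ha).2, Finset.sum_const, smul_eq_mul, hN, ← mul_assoc] at this
    exact Nat.eq_of_mul_eq_mul_right (Nat.succ_pos q) this
  · obtain ⟨v, hv⟩ := h.exists_rf_of_inv hq a b
    by_cases hc : Commute t x
    · exact ⟨t, t, ht, ht2, ht, ht2, .refl _, .refl _, hc⟩
    by_cases h1 : stdU (Fin 3) σ v e * σ (stdU (Fin 3) σ v e) = 1
    swap
    · obtain ⟨y, a1, a2, a3, a4⟩ := (he.mid_iff h hq hv hc).2 h1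
      exact ⟨y, y, a1, a2, a1, a2, a3, .refl _, a4⟩
    have hw := norm_sub_proj hB he.1 v
    rw [h1, hv.1, sub_self] at hw
    obtain ⟨c, hc'⟩ : ∃ c, c = stdU (Fin 3) σ v e := ⟨_, rfl⟩
    rw [← hc'] at hw h1
    have hwe : stdU (Fin 3) σ (v - c • e) e = 0 := by simp [he.1, hc']
    have hw0 : v - c • e ≠ 0 := fun h0 => hc ((he.commute_iff h hq hv).2 (Or.inl
      ((he.eq_iff h2 hv).2 (hc' ▸ sub_eq_zero.1 h0))))
    clear hc'
    obtain ⟨w, rfl⟩ : ∃ w, v = w + c • e := ⟨v - c • e, by simp⟩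
    rw [add_sub_cancel_right] at hw hwe hw0
    have hew := hB.refl hwe
    obtain ⟨u, hu⟩ := hB.exists_pairing (v := ![w, e]) (by
      rw [LinearIndependent.pair_iff]
      intro s r hsr
      have := congrArg (fun y => stdU (Fin 3) σ y e) hsr
      simp only [map_add, map_smul, LinearMap.add_apply, LinearMap.smul_apply, hwe, he.1, smul_eq_mul,
        mul_zero, zero_add, mul_one, map_zero, LinearMap.zero_apply] at this
      simpa [this, hw0] using hsr) ![1, 0]
    have u1 : stdU (Fin 3) σ u w = 1 := hu 0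
    have u2 : stdU (Fin 3) σ u e = 0 := hu 1
    have u3 : stdU (Fin 3) σ w u = 1 := by rw [hB.herm, u1, map_one]
    have u4 := hB.refl u2
    obtain ⟨d, hd⟩ := h.trace_surj (c := 1 - stdU (Fin 3) σ u u) (by rw [map_sub, map_one, hB.herm_self])
    have z1 : stdU (Fin 3) σ (u + d • w - c • e) (u + d • w - c • e) = 2 := by
      simp [u1, u2, u3, u4, hw, hwe, hew, he.1]
      linear_combination h1 - hd
    have z2 : stdU (Fin 3) σ (u + d • w - c • e) e = -c := by simp [u2, hwe, he.1]
    have z3 : stdU (Fin 3) σ (u + d • w - c • e) (w + c • e) = 0 := by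
      simp [u1, u2, u3, u4, hw, hwe, hew, he.1]
      linear_combination -h1
    generalize u + d • w - c • e = z at z1 z2 z3
    obtain ⟨y, s, hy, y1, y2⟩ := he.exists_mid h hq (w := z) (by
      rw [z1, z2, map_neg, neg_mul_neg, h1]
      exact fun h5 => one_ne_zero (α := F) (by linear_combination h5))
    obtain ⟨k, hk⟩ := h.exists_smul_unit hB.herm (z1 ▸ h2) (map_one σ)
    obtain ⟨r, hr⟩ := h.exists_rf hk
    exact ⟨y, r, hy.ne_one h hq, hy.sq, hr.ne_one h hq, hr.sq, y1,
      (hy.commute_iff h hq hr).2 (Or.inr (by simp [y2])),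
      (hr.commute_iff h hq hv).2 (Or.inr (hB.refl (by rw [map_smul, LinearMap.smul_apply, z3, smul_zero])))⟩

end Cfsg.Agent.S2356
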