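import Cfsg.Statements.S2360
import Cfsg.Agent.H5.SU3Inv

set_option autoImplicit false
open Cfsg

namespace Cfsg.Agent.S2360

open Cfsg.Agent.H5 Function


/-- Let q be odd, F the field with q² elements and S = SU_3(F) (determinant-one isometries of the standard Hermitian form). Then all involutions of S are conjugate; there are exactly q²(q²−q+1) of them; the centralizer of an involution has order q(q+1)(q²−1), the order of the full unitary group of degree 2; and for two distinct commuting involutions t and x there is exactly one further involution commuting with both. -/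
theorem result {F : Type*} [Field F] [Fintype F] {q : ℕ} (hq : Odd q)
    (hF : Fintype.card F = q ^ 2) (t : ↥(Cfsg.SU 3 F q)) (ht : t ≠ 1) (ht2 : t * t = 1) :
    (∀ x : ↥(Cfsg.SU 3 F q), x ≠ 1 → x * x = 1 → ∃ g : ↥(Cfsg.SU 3 F q), g * t * g⁻¹ = x) ∧
    Nat.card {x : ↥(Cfsg.SU 3 F q) // x ≠ 1 ∧ x * x = 1} = q ^ 2 * (q ^ 2 - q + 1) ∧
    Nat.card ↥(Subgroup.centralizer ({t} : Set ↥(Cfsg.SU 3 F q))) = q * (q + 1) * (q ^ 2 - 1) ∧
    ∀ x : ↥(Cfsg.SU 3 F q), x ≠ 1 → x * x = 1 → x ≠ t → Commute t x →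
      Nat.card {y : ↥(Cfsg.SU 3 F q) // y ≠ 1 ∧ y * y = 1 ∧ y ≠ t ∧ y ≠ x ∧ Commute t y ∧ Commute x y} = 1 := by
  have h := uf_frob hF
  obtain ⟨e, he⟩ := h.exists_rf_of_inv hq ht ht2
  have h1 : ∀ x : Cfsg.SU 3 F q, x ≠ 1 → x * x = 1 → ∃ g : Cfsg.SU 3 F q, g * t * g⁻¹ = x :=
    fun x a b => by
      obtain ⟨v, hv⟩ := h.exists_rf_of_inv hq a b
      exact he.exists_conj h hv
  have hq2 := h.two_le
  have h3 : uq q 3 = (q ^ 2 - q + 1) * (q + 1) := by
    have : q ≤ q ^ 2 := by nlinarith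
    rw [uq, if_neg (by decide)]
    zify [this]; ring
  have h2 : Nat.card {x : Cfsg.SU 3 F q // x ≠ 1 ∧ x * x = 1} = q ^ 2 * (q ^ 2 - q + 1) := by
    have := h.card_inv hq (fun _ => True) (fun _ => True) fun _ _ _ => Iff.rfl
    simp only [and_true] at this
    rw [h.card_unit_vec (h.isEps_std _) (n := 2) (by simp) (map_one _) one_ne_zero, h3, ← mul_assoc] at this
    exact Nat.eq_of_mul_eq_mul_right (Nat.succ_pos q) this
  refine ⟨h1, h2, ?_, fun x a b c d => ?_⟩
  · have h4 := (MulAction.stabilizer (ConjAct (Cfsg.SU 3 F q)) t).card_mul_index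
    rw [MulAction.index_stabilizer, ← Subgroup.nat_card_centralizer_nat_card_stabilizer,
      ← Nat.card_coe_set_eq, Nat.card_congr (Equiv.subtypeEquivRight
        (p := (· ∈ MulAction.orbit (ConjAct (Cfsg.SU 3 F q)) t)) (q := fun x => x ≠ 1 ∧ x * x = 1)
        fun x => ⟨?_, fun hx => ?_⟩), h2, Nat.card_congr ConjAct.ofConjAct.toEquiv, h.card_SU 2] at h4
    · refine Nat.eq_of_mul_eq_mul_right (m := q ^ 2 * (q ^ 2 - q + 1)) (by positivity) (h4.trans ?_)
      simp only [Finset.prod_range_succ, Finset.prod_range_zero, Nat.reduceAdd, h3]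
      simp only [uq, even_two, if_true]
      ring
    · rintro ⟨g, rfl⟩
      exact ⟨(he.conj h (ConjAct.ofConjAct g)).ne_one h hq, (he.conj h (ConjAct.ofConjAct g)).sq⟩
    · obtain ⟨g, hg⟩ := h1 x hx.1 hx.2
      exact ⟨ConjAct.toConjAct g, hg⟩
  · obtain ⟨v, hv⟩ := h.exists_rf_of_inv hq a b
    have h4 := ((he.commute_iff h hq hv).1 d).resolve_left c
    have := h.card_inv hq (fun y => y ≠ t ∧ y ≠ x ∧ Commute t y ∧ Commute x y)
      (fun y => stdU (Fin 3) (frob hF) y e = 0 ∧ stdU (Fin 3) (frob hF) y v = 0) fun y u hy => by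
        rw [he.commute_iff h hq hy, hv.commute_iff h hq hy, Ne, Ne, he.eq_iff (h.two_ne_zero hq) hy,
          hv.eq_iff (h.two_ne_zero hq) hy]
        refine ⟨by tauto, fun h5 => ?_⟩
        simp [h5.1, h5.2, hy.ne_zero]
    rw [(h.perp_two he.1 (hv.1 ▸ one_ne_zero) h4).1] at this
    exact Nat.eq_of_mul_eq_mul_right (Nat.succ_pos q) (this.trans (one_mul _).symm)

end Cfsg.Agent.S2360
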