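import Cfsg.Statements.S2363
import Cfsg.Agent.H8.LieBd

set_option autoImplicit false
open Cfsg

namespace Cfsg.Agent.S2363

/-- Let G be a finite simple group of Lie type in characteristic p and let p^k be the exact power of p dividing the order of G. Then the order of G is less than p^(3k); and unless G is isomorphic to PSL(2, F) for the field F with p^k elements, the cube of the order of G is less than p^(8k) (that is, the order is below p^(8k/3)). -/
theorem result {G : Type*} [Group G] [Finite G] (p : ℕ) (hp : p.Prime) (hG : Cfsg.IsLieTypeChar p G) :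
    Nat.card G < p ^ (3 * (Nat.card G).factorization p) ∧
      ((¬ ∃ (F : Type) (_ : Field F) (_ : Fintype F), Fintype.card F = p ^ (Nat.card G).factorization p ∧
          Nonempty (G ≃* Matrix.ProjectiveSpecialLinearGroup (Fin 2) F)) →
        Nat.card G ^ 3 < p ^ (8 * (Nat.card G).factorization p)) := by
  have := Fact.mk hp
  have hG0 : Nat.card G ≠ 0 := Nat.card_pos.ne'
  have key : ∀ {P : Prop} {H : Type} [Group H], G ≃* H → H8.Bd p (Nat.card H) →
      Nat.card G < p ^ (3 * (Nat.card G).factorization p) ∧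
        (P → Nat.card G ^ 3 < p ^ (8 * (Nat.card G).factorization p)) := fun e h => by
    obtain ⟨a, h1, h2⟩ := Nat.card_congr e.toEquiv ▸ h
    have h3 := (hp.pow_dvd_iff_le_factorization hG0).1 h1
    replace h2 := h2.trans_le (pow_mul p a 8 ▸ Nat.pow_le_pow_right hp.pos
      (show a * 8 ≤ 8 * (Nat.card G).factorization p by omega))
    refine ⟨lt_of_pow_lt_pow_left₀ 3 (Nat.zero_le _) (h2.trans_le ?_), fun _ => h2⟩
    rw [← pow_mul]; exact Nat.pow_le_pow_right hp.pos (by omega)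
  rcases hG with ⟨F, _, _, _, n, hn, -, ⟨e⟩⟩ | ⟨F, _, _, _, m, hm, -, ⟨e⟩⟩ | ⟨F, _, _, _, n, q, hF, hn, -, ⟨e⟩⟩ |
    ⟨F, _, _, _, m, hm, h, ⟨e⟩⟩ | ⟨F, _, _, _, m, hm, ⟨e⟩⟩ | ⟨F, _, _, _, m, a, b, hm, h, ⟨e⟩⟩ |
    ⟨F, _, _, _, ⟨-, ⟨e⟩⟩ | ⟨⟨e⟩⟩ | ⟨⟨e⟩⟩ | ⟨⟨e⟩⟩ | ⟨⟨e⟩⟩⟩ | ⟨F, _, _, _, q, -, ⟨h, ⟨e⟩⟩ | ⟨h, ⟨e⟩⟩⟩ |
    ⟨rfl, F, _, _, m, hm, h, ⟨e⟩⟩ | ⟨rfl, F, _, _, m, hm, h, ⟨e⟩⟩ | ⟨rfl, F, _, _, m, hm, h, ⟨e⟩⟩
  · obtain ⟨k, rfl⟩ := Nat.exists_eq_add_one.2 (show 0 < n by omega)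
    by_cases hk : 2 ≤ k
    · exact (key e (H8.bd_psl hk))
    obtain rfl : k = 1 := by omega
    obtain ⟨h1, h2⟩ := H8.psl_bound (F := F) one_ne_zero
    obtain ⟨a, -, ha⟩ := FiniteField.card F p
    have h3 := Subgroup.card_quotient_dvd_card (Subgroup.center (Matrix.SpecialLinearGroup (Fin (1 + 1)) F))
    rw [H8.card_SL_eq] at h3
    simp only [← Nat.card_congr e.toEquiv, Finset.range_one, Finset.sum_singleton, Finset.prod_singleton, zero_add,
      pow_one, ha] at h1 h2 h3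
    have h4 : (Nat.card G).factorization p = a := le_antisymm (Nat.lt_succ_iff.1 (not_le.1 fun h => hp.one_lt.ne'
      (Nat.dvd_one.1 ((Nat.dvd_sub_iff_right (Nat.one_le_pow _ _ (pow_pos hp.pos _)) (dvd_pow (dvd_pow_self p a.ne_zero)
        two_ne_zero)).1 (Nat.dvd_of_mul_dvd_mul_left (pow_pos hp.pos a) (pow_succ p a ▸
          ((hp.pow_dvd_iff_le_factorization hG0).2 h).trans h3)))))) ((hp.pow_dvd_iff_le_factorization hG0).1 h1)
    rw [h4]
    exact ⟨by rwa [pow_mul'], fun h => absurd ⟨F, _, _, ha, ⟨e⟩⟩ h⟩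
  · exact (key e (H8.bd_psp hm))
  · obtain ⟨k, rfl⟩ := Nat.exists_eq_add_one.2 (show 0 < n by omega)
    exact (key e (H8.bd_psu hF (by omega)))
  · exact (key e (H8.bd_pOmega (H6.qOdd m F) (H6.qOdd_nondeg m F (H6.two_ne_zero_of_odd_card F h)) zero_le_one hm
      (by simp; omega)))
  · exact (key e (H8.bd_pOmega (H6.qPlus m F) (H6.qPlus_nondeg m F) le_rfl (k := m - 1) (by omega) (by simp; omega)))
  · exact (key e (H8.bd_pOmega (H6.qMinus (m - 1) F a b) (H6.qMinus_nondeg (m - 1) F h) le_rfl (k := m - 1) (by omega)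
      (by simp; omega)))
  · exact (key e (H8.bd_chev (H8.card_group (c := (_, _)) (.head _)) (by decide)))
  · exact (key e (H8.bd_chev (H8.card_group (c := (Lie.chevF4, [2, 6, 8, 12])) (by simp)) (by decide)))
  · exact (key e (H8.bd_chev (H8.card_group (c := (Lie.chevE6, [2, 5, 6, 8, 9, 12])) (by simp)) (by decide)))
  · exact (key e (H8.bd_chev (H8.card_group (c := (Lie.chevE7, [2, 6, 8, 10, 12, 14, 18])) (by simp))
      (by decide)))
  · exact (key e (H8.bd_chev (H8.card_group (c := (Lie.chevE8, [2, 8, 12, 14, 18, 20, 24, 30])) (by simp))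
      (by decide)))
  · exact (key e (H8.bd_twE6 p h))
  · exact (key e (H8.bd_twD4 p h))
  · have : H2.SzF F m := ⟨by rw [Nat.card_eq_fintype_card, h], hm⟩
    have : CharP F 2 := charP_of_card_eq_prime_pow h
    exact (key (e.trans (H2.Suz.equivLie F m).symm) (H8.bd_rank_one (F := F) Nat.card_eq_fintype_card.symm le_rfl
      (H2.Suz.card_Sz F m)))
  · have : CharP F 2 := charP_of_card_eq_prime_pow h
    exact (key e (H8.bd_twF4 hm h))
  · have := H2.ReeF.of_fintype hm h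
    have : CharP F 3 := charP_of_card_eq_prime_pow h
    exact (key e (H8.bd_rank_one (F := F) Nat.card_eq_fintype_card.symm (a := 3) (by omega)
      (H2.Ree.card_G F)))

end Cfsg.Agent.S2363
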