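import Cfsg.Statements.S2385
import Cfsg.Agent.H5.SelfDual

set_option autoImplicit false
open Cfsg

namespace Cfsg.Agent.S2385

open Cfsg.Agent.H5 Function


/-- In the symplectic group `Sp_{2n}(q)`, `q` a power of the prime `p`, the number of conjugacy classes of elements of order prime to `p` is `q^n`. -/
theorem result {F : Type*} [Field F] [Fintype F] {q : ℕ} (hq : Fintype.card F = q) (p : ℕ) [Fact p.Prime] [CharP F p] (n : ℕ) :
    Nat.card {c : ConjClasses ↥(Matrix.symplecticGroup (Fin n) F) //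
      ∃ g : ↥(Matrix.symplecticGroup (Fin n) F), ConjClasses.mk g = c ∧ (orderOf g).Coprime p} = q ^ n := by
  let φ := (Matrix.symplecticGroup (Fin n) F).subtype
  rw [← hq, ← Nat.card_eq_fintype_card, ← card_palindromic]
  refine card_classes_eq (G := Matrix.symplecticGroup (Fin n) F) (fun g => (orderOf g).Coprime p)
    (fun g => g.1.charpoly) _
    (fun g h => charpoly_eq_of_isConj φ) (fun g h h1 h2 h3 => isConj_sp_of_coprime p g h h1 h2 h3)
    (fun g => ⟨g.1.charpoly_monic, by simp [two_mul], charpoly_sp_reverse g⟩) ?_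
  rintro χ ⟨h1, h2, h3⟩
  obtain ⟨g, hg, -⟩ := exists_cyc_sp_poly h1 h2 h3
  obtain ⟨k, hk, hk'⟩ := exists_coprime_charpoly p φ g
  exact ⟨k, hk, hk'.trans hg⟩

end Cfsg.Agent.S2385
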