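import Cfsg.Statements.S2386
import Cfsg.Agent.H5.SelfDual

set_option autoImplicit false
open Cfsg

namespace Cfsg.Agent.S2386

open Cfsg.Agent.H5 Function


/-- In the special unitary group `SU_n(q)` (matrices of determinant one over the field with `q²` elements preserving the standard Hermitian form), `q` a power of the prime `p`, the number of conjugacy classes of elements of order prime to `p` is `q^(n-1)`. -/
theorem result {F : Type*} [Field F] [Fintype F] {q : ℕ} (hF : Fintype.card F = q ^ 2) (p : ℕ) [Fact p.Prime] [CharP F p] (n : ℕ) (hn : 1 ≤ n) :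
    Nat.card {c : ConjClasses ↥(Cfsg.SU n F q) // ∃ g : ↥(Cfsg.SU n F q), ConjClasses.mk g = c ∧ (orderOf g).Coprime p} = q ^ (n - 1) := by
  have h := uf_frob hF
  obtain ⟨m, rfl⟩ : ∃ m, n = m + 1 := ⟨n - 1, by omega⟩
  let φ : Cfsg.SU (m + 1) F q →* Matrix (Fin (m + 1)) (Fin (m + 1)) F :=
    (Units.coeHom _).comp ((Cfsg.GU (m + 1) F q).subtype.comp (suToGU (m + 1) F q))
  have hc : ∀ A : Matrix (Fin (m + 1)) (Fin (m + 1)) F, A.det = 1 ↔
      A.charpoly.coeff 0 = (-1) ^ (m + 1) := fun A => by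
    rw [Matrix.det_eq_sign_charpoly_coeff, Fintype.card_fin]
    rcases neg_one_pow_eq_or F (m + 1) with h | h <;> simp [h, neg_eq_iff_eq_neg]
  rw [Nat.add_sub_cancel, ← h.card_selfConj m (a₀ := (-1) ^ (m + 1)) (by simp [← mul_pow])]
  refine card_classes_eq (fun g => (orderOf g).Coprime p) (fun g => g.1.1.charpoly) _
    (fun g h => charpoly_eq_of_isConj φ) (fun g k => h.isConj_su_of_coprime p g k)
    (fun g => ⟨g.1.1.charpoly_monic, by simp, (hc _).1 g.1.2, ?_⟩) ?_
  · rw [← (hc _).1 g.1.2]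
    exact h.charpoly_gu (suToGU _ F q g)
  rintro χ ⟨h1, h2, h3, h4⟩
  obtain ⟨g, hg, -⟩ := h.exists_cyc_gu_poly h1 h2 (by simp [h3]) h4
  obtain ⟨g, rfl⟩ := exists_su_of_det g ((hc _).2 (hg ▸ h3))
  obtain ⟨k, hk, hk'⟩ := exists_coprime_charpoly p φ g
  exact ⟨k, hk, hk'.trans hg⟩

end Cfsg.Agent.S2386
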