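import Cfsg.Statements.S2444
import Cfsg.Agent.H4.Ore3

set_option autoImplicit false
open Cfsg

namespace Cfsg.Agent.S2444

open Cfsg.Agent.H4 Module

theorem transfer {F K : Type*} [Field F] [Field K] (e : K ≃+* F) {n : ℕ}
    (h : ∀ g : Matrix.SpecialLinearGroup (Fin n) K,
      ∃ a b : Matrix.SpecialLinearGroup (Fin n) K, g = a * b * a⁻¹ * b⁻¹)
    (g : Matrix.SpecialLinearGroup (Fin n) F) :
    ∃ a b : Matrix.SpecialLinearGroup (Fin n) F, g = a * b * a⁻¹ * b⁻¹ := by
  obtain ⟨a, b, hab⟩ := h (Matrix.SpecialLinearGroup.map (e.symm : F →+* K) g)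
  refine ⟨Matrix.SpecialLinearGroup.map (e : K →+* F) a,
    Matrix.SpecialLinearGroup.map (e : K →+* F) b, ?_⟩
  rw [← map_inv, ← map_inv, ← map_mul, ← map_mul, ← map_mul, ← hab]
  ext i j
  simp

/-- In the special linear group SL(n,F) over a finite field F, with n ≥ 2 and (n, |F|) not (2,2) or (2,3), every element is a commutator a·b·a⁻¹·b⁻¹ of two elements of SL(n,F). -/
theorem result {F : Type*} [Field F] [Fintype F] (n : ℕ) (hn : 2 ≤ n) (hex : n = 2 → 4 ≤ Fintype.card F) :
    ∀ g : Matrix.SpecialLinearGroup (Fin n) F, ∃ a b : Matrix.SpecialLinearGroup (Fin n) F, g = a * b * a⁻¹ * b⁻¹ := by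
  have h1 : 1 < Fintype.card F := Fintype.one_lt_card
  by_cases h4 : 4 ≤ Fintype.card F
  · exact fun g => Comm.exists_SL (comm_of_four (four_of_card h4) (by simpa using hn)
      (by rw [LinearMap.det_toLin', g.2]))
  have h3 : 3 ≤ n := by
    by_contra h
    exact h4 (hex (by omega))
  obtain h | h : Fintype.card F = 2 ∨ Fintype.card F = 3 := by omega
  · exact transfer (ZMod.ringEquivOfPrime F Nat.prime_two h) fun g =>
      Comm.exists_SL (comm_of_two (by simpa using h3) (by rw [LinearMap.det_toLin', g.2]))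
  · exact transfer (ZMod.ringEquivOfPrime F Nat.prime_three h) fun g =>
      Comm.exists_SL (comm_of_three (by simpa using h3) (by rw [LinearMap.det_toLin', g.2]))

end Cfsg.Agent.S2444
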