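import Cfsg.Statements.S2447
import Cfsg.Agent.H5.OreO4

set_option autoImplicit false
open Cfsg

namespace Cfsg.Agent.S2447

/-- Let F be a finite field of odd order and n ≥ 3, and let Ω(2n+1,F) be the commutator subgroup of the orthogonal group of the non-singular quadratic form x₀² + Σ xᵢyᵢ in dimension 2n+1. Then every element of Ω(2n+1,F) is a commutator a·b·a⁻¹·b⁻¹ of two elements of Ω(2n+1,F). -/
theorem result {F : Type*} [Field F] [Fintype F] (hodd : Odd (Fintype.card F)) (n : ℕ) (hn : 3 ≤ n) :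
    ∀ g : Cfsg.Omega F (Cfsg.quadFormOdd n F), ∃ a b : Cfsg.Omega F (Cfsg.quadFormOdd n F), g = a * b * a⁻¹ * b⁻¹ := by
  classical
  have h2 : (2 : F) ≠ 0 := Ring.two_ne_zero fun h => by
    have := FiniteField.even_card_iff_char_two.1 h
    rw [Nat.odd_iff] at hodd
    omega
  have e : Omega F (quadFormOdd n F) ≃* _ := H5.omEquiv (H6.qOdd n F) h2
  intro g
  obtain ⟨x, hx, y, hy, h⟩ := H5.cmO_of_mem (H5.isEps_pb (H6.qOdd_nondeg n F h2)) h2 (by simp; omega) (by simp) (e g).2
  exact ⟨e.symm ⟨x, hx⟩, e.symm ⟨y, hy⟩, e.injective (Subtype.ext (by simpa using h))⟩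

end Cfsg.Agent.S2447
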