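import Cfsg.Statements.S2448
import Cfsg.Agent.H6.OreO9
import Cfsg.Agent.H5.OreP2
import Cfsg.Agent.H5.OreO4
import Cfsg.Agent.H6.OrthRank

set_option autoImplicit false
open Cfsg

namespace Cfsg.Agent.S2448

/-- Let F be a finite field and n ≥ 4, and let Ω⁺(2n,F) be the commutator subgroup of the orthogonal group of the quadratic form Σ xᵢyᵢ (n hyperbolic planes). Then every element of Ω⁺(2n,F) is a commutator a·b·a⁻¹·b⁻¹ of two elements of Ω⁺(2n,F). -/
theorem result {F : Type*} [Field F] [Fintype F] (n : ℕ) (hn : 4 ≤ n) : ∀ g : Cfsg.Omega F (Cfsg.quadFormPlus n F), ∃ a b : Cfsg.Omega F (Cfsg.quadFormPlus n F), g = a * b * a⁻¹ * b⁻¹ := by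
  classical
  have hB := H6.qPlus_nondeg n F
  have hd : Module.finrank F (Fin n ⊕ Fin n → F) = 2 * n := by simp; omega
  intro g
  by_cases h2 : (2 : F) = 0
  · have : CharP F 2 := CharTwo.of_one_ne_zero_of_two_eq_zero one_ne_zero h2
    have e : Omega F (quadFormPlus n F) ≃* _ := H6.commutatorEquiv (H6.ogEquiv (H6.qPlus n F))
    obtain ⟨x, hx, y, hy, h⟩ := H6.cm2_of_mem_two hB (by omega) (by rw [hd]; simp) (e g).2
    exact ⟨e.symm ⟨x, hx⟩, e.symm ⟨y, hy⟩, e.injective (Subtype.ext (by simpa using h))⟩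
  · have e : Omega F (quadFormPlus n F) ≃* _ := H5.omEquiv (H6.qPlus n F) h2
    obtain ⟨x, hx, y, hy, h⟩ := H5.cmO_of_mem_even (H5.isEps_pb hB) h2 (by omega)
      (by rw [hd]; simp) (e g).2
    exact ⟨e.symm ⟨x, hx⟩, e.symm ⟨y, hy⟩, e.injective (Subtype.ext (by simpa using h))⟩

end Cfsg.Agent.S2448
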