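import Cfsg.Statements.S2449
import Cfsg.Agent.H6.OreO9
import Cfsg.Agent.H5.OreP2
import Cfsg.Agent.H5.OreO4
import Cfsg.Agent.H6.OrthRank

set_option autoImplicit false
open Cfsg

namespace Cfsg.Agent.S2449

/-- Let F be a finite field and n ≥ 4, and let Ω⁻(2n,F) be the commutator subgroup of the orthogonal group of the quadratic form given by n − 1 hyperbolic planes plus an anisotropic binary form z₁² + a z₁z₂ + b z₂². Then every element of Ω⁻(2n,F) is a commutator a·b·a⁻¹·b⁻¹ of two elements of Ω⁻(2n,F). -/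
theorem result {F : Type*} [Field F] [Fintype F] (n : ℕ) (hn : 4 ≤ n) (a b : F)
    (hab : ∀ z₁ z₂ : F, z₁ ^ 2 + a * z₁ * z₂ + b * z₂ ^ 2 = 0 → z₁ = 0 ∧ z₂ = 0) :
    ∀ g : Cfsg.Omega F (Cfsg.quadFormMinus (n - 1) F a b), ∃ x y : Cfsg.Omega F (Cfsg.quadFormMinus (n - 1) F a b), g = x * y * x⁻¹ * y⁻¹ := by
  classical
  have hB := H6.qMinus_nondeg (n - 1) F hab
  have hd : Module.finrank F ((Fin (n - 1) ⊕ Fin (n - 1)) ⊕ Fin 2 → F) = 2 * n := by simp; omega
  intro g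
  by_cases h2 : (2 : F) = 0
  · have : CharP F 2 := CharTwo.of_one_ne_zero_of_two_eq_zero one_ne_zero h2
    have e : Omega F (quadFormMinus (n - 1) F a b) ≃* _ :=
      H6.commutatorEquiv (H6.ogEquiv (H6.qMinus (n - 1) F a b))
    obtain ⟨x, hx, y, hy, h⟩ := H6.cm2_of_mem_two hB (by omega) (by rw [hd]; simp) (e g).2
    exact ⟨e.symm ⟨x, hx⟩, e.symm ⟨y, hy⟩, e.injective (Subtype.ext (by simpa using h))⟩
  · have e : Omega F (quadFormMinus (n - 1) F a b) ≃* _ := H5.omEquiv (H6.qMinus (n - 1) F a b) h2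
    obtain ⟨x, hx, y, hy, h⟩ := H5.cmO_of_mem_even (H5.isEps_pb hB) h2 (by omega)
      (by rw [hd]; simp) (e g).2
    exact ⟨e.symm ⟨x, hx⟩, e.symm ⟨y, hy⟩, e.injective (Subtype.ext (by simpa using h))⟩

end Cfsg.Agent.S2449
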