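import Cfsg.Statements.S2450
import Cfsg.Agent.H1.PSL2Prod

set_option autoImplicit false
open Cfsg

namespace Cfsg.Agent.S2450

/-- The Arad–Herzog conjecture for PSL(2,q): let F be a finite field with q ≥ 4 elements. For any two non-identity elements a, b of PSL(2,F), the set of products of a conjugate of a with a conjugate of b is not a single conjugacy class. -/
theorem result {F : Type*} [Field F] [Fintype F] (h4 : 4 ≤ Fintype.card F)
    (a b : Matrix.ProjectiveSpecialLinearGroup (Fin 2) F) (ha : a ≠ 1) (hb : b ≠ 1) (c : Matrix.ProjectiveSpecialLinearGroup (Fin 2) F) :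
    {g : Matrix.ProjectiveSpecialLinearGroup (Fin 2) F | ∃ u v : Matrix.ProjectiveSpecialLinearGroup (Fin 2) F, g = (u * a * u⁻¹) * (v * b * v⁻¹)} ≠ {g | IsConj c g} := by
  obtain ⟨a, rfl⟩ := H2.pj_surjective a
  obtain ⟨b, rfl⟩ := H2.pj_surjective b
  intro h
  obtain ⟨u, v, u', v', k⟩ := H1.two_traces (by rwa [Nat.card_eq_fintype_card])
    (mt H2.pj_eq_one_iff.mpr ha) (mt H2.pj_eq_one_iff.mpr hb)
  have key : ∀ u v, IsConj c (H2.pj F (u * a * u⁻¹ * (v * b * v⁻¹))) := fun u v =>
    (Set.ext_iff.mp h _).mp ⟨H2.pj F u, H2.pj F v, by simp⟩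
  exact k (H1.tr_sq_of_isConj ((key u v).symm.trans (key u' v')))

end Cfsg.Agent.S2450
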