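import Cfsg.Statements.S2455
import Cfsg.Agent.H1.PSL2Prod

set_option autoImplicit false
open Cfsg

namespace Cfsg.Agent.S2455

/-- A strong covering result in the direction of Thompson's conjecture (non-identity elements) for PSL(2,q), q odd: let F be a finite field of odd characteristic p with at least 5 elements and let x ∈ PSL(2,F) have order greater than 2 and not divisible by p (so x is not unipotent). Then every non-identity element of PSL(2,F) is a product of two conjugates of x. -/
theorem result {F : Type*} [Field F] [Fintype F] (p : ℕ) [Fact p.Prime] [CharP F p] (hp : p ≠ 2) (h5 : 5 ≤ Fintype.card F)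
    (x : Matrix.ProjectiveSpecialLinearGroup (Fin 2) F) (hx2 : 2 < orderOf x) (hxp : ¬ p ∣ orderOf x) : ∀ g : Matrix.ProjectiveSpecialLinearGroup (Fin 2) F, g ≠ 1 → ∃ u v : Matrix.ProjectiveSpecialLinearGroup (Fin 2) F, g = (u * x * u⁻¹) * (v * x * v⁻¹) := by
  obtain ⟨x, rfl⟩ := H2.pj_surjective x
  intro g hg
  obtain ⟨g, rfl⟩ := H2.pj_surjective g
  have h0 := H1.tr_ne_zero_of_order hx2
  have h2 := H2.two_ne_zero_of_charP (F := F) p hp
  have hx : H2.SS x := by
    by_contra h
    exact hxp (H2.unip_pow p (fun k => by simp [H2.pj_eq_one_iff.mpr k] at hx2) h).symm.dvd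
  replace hg := mt H2.pj_eq_one_iff.mpr hg
  by_cases h : H2.SS g
  · exact H1.pj_prod (H1.prod_of_SS hx h)
  obtain ⟨A, B, h1, h3, h4⟩ := H1.macbeath hx (H2.tr x) (-2)
  have h6 : ¬H2.Sc (A * B) := fun k => by
    rcases H2.isScal_SL_iff.mp k with k | k
    · rw [k, H2.tr_one] at h4
      exact mul_ne_zero h2 h2 (by linear_combination h4)
    · have : B = -A⁻¹ := by rw [eq_inv_mul_iff_mul_eq.mpr k]; simp
      rw [this, H2.tr_neg, H2.tr_inv, h1] at h3
      exact mul_ne_zero h2 h0 (by linear_combination -h3)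
  rcases sq_eq_sq_iff_eq_or_eq_neg.mp (show H2.tr g ^ 2 = 2 ^ 2 by
    rw [not_not.mp h]; norm_num) with k | k
  · rw [← H2.pj_neg g]
    exact H1.pj_prod (H1.prod_of_tr hx h1 h3
      (by rwa [← H2.pj_eq_one_iff, H2.pj_neg, H2.pj_eq_one_iff]) h6 (by rw [H2.tr_neg, k, h4]))
  · exact H1.pj_prod (H1.prod_of_tr hx h1 h3 hg h6 (h4.trans k.symm))

end Cfsg.Agent.S2455
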