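import Cfsg.Statements.S2456
import Cfsg.Agent.H1.PSL2Prod

set_option autoImplicit false
open Cfsg

namespace Cfsg.Agent.S2456

/-- A strong covering result in the direction of Thompson's conjecture (non-identity elements) for PSL(2,q), q even: let F be a finite field of characteristic 2 with q ≥ 4 elements and let x ∈ PSL(2,F) have order greater than 2 and not dividing q + 1. Then every non-identity element of PSL(2,F) is a product of two conjugates of x. -/
theorem result {F : Type*} [Field F] [Fintype F] [CharP F 2] (h4 : 4 ≤ Fintype.card F)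
    (x : Matrix.ProjectiveSpecialLinearGroup (Fin 2) F) (hx2 : 2 < orderOf x) (hxq : ¬ orderOf x ∣ Fintype.card F + 1) : ∀ g : Matrix.ProjectiveSpecialLinearGroup (Fin 2) F, g ≠ 1 → ∃ u v : Matrix.ProjectiveSpecialLinearGroup (Fin 2) F, g = (u * x * u⁻¹) * (v * x * v⁻¹) := by
  obtain ⟨x, rfl⟩ := H2.pj_surjective x
  intro g hg
  obtain ⟨g, rfl⟩ := H2.pj_surjective g
  have h0 := H1.tr_ne_zero_of_order hx2
  have h2 : (2 : F) = 0 := CharP.cast_eq_zero F 2
  have h3 : ∀ y : Matrix.SpecialLinearGroup (Fin 2) F, H2.SS y ↔ H2.tr y ≠ 0 := fun y => by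
    rw [H2.SS, show (4 : F) = 0 by linear_combination 2 * h2]; simp
  have hx : H2.SS x := (h3 x).mpr h0
  replace hg := mt H2.pj_eq_one_iff.mpr hg
  by_cases h : H2.SS g
  · exact H1.pj_prod (H1.prod_of_SS hx h)
  obtain ⟨l, hl⟩ : ∃ l : F, l ^ 2 - H2.tr x * l + 1 = 0 := by
    by_contra hc
    push Not at hc
    refine hxq ((orderOf_map_dvd _ x).trans ?_)
    rw [← Nat.card_eq_fintype_card, ← H2.card_Cen_of_no_root hc]
    exact Subgroup.orderOf_dvd_natCard _ (Subgroup.mem_centralizer_singleton_iff.mpr rfl)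
  have hl0 : l ≠ 0 := by rintro rfl; simp at hl
  have h5 : l + l⁻¹ = H2.tr x := by field_simp; linear_combination hl
  refine H1.pj_prod (H1.prod_of_tr (A := H2.toSL !![l, 0; 0, l⁻¹] (by simp [Matrix.det_fin_two_of, hl0]))
    (B := H2.toSL !![l⁻¹, 1; 0, l] (by simp [Matrix.det_fin_two_of, hl0])) hx
    (by simpa [H2.tr, Matrix.trace_fin_two] using h5)
    (by simpa [H2.tr, Matrix.trace_fin_two, add_comm] using h5) hg
    (by simp [H2.Sc, H2.IsScal, hl0]) ?_)
  rw [not_not.mp ((h3 g).not.mp h)]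
  simpa [H2.tr, Matrix.trace_fin_two, hl0, one_add_one_eq_two] using h2

end Cfsg.Agent.S2456
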