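import Cfsg.Statements.S2457
import Cfsg.Agent.H2.SzProd

set_option autoImplicit false
open Cfsg

namespace Cfsg.Agent.S2457

/-- A strong covering result in the direction of Thompson's conjecture (non-identity elements) for the Suzuki groups: let q = 2^(2m+1) ≥ 8, F the field with q elements and Sz(q) the Suzuki group over F. For every element x of Sz(q) of order greater than 2, every non-identity element of Sz(q) is a product of two conjugates of x. -/
theorem result {F : Type*} [Field F] [Fintype F] (m : ℕ) (hm : 1 ≤ m) (hF : Fintype.card F = 2 ^ (2 * m + 1))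
    (x : Cfsg.Lie.Sz F (2 ^ (m + 1))) (hx2 : 2 < orderOf x) : ∀ g : Cfsg.Lie.Sz F (2 ^ (m + 1)), g ≠ 1 → ∃ u v : Cfsg.Lie.Sz F (2 ^ (m + 1)), g = (u * x * u⁻¹) * (v * x * v⁻¹) := by
  open Cfsg.Agent.H2 Cfsg.Agent.H2.Suz in
  have := SzF.of_fintype hm hF
  intro g hg
  obtain ⟨x, rfl⟩ := (equivLie F m).surjective x
  obtain ⟨g, rfl⟩ := (equivLie F m).surjective g
  obtain ⟨y, z, a, b, rfl⟩ := pc_of_order (x := x) (g := g) (fun h => by
    have := Nat.le_of_dvd two_pos (orderOf_dvd_of_pow_eq_one (x := equivLie F m x) (n := 2)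
      (by rw [← map_pow, h, map_one]))
    omega) (fun h => hg (by rw [h, map_one]))
  obtain ⟨s, rfl⟩ := isConj_iff.1 a
  obtain ⟨t, rfl⟩ := isConj_iff.1 b
  exact ⟨equivLie F m s, equivLie F m t, by simp only [map_mul, map_inv]⟩

end Cfsg.Agent.S2457
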