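import Cfsg.Statements.S2458
import Cfsg.Agent.H2.ReeProd

set_option autoImplicit false
open Cfsg

namespace Cfsg.Agent.S2458

/-- A strong covering result in the direction of Thompson's conjecture (non-identity elements) for the small Ree groups: let q = 3^(2m+1) ≥ 27, K the field with q elements and ²G₂(q) the Ree group over K. For every element x of ²G₂(q) of order greater than 2 and not divisible by 3, every non-identity element of ²G₂(q) is a product of two conjugates of x. -/
theorem result {K : Type*} [Field K] [Fintype K] (m : ℕ) (hm : 1 ≤ m) (hK : Fintype.card K = 3 ^ (2 * m + 1))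
    (x : Cfsg.Lie.twistedG2 K (3 ^ m)) (hx2 : 2 < orderOf x) (hx3 : ¬ 3 ∣ orderOf x) : ∀ g : Cfsg.Lie.twistedG2 K (3 ^ m), g ≠ 1 → ∃ u v : Cfsg.Lie.twistedG2 K (3 ^ m), g = (u * x * u⁻¹) * (v * x * v⁻¹) := by
  have hF := Cfsg.Agent.H2.ReeF.of_fintype hm hK
  intro g hg
  obtain ⟨y, z, a, b, rfl⟩ := Cfsg.Agent.H2.Ree.Reg.pc (x := x) (g := g) ⟨fun h => by
    have := Nat.le_of_dvd two_pos (orderOf_dvd_of_pow_eq_one h)
    omega, hx3⟩ hg
  obtain ⟨s, rfl⟩ := isConj_iff.1 a
  obtain ⟨t, rfl⟩ := isConj_iff.1 b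
  exact ⟨s, t, rfl⟩

end Cfsg.Agent.S2458
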