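import Cfsg.Statements.S2459
import Cfsg.Agent.H4.Cyc2

set_option autoImplicit false
open Cfsg

namespace Cfsg.Agent.S2459

open Cfsg.Agent.H4 Module Polynomial

theorem key {F : Type*} [Field F] [Fintype F] (p : ℕ) [Fact p.Prime] [CharP F p]
    (h3 : 3 ≤ Fintype.card F) : ∃ (t : F) (m : ℕ), m.Coprime p ∧
      (X ^ 2 - C t * X + C 1) * (X - C 1) ∣ (X ^ m - C 1 : F[X]) ∧
      ∀ g : End F (Fin 3 → F), LinearMap.det g = 1 → (∀ c : F, g ≠ c • 1) →
        ∃ W : End F (Fin 3 → F), W.charpoly = (X ^ 2 - C t * X + C 1) * (X - C 1) ∧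
          (g * W).charpoly = (X ^ 2 - C t * X + C 1) * (X - C 1) := by
  obtain ⟨k, hp, hk⟩ := FiniteField.card F p
  rcases h3.eq_or_lt with h | h
  · obtain rfl : p = 3 := (Nat.prime_dvd_prime_iff_eq hp Nat.prime_three).1
      (by rw [h, hk]; exact dvd_pow_self _ k.ne_zero)
    refine ⟨0, 4, by norm_num, ⟨X + C 1, by simp only [map_zero, map_one]; ring⟩, fun g h1 h2 =>
      exists_three_sq (by simp) ?_ (fun l hl => ?_) h1 h2⟩
    · intro h2
      have := (CharP.cast_eq_zero_iff F 3 2).1 (by exact_mod_cast h2)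
      omega
    · simpa [← h] using FiniteField.pow_card_sub_one_eq_one l hl
  · have hF := four_of_card (K := F) h
    obtain ⟨l, l0, l1, l2⟩ := hF 0 1 (-1)
    have l3 : l⁻¹ ≠ 1 := fun h => l1 (inv_eq_one.1 h)
    have l4 : l ≠ l⁻¹ := fun h => by
      have : l * l = 1 := by nth_rw 2 [h]; exact mul_inv_cancel₀ l0
      rcases mul_self_eq_one_iff.1 this with h | h
      exacts [l1 h, l2 h]
    have e : (X ^ 2 - C (l + l⁻¹) * X + C 1 : F[X]) = (X - C l) * (X - C l⁻¹) := by
      rw [← mul_inv_cancel₀ l0, map_mul, map_add]; ring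
    have r : ∀ a : F, a ≠ 0 → X - C a ∣ (X ^ (Fintype.card F - 1) - C 1 : F[X]) := fun a ha =>
      dvd_iff_isRoot.2 (by simp [FiniteField.pow_card_sub_one_eq_one a ha])
    refine ⟨l + l⁻¹, Fintype.card F - 1, ?_, ?_, fun g h1 h2 => ?_⟩
    · rw [Nat.coprime_comm, hp.coprime_iff_not_dvd]
      intro h1
      have h2 : p ∣ Fintype.card F := by rw [hk]; exact dvd_pow_self _ k.ne_zero
      have := (Nat.dvd_sub_iff_right (by omega) h2).1 h1
      exact hp.one_lt.ne' (Nat.dvd_one.1 this)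
    · rw [e]
      exact IsCoprime.mul_dvd ((isCoprime_X_sub_C_of_isUnit_sub (sub_ne_zero.2 l1).isUnit).mul_left
        (isCoprime_X_sub_C_of_isUnit_sub (sub_ne_zero.2 l3).isUnit))
        (IsCoprime.mul_dvd (isCoprime_X_sub_C_of_isUnit_sub (sub_ne_zero.2 l4).isUnit) (r l l0)
          (r _ (inv_ne_zero l0))) (r 1 one_ne_zero)
    · obtain ⟨W, a1, a2, -⟩ := exists_reg_two hF (n := 1) (by simp) h1 h2 l1 l3
      exact ⟨W, by rw [a1, e, pow_one], by rw [a2, e, pow_one]⟩

/-- A form of Thompson's conjecture for PSL(3,q), q > 2 (covering the non-identity elements), with a semisimple class: for F a finite field of characteristic p with more than 2 elements there is an element x of PSL(3,F) of order prime to p such that every non-identity element of PSL(3,F) is a product of two conjugates of x. -/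
theorem result {F : Type*} [Field F] [Fintype F] (p : ℕ) [Fact p.Prime] [CharP F p] (h3 : 3 ≤ Fintype.card F) :
    ∃ x : Matrix.ProjectiveSpecialLinearGroup (Fin 3) F, ¬ p ∣ orderOf x ∧ ∀ g : Matrix.ProjectiveSpecialLinearGroup (Fin 3) F, g ≠ 1 → ∃ u v : Matrix.ProjectiveSpecialLinearGroup (Fin 3) F, g = (u * x * u⁻¹) * (v * x * v⁻¹) := by
  obtain ⟨t, m, hm, hdvd, H⟩ := key (F := F) p h3
  have hsq := squarefree_X_pow_sub_C (F := F) p hm one_ne_zero
  let x : Matrix.SpecialLinearGroup (Fin 3) F :=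
    ⟨!![1, 0, 0; 0, 0, -1; 0, 1, t], by simp [Matrix.det_fin_three]⟩
  have hx : (x : Matrix (Fin 3) (Fin 3) F).charpoly = (X ^ 2 - C t * X + C 1) * (X - C 1) := by
    change (!![1, 0, 0; 0, 0, -1; 0, 1, t] : Matrix (Fin 3) (Fin 3) F).charpoly = _
    rw [Matrix.charpoly, Matrix.det_fin_three]
    simp [Matrix.charmatrix_apply]
    ring
  have hann : ∀ W : End F (Fin 3 → F), W.charpoly = (X ^ 2 - C t * X + C 1) * (X - C 1) →
      aeval W (X ^ m - C 1 : F[X]) = 0 := fun W hW => by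
    obtain ⟨c, hc⟩ := hdvd
    rw [hc, ← hW, map_mul, LinearMap.aeval_self_charpoly, zero_mul]
  have hx' := hann _ ((Matrix.charpoly_toLin' _).trans hx)
  have hconj : ∀ y : Matrix.SpecialLinearGroup (Fin 3) F,
      LinearMap.charpoly (Matrix.toLin' (y : Matrix (Fin 3) (Fin 3) F)) =
        (X ^ 2 - C t * X + C 1) * (X - C 1) → IsConj x y := fun y hy =>
    isConj_SL_of_sim (sim_of_squarefree hsq hsq hx' (hann _ hy)
      (by rw [hy, Matrix.charpoly_toLin', hx])) fun μ _ =>
        exists_commute_det_of_squarefree hsq hx' μ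
  have hinv : IsConj x x⁻¹ := by
    refine isConj_SL_of_mul _ _ !![-1, 0, 0; 0, 0, 1; 0, 1, 0] ?_ (by simp [Matrix.det_fin_three])
    rw [Matrix.SpecialLinearGroup.coe_inv]
    change _ * (!![1, 0, 0; 0, 0, -1; 0, 1, t] : Matrix (Fin 3) (Fin 3) F) =
      (!![1, 0, 0; 0, 0, -1; 0, 1, t] : Matrix (Fin 3) (Fin 3) F).adjugate * _
    rw [Matrix.adjugate_fin_three]
    simp
  have hxm : x ^ m = 1 := by
    apply Subtype.ext
    rw [← toLin'_aeval, LinearEquiv.map_eq_zero_iff, map_sub, map_pow, aeval_X, sub_eq_zero] at hx'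
    simpa using hx'
  refine ⟨QuotientGroup.mk x, fun h => ?_, fun g hg => ?_⟩
  · refine (Nat.Prime.coprime_iff_not_dvd Fact.out).1 hm.symm (h.trans ?_)
    rw [orderOf_dvd_iff_pow_eq_one, ← QuotientGroup.mk_pow, hxm, QuotientGroup.mk_one]
  · obtain ⟨g, rfl⟩ := QuotientGroup.mk_surjective g
    obtain ⟨W, a1, a2⟩ := H (Matrix.toLin' (g : Matrix (Fin 3) (Fin 3) F))
      (by rw [LinearMap.det_toLin', g.2]) fun c hc => hg (by
        rw [QuotientGroup.eq_one_iff, Subgroup.mem_center_iff]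
        intro y
        have : (g : Matrix (Fin 3) (Fin 3) F) = c • 1 := Matrix.toLin'.injective (by
          rw [hc, map_smul, Matrix.toLin'_one]; rfl)
        exact Subtype.ext (by simp [this]))
    obtain ⟨B, rfl⟩ := Matrix.toLin'.surjective W
    have hB : B.det = 1 := by
      rw [← LinearMap.det_toLin', det_eq_charpoly, a1]
      simp
      norm_num
    let b : Matrix.SpecialLinearGroup (Fin 3) F := ⟨B, hB⟩
    have c1 := hconj (g * b) (by
      rw [Matrix.SpecialLinearGroup.coe_mul, Matrix.toLin'_mul]; exact a2)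
    have c2 : IsConj x b⁻¹ := hinv.trans (by
      obtain ⟨c, hc⟩ := isConj_iff.1 (hconj b a1)
      exact isConj_iff.2 ⟨c, by rw [← hc]; group⟩)
    obtain ⟨u, hu⟩ := isConj_iff.1 c1
    obtain ⟨v, hv⟩ := isConj_iff.1 c2
    refine ⟨QuotientGroup.mk u, QuotientGroup.mk v, ?_⟩
    simp only [← QuotientGroup.mk_inv, ← QuotientGroup.mk_mul]
    rw [hu, hv, mul_inv_cancel_right]

end Cfsg.Agent.S2459
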