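import Cfsg.Statements.S2460
import Cfsg.Agent.H5.OreE

set_option autoImplicit false
open Cfsg

namespace Cfsg.Agent.S2460

open Cfsg.Agent.H5 Module Polynomial Matrix

variable {F : Type*} [Field F]

theorem spl_inj {V : Type*} [AddCommGroup V] [Module F V] [FiniteDimensional F V] {B : Bil F V} (hB : IsSp B)
    {x : Isom B} (h : Spl x) (v : V) (hv : x.1 (x.1 v) = v) : v = 0 := by
  obtain ⟨E, G, h1, h2, h3, h4⟩ := h
  have key : ∀ (w : V) (c : F), c * c = 1 → x.1 w = c • w → w = 0 := fun w c hc hw => by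
    obtain ⟨a1, a2⟩ := h4 (hB.transv w 1) (Subtype.ext (LinearEquiv.ext fun y => by
      change (hB.transv w 1).1 (x.1 y) = x.1 ((hB.transv w 1).1 y)
      have := Isom.apply_apply x y w
      rw [hw, map_smul, smul_eq_mul] at this
      rw [hB.transv_apply, hB.transv_apply, map_add, map_smul, hw, smul_smul, ← this]
      congr 2
      linear_combination (-B (x.1 y) w) * hc))
    have e : ∀ {U : Submodule F V}, (∀ y ∈ U, ∀ z ∈ U, B y z = 0) → (∀ y ∈ U, (hB.transv w 1).1 y ∈ U) →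
        ∀ y ∈ U, B y w = 0 := fun {U} b1 b2 y hy => by
      by_contra h0
      have := b2 y hy
      rw [hB.transv_apply, one_mul, U.add_mem_iff_right hy, U.smul_mem_iff h0] at this
      exact h0 (b1 y hy w this)
    refine hB.isEps.nondeg' w fun u => ?_
    obtain ⟨a, b, rfl⟩ := exists_add_of_isCompl h1 u
    rw [map_add, LinearMap.add_apply, e h2 a1 _ a.2, e h3 a2 _ b.2, add_zero]
  have := key (x.1 v + v) 1 (one_mul 1) (by rw [map_add, hv, one_smul, add_comm])
  exact key v (-1) (by simp) ((eq_neg_of_add_eq_zero_left this).trans (neg_one_smul F v).symm)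

theorem sqfree (h2 : (2 : F) ≠ 0) : Squarefree ((X ^ 2 + 2 * X - 1) * (X ^ 2 - 2 * X - 1) : F[X]) := by
  refine Separable.squarefree ((isCoprime_iff_aeval_ne_zero_of_isAlgClosed F (AlgebraicClosure F) _ _).2
    fun z => ?_)
  by_contra! H
  obtain ⟨h3, h4⟩ := H
  have h7 : (2 : AlgebraicClosure F) ≠ 0 := by
    rwa [← map_ofNat (algebraMap F _), _root_.map_ne_zero]
  simp only [derivative_mul, derivative_sub, derivative_add, derivative_X_pow, derivative_ofNat, derivative_X,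
    derivative_one, map_add, map_sub, map_mul, map_pow, aeval_X, map_one, map_ofNat, Nat.cast_ofNat,
    map_zero] at h3 h4
  refine pow_ne_zero 5 h7 ?_
  linear_combination (-4 * ((z ^ 2 - 3) ^ 2 - 8 - (z ^ 2 - 3) ^ 2 - z ^ 2 * (z ^ 2 - 6))) * h3 -
    z * (z ^ 2 - 3) * (z ^ 2 - 6) * h4

theorem exists_factors [Finite F] (h2 : (2 : F) ≠ 0) : ∃ (k l : Isom (stdSp 2 F)) (u : Fin 4 → Fin 2 ⊕ Fin 2 → F),
    (k.1 : End F (Fin 2 ⊕ Fin 2 → F)).charpoly = (X ^ 2 + 2 * X - 1) * (X ^ 2 - 2 * X - 1) ∧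
    (l.1 : End F (Fin 2 ⊕ Fin 2 → F)).charpoly = (X ^ 2 + 2 * X - 1) * (X ^ 2 - 2 * X - 1) ∧
    (∀ i j, stdSp 2 F (u i) (u j) = !![0, 2, 0, 0; -2, 0, 0, 0; 0, 0, 0, -2; 0, 0, 2, 0] i j) ∧
    ∀ i, k.1 (l.1 (u i)) = ![(1 : F), 1, -1, -1] i • u i := by
  obtain ⟨ρ, ω, h⟩ := field_binary_form (0 : F) 1 3 (by
    rw [show (0 : F) ^ 2 - 4 * 1 = -(2 * 2) by ring]; exact neg_ne_zero.2 (mul_ne_zero h2 h2))
  obtain ⟨a, b, c, d, h1, h3, h4⟩ : ∃ a b c d : F, a * d - b * c = -1 ∧ a + d = -2 ∧ c - b = 2 :=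
    ⟨-1 + ρ, -1 + ω, 1 + ω, -1 - ρ, by linear_combination -h, by ring, by ring⟩
  refine ⟨spEquiv 2 F ⟨fromBlocks !![-d, b; c, -a] 0 !![2 * d, -2 * b; -2 * c, 2 * a] !![a, c; b, d],
    mem_sp_iff.2 fun u v => ?_⟩, spEquiv 2 F ⟨fromBlocks !![-b, a; -d, c] !![-b, a; -d, c] 0 !![-c, -d; a, b],
    mem_sp_iff.2 fun u v => ?_⟩, ![Sum.elim ![1, 0] ![-1, 1], Sum.elim ![0, 1] ![-1, -1],
      Sum.elim ![1, 0] ![-1, -1], Sum.elim ![0, 1] ![1, -1]], ?_, ?_, fun i j => ?_, fun i => ?_⟩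
  iterate 2
    simp [stdSp_apply', mulVec, dotProduct]
    linear_combination (u (.inl 0) * v (.inr 0) - u (.inr 0) * v (.inl 0) + u (.inl 1) * v (.inr 1) -
      u (.inr 1) * v (.inl 1)) * h1
  · rw [spEquiv_coe, charpoly_toLin', charpoly_fromBlocks_zero₁₂, charpoly_fin_two, charpoly_fin_two,
      trace_fin_two_of, trace_fin_two_of, det_fin_two_of, det_fin_two_of,
      show -d + -a = 2 by linear_combination -h3, show -d * -a - b * c = -1 by linear_combination h1,
      show a * d - c * b = -1 by linear_combination h1, h3]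
    simp [map_ofNat]; ring
  · rw [spEquiv_coe, charpoly_toLin', charpoly_fromBlocks_zero₂₁, charpoly_fin_two, charpoly_fin_two,
      trace_fin_two_of, trace_fin_two_of, det_fin_two_of, det_fin_two_of,
      show -b + c = 2 by linear_combination h4, show -b * c - a * -d = -1 by linear_combination h1,
      show -c * b - -d * a = -1 by linear_combination h1, show -c + b = -2 by linear_combination -h4]
    simp [map_ofNat]; ring
  · fin_cases i <;> fin_cases j <;> simp [stdSp_apply'] <;> norm_num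
  · change fromBlocks _ _ _ _ *ᵥ (fromBlocks _ _ _ _ *ᵥ (_ : Fin 2 ⊕ Fin 2 → F) : Fin 2 ⊕ Fin 2 → F) = _
    ext j
    fin_cases i <;> rcases j with j | j <;> fin_cases j <;> simp [mulVec, dotProduct] <;>
      first | linear_combination h1 | linear_combination -h1 | ring1

theorem main [Fintype F] (p : ℕ) [Fact p.Prime] [CharP F p] (h3 : 3 ≤ Fintype.card F) {V : Type*}
    [AddCommGroup V] [Module F V] [FiniteDimensional F V] {B : Bil F V} (hB : IsSp B) (hd : finrank F V = 4)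
    (H : (2 : F) ≠ 0 → ∃ (k l : Isom B) (u : Fin 4 → V),
      (k.1 : End F V).charpoly = (X ^ 2 + 2 * X - 1) * (X ^ 2 - 2 * X - 1) ∧
      (l.1 : End F V).charpoly = (X ^ 2 + 2 * X - 1) * (X ^ 2 - 2 * X - 1) ∧
      (∀ i j, B (u i) (u j) = !![0, 2, 0, 0; -2, 0, 0, 0; 0, 0, 0, -2; 0, 0, 2, 0] i j) ∧
      ∀ i, k.1 (l.1 (u i)) = ![(1 : F), 1, -1, -1] i • u i) :
    ∃ x : Isom B, (orderOf x).Coprime p ∧ ∀ g, ∃ z u v, z ∈ Subgroup.center (Isom B) ∧
      z * g = (u * x * u⁻¹) * (v * x * v⁻¹) := by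
  have key : ∀ x g : Isom B, Spl x → PE B g.1 1 →
      ∃ u v, g = (u * x * u⁻¹) * (v * x * v⁻¹) := fun x g h1 h2 => by
    obtain ⟨s, t, rfl⟩ := exists_conj_prod hB h2 h1
    obtain ⟨c, hc⟩ := isConj_iff.1 (isConj_inv_of_inj hB x (spl_inj hB h1))
    exact ⟨s * c, t, by rw [← hc]; group⟩
  by_cases h2 : (2 : F) = 0
  · obtain ⟨c, h0, hc⟩ := exists_sq_ne_one (F := F) (by
      by_contra h
      have := FiniteField.cast_card_eq_zero F
      rw [show Fintype.card F = 3 by omega] at this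
      exact one_ne_zero (α := F) (by push_cast at this; linear_combination this - h2))
    obtain ⟨x, x1, x2, -⟩ := exists_spl p hB ((monic_X_sub_C c).pow 2) (by simp [hd]) (lin_pow_good h0 hc 2).1
      (lin_pow_good h0 hc 2).2
    refine ⟨x, x2, fun g => ?_⟩
    obtain ⟨u, v, h⟩ := key x g x1 ((pe_or hB g.2).resolve_right fun h => h.1 h2)
    exact ⟨1, u, v, one_mem _, by rwa [one_mul]⟩
  obtain ⟨a1, a2, -⟩ := mZ_good h2 1
  rw [pow_one] at a1 a2
  obtain ⟨x, x1, x2, x3, -⟩ := exists_spl p hB mZ_monic (by simp [mZ_natDegree, hd]) a1 a2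
  replace x3 : (x.1 : End F V).charpoly = (X ^ 2 + 2 * X - 1) * (X ^ 2 - 2 * X - 1) := by
    rw [x3, mZ_reverse]; simp [mZ, coeff_one]; ring
  refine ⟨x, x2, fun g => ?_⟩
  obtain h | ⟨-, e, v, w, b1, b2, b3⟩ := pe_or hB g.2
  · obtain ⟨u, v, h⟩ := key x g x1 h
    exact ⟨1, u, v, one_mem _, by rwa [one_mul]⟩
  obtain h | ⟨-, e', v', w', c1, c2, c3⟩ := pe_or hB (Pres.neg (g := (g.1 : End F V)) g.2)
  · obtain ⟨u, v, h⟩ := key x (negI _ * g) x1 h
    exact ⟨_, u, v, mem_center_of_scalar (c := -1) fun v => by simp [negI_apply], h⟩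
  rw [neg_neg] at c1 c2 c3
  obtain ⟨W, -, -, w2, w3, -⟩ := HasOdd.exists_piece h2 hB (Pres.neg (g := (g.1 : End F V)) g.2) b1 b2 b3
  obtain ⟨W', -, -, u2, u3, -⟩ := HasOdd.exists_piece h2 hB (g := (g.1 : End F V)) g.2 c1 c2 c3
  have d1 := Submodule.finrank_sup_add_finrank_inf_eq W W'
  have d2 := Submodule.finrank_le (W ⊔ W')
  rw [(Submodule.eq_bot_iff (W ⊓ W')).2 fun y hy => Submodule.disjoint_def.1 (disjoint_ker_aeval_of_isCoprime
    (g.1 : End F V) (p := (-X - 1) ^ (2 * e + 1)) (q := (X - 1) ^ (2 * e' + 1))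
    (IsCoprime.pow ⟨-C 2⁻¹, -C 2⁻¹, by
      have := congrArg C (inv_mul_cancel₀ h2)
      rw [C_mul, C_1, map_ofNat] at this
      linear_combination this⟩)) y
      (by simpa using w3 y hy.1) (by simpa using u3 y hy.2), finrank_bot] at d1
  obtain rfl : e = 0 := by omega
  obtain rfl : e' = 0 := by omega
  simp only [mul_zero, zero_add, pow_one, pow_zero, End.one_apply, LinearMap.sub_apply, LinearMap.neg_apply,
    sub_eq_zero, neg_eq_iff_eq_neg, LinearEquiv.coe_coe] at b1 b2 b3 c1 c2 c3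
  have o : ∀ {y z}, g.1 y = y → g.1 z = -z → B y z = 0 := fun {y z} hy hz => by
    have := Isom.apply_apply g y z
    rw [hy, hz, map_neg] at this
    exact (mul_eq_zero.1 (by linear_combination -this)).resolve_left h2
  obtain ⟨k, l, u, k1, l1, u1, u2⟩ := H h2
  let y := ![v', (2 / B v' w') • w', v, (-2 / B v w) • w]
  have y1 : ∀ i j, B (y i) (y j) = !![0, 2, 0, 0; -2, 0, 0, 0; 0, 0, 0, -2; 0, 0, 2, 0] i j := fun i j => by
    fin_cases i <;> fin_cases j <;> simp [y, hB.alt, o c1 b1, o c1 b2, o c2 b1, o c2 b2, hB.skew v w,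
      hB.skew v' w', hB.isEps.refl (o c1 b1), hB.isEps.refl (o c1 b2), hB.isEps.refl (o c2 b1),
      hB.isEps.refl (o c2 b2), b3, c3]
  have li : ∀ {y : Fin 4 → V}, (∀ i j, B (y i) (y j) =
      !![0, 2, 0, 0; -2, 0, 0, 0; 0, 0, 0, -2; 0, 0, 2, 0] i j) → LinearIndependent F y := fun {y} hy =>
    Fintype.linearIndependent_iff.2 fun t ht i => by
      have := fun j => congrArg (fun z => B z (y j)) ht
      simp only [Fin.sum_univ_four] at this
      fin_cases i
      exacts [by simpa [h2, hy] using this 1, by simpa [h2, hy] using this 0, by simpa [h2, hy] using this 3,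
        by simpa [h2, hy] using this 2]
  obtain ⟨f, f1, f2⟩ := witt hB.good hB.good rfl (li y1) (li u1) fun i j => (u1 i j).trans (y1 i j).symm
  have hg : IsConj g (k * l) := isConj_isom_of_isim ⟨f, f1, LinearMap.congr_fun
    ((basisOfLinearIndependentOfCardEqFinrank (li y1) (by simp [hd])).ext
      (f₁ := (f : _ →ₗ[F] _) ∘ₗ (g.1 : End F V)) (f₂ := ((k * l).1 : End F V) ∘ₗ (f : _ →ₗ[F] _)) fun i => by
        rw [coe_basisOfLinearIndependentOfCardEqFinrank]
        change f (g.1 (y i)) = k.1 (l.1 (f (y i)))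
        rw [f2, u2, ← f2, ← map_smul]
        fin_cases i <;> simp [y, b1, b2, c1, c2])⟩
  have hc : ∀ k : Isom B, (k.1 : End F V).charpoly = (X ^ 2 + 2 * X - 1) * (X ^ 2 - 2 * X - 1) →
      IsConj x k := fun k hk => isConj_isom_of_isim (isim_of_sim_of_inj hB.isEps hB.isEps x k
        (H4.sim_of_squarefree (sqfree h2) (sqfree h2) (x3 ▸ LinearMap.aeval_self_charpoly _)
          (hk ▸ LinearMap.aeval_self_charpoly _) (x3.trans hk.symm)) (spl_inj hB x1))
  obtain ⟨s, rfl⟩ := isConj_iff.1 (hc k k1)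
  obtain ⟨t, rfl⟩ := isConj_iff.1 (hc l l1)
  obtain ⟨r, rfl⟩ := isConj_iff.1 hg.symm
  exact ⟨1, r * s, r * t, one_mem _, by group⟩


/-- A form of Thompson's conjecture for the simple groups PSp(4,q), q ≥ 3 (covering the non-identity elements), with a semisimple class: for F a finite field of characteristic p with at least 3 elements there is an element x of PSp(4,F) of order prime to p such that every non-identity element of PSp(4,F) is a product of two conjugates of x. -/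
theorem result {F : Type*} [Field F] [Fintype F] (p : ℕ) [Fact p.Prime] [CharP F p] (h3 : 3 ≤ Fintype.card F) :
    ∃ x : Cfsg.PSp 2 F, ¬ p ∣ orderOf x ∧ ∀ g : Cfsg.PSp 2 F, g ≠ 1 → ∃ u v : Cfsg.PSp 2 F, g = (u * x * u⁻¹) * (v * x * v⁻¹) := by
  obtain ⟨x, h1, h2⟩ := main p h3 (isSp_std 2) (finrank_std_sp 2) exists_factors
  let π : Isom (stdSp 2 F) →* Cfsg.PSp 2 F := (QuotientGroup.mk' _).comp (spEquiv 2 F).symm.toMonoidHom
  refine ⟨π x, fun h => (Fact.out : p.Prime).one_lt.ne' 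
    (Nat.Coprime.eq_one_of_dvd h1.symm (h.trans (orderOf_map_dvd π x))), fun g _ => ?_⟩
  obtain ⟨g, rfl⟩ : ∃ k, π k = g := ((QuotientGroup.mk'_surjective _).comp (spEquiv 2 F).symm.surjective) g
  obtain ⟨z, u, v, h4, h5⟩ := h2 g
  have h6 : π z = 1 := (QuotientGroup.eq_one_iff _).2 (Subgroup.mem_center_iff.2 fun k =>
    (spEquiv 2 F).injective (by simpa using Subgroup.mem_center_iff.1 h4 _))
  exact ⟨π u, π v, by simpa only [map_mul, map_inv, h6, one_mul] using congrArg π h5⟩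

end Cfsg.Agent.S2460
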