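import Cfsg.Statements.S2463
import Cfsg.Agent.H1.GA9
import Cfsg.Agent.H1.BtT

set_option autoImplicit false
open Cfsg

namespace Cfsg.Agent.S2463

/-- A form of Thompson's conjecture for the simple groups of type ²F₄ (covering the non-identity elements) with a semisimple class: if M is a large Ree group ²F₄(2^(2m+1)) with m ≥ 1, or the Tits group, then there is an element x of M of odd order such that every non-identity element of M is a product of two conjugates of x. -/
theorem result {M : Type*} [Group M] [Finite M] (hM : Cfsg.Lie.Iso2F4 M ∨ Cfsg.Lie.IsoTits M) :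
    ∃ x : M, Odd (orderOf x) ∧ ∀ g : M, g ≠ 1 → ∃ u v : M, g = (u * x * u⁻¹) * (v * x * v⁻¹) := by
  rcases hM with ⟨K, _, _, m, hm, hK, ⟨e⟩⟩ | hM
  · exact H1.sq2_transfer e.symm (H1.sq2_F4 hm hK)
  · have key : ∀ {Γ : Type} [Group Γ] (S : Subgroup Γ), Nonempty (M ≃* commutator S) →
        (∃ x : commutator S, Odd (orderOf x) ∧ ∀ g, g ≠ 1 → H1.Sq2 x g) →
        ∃ x : M, Odd (orderOf x) ∧ ∀ g : M, g ≠ 1 → ∃ u v : M, g = (u * x * u⁻¹) * (v * x * v⁻¹) :=
      fun S ⟨e⟩ h => H1.sq2_transfer e.symm h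
    exact key _ hM H1.sq2_tits

end Cfsg.Agent.S2463
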