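import Cfsg.Statements.S2466
import Cfsg.Agent.H3.AltOrders

set_option autoImplicit false
open Cfsg

namespace Cfsg.Agent.S2466

/-- Adjacency of odd primes in the prime graph of the alternating groups: let r ≠ s be odd primes at most n. The alternating group of degree n has an element of order r·s if and only if r + s ≤ n. -/
theorem result (n r s : ℕ) (hr : r.Prime) (hs : s.Prime) (hr2 : r ≠ 2) (hs2 : s ≠ 2) (hrs : r ≠ s) (hrn : r ≤ n) (hsn : s ≤ n) :
    (r * s ∈ Set.range (orderOf : alternatingGroup (Fin n) → ℕ)) ↔ r + s ≤ n := by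
  rw [H3.mem_range_orderOf_alt_iff]
  have hr3 := hr.two_le
  have hs3 := hs.two_le
  have hco : Nat.Coprime r s := (Nat.coprime_primes hr hs).2 hrs
  constructor
  · rintro ⟨m, h1, h2, -, h4⟩
    obtain ⟨a, ha, hra⟩ := H3.exists_mem_of_prime_dvd_lcm hr m (h4 ▸ Dvd.intro _ rfl)
    obtain ⟨b, hb, hsb⟩ := H3.exists_mem_of_prime_dvd_lcm hs m (h4 ▸ Dvd.intro_left _ rfl)
    have ha2 := h2 a ha
    have hb2 := h2 b hb
    by_cases hab : a = b
    · subst hab
      have h5 : r * s ≤ a := Nat.le_of_dvd (by omega) (hco.mul_dvd_of_dvd_of_dvd hra hsb)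
      have h6 : a ≤ m.sum := Multiset.single_le_sum (by simp) _ ha
      nlinarith
    · obtain ⟨m', rfl⟩ := Multiset.exists_cons_of_mem ha
      have hb' : b ∈ m' := by
        rcases Multiset.mem_cons.1 hb with h | h
        · exact absurd h.symm hab
        · exact h
      have h6 : b ≤ m'.sum := Multiset.single_le_sum (by simp) _ hb'
      have h7 := Nat.le_of_dvd (by omega) hra
      have h8 := Nat.le_of_dvd (by omega) hsb
      rw [Multiset.sum_cons] at h1
      omega
  · intro h
    refine ⟨{r, s}, by simpa using h, ?_, ?_, ?_⟩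
    · intro a ha
      simp only [Multiset.insert_eq_cons, Multiset.mem_cons, Multiset.mem_singleton] at ha
      rcases ha with rfl | rfl <;> assumption
    · have h1 := hr.odd_of_ne_two hr2
      have h2 := hs.odd_of_ne_two hs2
      simp only [Multiset.insert_eq_cons, Multiset.sum_cons, Multiset.sum_singleton,
        Multiset.card_cons, Multiset.card_singleton]
      exact (h1.add_odd h2).add (by decide)
    · simp only [Multiset.insert_eq_cons, Multiset.lcm_cons, Multiset.lcm_singleton, normalize_eq]
      exact hco.lcm_eq_mul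

end Cfsg.Agent.S2466
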