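import Cfsg.Statements.S2467
import Cfsg.Agent.H3.AltOrders

set_option autoImplicit false
open Cfsg

namespace Cfsg.Agent.S2467

/-- Adjacency of 2 and an odd prime in the prime graph of the alternating groups: let r be an odd prime at most n, with n ≥ 4. The alternating group of degree n has an element of order 2r if and only if r + 4 ≤ n. -/
theorem result (n r : ℕ) (hn : 4 ≤ n) (hr : r.Prime) (hr2 : r ≠ 2) (hrn : r ≤ n) :
    (2 * r ∈ Set.range (orderOf : alternatingGroup (Fin n) → ℕ)) ↔ r + 4 ≤ n := by
  rw [H3.mem_range_orderOf_alt_iff]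
  have hr3 := hr.two_le
  have hodd := hr.odd_of_ne_two hr2
  have hco : Nat.Coprime 2 r := (Nat.coprime_primes Nat.prime_two hr).2 (Ne.symm hr2)
  have key : ∀ m : Multiset ℕ, (∀ a ∈ m, 2 ≤ a) → ¬ Even (m.sum + m.card) → 2 ≤ m.sum := by
    intro m h1 h2
    by_cases hm : m = 0
    · subst hm; simp at h2
    · obtain ⟨a, ha⟩ := Multiset.exists_mem_of_ne_zero hm
      exact (h1 a ha).trans (Multiset.single_le_sum (by simp) _ ha)
  constructor
  · rintro ⟨m, h1, h2, h3, h4⟩
    obtain ⟨a, ha, hra⟩ := H3.exists_mem_of_prime_dvd_lcm hr m (h4 ▸ Dvd.intro_left _ rfl)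
    obtain ⟨b, hb, hsb⟩ := H3.exists_mem_of_prime_dvd_lcm Nat.prime_two m (h4 ▸ Dvd.intro _ rfl)
    have ha2 := h2 a ha
    have hb2 := h2 b hb
    obtain ⟨m', rfl⟩ := Multiset.exists_cons_of_mem ha
    rw [Multiset.sum_cons] at h1
    rw [Multiset.sum_cons, Multiset.card_cons, Nat.even_iff] at h3
    by_cases hab : 2 ∣ a
    · have h5 : 2 * r ≤ a := Nat.le_of_dvd (by omega) (hco.mul_dvd_of_dvd_of_dvd hab hra)
      have h6 := key m' (fun x hx => h2 x (Multiset.mem_cons_of_mem hx)) (by
        rw [Nat.even_iff]; omega)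
      omega
    · have hb' : b ∈ m' := by
        rcases Multiset.mem_cons.1 hb with h | h
        · exact absurd (h ▸ hsb) hab
        · exact h
      obtain ⟨m'', rfl⟩ := Multiset.exists_cons_of_mem hb'
      rw [Multiset.sum_cons] at h1
      rw [Multiset.sum_cons, Multiset.card_cons] at h3
      have h6 := key m'' (fun x hx => h2 x (Multiset.mem_cons_of_mem (Multiset.mem_cons_of_mem hx)))
        (by rw [Nat.even_iff]; omega)
      have h7 := Nat.le_of_dvd (by omega) hra
      omega
  · intro h
    refine ⟨{r, 2, 2}, by simp; omega, ?_, ?_, ?_⟩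
    · intro a ha
      simp only [Multiset.insert_eq_cons, Multiset.mem_cons, Multiset.mem_singleton] at ha
      rcases ha with rfl | rfl | rfl <;> omega
    · simp only [Multiset.insert_eq_cons, Multiset.sum_cons, Multiset.sum_singleton,
        Multiset.card_cons, Multiset.card_singleton]
      rw [Nat.odd_iff] at hodd
      rw [Nat.even_iff]; omega
    · simp only [Multiset.insert_eq_cons, Multiset.lcm_cons, Multiset.lcm_singleton, normalize_eq]
      rw [lcm_same, normalize_eq, mul_comm]
      exact hco.symm.lcm_eq_mul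

end Cfsg.Agent.S2467
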