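import Cfsg.Statements.S2471
import Cfsg.Agent.H2.PSL2

set_option autoImplicit false
open Cfsg

namespace Cfsg.Agent.S2471

/-- In PSL(2,q) with q odd, the characteristic p is isolated from 2 in the prime graph: for F a finite field of odd characteristic p with at least 5 elements, PSL(2,F) has no element of order 2p. -/
theorem result {F : Type*} [Field F] [Fintype F] (p : ℕ) [Fact p.Prime] [CharP F p] (hp : p ≠ 2) (h5 : 5 ≤ Fintype.card F) (g : Matrix.ProjectiveSpecialLinearGroup (Fin 2) F) :
    orderOf g ≠ 2 * p := by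
  open Cfsg.Agent.H2 in
  intro h
  have hp' : p.Prime := Fact.out
  have hq : p ∣ Nat.card F := by
    obtain ⟨n, -, hn⟩ := FiniteField.card F p
    rw [Nat.card_eq_fintype_card, hn]
    exact dvd_pow_self p n.ne_zero
  have h0 : 0 < Nat.card F := Nat.card_pos
  have hd : Nat.gcd 2 (Nat.card F - 1) ∣ Nat.card F - 1 := Nat.gcd_dvd_right _ _
  have hd' : Nat.gcd 2 (Nat.card F - 1) ∣ Nat.card F + 1 := by
    have := Nat.dvd_add hd (Nat.gcd_dvd_left 2 _)
    rwa [show Nat.card F - 1 + 2 = Nat.card F + 1 by omega] at this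
  rcases orderOf_pj_cases p g with h1 | h1 | h1 <;> rw [h] at h1
  · have := Nat.le_of_dvd hp'.pos h1
    have := hp'.pos
    omega
  · have := Nat.dvd_sub hq ((Dvd.intro_left _ rfl).trans (h1.trans (Nat.div_dvd_of_dvd hd)))
    rw [show Nat.card F - (Nat.card F - 1) = 1 by omega] at this
    exact hp'.one_lt.ne' (Nat.dvd_one.1 this)
  · exact hp'.one_lt.ne' (Nat.dvd_one.1 ((Nat.dvd_add_right hq).1
      ((Dvd.intro_left _ rfl).trans (h1.trans (Nat.div_dvd_of_dvd hd')))))

end Cfsg.Agent.S2471
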