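import Cfsg.Statements.S2474
import Cfsg.Agent.H5.OrthD

set_option autoImplicit false
open Cfsg

namespace Cfsg.Agent.S2474

open Cfsg.Agent.H5 Function Module

variable {F : Type*} [Field F] [Fintype F] (K : Type*) [Field K] [Algebra F K] [IsAlgClosed K] [DecidableEq K]
  (p : ℕ) [Fact p.Prime] [CharP F p] {V : Type*} [AddCommGroup V] [Module F V] [FiniteDimensional F V]
  {B : Bil F V} (hB : IsEps B 1) (ho : Odd (Fintype.card F)) {n : ℕ} (hd : finrank F V = 2 * n + 1)

omit [Fintype F] [IsAlgClosed K] [DecidableEq K] in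
theorem neg_ne (h2 : (2 : F) ≠ 0) : (-1 : K) ≠ 1 := fun h =>
  (by rwa [← map_ofNat (algebraMap F K), _root_.map_ne_zero] : (2 : K) ≠ 0) (by linear_combination -h)

omit [IsAlgClosed K] [DecidableEq K] in
theorem ord4 (h2 : (-1 : K) ≠ 1) {μ : K} {s j : ℕ} (hs : s.Prime) (hs2 : Odd s) (h1 : μ ^ (2 * s) = -1)
    (h3 : μ ^ 4 ≠ 1) (hj : μ ^ (2 * j) = 1) : 2 * s ∣ j := by
  refine (Nat.coprime_two_left.2 hs2).mul_dvd_of_dvd_of_dvd ?_ ?_
  · rw [← even_iff_two_dvd, ← neg_one_pow_eq_one_iff_even h2, ← h1, ← pow_mul, mul_right_comm, pow_mul, hj, one_pow]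
  · refine ((isPrimitiveRoot_of_prime hs ?_ h3).pow_eq_one_iff_dvd j).1 ?_
    · rw [← pow_mul, show 4 * s = 2 * s * 2 by ring, pow_mul, h1, neg_one_sq]
    · rw [← pow_mul, show 4 * j = 2 * j * 2 by ring, pow_mul, hj, one_pow]

include K p hB ho hd

theorem odd_iff (hn : 1 ≤ n) {k : ℕ} (hk : Odd k) :
    (∃ g ∈ commutator (Isom B), orderOf g = k) ↔ ∃ g : PSp n F, orderOf g = k := by
  classical
  have h2 := two_ne_zero_of_odd ho
  have : CharP K p := charP_ext K p F
  have hneg : (-1 : K) ^ Fintype.card F = -1 := ho.neg_one_pow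
  have hk2 := Nat.coprime_two_right.2 hk
  constructor
  · rintro ⟨g, hg, rfl⟩
    obtain ⟨N, D, E, h1, h3, h4, h5, h6, h7, h8⟩ := exists_struct K p h2 hB g
    have h9 := card_evE K (g.1 : End F V)
    simp only [h1, hd, Multiset.card_add, Multiset.card_replicate] at h9
    obtain ⟨n1, n2, n3⟩ := prod_eq_one_of K h4 h5 h6 h7
    have n4 := even_of_mem_comm h2 hg h1 n1
    have a1 : (N + Multiset.replicate (D - 1) 1 + Multiset.replicate E (-1)).map (·⁻¹) =
        N + Multiset.replicate (D - 1) 1 + Multiset.replicate E (-1) := by simp [h4, inv_neg]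
    refine psp_exists K p (by
      simp only [Multiset.map_add, Multiset.map_replicate, one_pow, hneg]; exact congrArg (· + _ + _) h3) a1
      (by simp [n1, n4.neg_one_pow]) (by rw [Nat.even_iff] at n3 n4; simp; omega) fun i b1 b2 => ?_
    rcases Nat.eq_zero_or_pos i with rfl | hi
    · simp
    obtain ⟨a, j, rfl, c1, c2, c3⟩ := Div.split ⟨b1, b2⟩ hi.ne'
    have c4 := pow_two_mul_eq_one a1 (by simp [h5, Multiset.mem_replicate]) c2
    have c5 := c3 1
    have c6 := c3 (-1)
    simp only [Multiset.count_add, Multiset.count_replicate_self] at c3 c5 c6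
    have := orderOf_dvd_of_pow_eq_one (h8 a (2 * j) (by rintro h; simp [show j = 0 by omega] at c1)
      (fun x hx => c4 x (by simp [hx])) (fun x => by have := c3 x; omega) (by omega) (by omega)
      fun _ => dvd_mul_right _ _)
    exact hk2.dvd_of_dvd_mul_left (by rwa [mul_left_comm] at this)
  · rintro ⟨g, rfl⟩
    obtain ⟨M, m1, m2, m3, m4, m5, m6⟩ := psp_ev K p g
    have m0 : (0 : K) ∉ M := fun hx => by simp [Multiset.prod_eq_zero hx] at m3
    have m7 := pow_two_mul_eq_one m2 m0 m6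
    have a1 : (M.map (· ^ 4)).map (phi (Fintype.card F)) = M.map (· ^ 4) := by
      conv_rhs => rw [← m1]
      simp only [Multiset.map_map, comp_def, phi, pow_right_comm _ 4]
    have a2 : (M.map (· ^ 4)).map (·⁻¹) = M.map (· ^ 4) := by
      conv_rhs => rw [← m2]
      simp only [Multiset.map_map, comp_apply, inv_pow]
    have a3 := stable_filter a2 (· ≠ 1) fun x _ => by simp
    have a4 : (0 : K) ∉ (M.map (· ^ 4)).filter (· ≠ 1) := by simpa using m0
    have a5 : (-1 : K) ∉ (M.map (· ^ 4)).filter (· ≠ 1) := fun h => by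
      obtain ⟨x, hx, h⟩ := Multiset.mem_map.1 (Multiset.mem_filter.1 h).1
      refine neg_ne K h2 ?_
      rw [← hk.neg_one_pow, ← h, ← pow_mul, show 4 * orderOf g = 2 * orderOf g * 2 by ring, pow_mul, m7 x hx,
        one_pow]
    obtain ⟨e, he⟩ := (prod_eq_one_of K a3 a4 (by simp) a5).2.2
    have a6 := congrArg Multiset.card (Multiset.filter_add_not (· ≠ 1) (M.map (· ^ 4)))
    simp only [not_not, Multiset.filter_eq', Multiset.card_add, Multiset.card_replicate, Multiset.card_map] at a6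
    obtain ⟨b, hb⟩ := exists_cyc_unip p h2 hB (stable_filter a1 (· ≠ 1) fun x _ => by
      rw [← (phi_injective F).ne_iff (x := x)]; simp [phi]) a3 a4 (by simp) a5 (e := n - e) (by omega)
    have := finite_isom B
    refine exists_orderOf_eq_of_mem (sq_mem_comm hB h2 (by omega) b) fun i hi => ?_
    obtain ⟨b1, b2, b3⟩ := hb _ ((pow_mul b 2 i).trans hi)
    have c1 : ∀ x ∈ M, x ^ (4 * (2 * i)) = 1 := fun x hx => by
      by_cases h : x ^ 4 = 1
      · rw [pow_mul, h, one_pow]
      · rw [pow_mul, b1 _ (Multiset.mem_filter.2 ⟨Multiset.mem_map_of_mem _ hx, h⟩)]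
    refine hk2.dvd_of_dvd_mul_left ((hk2.pow_right 2).dvd_of_dvd_mul_left (m5 _ ⟨fun x hx y hy =>
      (c1 x hx).trans (c1 y hy).symm, fun x a ha => Dvd.dvd.mul_left ?_ _⟩))
    replace ha : p ^ a < (M.map (· ^ 4)).count (x ^ 4) := ha.trans_le (Multiset.le_count_iff_replicate_le.2 (by
      simpa using Multiset.map_le_map (f := (· ^ 4)) (Multiset.le_count_iff_replicate_le.1 (le_refl (M.count x)))))
    by_cases h : x ^ 4 = 1
    · exact b3 a (by rw [h] at ha; omega)
    · exact b2 (x ^ 4) a (by rwa [Multiset.count_filter_of_pos (p := (· ≠ 1)) h])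

theorem of_cyc {N : Multiset K} (h1 : N.map (phi (Fintype.card F)) = N) (h3 : N.map (·⁻¹) = N) (h0 : 0 ∉ N)
    (h4 : 1 ∉ N) (h5 : -1 ∉ N) {e : ℕ} (he : N.card + 2 * e + 2 = 2 * n) {s : ℕ} (hs : Odd s)
    (h : ∀ i, (∀ x ∈ N, x ^ i = 1) → (∀ a, p ^ a ≤ 2 * e → p ^ (a + 1) ∣ i) → s ∣ i) :
    ∃ g ∈ commutator (Isom B), orderOf g = 2 * s := by
  classical
  have h2 := two_ne_zero_of_odd ho
  obtain ⟨W, hW, w1, w2⟩ := exists_invol hB h2 (by omega)
  obtain ⟨b, hb⟩ := exists_cyc_unip p h2 (hB.restrict_perp hW) h1 h3 h0 h4 h5 (e := e)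
    (by have := hB.finrank_perp W; omega)
  have := finite_isom B
  refine exists_orderOf_eq_of_mem (g := glueHom hB hW (negI _, b ^ 2)) (by
    simpa [← map_pow, ← map_mul] using mul_mem w2 (sq_mem_comm hB h2 (by omega) (glueHom hB hW (1, b))))
    fun i hi => ?_
  obtain ⟨a1, a2⟩ := (glueHom_pow_eq_one hB hW).1 hi
  obtain ⟨b1, -, b3⟩ := hb _ ((pow_mul b 2 i).trans a2)
  exact (Nat.coprime_two_left.2 hs).mul_dvd_of_dvd_of_dvd (two_dvd_of_negI_pow h2 (by omega) a1)
    ((Nat.coprime_two_right.2 hs).dvd_of_dvd_mul_left (h _ b1 b3))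

theorem two_iff (hn : 2 ≤ n) {s : ℕ} (hs : s.Prime) (hs2 : Odd s) :
    (∃ g ∈ commutator (Isom B), orderOf g = 2 * s) ↔ ∃ g : PSp n F, orderOf g = 2 * s := by
  classical
  have h2 := two_ne_zero_of_odd ho
  have : CharP K p := charP_ext K p F
  have hneg : (-1 : K) ^ Fintype.card F = -1 := ho.neg_one_pow
  have hφ := phi_injective (K := K) F
  have h21 := neg_ne K h2
  have hc := Nat.coprime_two_left.2 hs2
  by_cases hsp : s = p
  · subst hsp
    refine iff_of_true (of_cyc K s hB ho hd (N := 0) rfl rfl (by simp) (by simp) (by simp) (e := n - 1)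
      (by simp; omega) hs2 fun i _ h => by simpa using h 0 (by simp; omega))
      (psp_exists K s (M := Multiset.replicate 2 1 + Multiset.replicate (2 * (n - 1)) (-1)) (by simp [hneg])
        (by simp [inv_neg]) (by simp) (by simp; omega) fun i a1 a2 => hc.mul_dvd_of_dvd_of_dvd ?_
          (by simpa using a2 1 0 (by rw [Multiset.count_add, Multiset.count_replicate_self, pow_zero]; omega)))
    rw [← even_iff_two_dvd, ← neg_one_pow_eq_one_iff_even h21, a1 (-1)
      (Multiset.mem_add.2 (Or.inr (Multiset.mem_replicate.2 ⟨by omega, rfl⟩))) 1 (by simp), one_pow]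
  have hsp' : ∀ a, ¬ s ∣ 4 * p ^ a := fun a h => ((hs.dvd_mul).1 h).elim
    (fun h => (Nat.coprime_two_left.2 hs2).symm.pow_right 2 |> (hs.coprime_iff_not_dvd.1 · h))
    fun h => hsp ((Nat.prime_dvd_prime_iff_eq hs Fact.out).1 (hs.dvd_of_dvd_pow h))
  have split : ∀ {M : Multiset K}, M.map (phi (Fintype.card F)) = M → M.map (·⁻¹) = M → M.card ≤ 2 * n + 1 →
      ∀ x ∈ M, x⁻¹ ≠ x → ∃ d, 0 < d ∧ (x ^ Fintype.card F ^ d = x ∨ x ^ Fintype.card F ^ d = x⁻¹) ∧
        (d < n ∨ (d = n ∧ (sorb (Fintype.card F) x d).Nodup ∧ sorb (Fintype.card F) x d ≤ M)) :=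
    fun {M} a1 a2 a3 x hx a4 => by
      obtain ⟨d, d0, d1, d2, d3, -⟩ := exists_sorb hφ (periodic_of_stable hφ a1 hx) a4
      obtain ⟨N, hN, -⟩ := exists_ssplit hφ a1 a2 hx d2 d3
      have b1 : sorb (Fintype.card F) x d ≤ M := hN ▸ (Multiset.le_add_right _ _).trans'
        (le_self_nsmul (Multiset.zero_le _) (Multiset.count_pos.2 hx).ne')
      have b2 := Multiset.card_le_card b1
      rw [card_sorb] at b2
      exact ⟨d, d0, d1, (show d ≤ n by omega).lt_or_eq.imp id fun h => ⟨h, d2, b1⟩⟩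
  trans ∃ (μ : K) (d : ℕ), 0 < d ∧ (μ ^ Fintype.card F ^ d = μ ∨ μ ^ Fintype.card F ^ d = μ⁻¹) ∧
    ((d < n ∧ μ ^ s = 1 ∧ μ ≠ 1) ∨ (d = n ∧ μ ^ (2 * s) = -1 ∧ μ ^ 4 ≠ 1))
  · constructor
    · rintro ⟨g, hg, hord⟩
      obtain ⟨N, D, E, h1, h3, h4, h5, h6, h7, h8⟩ := exists_struct K p h2 hB g
      have h9 := card_evE K (g.1 : End F V)
      simp only [h1, hd, Multiset.card_add, Multiset.card_replicate] at h9
      obtain ⟨n1, n2, n3⟩ := prod_eq_one_of K h4 h5 h6 h7
      have n4 := even_of_mem_comm h2 hg h1 n1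
      obtain ⟨x, hx⟩ := Multiset.exists_mem_of_ne_zero (show N ≠ 0 by
        rintro rfl
        have b1 := Nat.lt_pow_self (n := 2 * n + 1) (Fact.out : p.Prime).one_lt
        have := orderOf_dvd_of_pow_eq_one (h8 (2 * n + 1) 4 four_ne_zero (by simp) (by simp) (by omega)
          (by omega) fun _ => by norm_num)
        exact hsp' _ ((Dvd.intro_left _ hord.symm).trans (mul_comm 4 _ ▸ this)))
      have a1 : x ^ (2 * s) = 1 := pow_eq_one_of_mem_evE K (isom_pow_eq_one.1 (hord ▸ pow_orderOf_eq_one g))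
        (by simp [h1, hx])
      have a2 : x ^ 2 ≠ 1 := fun h => (sq_eq_one_iff.1 h).elim (fun h => h6 (h ▸ hx)) fun h => h7 (h ▸ hx)
      obtain ⟨d, d0, d1, d2 | ⟨rfl, d2, d3⟩⟩ := split h3 h4 (by omega) x hx (n2 x hx)
      · exact ⟨x ^ 2, d, d0, pow_pow_eq_or d1 2, Or.inl ⟨d2, by rwa [← pow_mul], a2⟩⟩
      have b1 := Multiset.card_le_card d3
      rw [Nat.even_iff] at n3 n4
      rw [card_sorb] at b1
      obtain rfl := Multiset.eq_of_le_of_card_le d3 (by rw [card_sorb]; omega)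
      obtain rfl : E = 0 := by omega
      obtain ⟨a, η, e1, rfl, e2⟩ := exists_sqrt_eta (fun h => h5 (h ▸ hx)) (Fintype.card F ^ d)
      obtain ⟨e3, e4⟩ := e2 d1
      replace e4 := e4.imp And.right And.right
      rw [← th_sorb hB h2 (by omega) g (D := D) (by simpa using h1) e1 (fun h => h7 (h ▸ hx)) e3 e4,
        ((mem_comm_iff hB h2 (by omega) g).1 hg).2, Int.cast_one, one_mul, one_mul] at e4
      refine ⟨a, d, d0, e4, Or.inr ⟨rfl, ?_, by rwa [← pow_mul] at a2⟩⟩
      rw [mul_comm, pow_mul, ← pow_mul a] at a1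
      refine (sq_eq_one_iff.1 a1).resolve_left fun h => ?_
      have := orderOf_dvd_of_pow_eq_one (h8 0 s hs.ne_zero (fun y hy => pow_eq_one_of_mem_sorb
        (by rwa [← pow_mul]) hy) (by simpa using Multiset.nodup_iff_count_le_one.1 d2) (by omega) (by omega)
        (by simp))
      rw [hord, pow_zero, one_mul] at this
      have := Nat.le_of_dvd hs.pos this
      have := hs.pos
      omega
    · rintro ⟨μ, d, d0, d1, ⟨d2, d3, d4⟩ | ⟨rfl, d3, d4⟩⟩
      · have a0 : μ ≠ 0 := by rintro rfl; simp [hs.ne_zero] at d3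
        exact of_cyc K p hB ho hd (sorb_stable d1) (sorb_inv _ _ _) (zero_notMem_sorb _ a0 d)
          (one_notMem_sorb hφ (one_pow _) inv_one d4 d) (one_notMem_sorb hφ hneg (by simp [inv_neg])
            (by rintro rfl; exact h21 (hs2.neg_one_pow.symm.trans d3)) d) (e := n - 1 - d) (by simp; omega) hs2
          fun i hi _ => ((isPrimitiveRoot_of_prime hs d3 d4).pow_eq_one_iff_dvd i).1 (hi μ (self_mem_sorb _ _ d0))
      · have a0 : μ ≠ 0 := by rintro rfl; simp [hs.ne_zero] at d3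
        obtain ⟨b, hb⟩ := exists_cyc_unip p h2 hB (sorb_stable d1) (sorb_inv _ _ _) (zero_notMem_sorb _ a0 d)
          (one_notMem_sorb hφ (one_pow _) inv_one (by rintro rfl; simp at d4) d)
          (one_notMem_sorb hφ hneg (by simp [inv_neg]) (by rintro rfl; exact d4 (by norm_num)) d) (e := 0)
          (by simp [hd])
        have := finite_isom B
        exact exists_orderOf_eq_of_mem (sq_mem_comm hB h2 (by omega) b) fun i hi => ord4 K h21 hs hs2 d3 d4
          ((hb _ ((pow_mul b 2 i).trans hi)).1 μ (self_mem_sorb _ _ d0))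
  · constructor
    · rintro ⟨μ, d, d0, d1, h⟩
      have a0 : μ ≠ 0 := by rintro rfl; simp [hs.ne_zero] at h
      have a1 : (sorb (Fintype.card F) μ d + Multiset.replicate (2 * (n - d)) (-1)).map (·⁻¹) =
          sorb (Fintype.card F) μ d + Multiset.replicate (2 * (n - d)) (-1) := by simp [sorb_inv, inv_neg]
      refine psp_exists K p (by
        rw [Multiset.map_add, show (sorb (Fintype.card F) μ d).map (· ^ Fintype.card F) = _ from sorb_stable d1]
        simp [hneg]) a1 (by simp [sorb_prod _ a0]) (by simp; omega) fun i b1 _ => ?_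
      have b0 : μ ∈ sorb (Fintype.card F) μ d + Multiset.replicate (2 * (n - d)) (-1) :=
        Multiset.mem_add.2 (Or.inl (self_mem_sorb _ μ d0))
      have b2 := pow_two_mul_eq_one a1 (by simp [zero_notMem_sorb _ a0, Multiset.mem_replicate]) b1 μ b0
      rcases h with ⟨d2, d3, d4⟩ | ⟨rfl, d3, d4⟩
      · have b3 := hc.symm.dvd_of_dvd_mul_left (((isPrimitiveRoot_of_prime hs d3 d4).pow_eq_one_iff_dvd _).1 b2)
        refine hc.mul_dvd_of_dvd_of_dvd ?_ b3
        obtain ⟨j, rfl⟩ := b3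
        rw [← even_iff_two_dvd, ← neg_one_pow_eq_one_iff_even h21, b1 (-1)
          (Multiset.mem_add.2 (Or.inr (Multiset.mem_replicate.2 ⟨by omega, rfl⟩))) μ b0, pow_mul, d3, one_pow]
      · exact ord4 K h21 hs hs2 d3 d4 b2
    · rintro ⟨g, hord⟩
      obtain ⟨M, m1, m2, m3, m4, m5, m6⟩ := psp_ev K p g
      rw [hord] at m5 m6
      have m0 : (0 : K) ∉ M := fun hx => by simp [Multiset.prod_eq_zero hx] at m3
      obtain ⟨x, hx, a1⟩ : ∃ x ∈ M, x ^ 4 ≠ 1 := by
        by_contra! h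
        exact hsp' _ ((Dvd.intro_left _ rfl).trans (m5 _ (div_clog (Fact.out : p.Prime).one_lt
          fun x hx y hy => (h x hx).trans (h y hy).symm)))
      have a2 := pow_two_mul_eq_one m2 m0 m6 x hx
      obtain ⟨d, d0, d1, d2 | ⟨rfl, d2, d3⟩⟩ := split m1 m2 (by omega) x hx fun h => a1 (by
        have : x * x = 1 := by nth_rewrite 1 [← h]; exact inv_mul_cancel₀ fun h => m0 (h ▸ hx)
        linear_combination (x * x + 1) * this)
      · exact ⟨x ^ 4, d, d0, pow_pow_eq_or d1 4, Or.inl ⟨d2, by rwa [← pow_mul, show 4 * s = 2 * (2 * s) by ring], a1⟩⟩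
      obtain rfl := Multiset.eq_of_le_of_card_le d3 (by rw [card_sorb]; omega)
      refine ⟨x, d, d0, d1, Or.inr ⟨rfl, ?_, a1⟩⟩
      rw [mul_comm, pow_mul] at a2
      refine (sq_eq_one_iff.1 a2).resolve_left fun h => ?_
      have := Nat.le_of_dvd hs.pos (m5 s (div_of_nodup (Fact.out : p.Prime).pos d2 fun y hy z hz =>
        (pow_eq_of_mem_sorb ho h hy).trans (pow_eq_of_mem_sorb ho h hz).symm))
      have := hs.pos
      omega

omit K p hB ho hd

/-- For q odd and n ≥ 3 the simple groups PΩ(2n+1,q) and PSp(2n,q) (which have the same order but different sets of element orders) have the same prime graph: for all distinct primes r, s, one of them has an element of order r·s if and only if the other does. -/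
theorem result {F : Type*} [Field F] [Fintype F] (hodd : Odd (Fintype.card F)) (n : ℕ) (hn : 3 ≤ n) (r s : ℕ) (hr : r.Prime) (hs : s.Prime) (hrs : r ≠ s) :
    (r * s ∈ Set.range (orderOf : Cfsg.POmega F (Cfsg.quadFormOdd n F) → ℕ)) ↔ (r * s ∈ Set.range (orderOf : Cfsg.PSp n F → ℕ)) := by
  classical
  obtain ⟨K, _, _, _⟩ := exists_algClosed F
  obtain ⟨p, _, _, -⟩ := char_data F
  have h2 := two_ne_zero_of_odd hodd
  have hB := isEps_pb (H6.qOdd_nondeg n F h2)
  have hd : finrank F (Unit ⊕ (Fin n ⊕ Fin n) → F) = 2 * n + 1 := by simp; omega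
  rw [range_orderOf_pOmega h2 (by omega)]
  rcases hr.eq_two_or_odd' with rfl | h3
  · exact two_iff K p hB hodd hd (by omega) hs (hs.odd_of_ne_two hrs.symm)
  rcases hs.eq_two_or_odd' with rfl | h4
  · rw [mul_comm]; exact two_iff K p hB hodd hd (by omega) hr h3
  · exact odd_iff K p hB hodd hd (by omega) (h3.mul h4)

end Cfsg.Agent.S2474
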