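import Cfsg.Statements.S2476
import Cfsg.Agent.H4.LSpec2

set_option autoImplicit false
open Cfsg

namespace Cfsg.Agent.S2476

open Cfsg.Agent.H5 Cfsg.Agent.H4 Function

theorem dvd_aux {N a i : ℕ} (h1 : N ∣ 3 * i) (h2 : N ∣ a * i) (h : Nat.gcd 3 a ∣ N) :
    N / Nat.gcd 3 a ∣ i := by
  rw [Nat.div_dvd_iff_dvd_mul h (Nat.gcd_pos_of_pos_left _ (by norm_num)), ← Nat.gcd_mul_right]
  exact Nat.dvd_gcd h1 h2

/-- The set of element orders of PSL(3,q): let F be a finite field of characteristic p with q elements and d = gcd(3, q − 1). The orders of elements of PSL(3,F) are exactly the divisors of (q² + q + 1)/d, of (q² − 1)/d, of q − 1, of p(q − 1)/d, and, when p = 2, of 4. -/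
theorem result {F : Type*} [Field F] [Fintype F] (p : ℕ) [Fact p.Prime] [CharP F p] :
    Set.range (orderOf : Matrix.ProjectiveSpecialLinearGroup (Fin 3) F → ℕ) =
      {m : ℕ | m ∣ (Fintype.card F ^ 2 + Fintype.card F + 1) / Nat.gcd 3 (Fintype.card F - 1) ∨
        m ∣ (Fintype.card F ^ 2 - 1) / Nat.gcd 3 (Fintype.card F - 1) ∨ m ∣ Fintype.card F - 1 ∨
        m ∣ p * (Fintype.card F - 1) / Nat.gcd 3 (Fintype.card F - 1) ∨ (p = 2 ∧ m ∣ 4)} := by
  classical
  obtain ⟨K, _, _, _⟩ := exists_algClosed F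
  have hp : p.Prime := Fact.out
  have : CharP K p := charP_ext K p F
  have hτ := tauL_injective (F := F) K
  have hq0 : 0 < Fintype.card F := Fintype.card_pos
  have hpq : p ∣ Fintype.card F := char_dvd_card p
  have hp1 : ¬ p ∣ Fintype.card F - 1 := by simpa using not_dvd_pow_sub_one hp hpq hq0 one_pos
  have hev := fun g : Matrix.ProjectiveSpecialLinearGroup (Fin 3) F => psl_ev K p g
  have hex := fun (M : Multiset K) h1 h2 h3 k hk =>
    psl_exists (F := F) (ι := Fin 3) K p (M := M) h1 h2 h3 (k := k) hk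
  obtain ⟨r, hq⟩ : ∃ r, Fintype.card F = r + 1 := ⟨_, (Nat.sub_add_cancel hq0).symm⟩
  generalize Fintype.card F = q at *
  have er : q - 1 = r := by omega
  rw [er] at hp1 ⊢
  set d := Nat.gcd 3 r with hd
  have hd3 : d ∣ 3 := Nat.gcd_dvd_left _ _
  have hdr : d ∣ r := Nat.gcd_dvd_right _ _
  have e1 : q ^ 2 - 1 = r * (r + 2) := by
    rw [show q ^ 2 = r * (r + 2) + 1 by rw [hq]; ring, Nat.add_sub_cancel]
  have e2 : q ^ 2 + q + 1 = r * (r + 3) + 3 := by rw [hq]; ring
  have e3 : geo q 3 = q ^ 2 + q + 1 := by simp [geo, Finset.sum_range_succ]; ring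
  have e4 : geo q 2 = q + 1 := by simp [geo, Finset.sum_range_succ]; ring
  have hd1 : d ∣ q ^ 2 - 1 := e1 ▸ hdr.mul_right _
  have hd2 : d ∣ q ^ 2 + q + 1 := e2 ▸ dvd_add (hdr.mul_right _) hd3
  apply Set.Subset.antisymm
  · rintro _ ⟨g, rfl⟩
    obtain ⟨M, hs, hpr, hc, hMd, -⟩ := hev g
    rw [Fintype.card_fin] at hc
    have h0 := ne_zero_of_prod_eq_one hpr
    by_cases hfix : ∀ x ∈ M, tauL q x = x
    · have hfix' : ∀ x ∈ M, x ^ r = 1 := fun x hx =>
        er ▸ (tauL_eq_iff hq0 (h0 x hx)).1 (hfix x hx)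
      by_cases hcnt : ∀ x, M.count x ≤ 1
      · exact Or.inr (Or.inr (Or.inl (hMd _ (div_of_count_le_one
          (fun x hx y hy => by rw [hfix' x hx, hfix' y hy]) hcnt))))
      · refine Or.inr (Or.inr (Or.inr ?_))
        push Not at hcnt
        obtain ⟨x, hx⟩ := hcnt
        have hle : Multiset.replicate 2 x ≤ M := Multiset.le_count_iff_replicate_le.1 hx
        obtain ⟨N, hN⟩ := Multiset.le_iff_exists_add.1 hle
        have hN1 : N.card = 1 := by have := congrArg Multiset.card hN; simp at this; omega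
        obtain ⟨z, rfl⟩ := Multiset.card_eq_one.1 hN1
        have hxm : x ∈ M := by rw [hN]; simp
        have hz : x * x * z = 1 := by rw [hN] at hpr; simpa [Multiset.replicate, mul_assoc] using hpr
        have hxz : z ^ (r / d) = x ^ (r / d) := by
          have h3 : (x ^ 3) ^ (r / d) = 1 := by
            obtain ⟨c, hc⟩ := hd3
            rw [← pow_mul, hc, mul_right_comm, Nat.mul_div_cancel' hdr, pow_mul, hfix' x hxm, one_pow]
          have h4 : x = x ^ 3 * z := by linear_combination (-x) * hz
          conv_rhs => rw [h4, mul_pow, h3, one_mul]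
        have hmem : ∀ y ∈ M, y = x ∨ y = z := by
          intro y hy
          rw [hN] at hy
          simpa using hy
        have key : ∀ y ∈ M, y ^ (r / d) = x ^ (r / d) := by
          intro y hy
          rcases hmem y hy with rfl | rfl
          · rfl
          · exact hxz
        by_cases hsm : ∀ y, M.count y ≤ p
        · left
          rw [Nat.mul_div_assoc _ hdr]
          refine hMd _ ⟨fun x hx y hy => by rw [mul_comm, pow_mul, pow_mul, key x hx, key y hy],
            fun y a ha => ?_⟩
          exact ((pow_succ_dvd_of_lt (t := 1) hp.one_lt ha (by simpa using hsm y)).trans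
            (by simp)).mul_right _
        · right
          push Not at hsm
          obtain ⟨y, hy⟩ := hsm
          have h5 := (Multiset.count_le_card y M).trans_eq hc
          have h6 := hp.two_le
          obtain rfl : p = 2 := by omega
          have h7 := all_eq_of_count (M := M) (x := y) (by omega)
          refine ⟨rfl, hMd _ ⟨fun a ha b hb => by rw [h7 a ha, h7 b hb], fun b a ha => ?_⟩⟩
          exact pow_succ_dvd_of_lt (t := 2) one_lt_two ha
            (((Multiset.count_le_card b M).trans_eq hc).trans (by norm_num))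
    · push Not at hfix
      obtain ⟨x, hx, hx'⟩ := hfix
      obtain ⟨N, hN, hN', hN''⟩ := exists_split hτ hs x
      have hper := periodic_of_stable hτ hs hx
      have hm0 := minimalPeriod_pos_of_mem_periodicPts hper
      have hm1 : minimalPeriod (tauL q) x ≠ 1 := fun h => hx' (minimalPeriod_eq_one_iff_isFixedPt.1 h)
      have hc0 := Multiset.count_pos.2 hx
      have hcard := congrArg Multiset.card hN
      simp only [Multiset.card_add, Multiset.card_nsmul, card_orb, hc] at hcard
      have hc1 : M.count x = 1 := by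
        by_contra hh
        have : 2 * 2 ≤ M.count x * minimalPeriod (tauL q) x :=
          Nat.mul_le_mul (by omega) (by omega)
        omega
      rw [hc1, one_smul] at hN
      rw [hc1, one_mul] at hcard
      have hnd := nodup_orb (τ := tauL q) x
      have hit : (tauL q)^[minimalPeriod (tauL q) x] x = x := iterate_minimalPeriod
      rw [tauL_iterate_eq_iff hq0 (h0 x hx)] at hit
      have : minimalPeriod (tauL q) x = 2 ∨ minimalPeriod (tauL q) x = 3 := by omega
      rcases this with hm | hm
      · refine Or.inr (Or.inl ?_)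
        rw [hm] at hN hcard hnd hit
        obtain ⟨z, rfl⟩ := Multiset.card_eq_one.1 (show N.card = 1 by omega)
        have hz : x ^ (q + 1) * z = 1 := by
          rw [hN, Multiset.prod_add, prod_orb_tauL, e4, Multiset.prod_singleton] at hpr
          exact hpr
        have key : ∀ y ∈ M, y ^ ((q ^ 2 - 1) / d) = x ^ ((q ^ 2 - 1) / d) := by
          intro y hy
          rw [hN, Multiset.mem_add] at hy
          rcases hy with hy | hy
          · refine pow_eq_of_mem_orbL hq0 (h0 x hx) ?_ hy
            obtain ⟨c, hc⟩ := hdr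
            rw [er, hc, mul_right_comm, Nat.mul_div_cancel' hd1, pow_mul, hit, one_pow]
          · obtain ⟨c, hc⟩ := dvd_add hdr hd3
            have h4 : x = x ^ (r + 3) * z := by
              rw [show r + 3 = q + 1 + 1 by omega, pow_succ]; linear_combination (-x) * hz
            rw [Multiset.mem_singleton.1 hy]
            conv_rhs => rw [h4, mul_pow, ← pow_mul, hc, mul_right_comm,
              Nat.mul_div_cancel' hd1, pow_mul, hit, one_pow, one_mul]
        have hnd' : M.Nodup := by
          rw [hN, add_comm, Multiset.singleton_add, Multiset.nodup_cons]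
          refine ⟨fun hz => ?_, hnd⟩
          obtain ⟨k, -, hk⟩ := mem_orb.1 hz
          exact hN'' hx k (by simp [hk])
        exact hMd _ (div_of_count_le_one (fun x hx y hy => by rw [key x hx, key y hy])
          (Multiset.nodup_iff_count_le_one.1 hnd'))
      · refine Or.inl ?_
        rw [hm] at hN hcard hnd
        obtain rfl := Multiset.card_eq_zero.1 (show N.card = 0 by omega)
        rw [add_zero] at hN
        rw [hN, prod_orb_tauL q, e3] at hpr
        have key : ∀ y ∈ M, y ^ ((q ^ 2 + q + 1) / d) = x ^ ((q ^ 2 + q + 1) / d) := by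
          intro y hy
          rw [hN] at hy
          refine pow_eq_of_mem_orbL hq0 (h0 x hx) ?_ hy
          obtain ⟨c, hc⟩ := hdr
          rw [er, hc, mul_right_comm, Nat.mul_div_cancel' hd2, pow_mul, hpr, one_pow]
        exact hMd _ (div_of_count_le_one (fun x hx y hy => by rw [key x hx, key y hy])
          (Multiset.nodup_iff_count_le_one.1 (hN ▸ hnd)))
  · have hcl : ∀ k s, (∃ g : Matrix.ProjectiveSpecialLinearGroup (Fin 3) F, orderOf g = k) → s ∣ k →
        s ∈ Set.range (orderOf : Matrix.ProjectiveSpecialLinearGroup (Fin 3) F → ℕ) := by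
      rintro _ s ⟨g, rfl⟩ hs
      exact exists_orderOf_eq_of_dvd g hs
    have hr0 : r ≠ 0 := by rintro rfl; exact hp1 (dvd_zero _)
    obtain ⟨ζ, hζ⟩ := exists_prim_root K p hp1
    have hζ0 : ζ ≠ 0 := hζ.ne_zero hr0
    have hζ1 : tauL q ζ = ζ := (tauL_eq_iff hq0 hζ0).2 (er ▸ hζ.pow_eq_one)
    rintro s (hs | hs | hs | hs | ⟨hp2, hs⟩) <;> refine hcl _ s ?_ hs
    · have hp2 : ¬ p ∣ q ^ 2 + q + 1 := e3 ▸ not_dvd_geo hp hpq (by norm_num)
      obtain ⟨x, hx⟩ := exists_prim_root K p hp2
      have hx0 : x ≠ 0 := hx.ne_zero (by positivity)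
      have hx2 : (tauL q)^[3] x = x := by
        rw [tauL_iterate_eq_iff hq0 hx0, ← geo_mul hq0, e3, pow_mul, hx.pow_eq_one, one_pow]
      refine hex (orb (tauL q) x 3) (orb_stable hx2) ?_ (by simp) _ ?_
      · rw [prod_orb_tauL q, e3, hx.pow_eq_one]
      · intro i hi
        have a2 := hi.1 x (by simp [orb_succ, orb]) (tauL q x) (by simp [orb_succ, orb])
        rw [← tauL_pow, eq_comm, tauL_eq_iff hq0 (pow_ne_zero _ hx0), ← pow_mul, mul_comm,
          hx.pow_eq_one_iff_dvd, er] at a2
        refine dvd_aux ?_ a2 hd2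
        have a3 : q ^ 2 + q + 1 ∣ r * i * (r + 3) + 3 * i := ⟨i, by rw [e2]; ring⟩
        exact (Nat.dvd_add_right (a2.mul_right _)).1 a3
    · have hp2 : ¬ p ∣ q ^ 2 - 1 := not_dvd_pow_sub_one hp hpq hq0 two_pos
      obtain ⟨x, hx⟩ := exists_prim_root K p hp2
      have hx0 : x ≠ 0 := hx.ne_zero (by rw [e1]; positivity)
      have hx2 : (tauL q)^[2] x = x := by rw [tauL_iterate_eq_iff hq0 hx0, hx.pow_eq_one]
      refine hex (orb (tauL q) x 2 + {(x ^ (q + 1))⁻¹}) ?_ ?_ (by simp) _ ?_
      · rw [Multiset.map_add, orb_stable hx2, Multiset.map_singleton, tauL_inv,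
          (tauL_eq_iff hq0 (pow_ne_zero _ hx0)).2]
        rw [← pow_mul, er, hx.pow_eq_one_iff_dvd, e1, hq, mul_comm]
      · rw [Multiset.prod_add, prod_orb_tauL, e4, Multiset.prod_singleton,
          mul_inv_cancel₀ (pow_ne_zero _ hx0)]
      · intro i hi
        have a1 := hi.1 x (by simp [orb_succ, orb]) (x ^ (q + 1))⁻¹ (by simp)
        have a2 := hi.1 x (by simp [orb_succ, orb]) (tauL q x) (by simp [orb_succ, orb])
        rw [← tauL_pow, eq_comm, tauL_eq_iff hq0 (pow_ne_zero _ hx0), ← pow_mul, mul_comm,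
          hx.pow_eq_one_iff_dvd, er] at a2
        have a3 : q ^ 2 - 1 ∣ r * i + 3 * i := by
          rw [← hx.pow_eq_one_iff_dvd, show r * i + 3 * i = (q + 1) * i + i by rw [hq]; ring,
            pow_add, a1, pow_mul, inv_pow, mul_inv_cancel₀ (by positivity)]
        exact dvd_aux ((Nat.dvd_add_right a2).1 a3) a2 hd1
    · refine hex {ζ, ζ⁻¹, 1} ?_ ?_ rfl _ ?_
      · simp [hζ1, tauL_inv, tauL_one]
      · simp [hζ0]
      · intro i hi
        rw [← hζ.pow_eq_one_iff_dvd, hi.1 ζ (by simp) 1 (by simp), one_pow]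
    · refine hex {ζ, ζ, (ζ ^ 2)⁻¹} ?_ ?_ rfl _ ?_
      · simp [hζ1, tauL_inv, tauL_pow]
      · simp; field_simp
      · intro i hi
        rw [Nat.mul_div_assoc _ hdr]
        apply Nat.Coprime.mul_dvd_of_dvd_of_dvd
        · exact ((Nat.Prime.coprime_iff_not_dvd hp).2 hp1).coprime_dvd_right (Nat.div_dvd_of_dvd hdr)
        · simpa using hi.2 ζ 0 (by simp [Multiset.count_cons])
        · refine dvd_aux ?_ (dvd_mul_right _ _) hdr
          have := hi.1 ζ (by simp) (ζ ^ 2)⁻¹ (by simp)
          rw [← hζ.pow_eq_one_iff_dvd, show 3 * i = i + 2 * i by ring, pow_add, this, pow_mul, inv_pow,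
            inv_mul_cancel₀ (by positivity)]
    · subst hp2
      refine hex (Multiset.replicate 3 1) (by simp [tauL_one]) (by simp) (by simp) _ fun i hi => ?_
      simpa using hi.2 1 1 (by simp)

end Cfsg.Agent.S2476
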