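import Cfsg.Statements.S2483
import Cfsg.Agent.H4.CV7

set_option autoImplicit false
open Cfsg

namespace Cfsg.Agent.S2483

open Cfsg.Agent.H4 Module Polynomial
open scoped Pointwise

/-- The natural representation. -/
noncomputable def rep (F : Type*) [Field F] (n : ℕ) :
    Matrix.SpecialLinearGroup (Fin n) F →* End F (Fin n → F) :=
  (Matrix.toLinAlgEquiv' : Matrix (Fin n) (Fin n) F ≃ₐ[F] _).toMonoidHom.comp
    Matrix.SpecialLinearGroup.coeMonoidHom

theorem rep_apply {F : Type*} [Field F] {n : ℕ} (a : Matrix.SpecialLinearGroup (Fin n) F) :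
    rep F n a = Matrix.toLin' (a : Matrix (Fin n) (Fin n) F) := rfl

theorem mk_eq_iff {F : Type*} [Field F] {n : ℕ} (a b : Matrix.SpecialLinearGroup (Fin n) F) :
    (a : Matrix.ProjectiveSpecialLinearGroup (Fin n) F) = b ↔ ∃ c : F, rep F n b = c • rep F n a := by
  rw [QuotientGroup.eq, mem_center_SL_iff, ← rep_apply]
  refine exists_congr fun c => ⟨fun h => ?_, fun h => ?_⟩
  · rw [← mul_inv_cancel_left a b, map_mul, h, mul_smul_comm, mul_one]
  · rw [map_mul, h, mul_smul_comm, ← map_mul, inv_mul_cancel, map_one]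

theorem mk_prod {F : Type*} [Field F] {n k : ℕ} (a : Matrix.SpecialLinearGroup (Fin n) F)
    (c : Fin k → Matrix.SpecialLinearGroup (Fin n) F) :
    (List.ofFn fun i => (c i : Matrix.ProjectiveSpecialLinearGroup (Fin n) F) * a *
      (c i : Matrix.ProjectiveSpecialLinearGroup (Fin n) F)⁻¹).prod =
      ((List.ofFn fun i => c i * a * (c i)⁻¹).prod : Matrix.SpecialLinearGroup (Fin n) F) := by
  symm
  rw [← QuotientGroup.mk'_apply, map_list_prod, List.map_ofFn]
  rfl

/-- The covering number of PSL(n,q) is n: let F be a finite field with q ≥ 4 elements and n ≥ 3. For every non-identity element x of PSL(n,F), every element of PSL(n,F) is a product of n conjugates of x; and for some non-identity x, some element is not a product of n − 1 conjugates of x. -/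
theorem result {F : Type*} [Field F] [Fintype F] (h4 : 4 ≤ Fintype.card F) (n : ℕ) (hn : 3 ≤ n) :
    (∀ x : Matrix.ProjectiveSpecialLinearGroup (Fin n) F, x ≠ 1 → ∀ g : Matrix.ProjectiveSpecialLinearGroup (Fin n) F, ∃ f : Fin n → Matrix.ProjectiveSpecialLinearGroup (Fin n) F, g = (List.ofFn fun i => f i * x * (f i)⁻¹).prod) ∧
    (∃ x : Matrix.ProjectiveSpecialLinearGroup (Fin n) F, x ≠ 1 ∧ ∃ g : Matrix.ProjectiveSpecialLinearGroup (Fin n) F, ∀ f : Fin (n - 1) → Matrix.ProjectiveSpecialLinearGroup (Fin n) F, g ≠ (List.ofFn fun i => f i * x * (f i)⁻¹).prod) := by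
  classical
  have hV : finrank F (Fin n → F) = n := by simp
  constructor
  · intro x hx g
    obtain ⟨a, rfl⟩ := QuotientGroup.mk_surjective x
    obtain ⟨m, rfl⟩ := QuotientGroup.mk_surjective g
    rw [Ne, QuotientGroup.eq_one_iff, mem_center_SL_iff, not_exists] at hx
    obtain ⟨z, -, hz⟩ := cov_main h4 (V := Fin n → F) (by omega) (by
      rw [LinearMap.det_toLin', a.det_coe]) hx (rep F n m) (by
      rw [rep_apply, LinearMap.det_toLin', m.det_coe])
    rw [hV, Set.mem_pow] at hz
    obtain ⟨y, hy⟩ := hz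
    have : ∀ i, ∃ c, rep F n (c * a * c⁻¹) = y i := fun i => by
      have h1 : SSim _ _ := (y i).2
      obtain ⟨b, hb⟩ := exists_SL_toLin' (f := (y i).1) (by
        rw [← h1.sim.det_eq, LinearMap.det_toLin', a.det_coe])
      rw [← hb] at h1
      obtain ⟨c, rfl⟩ := isConj_iff.1 ((isConj_SL_iff_ssim _ _).2 h1)
      exact ⟨c, hb⟩
    choose c hc using this
    refine ⟨fun i => c i, ?_⟩
    rw [mk_prod, mk_eq_iff]
    refine ⟨z, ?_⟩
    rw [← hy, map_list_prod, List.map_ofFn]
    exact congrArg (fun f => (List.ofFn f).prod) (funext hc)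
  · let i0 : Fin n := ⟨0, by omega⟩
    let i1 : Fin n := ⟨1, by omega⟩
    have h01 : i0 ≠ i1 := by simp [i0, i1]
    obtain ⟨t, ht⟩ := exists_SL_toLin' (F := F) (n := Fin n)
      (f := 1 + (LinearMap.proj i1).smulRight (Pi.single i0 1)) (by
        rw [det_one_add_smulRight']; simp [h01.symm])
    obtain ⟨s, hs⟩ : ∃ s : F, ∀ c : F, c ≠ 0 → 1 + (s * c + (-1) ^ n) ≠ 0 := by
      by_cases h : (1 : F) + (-1) ^ n = 0
      · exact ⟨1, fun c hc h' => hc (by linear_combination h' - h)⟩
      · exact ⟨0, fun c _ => by simpa using h⟩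
    have hd : (C s * X + C ((-1) ^ n) : F[X]).degree < (n : WithBot ℕ) :=
      lt_of_le_of_lt degree_linear_le (by exact_mod_cast (by omega : 1 < n))
    obtain ⟨G, -, g1, -⟩ := exists_cyc_end (V := Fin n → F) (monic_X_pow_add hd) (by
      rw [natDegree_add_eq_left_of_degree_lt (by rwa [degree_X_pow]), natDegree_X_pow, hV])
    obtain ⟨g, rfl⟩ := exists_SL_toLin' (f := G) (by
      rw [det_eq_charpoly, g1, hV, coeff_zero_eq_eval_zero]
      simp [show n ≠ 0 by omega, ← mul_pow])
    refine ⟨t, fun h => ?_, g, fun f h => ?_⟩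
    · rw [QuotientGroup.eq_one_iff, mem_center_SL_iff, ht] at h
      obtain ⟨c, hc⟩ := h
      have := congrFun (LinearMap.congr_fun hc (Pi.single i1 1)) i0
      simp [h01] at this
    · choose c hc using fun i => QuotientGroup.mk_surjective (f i)
      rw [← funext hc, mk_prod, eq_comm, mk_eq_iff] at h
      obtain ⟨z, hz⟩ := h
      have hz' := congrArg LinearMap.det hz
      rw [LinearMap.det_smul, rep_apply, rep_apply, LinearMap.det_toLin', LinearMap.det_toLin',
        Matrix.SpecialLinearGroup.det_coe, Matrix.SpecialLinearGroup.det_coe, hV, mul_one] at hz'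
      obtain ⟨w, hw, w0⟩ := Submodule.exists_mem_ne_zero_of_ne_bot (LinearMap.ker_ne_bot_of_finrank_lt
        (f := LinearMap.pi fun i : Fin (n - 1) => LinearMap.proj i1 ∘ₗ rep F n (c i)⁻¹)
        (by simp; omega))
      have h1 : rep F n (List.ofFn fun i => c i * t * (c i)⁻¹).prod w = w := by
        refine List.prod_induction (fun y => rep F n y w = w) (fun a b ha hb => by
          rw [map_mul, Module.End.mul_apply, hb, ha]) (by simp) fun y hy => ?_
        obtain ⟨i, rfl⟩ := (List.mem_ofFn' _ _).1 hy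
        have h2 : rep F n (c i)⁻¹ w i1 = 0 := congrFun hw i
        simp only [map_mul, Module.End.mul_apply, rep_apply t, ht, LinearMap.add_apply,
          Module.End.one_apply, LinearMap.smulRight_apply, LinearMap.proj_apply, h2, zero_smul,
          add_zero]
        rw [← Module.End.mul_apply, ← map_mul, mul_inv_cancel, map_one, Module.End.one_apply]
      have h3 := isRoot_of_eigen (f := Matrix.toLin' (g : Matrix (Fin n) (Fin n) F)) (ν := z) w0 (by
        rw [← rep_apply, hz, LinearMap.smul_apply, h1])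
      rw [g1] at h3
      refine hs z (by rintro rfl; rw [zero_pow (by omega)] at hz'; exact one_ne_zero hz') ?_
      simpa [← hz'] using h3

end Cfsg.Agent.S2483
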