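import Cfsg.Statements.S2485
import Cfsg.Agent.H2.PSL2

set_option autoImplicit false
open scoped Pointwise
open Cfsg

namespace Cfsg.Agent.S2485

open Cfsg.Agent.H2 Matrix

variable {F : Type*} [Field F]

theorem mem_center_GL {x : GL (Fin 2) F} : x ∈ Subgroup.center (GL (Fin 2) F) ↔ IsScal x.1 := by
  constructor
  · intro h
    have h1 := congrArg Units.val (Subgroup.mem_center_iff.1 h (toGL !![1, 1; 0, 1] (by simp [det_fin_two_of])))
    have h2 := congrArg Units.val (Subgroup.mem_center_iff.1 h (toGL !![1, 0; 1, 1] (by simp [det_fin_two_of])))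
    simp only [Units.val_mul, coe_toGL, m2_ext_iff, m2_mul_apply] at h1 h2
    simp at h1 h2
    exact ⟨h2.1, h1.1, by linear_combination -h1.2.1⟩
  · intro h
    exact Subgroup.mem_center_iff.2 fun g => Units.ext (h.comm g.1)

theorem card_center_GL [Finite F] : Nat.card (Subgroup.center (GL (Fin 2) F)) = Nat.card F - 1 := by
  rw [← Nat.card_units]
  symm
  refine Nat.card_eq_of_bijective (fun a => ⟨toGL ((a : F) • 1) (by simp), mem_center_GL.2 (isScal_smul_one _)⟩)
    ⟨fun a b h => ?_, fun x => ?_⟩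
  · have := congrArg (fun x : Subgroup.center (GL (Fin 2) F) => x.1.1 0 0) h
    exact Units.ext (by simpa using this)
  · obtain ⟨a, ha⟩ := isScal_iff.1 (mem_center_GL.1 x.2)
    have hx : IsUnit x.1.1.det := x.1.isUnit.map Matrix.detMonoidHom
    refine ⟨Units.mk0 a ?_, Subtype.ext (Units.ext ha.symm)⟩
    rintro rfl
    rw [ha] at hx
    simp at hx

/-- the projection -/
abbrev pg : GL (Fin 2) F →* GL (Fin 2) F ⧸ Subgroup.center (GL (Fin 2) F) := QuotientGroup.mk' _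

theorem mem_comap {z n : GL (Fin 2) F} : pg n ∈ Cen (pg z) ↔ n.1 * z.1 = z.1 * n.1 ∨ n.1 * z.1 = -(z.1 * n.1) := by
  rw [mem_Cen, ← map_mul, ← map_mul, ← mul_inv_eq_one, ← map_inv, ← map_mul, QuotientGroup.mk'_apply,
    QuotientGroup.eq_one_iff, mem_center_GL, isScal_iff]
  have key : ∀ a : F, (n * z * (z * n)⁻¹).1 = a • (1 : Matrix (Fin 2) (Fin 2) F) ↔ n.1 * z.1 = a • (z.1 * n.1) := by
    intro a
    rw [Units.val_mul, Units.mul_inv_eq_iff_eq_mul, smul_one_mul]; rfl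
  simp only [key]
  constructor
  · rintro ⟨a, ha⟩
    have hx : IsUnit (z * n).1.det := (z * n).isUnit.map Matrix.detMonoidHom
    have h1 := congrArg det ha
    rw [det_smul, det_mul_comm, Fintype.card_fin] at h1
    rcases sq_eq_one_iff.1 (mul_right_cancel₀ hx.ne_zero (h1.symm.trans (one_mul _).symm)) with rfl | rfl
    · exact Or.inl (by simpa using ha)
    · exact Or.inr (by simpa using ha)
  · rintro (h | h)
    · exact ⟨1, by simpa using h⟩
    · exact ⟨-1, by simpa using h⟩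

theorem anti (hF : ∀ x : F, x ^ 2 + 1 ≠ 0) {z t : Matrix (Fin 2) (Fin 2) F} (hz : z * z = -1) (ht : t.trace = 0)
    (h : t * z = -(z * t)) (hd : t.det = 0) : t = 0 := by
  have aniso : ∀ x y : F, x ^ 2 + y ^ 2 = 0 → y = 0 := by
    intro x y hxy
    by_contra hy
    apply hF (x / y)
    field_simp
    linear_combination hxy
  rw [trace_fin_two] at ht
  rw [det_fin_two] at hd
  simp only [m2_ext_iff, m2_mul_apply, Matrix.neg_apply] at hz h
  simp at hz
  obtain ⟨z1, z2, z3, z4⟩ := hz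
  obtain ⟨h1, -, -, -⟩ := h
  have hc : z 1 0 ≠ 0 := fun h => hF (z 0 0) (by rw [h] at z1; linear_combination z1)
  have hb : z 0 1 ≠ 0 := fun h => hF (z 0 0) (by rw [h] at z1; linear_combination z1)
  have e : t 1 1 = -t 0 0 := by linear_combination ht
  rw [e] at hd
  have p0 : t 0 0 = 0 := aniso (t 0 1 * z 1 0 + t 0 0 * z 0 0) _ (by
    linear_combination (t 0 1 * z 1 0) * h1 + (z 0 1 * z 1 0) * hd + t 0 0 ^ 2 * z1)
  have r0 : t 0 1 = 0 := by
    rw [p0] at h1 hd
    have : t 0 1 * (t 0 1 * z 1 0) = 0 := by linear_combination t 0 1 * h1 + z 0 1 * hd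
    simpa [hc] using this
  have s0 : t 1 0 = 0 := by
    rw [p0, r0] at h1
    simpa [hb] using h1
  exact m2_ext p0 r0 s0 (by simp [e, p0])

theorem inter_ne_bot (h2 : (2 : F) ≠ 0) (hF : ∀ x : F, x ^ 2 + 1 ≠ 0) {z z' : GL (Fin 2) F} (hz : z.1 * z.1 = -1)
    (hz' : z'.1 * z'.1 = -1) : Cen (pg z) ⊓ Cen (pg z') ≠ ⊥ := by
  rw [Subgroup.ne_bot_iff_exists_ne_one]
  have ne : ∀ t : GL (Fin 2) F, t.1.trace = 0 → pg t ≠ 1 := by
    intro t ht h
    rw [QuotientGroup.mk'_apply, QuotientGroup.eq_one_iff, mem_center_GL, isScal_iff] at h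
    obtain ⟨a, ha⟩ := h
    have hx : IsUnit t.1.det := t.isUnit.map Matrix.detMonoidHom
    rw [ha] at ht hx
    simp [h2] at ht hx
    exact hx ht
  have e1 : (z.1 * z'.1 - z'.1 * z.1) * z.1 = -(z.1 * (z.1 * z'.1 - z'.1 * z.1)) := by
    rw [sub_mul, mul_sub, ← mul_assoc, hz, mul_assoc z'.1, hz, ← mul_assoc]; simp
  have e2 : (z.1 * z'.1 - z'.1 * z.1) * z'.1 = -(z'.1 * (z.1 * z'.1 - z'.1 * z.1)) := by
    rw [sub_mul, mul_sub, ← mul_assoc z'.1 z'.1, hz', mul_assoc z.1, hz', ← mul_assoc]; simp; abel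
  have e3 : (z.1 * z'.1 - z'.1 * z.1).trace = 0 := by rw [trace_sub, trace_mul_comm, sub_self]
  by_cases hd : (z.1 * z'.1 - z'.1 * z.1).det = 0
  · refine ⟨⟨pg z, self_mem_Cen _, mem_comap.2 (Or.inl (sub_eq_zero.1 (anti hF hz e3 e1 hd)))⟩,
      fun h => ?_⟩
    have h3 : pg z = 1 := congrArg Subtype.val h
    obtain ⟨a, ha⟩ := isScal_iff.1 (mem_center_GL.1 ((QuotientGroup.eq_one_iff _).1 h3))
    have := congrFun (congrFun hz 0) 0
    rw [ha] at this
    simp at this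
    exact hF a (by linear_combination this)
  · exact ⟨⟨pg (toGL _ hd), mem_comap.2 (Or.inr e1), mem_comap.2 (Or.inr e2)⟩,
      fun h => ne (toGL _ hd) e3 (congrArg Subtype.val h)⟩

/-- the standard element with square `-1` -/
def z0 (F : Type*) [Field F] : GL (Fin 2) F := toGL (H2.comp 0 1) (by simp)

theorem z0_sq : (z0 F).1 * (z0 F).1 = -1 := by
  apply m2_ext <;> simp [z0, H2.comp, m2_mul_apply]

theorem card_D [Finite F] (h2 : (2 : F) ≠ 0) (hF : ∀ x : F, x ^ 2 + 1 ≠ 0) :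
    Nat.card (Cen (pg (z0 F))) = 2 * (Nat.card F + 1) ∧
      (Cen (pg (z0 F))).index * 2 = Nat.card F * (Nat.card F - 1) := by
  have hs : Function.Surjective (pg (F := F)) := QuotientGroup.mk'_surjective _
  have h1 : 1 < Nat.card F := Finite.one_lt_card
  have hle : Cen (z0 F) ≤ (Cen (pg (z0 F))).comap pg := fun n hn =>
    mem_comap.2 (Or.inl (congrArg Units.val (mem_Cen.1 hn)))
  have c1 : Nat.card (Cen (z0 F)) = (Nat.card F - 1) * (Nat.card F + 1) := by
    rw [card_centralizer_GL _ (not_isScal_comp 0 1), nroots_of_none (by simpa [z0] using hF), Nat.sub_zero]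
  let n0 : GL (Fin 2) F := toGL !![1, 0; 0, -1] (by simp [det_fin_two_of])
  have e0 : n0.1 * (z0 F).1 = -((z0 F).1 * n0.1) := by
    apply m2_ext <;> simp [n0, z0, H2.comp, m2_mul_apply]
  have i2 : ((Cen (z0 F)).subgroupOf ((Cen (pg (z0 F))).comap pg)).index = 2 := by
    rw [Subgroup.index_eq_two_iff_exists_notMem_and]
    refine ⟨⟨n0, mem_comap.2 (Or.inr e0)⟩, fun h => ?_, fun b => ?_⟩
    · have h4 : n0.1 * (z0 F).1 = (z0 F).1 * n0.1 := congrArg Units.val (mem_Cen.1 h)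
      have h3 := congrFun (congrFun h4 0) 1
      simp [n0, z0, H2.comp, m2_mul_apply] at h3
      exact h2 (by linear_combination -h3)
    · rcases mem_comap.1 b.2 with h | h
      · exact Or.inr (mem_Cen.2 (Units.ext h))
      · refine Or.inl (mem_Cen.2 (Units.ext ?_))
        change b.1.1 * n0.1 * (z0 F).1 = (z0 F).1 * (b.1.1 * n0.1)
        rw [mul_assoc, e0, mul_neg, ← mul_assoc, h, neg_mul, neg_neg, mul_assoc]
  have c2 := ((Cen (z0 F)).subgroupOf ((Cen (pg (z0 F))).comap pg)).index_mul_card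
  rw [i2, Nat.card_congr (Subgroup.subgroupOfEquivOfLe hle).toEquiv, c1] at c2
  have c3 := ((Cen (pg (z0 F))).comap pg).index_mul_card
  rw [Subgroup.index_comap_of_surjective _ hs, ← c2, card_GL2] at c3
  have c4 := (Cen (pg (z0 F))).index_mul_card
  have c5 := (Subgroup.center (GL (Fin 2) F)).index_mul_card
  rw [card_center_GL, card_GL2, Subgroup.index, ← c4, ← c3] at c5
  have hi : 0 < (Cen (pg (z0 F))).index := Nat.pos_of_ne_zero Subgroup.index_ne_zero_of_finite
  obtain ⟨n, hn⟩ : ∃ n, Nat.card F = n + 1 := ⟨Nat.card F - 1, by omega⟩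
  rw [hn] at c3 c5 ⊢
  rw [show (n + 1) ^ 2 - 1 = n * (n + 2) by rw [Nat.sub_eq_iff_eq_add (Nat.one_le_pow _ _ (by omega))]; ring,
    show (n + 1) ^ 2 - (n + 1) = (n + 1) * n by
      rw [Nat.sub_eq_iff_eq_add (Nat.le_self_pow two_ne_zero _)]; ring] at c3
  simp only [Nat.add_sub_cancel] at c3 c5 ⊢
  constructor
  · apply Nat.eq_of_mul_eq_mul_left (Nat.mul_pos hi (show 0 < n by omega))
    linarith
  · apply Nat.eq_of_mul_eq_mul_left (Nat.mul_pos (show 0 < n by omega) (show 0 < n + 2 by omega))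
    linarith

/-- Let q = 2^k − 1 ≥ 7 be a prime and let G = PGL(2,q), the general linear group of degree 2 over the field with q elements modulo its centre. Then any two Sylow 2-subgroups of G have a non-trivial intersection: for a Sylow 2-subgroup H and every x ∈ G, H ∩ H^x ≠ 1. -/
theorem result {q k : ℕ} [Fact q.Prime] (hk : q + 1 = 2 ^ k) (hq : 7 ≤ q)
    (H : Sylow 2 (GL (Fin 2) (ZMod q) ⧸ Subgroup.center (GL (Fin 2) (ZMod q))))
    (x : GL (Fin 2) (ZMod q) ⧸ Subgroup.center (GL (Fin 2) (ZMod q))) :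
    (H : Subgroup (GL (Fin 2) (ZMod q) ⧸ Subgroup.center (GL (Fin 2) (ZMod q)))) ⊓ MulAut.conj x • (H : Subgroup _) ≠ ⊥ := by
  have hq4 : q % 4 = 3 := by
    obtain ⟨j, rfl⟩ : ∃ j, k = j + 2 := by
      refine ⟨k - 2, ?_⟩
      by_contra h
      have : k ≤ 1 := by omega
      have := Nat.pow_le_pow_right (show 0 < 2 by norm_num) this
      omega
    rw [pow_add] at hk
    omega
  have hF : ∀ x : ZMod q, x ^ 2 + 1 ≠ 0 := fun x hx =>
    ZMod.mod_four_ne_three_of_sq_eq_neg_one (p := q) (y := x) (by linear_combination hx) hq4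
  have h2 := two_ne_zero_of_charP (F := ZMod q) q (by omega)
  obtain ⟨c1, c2⟩ := card_D h2 hF
  rw [Nat.card_zmod] at c1 c2
  have hodd : ¬ 2 ∣ (Cen (pg (z0 (ZMod q)))).index := by
    rintro ⟨c, hc⟩
    obtain ⟨n, rfl⟩ : ∃ n, q = 4 * n + 3 := ⟨q / 4, by omega⟩
    rw [hc, show 4 * n + 3 - 1 = 4 * n + 2 from rfl] at c2
    have : (4 * n + 3) * (4 * n + 2) = 4 * (4 * n * n + 5 * n + 1) + 2 := by ring
    omega
  obtain ⟨t, ht⟩ := exists_le_conjS H.isPGroup' hodd
  have hP : IsPGroup 2 (conjS t (Cen (pg (z0 (ZMod q))))) :=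
    IsPGroup.of_card (n := k + 1) (by rw [card_conjS, c1, hk, pow_succ'])
  have e := H.is_maximal' hP ht
  have e2 : MulAut.conj x • (H : Subgroup _) = conjS x H := rfl
  rw [e2, ← e, conjS_conjS, ← Cen_conj, ← Cen_conj]
  obtain ⟨a, ha⟩ := QuotientGroup.mk'_surjective _ t
  obtain ⟨b, hb⟩ := QuotientGroup.mk'_surjective _ (x * t)
  have key : ∀ a : GL (Fin 2) (ZMod q), (a * z0 (ZMod q) * a⁻¹).1 * (a * z0 (ZMod q) * a⁻¹).1 = -1 := by
    intro a
    rw [← Units.val_mul, show a * z0 (ZMod q) * a⁻¹ * (a * z0 (ZMod q) * a⁻¹) = a * (z0 _ * z0 _) * a⁻¹ by group,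
      Units.val_mul, Units.val_mul, Units.val_mul, z0_sq]
    simp
  rw [← hb, ← ha, ← map_inv, ← map_inv, ← map_mul, ← map_mul, ← map_mul, ← map_mul]
  exact inter_ne_bot h2 hF (key a) (key b)

end Cfsg.Agent.S2485
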