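import Cfsg.Statements.S2486
import Cfsg.Agent.H4.SLConj
import Cfsg.Agent.H6.Bruhat

set_option autoImplicit false
open scoped Pointwise
open Cfsg

namespace Cfsg.Agent.S2486

open Cfsg.Agent.H4 Cfsg.Agent.H6

theorem abs {G : Type*} [Group G] [Finite G] (N : Subgroup G) [hn : N.Normal] (hidx : N.index = 2)
    (B : Subgroup G) (hBN : B ≤ N) (hB : IsPGroup 2 B)
    (hopp : ∀ g ∈ N, ∀ g' ∈ N, (∀ b ∈ B, g * b * g⁻¹ ∈ B → b = 1) →
      (∀ b ∈ B, g' * b * g'⁻¹ ∈ B → b = 1) → ∃ u ∈ B, ∃ u' ∈ B, g' = u * g * u')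
    (H : Sylow 2 G) (x : G) : (H : Subgroup G) ⊓ MulAut.conj x • (H : Subgroup G) ≠ ⊥ := by
  obtain ⟨P, hP⟩ := hB.exists_le_sylow
  obtain ⟨h, hP', hN'⟩ : ∃ h ∈ (P : Subgroup G), h ∉ N := by
    by_contra hh
    push Not at hh
    exact P.not_dvd_index (hidx.symm.dvd.trans (Subgroup.index_dvd_of_le hh))
  have key : ∀ x ∈ N, ∃ t ∈ (P : Subgroup G), t ≠ 1 ∧ x * t * x⁻¹ ∈ (P : Subgroup G) := by
    intro x hx
    by_contra hh
    push Not at hh
    have h1 : ∀ t ∈ (P : Subgroup G), x * t * x⁻¹ ∈ (P : Subgroup G) → t = 1 := fun t a b => by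
      by_contra c; exact hh t a c b
    obtain ⟨u, hu, u', hu', e⟩ := hopp x hx (h * x * h⁻¹) (hn.conj_mem x hx h)
      (fun b a c => h1 b (hP a) (hP c)) fun b a c => by
        have h2 := h1 (h⁻¹ * b * h) (mul_mem (mul_mem (inv_mem hP') (hP a)) hP') (by
          have := mul_mem (mul_mem (inv_mem hP') (hP c)) hP'
          simpa [mul_assoc] using this)
        simpa [mul_assoc, inv_mul_eq_one, mul_inv_eq_iff_eq_mul] using h2
    have h3 := h1 (u' * h) (mul_mem (hP hu') hP') (by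
      rw [show x * (u' * h) * x⁻¹ = u⁻¹ * (u * x * u') * h * x⁻¹ by group, ← e,
        show u⁻¹ * (h * x * h⁻¹) * h * x⁻¹ = u⁻¹ * h by group]
      exact mul_mem (inv_mem (hP hu)) hP')
    exact hN' (by rw [eq_inv_of_mul_eq_one_right h3]; exact inv_mem (hBN hu'))
  have key' : ∀ x, ∃ t ∈ (P : Subgroup G), t ≠ 1 ∧ x * t * x⁻¹ ∈ (P : Subgroup G) := by
    intro x
    by_cases hx : x ∈ N
    · exact key x hx
    · obtain ⟨t, a, b, c⟩ := key (h * x) ((Subgroup.mul_mem_iff_of_index_two hidx).2 (by tauto))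
      refine ⟨t, a, b, ?_⟩
      have := mul_mem (mul_mem (inv_mem hP') c) hP'
      simpa [mul_assoc] using this
  obtain ⟨y, rfl⟩ := MulAction.exists_smul_eq G P H
  obtain ⟨t, a, b, c⟩ := key' (y⁻¹ * x * y)
  intro hbot
  have h4 : x * y * t * (x * y)⁻¹ ∈ ((y • P : Sylow 2 G) : Subgroup G) ⊓
      MulAut.conj x • ((y • P : Sylow 2 G) : Subgroup G) := by
    rw [Sylow.coe_subgroup_smul]
    rw [Subgroup.mem_inf]
    constructor
    · have := Subgroup.smul_mem_pointwise_smul _ (MulAut.conj y) _ c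
      simpa [mul_assoc] using this
    · have := Subgroup.smul_mem_pointwise_smul _ (MulAut.conj x) _
        (Subgroup.smul_mem_pointwise_smul _ (MulAut.conj y) _ a)
      simpa [mul_assoc] using this
  rw [hbot, Subgroup.mem_bot] at h4
  exact b (conj_eq_one_iff.1 h4)

section
variable {F : Type*} [Field F] {n : ℕ}

noncomputable def tv {i j : Fin n} (h : i ≠ j) : GL (Fin n) F :=
  Matrix.GeneralLinearGroup.mkOfDetNeZero (Matrix.transvection i j 1)
    (by rw [Matrix.det_transvection_of_ne _ _ h]; exact one_ne_zero)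

theorem tv_mem {i j : Fin n} (h : i ≠ j) : (tv h : GL (Fin n) F) ∈ upperTriangularGL n F ↔ i < j := by
  change (Matrix.transvection i j (1 : F)).BlockTriangular id ↔ _
  constructor
  · intro H
    by_contra h1
    have := H (i := i) (j := j) (lt_of_le_of_ne (not_lt.1 h1) h.symm)
    simp [Matrix.transvection, h] at this
  · intro H
    exact Matrix.blockTriangular_transvection H.le 1

theorem tv_ne_one {i j : Fin n} (h : i ≠ j) : (tv h : GL (Fin n) F) ≠ 1 := fun H => by
  have : Matrix.transvection i j (1 : F) i j = (1 : Matrix _ _ F) i j :=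
    congrArg (fun g : GL (Fin n) F => g.val i j) H
  simp [Matrix.transvection, h] at this

theorem perm_tv (σ : Equiv.Perm (Fin n)) {i j : Fin n} (h : i ≠ j) :
    permGL F σ * tv h * (permGL F σ)⁻¹ = tv (σ.injective.ne h) := by
  rw [mul_inv_eq_iff_eq_mul]
  refine Units.ext (Matrix.ext fun a b => ?_)
  obtain ⟨a, rfl⟩ := σ.surjective a
  rw [Units.val_mul, Units.val_mul, permGL_mul_apply, mul_permGL_apply]
  change Matrix.transvection i j (1 : F) a b = Matrix.transvection (σ i) (σ j) (1 : F) (σ a) (σ b)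
  simp [Matrix.transvection, Matrix.one_apply, Matrix.single_apply]

theorem borel_opp (g : GL (Fin n) F)
    (h : ∀ b ∈ upperTriangularGL n F, g * b * g⁻¹ ∈ upperTriangularGL n F → b = 1) :
    ∃ b ∈ upperTriangularGL n F, ∃ b' ∈ upperTriangularGL n F,
      g = b * permGL F Fin.revPerm * b' := by
  obtain ⟨σ, b, hb, b', hb', rfl⟩ := bruhat g
  have h1 : StrictMono (σ ∘ Fin.rev) := fun i j hij => by
    have hij' : j.rev < i.rev := Fin.rev_lt_rev.2 hij
    by_contra h2
    have h3 : σ j.rev < σ i.rev := lt_of_le_of_ne (not_lt.1 h2) (σ.injective.ne hij'.ne)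
    have := h (b'⁻¹ * tv hij'.ne * b') (mul_mem (mul_mem (inv_mem hb') ((tv_mem _).2 hij')) hb') (by
      rw [show b * permGL F σ * b' * (b'⁻¹ * tv hij'.ne * b') * (b * permGL F σ * b')⁻¹ =
        b * (permGL F σ * tv hij'.ne * (permGL F σ)⁻¹) * b⁻¹ by group, perm_tv]
      exact mul_mem (mul_mem hb ((tv_mem _).2 h3)) (inv_mem hb))
    exact tv_ne_one (F := F) hij'.ne (by simpa [mul_assoc, inv_mul_eq_one] using this)
  have h2 := (h1.range_inj strictMono_id).1
    (by simp [(σ.surjective.comp Fin.rev_surjective).range_eq])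
  have h3 : σ = Fin.revPerm := Equiv.ext fun i => by simpa using congrFun h2 i.rev
  exact ⟨b, hb, b', hb', by rw [h3]⟩

theorem borel_two : IsPGroup 2 (upperTriangularGL n (ZMod 2)) := by
  rintro ⟨g, hg⟩
  have h1 : ∀ i, g.val i i = 1 := fun i => by
    have h2 := g.det_ne_zero
    rw [Matrix.det_of_isUpperTriangular hg, Finset.prod_ne_zero_iff] at h2
    have := h2 i (Finset.mem_univ i)
    revert this
    generalize g.val i i = c
    decide +revert
  have h3 : IsNilpotent (g.val - 1) := by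
    have := Matrix.aeval_self_charpoly (g.val - 1)
    rw [Matrix.charpoly_of_isUpperTriangular _
      (Matrix.BlockTriangular.sub hg Matrix.blockTriangular_one)] at this
    exact ⟨n, by simpa [h1] using this⟩
  exact ⟨_, Subtype.ext (orderOf_dvd_iff_pow_eq_one.1 (GL_orderOf_dvd_clog 2 g h3))⟩

end

/-- Let n ≥ 4 and let G be a finite group with a normal subgroup N of index 2 isomorphic to SL(n,2) and with trivial centralizer in G (so G is the extension of the simple group L_n(2) by its inverse-transpose automorphism, its full automorphism group). Then any two Sylow 2-subgroups of G have a non-trivial intersection: for a Sylow 2-subgroup H and every x ∈ G, H ∩ H^x ≠ 1. -/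
theorem result {G : Type*} [Group G] [Finite G] {n : ℕ} (hn : 4 ≤ n) (N : Subgroup G) [N.Normal]
    (e : N ≃* Matrix.SpecialLinearGroup (Fin n) (ZMod 2)) (hidx : N.index = 2)
    (hC : Subgroup.centralizer (N : Set G) = ⊥)
    (H : Sylow 2 G) (x : G) :
    (H : Subgroup G) ⊓ MulAut.conj x • (H : Subgroup G) ≠ ⊥ := by
  have hbij : Function.Bijective (Matrix.SpecialLinearGroup.toGL :
      Matrix.SpecialLinearGroup (Fin n) (ZMod 2) →* GL (Fin n) (ZMod 2)) :=
    ⟨Matrix.SpecialLinearGroup.toGL_injective, fun g => ⟨⟨g, by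
      have := g.det_ne_zero
      revert this
      generalize g.val.det = c
      decide +revert⟩, Units.ext rfl⟩⟩
  let φ : N ≃* GL (Fin n) (ZMod 2) := e.trans (MulEquiv.ofBijective _ hbij)
  let ψ : GL (Fin n) (ZMod 2) →* G := N.subtype.comp φ.symm.toMonoidHom
  have hψ : Function.Injective ψ := Subtype.val_injective.comp φ.symm.injective
  have hN : ∀ g ∈ N, ∃ k, ψ k = g := fun g hg => ⟨φ ⟨g, hg⟩, by simp [ψ]⟩
  have hm : ∀ g b : GL (Fin n) (ZMod 2), ψ g * ψ b * (ψ g)⁻¹ ∈ (upperTriangularGL n (ZMod 2)).map ψ ↔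
      g * b * g⁻¹ ∈ upperTriangularGL n (ZMod 2) := fun g b => by
    rw [← map_inv, ← map_mul, ← map_mul, Subgroup.mem_map_iff_mem hψ]
  refine abs N hidx ((upperTriangularGL n (ZMod 2)).map ψ) ?_ (borel_two.map ψ) ?_ H x
  · rintro _ ⟨g, -, rfl⟩
    exact (φ.symm g).2
  · intro g hg g' hg' h h'
    obtain ⟨g, rfl⟩ := hN g hg
    obtain ⟨g', rfl⟩ := hN g' hg'
    obtain ⟨a, ha, a', ha', rfl⟩ := borel_opp g fun b hb hb' =>
      hψ ((h _ ⟨b, hb, rfl⟩ ((hm g b).2 hb')).trans (map_one ψ).symm)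
    obtain ⟨c, hc, c', hc', rfl⟩ := borel_opp g' fun b hb hb' =>
      hψ ((h' _ ⟨b, hb, rfl⟩ ((hm g' b).2 hb')).trans (map_one ψ).symm)
    refine ⟨_, ⟨c * a⁻¹, mul_mem hc (inv_mem ha), rfl⟩, _,
      ⟨a'⁻¹ * c', mul_mem (inv_mem ha') hc', rfl⟩, ?_⟩
    simp only [← map_mul]
    congr 1
    group

end Cfsg.Agent.S2486
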