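import Cfsg.Statements.S2487
import Cfsg.Agent.H6.OrthSylow2

set_option autoImplicit false
open scoped Pointwise
open Cfsg

namespace Cfsg.Agent.S2487

/-- Let m ≥ 4 and let G be the full isometry group of the hyperbolic quadratic form x₁y₁ + ⋯ + x_m y_m on the 2m-dimensional space over the field with 2 elements (the orthogonal group O⁺(2m,2), which contains Ω⁺(2m,2) with index 2). Then any two Sylow 2-subgroups of G have a non-trivial intersection: for a Sylow 2-subgroup H and every x ∈ G, H ∩ H^x ≠ 1. -/
theorem result {F : Type*} [Field F] [Fintype F] (hF : Fintype.card F = 2) {m : ℕ} (hm : 4 ≤ m)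
    (H : Sylow 2 (Cfsg.isometryGroup F (Cfsg.quadFormPlus m F)))
    (x : Cfsg.isometryGroup F (Cfsg.quadFormPlus m F)) :
    (H : Subgroup (Cfsg.isometryGroup F (Cfsg.quadFormPlus m F))) ⊓ MulAut.conj x • (H : Subgroup _) ≠ ⊥ := by
  classical
  have key : ∀ (Q : QuadraticForm F (Fin m ⊕ Fin m → F)) (_ : Q = H6.qPlus m F)
      (H : Sylow 2 (Cfsg.isometryGroup F Q)) (x : Cfsg.isometryGroup F Q),
      (H : Subgroup (Cfsg.isometryGroup F Q)) ⊓ MulAut.conj x • (H : Subgroup _) ≠ ⊥ := by
    intro Q hQ H x
    have hB : (H6.pb Q).Nondegenerate := hQ ▸ H6.qPlus_nondeg m F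
    let i0 : Fin m := ⟨0, by omega⟩
    let A := H6.singSub F i0
    let E := H6.ogEquiv Q
    let K : Subgroup (isometryGroup F Q) :=
      { carrier := {g | ∀ v ∈ A, (E g).1 v = v}
        mul_mem' := fun {a b} ha hb v hv => by
          rw [map_mul, H6.OG_mul_apply, hb v hv, ha v hv]
        one_mem' := fun v _ => by rw [map_one]; rfl
        inv_mem' := fun {a} ha v hv => by
          rw [map_inv]
          conv_lhs => rw [← ha v hv, H6.OG_inv_apply] }
    have hK : IsPGroup 2 K := by
      rintro ⟨g, hg⟩
      refine ⟨3, Subtype.ext (E.injective ?_)⟩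
      subst hQ
      simpa using H6.pow_eight_of_fix hF i0 (E g) hg
    obtain ⟨S, hS⟩ := hK.exists_le_sylow
    haveI : Finite (isometryGroup F Q) := inferInstance
    obtain ⟨y, hy⟩ := MulAction.exists_smul_eq (isometryGroup F Q) S H
    have hmem : ∀ z g : isometryGroup F Q, (∀ v ∈ A, (E g).1 ((E z).1 v) = (E z).1 v) →
        z⁻¹ * g * z ∈ (S : Subgroup _) := by
      intro z g hg
      apply hS
      intro v hv
      rw [map_mul, map_mul, map_inv, H6.OG_mul_apply, H6.OG_mul_apply, hg v hv, H6.OG_inv_apply]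
    obtain ⟨g, hg1, hg⟩ := H6.exists_ne_one_fixing hB
      (A.map (E y).1.toLinearMap ⊔ A.map (E (x * y)).1.toLinearMap) (by
        have h1 := Submodule.finrank_add_le_finrank_add_finrank (A.map (E y).1.toLinearMap)
          (A.map (E (x * y)).1.toLinearMap)
        rw [LinearEquiv.finrank_map_eq, LinearEquiv.finrank_map_eq] at h1
        have h2 := H6.finrank_singSub F i0
        simp only [Module.finrank_fintype_fun_eq_card, Fintype.card_sum, Fintype.card_fin]
        change _ ≤ Module.finrank F (H6.singSub F i0) + Module.finrank F (H6.singSub F i0) at h1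
        omega)
    obtain ⟨g, rfl⟩ := E.surjective g
    intro hbot
    apply hg1
    have h1 := hmem y g fun v hv => hg _ (Submodule.mem_sup_left ⟨v, hv, rfl⟩)
    have h2 := hmem (x * y) g fun v hv => hg _ (Submodule.mem_sup_right ⟨v, hv, rfl⟩)
    have : g ∈ (H : Subgroup (Cfsg.isometryGroup F Q)) ⊓ MulAut.conj x • (H : Subgroup _) := by
      rw [← hy, Sylow.coe_subgroup_smul, Subgroup.mem_inf]
      constructor
      · rw [Subgroup.mem_pointwise_smul_iff_inv_smul_mem]
        simpa using h1
      · rw [Subgroup.mem_pointwise_smul_iff_inv_smul_mem,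
          Subgroup.mem_pointwise_smul_iff_inv_smul_mem]
        simpa [mul_assoc] using h2
    rw [hbot, Subgroup.mem_bot] at this
    rw [this, map_one]
  exact key _ rfl H x

end Cfsg.Agent.S2487
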