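import Cfsg.Statements.S2488
import Cfsg.Agent.H3.Orb

set_option autoImplicit false
open scoped Pointwise
open Cfsg

namespace Cfsg.Agent.S2488

open Equiv Equiv.Perm Subgroup

set_option maxRecDepth 100000 in
theorem c45 : (Finset.univ.filter fun w : Perm (Fin 6) =>
    w * w = 1 ∧ w ≠ 1 ∧ sign w = 1).card = 45 := by
  decide +kernel

set_option maxRecDepth 100000 in
theorem c17 : (Finset.univ.filter fun w : Perm (Fin 6) => (w * w = 1 ∧ w ≠ 1 ∧ sign w = 1) ∧
    (swap 0 1 * swap 2 3 * w) ^ 3 = 1).card = 17 := by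
  decide +kernel

set_option maxRecDepth 100000 in
theorem c8 : (Finset.univ.filter fun w : Perm (Fin 6) =>
    w * (swap 0 1 * swap 2 3) = swap 0 1 * swap 2 3 * w ∧ sign w = 1).card = 8 := by
  decide +kernel

theorem ct {z : Perm (Fin 6)} (h1 : z * z = 1) (h2 : z ≠ 1) (h3 : sign z = 1) :
    z.cycleType = {2, 2} := by
  have h4 := pow_prime_eq_one_iff (p := 2).1 (by rw [pow_two, h1])
  have h5 := Multiset.eq_replicate_card.2 h4
  have h6 := sum_cycleType_le z
  have h7 := sign_of_cycleType z
  have h8 := card_cycleType_pos.2 h2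
  rw [h5] at h6 h7 ⊢
  generalize z.cycleType.card = k at *
  simp only [Multiset.sum_replicate, smul_eq_mul, Fintype.card_fin, Multiset.card_replicate] at h6 h7
  have : k ≤ 3 := by omega
  rw [h3] at h7
  interval_cases k
  · exact absurd h7 (by decide)
  · rfl
  · exact absurd h7 (by decide)

theorem conj0 {z : Perm (Fin 6)} (h1 : z * z = 1) (h2 : z ≠ 1) (h3 : sign z = 1) :
    ∃ σ : Perm (Fin 6), σ * z * σ⁻¹ = swap 0 1 * swap 2 3 := by
  rw [← isConj_iff, isConj_iff_cycleType_eq, ct h1 h2 h3, ct (by decide) (by decide) (by decide)]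

theorem sign_cj (σ w : Perm (Fin 6)) : sign (σ * w * σ⁻¹) = sign w := by
  rw [Perm.sign_mul, Perm.sign_mul, mul_right_comm, ← Perm.sign_mul, mul_inv_cancel, map_one,
    one_mul]

theorem card_le_of {ι : Type*} [Finite ι] (f : ι → Perm (Fin 6)) (hf : Function.Injective f)
    (s : Finset (Perm (Fin 6))) (h : ∀ i, f i ∈ s) : Nat.card ι ≤ s.card := by
  rw [← Nat.card_eq_finsetCard]
  exact Nat.card_le_card_of_injective (fun i => (⟨f i, h i⟩ : s))
    fun i j e => hf (congrArg Subtype.val e)

/-- the involutions in a normal subgroup -/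
def Invol {G : Type*} [Group G] (N : Subgroup G) : Type _ := {w : N // w * w = 1 ∧ w ≠ 1}

instance {G : Type*} [Group G] (N : Subgroup G) [N.Normal] : MulAction G (Invol N) where
  smul g w := ⟨MulAut.conjNormal g w.1, by rw [← map_mul, w.2.1, map_one],
    fun h => w.2.2 ((MulEquiv.map_eq_one_iff _).1 h)⟩
  one_smul w := Subtype.ext (by change MulAut.conjNormal 1 w.1 = w.1; simp)
  mul_smul g h w := Subtype.ext (by
    change MulAut.conjNormal (g * h) w.1 = MulAut.conjNormal g (MulAut.conjNormal h w.1); simp)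

theorem smul_val {G : Type*} [Group G] {N : Subgroup G} [N.Normal] (g : G) (w : Invol N) :
    (g • w).1 = MulAut.conjNormal g w.1 := rfl

/-- Let G be a finite group with a normal subgroup N of index 4 isomorphic to the alternating group of degree 6 and with trivial centralizer in G (so G is the full automorphism group of A₆). Then any two Sylow 2-subgroups of G have a non-trivial intersection: for a Sylow 2-subgroup H and every x ∈ G, H ∩ H^x ≠ 1. -/
theorem result {G : Type*} [Group G] [Finite G] (N : Subgroup G) [N.Normal]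
    (e : N ≃* alternatingGroup (Fin 6)) (hidx : N.index = 4)
    (hC : Subgroup.centralizer (N : Set G) = ⊥)
    (H : Sylow 2 G) (x : G) :
    (H : Subgroup G) ⊓ MulAut.conj x • (H : Subgroup G) ≠ ⊥ := by
  let f : N →* Perm (Fin 6) := (alternatingGroup (Fin 6)).subtype.comp e.toMonoidHom
  have hf : Function.Injective f := (subtype_injective _).comp e.injective
  have hs : ∀ w, sign (f w) = 1 := fun w => (e w).2
  have hI : ∀ w : Invol N, f w.1 * f w.1 = 1 ∧ f w.1 ≠ 1 ∧ sign (f w.1) = 1 := fun w =>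
    ⟨by rw [← map_mul, w.2.1, map_one], fun h => w.2.2 (hf (h.trans (map_one f).symm)), hs _⟩
  have : Finite (Invol N) := inferInstanceAs (Finite {w : N // w * w = 1 ∧ w ≠ 1})
  have h45 : Nat.card (Invol N) = 45 := by
    rw [← c45, ← Nat.card_eq_finsetCard]
    refine Nat.card_congr (Equiv.ofBijective (fun w => ⟨f w.1, by simpa using hI w⟩)
      ⟨fun a b h => Subtype.ext (hf (by simpa using h)), fun w => ?_⟩)
    obtain ⟨a1, a2, a3⟩ := (Finset.mem_filter.1 w.2).2
    have e1 : f (e.symm ⟨w, a3⟩) = w := by simp [f]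
    exact ⟨⟨e.symm ⟨w, a3⟩, hf (by rw [map_mul, e1, a1, map_one]),
      fun h => a2 (by rw [← e1, h, map_one])⟩, Subtype.ext e1⟩
  have hG : Nat.card G = 1440 := by
    rw [← N.card_mul_index, hidx, Nat.card_congr e.toEquiv, nat_card_alternatingGroup]
    simp; rfl
  have hH : Nat.card (H : Subgroup G) = 32 := by
    rw [H.card_eq_multiplicity, hG, show 1440 = 2 ^ 5 * 45 by norm_num,
      Nat.factorization_mul (by norm_num) (by norm_num), Nat.Prime.factorization_pow Nat.prime_two,
      Finsupp.add_apply, Nat.factorization_eq_zero_of_not_dvd (by norm_num)]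
    simp
  obtain ⟨z, hz⟩ := H.isPGroup'.nonempty_fixed_point_of_prime_not_dvd_card (Invol N)
    (by rw [h45]; norm_num)
  obtain ⟨σ, hσ⟩ := conj0 (hI z).1 (hI z).2.1 (hI z).2.2
  have hcj : Function.Injective fun w : N => σ * f w * σ⁻¹ := fun a b h => hf (by simpa using h)
  have hst : (H : Subgroup G) = MulAction.stabilizer G z := by
    refine eq_of_le_of_card_ge (fun g hg => hz ⟨g, hg⟩) ?_
    rw [H3.card_eq_relIndex_mul _ N, hH]
    have h1 : N.relIndex (MulAction.stabilizer G z) ≤ 4 :=
      hidx ▸ Nat.le_of_dvd (by omega) (relIndex_dvd_index_of_normal _ _)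
    have h2 : Nat.card (MulAction.stabilizer G z ⊓ N : Subgroup G) ≤ 8 := by
      rw [← c8]
      refine card_le_of (fun g : (MulAction.stabilizer G z ⊓ N : Subgroup G) =>
        σ * f ⟨g, g.2.2⟩ * σ⁻¹) (fun a b h => Subtype.ext (congrArg (fun u : N => (u : G)) (hcj h))) _
        fun g => ?_
      simp only [Finset.mem_filter, Finset.mem_univ, true_and, sign_cj, hs, and_true]
      have h3 : (⟨g, g.2.2⟩ : N) * z.1 = z.1 * ⟨g, g.2.2⟩ := by
        have := congrArg (fun w : Invol N => (w.1 : G)) (MulAction.mem_stabilizer_iff.1 g.2.1)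
        simp only [smul_val, MulAut.conjNormal_apply] at this
        exact Subtype.ext (mul_inv_eq_iff_eq_mul.1 this)
      have h4 := congrArg f h3
      rw [map_mul, map_mul] at h4
      rw [← hσ]
      calc _ = σ * (f ⟨g, g.2.2⟩ * f z.1) * σ⁻¹ := by group
        _ = _ := by rw [h4]; group
    exact Nat.mul_le_mul h1 h2
  have horb : Nat.card (MulAction.orbit (H : Subgroup G) (x • z)) < 32 := by
    have key : ∀ w : MulAction.orbit (H : Subgroup G) (x • z),
        (swap 0 1 * swap 2 3 * (σ * f w.1.1 * σ⁻¹)) ^ 3 = 1 ↔ (z.1 * (x • z).1) ^ 3 = 1 := by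
      rintro ⟨_, h, rfl⟩
      have e1 : swap 0 1 * swap 2 3 * (σ * f (h • x • z).1 * σ⁻¹) = σ * f (z.1 * (h • x • z).1) * σ⁻¹ := by
        rw [← hσ, map_mul]; group
      have e2 : z.1 * (h • x • z).1 = MulAut.conjNormal (h : G) (z.1 * (x • z).1) := by
        rw [map_mul, ← smul_val, ← smul_val (h : G), show (h : G) • z = z from hz h]
        rfl
      simp only
      rw [e1, conj_pow, conj_eq_one_iff, ← map_pow, map_eq_one_iff f hf, e2, ← map_pow,
        MulEquiv.map_eq_one_iff]
    have hinj : Function.Injective fun w : MulAction.orbit (H : Subgroup G) (x • z) =>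
        σ * f w.1.1 * σ⁻¹ := fun a b h => Subtype.ext (Subtype.ext (hcj h))
    have hm : ∀ w : Invol N, σ * f w.1 * σ⁻¹ * (σ * f w.1 * σ⁻¹) = 1 ∧ σ * f w.1 * σ⁻¹ ≠ 1 ∧
        sign (σ * f w.1 * σ⁻¹) = 1 := fun w =>
      ⟨by rw [conj_mul, (hI w).1]; simp, by simpa using (hI w).2.1, by rw [sign_cj, hs]⟩
    by_cases c : (z.1 * (x • z).1) ^ 3 = 1
    · refine lt_of_le_of_lt (card_le_of _ hinj _ fun w => ?_) (c17.trans_lt (by norm_num))
      exact Finset.mem_filter.2 ⟨Finset.mem_univ _, hm _, (key w).2 c⟩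
    · have h1 := Finset.card_filter_add_card_filter_not (s := Finset.univ.filter
        fun w : Perm (Fin 6) => w * w = 1 ∧ w ≠ 1 ∧ sign w = 1)
        fun w => (swap 0 1 * swap 2 3 * w) ^ 3 = 1
      rw [c45, Finset.filter_filter, c17] at h1
      have h2 := Nat.add_left_cancel (h1.trans (show 45 = 17 + 28 from rfl))
      refine lt_of_le_of_lt (card_le_of _ hinj _ fun w => ?_) (h2.trans_lt (by norm_num))
      exact Finset.mem_filter.2 ⟨Finset.mem_filter.2 ⟨Finset.mem_univ _, hm _⟩, mt (key w).1 c⟩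
  intro hbot
  have h1 : MulAction.stabilizer (H : Subgroup G) (x • z) = ⊥ := by
    rw [eq_bot_iff]
    intro g hg
    have h2 : (g : G) ∈ MulAction.stabilizer G (x • z) := hg
    rw [MulAction.stabilizer_smul_eq_stabilizer_map_conj, ← hst] at h2
    have h3 : (g : G) ∈ (H : Subgroup G) ⊓ MulAut.conj x • (H : Subgroup G) := ⟨g.2, h2⟩
    rw [hbot] at h3
    exact Subtype.ext h3
  have h2 := MulAction.index_stabilizer (H : Subgroup G) (x • z)
  rw [h1, index_bot, hH, ← Nat.card_coe_set_eq] at h2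
  omega

end Cfsg.Agent.S2488
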