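import Cfsg.Statements.S2490
import Cfsg.Agent.H3.PrimeGraph

set_option autoImplicit false
open Cfsg

namespace Cfsg.Agent.S2490

open Subgroup MulAction H3

instance f5 : Fact (Nat.Prime 5) := ⟨by norm_num⟩
instance f11 : Fact (Nat.Prime 11) := ⟨by norm_num⟩

theorem pw {q j N : ℕ} (b : ℕ) (hq : 1 < q) (h : q ^ j ∣ N) (hb : ¬ q ^ b ∣ N) : j < b := by
  by_contra h1
  exact hb ((pow_dvd_pow q (by omega)).trans h)

section
variable {G : Type*} [Group G] [Finite G] (hord : Nat.card G = 7920)
include hord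

theorem three_edge : Edge G 2 3 ∨ Edge G 11 3 := by
  by_contra h
  rw [not_or] at h
  obtain ⟨R⟩ : Nonempty (Sylow 3 G) := inferInstance
  have c9 : ∀ R : Sylow 3 G, Nat.card (R : Subgroup G) = 3 ^ 2 :=
    card_sylow_of_card (m := 880) hord (by norm_num)
  have hab : ∀ (R : Sylow 3 G) (x : G), x ∈ (R : Subgroup G) → (R : Subgroup G) ≤ centralizer {x} := by
    intro R x hx y hy
    have := IsPGroup.isMulCommutative_of_card_eq_prime_sq (c9 R)
    rw [mem_centralizer_singleton_iff]
    exact setLike_mul_comm hy hx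
  have TI : ∀ (R' : Sylow 3 G) (x : G), x ∈ (R : Subgroup G) → x ∈ (R' : Subgroup G) → x ≠ 1 →
      R' = R := by
    intro R' x hx hx' h1
    have h3 := dvd_orderOf_of_isPGroup R.isPGroup' hx h1
    have hC : ∀ y ∈ centralizer ({x} : Set G), Commute y x := fun y hy =>
      mem_centralizer_singleton_iff.1 hy
    have a2 : ¬ 2 ∣ Nat.card (centralizer ({x} : Set G)) := fun e =>
      h.1 (edge_of_dvd_centralizer (by norm_num) h3 hC e)
    have a11 : ¬ 11 ∣ Nat.card (centralizer ({x} : Set G)) := fun e =>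
      h.2 (edge_of_dvd_centralizer (by norm_num) h3 hC e)
    have d1 : Nat.card (Sylow 3 (centralizer ({x} : Set G))) ∣ Nat.card (centralizer ({x} : Set G)) :=
      (R.subtype (hab R x hx)).card_dvd_index.trans (index_dvd_card _)
    have d2 := card_subgroup_dvd_card (centralizer ({x} : Set G))
    have d3 := card_sylow_modEq_one 3 (centralizer ({x} : Set G))
    have d4 : Nat.card (Sylow 3 (centralizer ({x} : Set G))) ∣ 5 := by
      have d5 := d1.trans d2
      rw [hord, show 7920 = 2 ^ 4 * (3 ^ 2 * (11 * 5)) by norm_num] at d5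
      refine Nat.Coprime.dvd_of_dvd_mul_left ?_ (Nat.Coprime.dvd_of_dvd_mul_left ?_
        (Nat.Coprime.dvd_of_dvd_mul_left ?_ d5))
      · exact ((Nat.Prime.coprime_iff_not_dvd (by norm_num)).2 fun e => a11 (e.trans d1)).symm
      · exact (((Nat.Prime.coprime_iff_not_dvd Nat.prime_three).2
          (not_dvd_card_sylow 3 _)).symm).pow_right _
      · exact (((Nat.Prime.coprime_iff_not_dvd Nat.prime_two).2
          fun e => a2 (e.trans d1)).symm).pow_right _
    have d5 : Nat.card (Sylow 3 (centralizer ({x} : Set G))) = 1 := by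
      rcases (Nat.dvd_prime Nat.prime_five).1 d4 with e | e
      · exact e
      · rw [e] at d3; exact absurd d3 (by decide)
    have := (Nat.card_eq_one_iff_unique.1 d5).1
    exact Sylow.subtype_injective (Subsingleton.elim (R'.subtype (hab R' x hx')) (R.subtype (hab R x hx)))
  have h9 : Nat.card (R : Subgroup G) ∣ Nat.card (Sylow 3 G) - 1 := by
    refine card_dvd_sub_one (Γ := (R : Subgroup G)) R
      (fun g => Sylow.smul_eq_iff_mem_normalizer.2 (le_normalizer g.2)) fun R' hR' g hg => ?_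
    by_contra h1
    have h2 : (g : G) ∈ normalizer ((R' : Subgroup G) : Set G) :=
      Sylow.smul_eq_iff_mem_normalizer.1 hg
    have h3 : (g : G) ∈ (R : Subgroup G) ⊓ (R' : Subgroup G) := by
      rw [← R.isPGroup'.inf_normalizer_sylow R']; exact ⟨g.2, h2⟩
    exact hR' (TI R' g g.2 h3.2 fun e => h1 (Subtype.ext e))
  have h1 := card_normalizer_mul R
  have h2 := R.card_dvd_index
  have h3 := (R : Subgroup G).card_mul_index
  rw [c9] at h9 h3
  rw [hord] at h1 h3
  rw [show (R : Subgroup G).index = 880 by omega] at h2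
  have h4 : Nat.card (Sylow 3 G) = 1 ∨ Nat.card (Sylow 3 G) = 10 ∨ Nat.card (Sylow 3 G) = 55 := by
    have : ∀ d ∈ Nat.divisors 880, 3 ^ 2 ∣ d - 1 → d = 1 ∨ d = 10 ∨ d = 55 := by decide +kernel
    exact this _ (Nat.mem_divisors.2 ⟨h2, by norm_num⟩) h9
  rcases h4 with e | e | e <;> rw [e] at h1
  · exact h.1 (edge_of_normalizer (k := 4) (by norm_num) R.isPGroup' (by omega) (by rw [c9]; norm_num))
  · exact h.2 (edge_of_normalizer (k := 1) (by norm_num) R.isPGroup' (by omega) (by rw [c9]; norm_num))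
  · exact h.1 (edge_of_normalizer (k := 4) (by norm_num) R.isPGroup' (by omega) (by rw [c9]; norm_num))

theorem edge_five_of_sixteen (M : Subgroup G) [M.Normal] (h16 : 16 ∣ Nat.card M)
    (h5 : ¬ 5 ∣ Nat.card M) : Edge G 2 5 ∨ Edge G 3 5 ∨ Edge G 11 5 := by
  obtain ⟨Q⟩ : Nonempty (Sylow 5 G) := inferInstance
  have c5 : Nat.card (Q : Subgroup G) = 5 ^ 1 := card_sylow_of_card (m := 1584) hord (by norm_num) Q
  have h1 := card_normalizer_mul Q
  have h2 := card_sylow_modEq_one 5 G
  rw [hord] at h1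
  by_cases c3 : 3 ∣ Nat.card (normalizer ((Q : Subgroup G) : Set G))
  · exact Or.inr (Or.inl (edge_of_normalizer (k := 1) (by norm_num) Q.isPGroup' c3
      (by rw [c5]; norm_num)))
  by_cases c11 : 11 ∣ Nat.card (normalizer ((Q : Subgroup G) : Set G))
  · exact Or.inr (Or.inr (edge_of_normalizer (k := 1) (by norm_num) Q.isPGroup' c11
      (by rw [c5]; norm_num)))
  left
  have c2 : 2 ∣ Nat.card (normalizer ((Q : Subgroup G) : Set G)) := by
    have : ∀ d ∈ Nat.divisors 7920, ¬ 3 ∣ d → ¬ 11 ∣ d → 7920 / d % 5 = 1 → 2 ∣ d := by decide +kernel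
    refine this _ (Nat.mem_divisors.2 ⟨Dvd.intro _ h1, by norm_num⟩) c3 c11 ?_
    rw [← h1, Nat.mul_div_cancel_left _ Nat.card_pos]
    exact h2
  obtain ⟨y, hy⟩ := exists_prime_orderOf_dvd_card' 2 c2
  obtain ⟨x, hx⟩ := exists_prime_orderOf_dvd_card' (G := (Q : Subgroup G)) 5 (by rw [c5]; norm_num)
  have hyM : (y : G) ∈ M := by
    have h3 := M.pow_index_mem (y : G)
    have h4 := M.card_mul_index
    obtain ⟨c, hc⟩ := h16
    rw [hc, hord] at h4
    have h5 : M.index % 2 = 1 := by
      by_contra h6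
      obtain ⟨d, hd⟩ : 2 ∣ M.index := by omega
      rw [hd, show 16 * c * (2 * d) = 32 * (c * d) by ring] at h4
      omega
    rwa [← pow_mod_orderOf, Subgroup.orderOf_coe, hy, h5, pow_one] at h3
  have hd : Disjoint (Q : Subgroup G) M := disjoint_of_coprime_natCard (by
    rw [c5, pow_one]; exact (Nat.Prime.coprime_iff_not_dvd Nat.prime_five).2 h5)
  have h3 : (y : G) * x * (y : G)⁻¹ * (x : G)⁻¹ = 1 := by
    refine disjoint_def.1 hd (mul_mem ((mem_normalizer_iff.1 y.2 _).1 x.2) (inv_mem x.2)) ?_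
    have := mul_mem hyM (‹M.Normal›.conj_mem _ (inv_mem hyM) x)
    simpa [mul_assoc] using this
  exact edge_of_commute (by norm_num) (commutatorElement_eq_one_iff_commute.1 h3)
    (by rw [Subgroup.orderOf_coe, hy]) (by rw [Subgroup.orderOf_coe, hx])

/-- the graph is connected -/
def Conn (G : Type*) [Group G] : Prop :=
  (Edge G 11 2 ∨ (Edge G 2 3 ∧ Edge G 11 3) ∨ (Edge G 2 5 ∧ Edge G 11 5)) ∧
    (Edge G 2 5 ∨ Edge G 3 5 ∨ Edge G 11 5)

theorem caseA (M : Subgroup G) [M.Normal] (h1 : M ≠ ⊥) (h11 : ¬ 11 ∣ Nat.card M) : Conn G := by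
  have hd : Nat.card M ∣ 7920 := hord ▸ card_subgroup_dvd_card M
  have e2 : 2 ∣ Nat.card M → Edge G 11 2 := fun h => by
    rcases edge_of_normal (k := 1) M h11 h (by rw [hord]; norm_num) with e | ⟨j, a, b, c⟩
    · exact e
    · have := pw 5 (by norm_num) (b.trans hd) (by norm_num)
      interval_cases j <;> norm_num at c
  have e3 : 3 ∣ Nat.card M → Edge G 11 3 := fun h => by
    rcases edge_of_normal (k := 1) M h11 h (by rw [hord]; norm_num) with e | ⟨j, a, b, c⟩
    · exact e
    · have := pw 3 (by norm_num) (b.trans hd) (by norm_num)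
      interval_cases j <;> norm_num at c
  have e5 : 5 ∣ Nat.card M → Edge G 11 5 := fun h => by
    rcases edge_of_normal (k := 1) M h11 h (by rw [hord]; norm_num) with e | ⟨j, a, b, c⟩
    · exact e
    · have := pw 2 (by norm_num) (b.trans hd) (by norm_num)
      interval_cases j <;> norm_num at c
  have hq : 2 ∣ Nat.card M ∨ 3 ∣ Nat.card M ∨ 5 ∣ Nat.card M := by
    have : ∀ d ∈ Nat.divisors 7920, d ≠ 1 → ¬ 11 ∣ d → 2 ∣ d ∨ 3 ∣ d ∨ 5 ∣ d := by decide +kernel
    exact this _ (Nat.mem_divisors.2 ⟨hd, by norm_num⟩) (mt card_eq_one.1 h1) h11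
  constructor
  · by_cases c2 : 2 ∣ Nat.card M
    · exact Or.inl (e2 c2)
    rcases hq.resolve_left c2 with h | h
    · refine Or.inr (Or.inl ⟨?_, e3 h⟩)
      rcases edge_of_normal (k := 4) M c2 h (by rw [hord]; norm_num) with e | ⟨j, a, b, c⟩
      · exact e
      · have := pw 3 (by norm_num) (b.trans hd) (by norm_num)
        interval_cases j <;> norm_num at c
    · refine Or.inr (Or.inr ⟨?_, e5 h⟩)
      rcases edge_of_normal (k := 4) M c2 h (by rw [hord]; norm_num) with e | ⟨j, a, b, c⟩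
      · exact e
      · have := pw 2 (by norm_num) (b.trans hd) (by norm_num)
        interval_cases j <;> norm_num at c
  · by_cases c5 : 5 ∣ Nat.card M
    · exact Or.inr (Or.inr (e5 c5))
    by_cases c3 : 3 ∣ Nat.card M
    · rcases edge_of_normal (k := 1) M c5 c3 (by rw [hord]; norm_num) with e | ⟨j, a, b, c⟩
      · exact Or.inr (Or.inl e.symm)
      · have := pw 3 (by norm_num) (b.trans hd) (by norm_num)
        interval_cases j <;> norm_num at c
    have c2 : 2 ∣ Nat.card M := by tauto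
    rcases edge_of_normal (k := 1) M c5 c2 (by rw [hord]; norm_num) with e | ⟨j, a, b, c⟩
    · exact Or.inl e.symm
    · have := pw 5 (by norm_num) (b.trans hd) (by norm_num)
      interval_cases j <;> try norm_num at c
      exact edge_five_of_sixteen hord M b c5

theorem c11 (P : Sylow 11 G) : Nat.card (P : Subgroup G) = 11 :=
  card_sylow_of_card (k := 1) (m := 720) hord (by norm_num) P

theorem edge_cent (P : Sylow 11 G) {r : ℕ} [hr : Fact r.Prime] (h : r.Coprime 11)
    (hC : r ∣ Nat.card (centralizer ((P : Subgroup G) : Set G))) : Edge G r 11 := by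
  obtain ⟨x, hx⟩ := exists_prime_orderOf_dvd_card' (G := (P : Subgroup G)) 11 (by rw [c11 hord])
  exact edge_of_dvd_centralizer h (x := x) (by rw [Subgroup.orderOf_coe, hx])
    (fun y hy => (hy x x.2).symm) hC

theorem card_norm_cent (P : Sylow 11 G) : ∃ r, r ∣ 10 ∧
    Nat.card (normalizer ((P : Subgroup G) : Set G)) =
      r * Nat.card (centralizer ((P : Subgroup G) : Set G)) := by
  refine ⟨_, relIndex_centralizer_dvd (c11 hord P), ?_⟩
  rw [card_eq_relIndex_mul _ (centralizer ((P : Subgroup G) : Set G)),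
    inf_eq_right.2 (centralizer_le_normalizer _)]

theorem caseB1 (P : Sylow 11 G) (h : 660 ∣ Nat.card (normalizer ((P : Subgroup G) : Set G))) :
    Conn G := by
  obtain ⟨r, hr, e⟩ := card_norm_cent hord P
  have h66 : 66 ∣ Nat.card (centralizer ((P : Subgroup G) : Set G)) := by
    rw [e] at h
    exact Nat.dvd_of_mul_dvd_mul_left (show 0 < 10 by norm_num)
      (h.trans (Nat.mul_dvd_mul_right hr _))
  refine ⟨Or.inl (edge_cent hord P (by norm_num) (dvd_trans (by norm_num) h66)).symm, ?_⟩
  by_cases c5 : 5 ∣ Nat.card (centralizer ((P : Subgroup G) : Set G))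
  · exact Or.inr (Or.inr (edge_cent hord P (by norm_num) c5).symm)
  have hc : Nat.card ((centralizer ((P : Subgroup G) : Set G)).subgroupOf
      (normalizer ((P : Subgroup G) : Set G))) = Nat.card (centralizer ((P : Subgroup G) : Set G)) :=
    Nat.card_congr (subgroupOfEquivOfLe (centralizer_le_normalizer _)).toEquiv
  have : ((centralizer ((P : Subgroup G) : Set G)).subgroupOf
      (normalizer ((P : Subgroup G) : Set G))).Normal := by
    rw [← normalizerMonoidHom_ker]; infer_instance
  rcases edge_of_normal (r := 5) (q := 3) (k := 1) ((centralizer ((P : Subgroup G) : Set G)).subgroupOf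
      (normalizer ((P : Subgroup G) : Set G))) (hc ▸ c5) (hc ▸ dvd_trans (by norm_num) h66)
      (dvd_trans (by norm_num) h) with e | ⟨j, a, b, c⟩
  · exact Or.inr (Or.inl e.of_subgroup.symm)
  · have := pw 3 (by norm_num) (b.trans (hc ▸ hord ▸ card_subgroup_dvd_card _)) (by norm_num)
    interval_cases j <;> norm_num at c

theorem caseB2 (P : Sylow 11 G) (h : Nat.card (normalizer ((P : Subgroup G) : Set G)) = 55)
    (M : Subgroup G) [M.Normal] (h1 : M ≠ ⊤) (h11 : 11 ∣ Nat.card M) : Conn G := by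
  have h2 := M.card_mul_index
  rw [hord] at h2
  have hi : ¬ 11 ∣ M.index := by
    rintro ⟨d, hd⟩
    obtain ⟨c, hc⟩ := h11
    rw [hc, hd, show 11 * c * (11 * d) = 121 * (c * d) by ring] at h2
    omega
  have hPM : (P : Subgroup G) ≤ M := by
    intro g hg
    have h3 : orderOf g ∣ 11 := by
      rw [← c11 hord P]; exact Subgroup.orderOf_dvd_natCard _ hg
    have h4 : g ∈ zpowers (g ^ M.index) := mem_zpowers_pow_iff.2
      (Nat.Coprime.coprime_dvd_right h3 ((Nat.Prime.coprime_iff_not_dvd (by norm_num)).2 hi).symm)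
    exact (zpowers_le.2 (M.pow_index_mem g)) h4
  have h3 := relIndex_sup_right (normalizer ((P : Subgroup G) : Set G)) M
  rw [Sylow.coe_coe, P.normalizer_sup_eq_top' hPM, relIndex_top_right, ← Sylow.coe_coe] at h3
  have h4 := card_eq_relIndex_mul (normalizer ((P : Subgroup G) : Set G)) M
  rw [h, ← h3] at h4
  have h5 : M.index = 5 := by
    have : ∀ d ∈ Nat.divisors 55, d ≠ 1 → ¬ 11 ∣ d → d = 5 := by decide +kernel
    exact this _ (Nat.mem_divisors.2 ⟨Dvd.intro _ h4.symm, by norm_num⟩) (mt index_eq_one.1 h1) hi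
  rw [h5] at h2 h4
  have h6 : (P : Subgroup G) = normalizer ((P : Subgroup G) : Set G) ⊓ M :=
    eq_of_le_of_card_ge (le_inf le_normalizer hPM) (by rw [c11 hord P]; omega)
  have hcomm : IsMulCommutative (P : Subgroup G) := by
    have := isCyclic_of_prime_card (c11 hord P)
    infer_instance
  have h7 : normalizer (((P.subtype hPM : Sylow 11 M) : Subgroup M) : Set M) ≤
      centralizer (((P.subtype hPM : Sylow 11 M) : Subgroup M) : Set M) := by
    intro g hg y hy
    rw [Sylow.coe_subtype, ← subgroupOf_normalizer_eq hPM] at hg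
    have : (g : G) ∈ (P : Subgroup G) := h6 ▸ ⟨hg, g.2⟩
    exact Subtype.ext (setLike_mul_comm (s := (P : Subgroup G)) hy this)
  have h8 := (MonoidHom.ker_transferSylow_isComplement' _ h7).card_mul_card
  have h9 : Nat.card ((P.subtype hPM : Sylow 11 M) : Subgroup M) = 11 := by
    exact (Nat.card_congr (subgroupOfEquivOfLe hPM).toEquiv).trans (c11 hord P)
  rw [h9] at h8
  constructor
  · left
    rcases edge_of_normal (r := 11) (q := 2) (k := 1) (MonoidHom.transferSylow _ h7).ker
      (by omega) (by omega) h11 with e | ⟨j, a, b, c⟩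
    · exact e.of_subgroup
    · have := pw 5 (by norm_num) b (by omega)
      interval_cases j <;> norm_num at c
  · rcases edge_of_normal (r := 5) (q := 3) (k := 1) M (by omega) (by omega)
      (by rw [hord]; norm_num) with e | ⟨j, a, b, c⟩
    · exact Or.inr (Or.inl e.symm)
    · have := pw 3 (by norm_num) b (by omega)
      interval_cases j <;> norm_num at c

theorem caseB3 (P : Sylow 11 G) (h : Nat.card (normalizer ((P : Subgroup G) : Set G)) = 176) :
    Conn G := by
  classical
  obtain ⟨r, hr, e⟩ := card_norm_cent hord P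
  have hr2 : r = 1 ∨ r = 2 := by
    have : ∀ d ∈ Nat.divisors 10, d ∣ 176 → d = 1 ∨ d = 2 := by decide +kernel
    exact this _ (Nat.mem_divisors.2 ⟨hr, by norm_num⟩) (h ▸ Dvd.intro _ e.symm)
  set N := normalizer ((P : Subgroup G) : Set G) with hN
  set C := centralizer ((P : Subgroup G) : Set G) with hC
  have h88 : Nat.card C = 176 ∨ Nat.card C = 88 := by
    rcases hr2 with rfl | rfl <;> omega
  refine ⟨Or.inl (edge_cent hord P (by norm_num) (show 2 ∣ Nat.card C by omega)).symm, Or.inl ?_⟩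
  by_contra h25
  have hCN : C ≤ N := centralizer_le_normalizer _
  have hcomm : IsMulCommutative (P : Subgroup G) := by
    have := isCyclic_of_prime_card (c11 hord P)
    infer_instance
  have hPC : (P : Subgroup G) ≤ C := le_centralizer_iff_isMulCommutative.2 hcomm
  have hn11 : Nat.card (Sylow 11 G) = 45 := by
    have := card_normalizer_mul P
    rw [← hN, h, hord] at this
    omega
  -- a central involution
  obtain ⟨z, hzC, hz2, hz⟩ := exists_central_involution hCN (fun g hg c hc y hy => by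
    have := hc _ ((mem_normalizer_iff.1 (inv_mem hg) y).1 hy)
    have h2 := congrArg (fun u => g * u * g⁻¹) this
    simpa [mul_assoc] using h2) (show 2 ∣ Nat.card C by omega)
  have hPt : ∀ t ∈ C, (P : Subgroup G) ≤ centralizer {t} := fun t ht y hy =>
    mem_centralizer_singleton_iff.2 (ht y hy)
  have hNz : N ≤ centralizer {z} := by
    rw [← relIndex_eq_one]
    have a1 := card_eq_relIndex_mul N (centralizer {z})
    obtain ⟨c, hc⟩ := card_dvd_of_le (le_inf (hPC.trans hCN) (hPt z hzC))
    rw [hc, c11 hord P, h, mul_left_comm] at a1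
    have a2 : (centralizer {z}).relIndex N ∣ 2 ^ 4 := ⟨c, by omega⟩
    obtain ⟨i, -, hi⟩ := (Nat.dvd_prime_pow Nat.prime_two).1 a2
    rcases Nat.eq_zero_or_pos i with rfl | h0
    · exact hi
    · exact absurd (hi ▸ dvd_pow_self 2 h0.ne') hz
  -- two Sylow subgroups normalising each other coincide
  have hPP : ∀ P' : Sylow 11 G, (P' : Subgroup G) ≤ N → P' = P := by
    intro P' h1
    have := P'.isPGroup'.inf_normalizer_sylow P
    rw [← Sylow.coe_coe, ← hN, inf_eq_left.2 h1] at this
    exact Sylow.ext (eq_of_le_of_card_ge (this ▸ inf_le_right) (by rw [c11 hord, c11 hord]))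
  have hm : ∀ t ∈ C, orderOf t = 2 → centralizer {t} ≤ N ∨
      Nat.card (Sylow 11 (centralizer ({t} : Set G))) = 12 := by
    intro t ht ht2
    have a1 := relIndex_normalizer_sylow P (hPt t ht)
    have a2 : ¬ 5 ∣ Nat.card (centralizer ({t} : Set G)) := fun e => h25
      (edge_of_dvd_centralizer (by norm_num) (ht2 ▸ dvd_rfl)
        (fun y hy => mem_centralizer_singleton_iff.1 hy) e).symm
    have a3 := relIndex_dvd_card N (centralizer ({t} : Set G))
    have a4 := relIndex_le_of_le_right (H := N) (le_top (a := centralizer ({t} : Set G)))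
      index_ne_zero_of_finite
    rw [relIndex_top_right, hN, Sylow.coe_coe, ← P.card_eq_index_normalizer, hn11,
      ← Sylow.coe_coe, ← hN] at a4
    have a5 := card_sylow_modEq_one 11 (centralizer ({t} : Set G))
    rw [← a1] at a5 ⊢
    rw [← relIndex_eq_one]
    have : ∀ d ∈ Nat.divisors 7920, d ≤ 45 → ¬ 5 ∣ d → d % 11 = 1 → d = 1 ∨ d = 12 := by
      decide +kernel
    exact this _ (Nat.mem_divisors.2 ⟨hord ▸ a3.trans (card_subgroup_dvd_card _), by norm_num⟩) a4
      (fun e => a2 (e.trans a3)) a5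
  have h12 : ∀ t ∈ C, Nat.card (Sylow 11 (centralizer ({t} : Set G))) = 12 →
      Nat.card (centralizer ({t} : Set G) ⊓ N : Subgroup G) ∣ 44 := by
    intro t ht a1
    have a2 := card_eq_relIndex_mul (centralizer ({t} : Set G)) N
    rw [relIndex_normalizer_sylow P (hPt t ht), a1] at a2
    have a3 := card_subgroup_dvd_card (centralizer ({t} : Set G))
    rw [a2, hord] at a3
    have a4 := card_dvd_of_le (inf_le_right : centralizer ({t} : Set G) ⊓ N ≤ N)
    rw [h] at a4
    exact Nat.dvd_gcd (Nat.dvd_of_mul_dvd_mul_left (by norm_num) (show 12 * _ ∣ 12 * 660 from a3)) a4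
  have hzN : centralizer {z} ≤ N := by
    refine (hm z hzC hz2).resolve_right fun a1 => ?_
    have := h12 z hzC a1
    rw [inf_eq_right.2 hNz, h] at this
    exact absurd this (by norm_num)
  have htN : ∀ t ∈ C, orderOf t = 2 → centralizer {t} ≤ N := by
    intro t ht ht2
    by_cases htz : t = z
    · rw [htz]; exact hzN
    refine (hm t ht ht2).resolve_right fun a1 => ?_
    have hzt : z ∈ centralizer ({t} : Set G) :=
      mem_centralizer_singleton_iff.2 (mem_centralizer_singleton_iff.1 (hNz (hCN ht))).symm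
    have htt : t ∈ centralizer ({t} : Set G) := mem_centralizer_singleton_iff.2 rfl
    -- the normaliser of `P` in `C(t)` centralises `P`
    have a2 : centralizer ({t} : Set G) ⊓ N ≤ C := by
      have b1 := h12 t ht a1
      have b2 : 11 ∣ Nat.card (centralizer ({t} : Set G) ⊓ C : Subgroup G) := by
        rw [← c11 hord P]; exact card_dvd_of_le (le_inf (hPt t ht) hPC)
      have b3 : 4 ∣ Nat.card (centralizer ({t} : Set G) ⊓ C : Subgroup G) := by
        have c1 : zpowers t ⊓ zpowers z = ⊥ := by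
          rw [eq_bot_iff]
          intro u ⟨h1, h2⟩
          have d1 := (mem_zpowers_iff_mem_range_orderOf (x := t) (y := u)).1 h1
          have d2 := (mem_zpowers_iff_mem_range_orderOf (x := z) (y := u)).1 h2
          rw [ht2] at d1
          rw [hz2] at d2
          simp [Finset.range_add_one] at d1 d2
          rcases d1 with d1 | d1
          · rcases d2 with d2 | d2
            · exact absurd (d1.symm.trans d2) htz
            · exact d2
          · exact d1
        have c2 : IsPGroup 2 (zpowers t ⊔ zpowers z : Subgroup G) := by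
          refine (IsPGroup.of_card (n := 1) (by rw [Nat.card_zpowers, ht2]; rfl)).to_sup_of_normal_right'
            (IsPGroup.of_card (n := 1) (by rw [Nat.card_zpowers, hz2]; rfl)) ?_
          refine le_trans ?_ (centralizer_le_normalizer _)
          rw [zpowers_le, mem_centralizer_iff]
          rintro _ ⟨k, rfl⟩
          exact (Commute.zpow_left (mem_centralizer_singleton_iff.1 hzt) k).eq
        have c3 := card_mul_card_le (A := zpowers t ⊔ zpowers z) le_sup_left le_sup_right c1
        rw [Nat.card_zpowers, Nat.card_zpowers, ht2, hz2] at c3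
        obtain ⟨k, hk⟩ := IsPGroup.iff_card.1 c2
        have c4 := card_dvd_of_le (sup_le (zpowers_le.2 ⟨htt, ht⟩) (zpowers_le.2 ⟨hzt, hzC⟩) :
          zpowers t ⊔ zpowers z ≤ centralizer ({t} : Set G) ⊓ C)
        rw [hk] at c3 c4
        exact (pow_dvd_pow 2 ((Nat.pow_le_pow_iff_right (a := 2) (n := 2) (by norm_num)).1 c3)).trans c4
      have b4 := Nat.le_of_dvd Nat.card_pos (Nat.Coprime.mul_dvd_of_dvd_of_dvd (by norm_num) b3 b2)
      have b5 := Nat.le_of_dvd (by norm_num) b1
      rw [← eq_of_le_of_card_ge (inf_le_inf_left _ hCN) (by omega)]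
      exact inf_le_right
    have c2 : IsPGroup 2 (zpowers (⟨z, hzt⟩ : centralizer ({t} : Set G))) :=
      IsPGroup.of_card (n := 1) (by rw [Nat.card_zpowers, Subgroup.orderOf_mk, hz2]; rfl)
    obtain ⟨P', hP', hne⟩ := c2.exists_fixed_point_of_prime_dvd_card_of_fixed_point
      (Sylow 11 (centralizer ({t} : Set G))) (by rw [a1]; norm_num) (a := P.subtype (hPt t ht))
      (by
        rw [Subgroup.sylow_mem_fixedPoints_iff, zpowers_le, ← Sylow.coe_coe, Sylow.coe_subtype,
          ← subgroupOf_normalizer_eq (hPt t ht)]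
        exact hCN hzC)
    obtain ⟨g, rfl⟩ := exists_smul_eq (centralizer ({t} : Set G)) (P.subtype (hPt t ht)) P'
    have c3 : (g⁻¹ * ⟨z, hzt⟩ * g) • P.subtype (hPt t ht) = P.subtype (hPt t ht) := by
      have : (⟨z, hzt⟩ : centralizer ({t} : Set G)) • g • P.subtype (hPt t ht) =
        g • P.subtype (hPt t ht) := hP' ⟨_, mem_zpowers _⟩
      rw [mul_smul, mul_smul, this, inv_smul_smul]
    rw [Sylow.smul_eq_iff_mem_normalizer, ← Sylow.coe_coe, Sylow.coe_subtype,
      ← subgroupOf_normalizer_eq (hPt t ht)] at c3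
    have c4 : (g : G)⁻¹ * z * g ∈ C := a2 ⟨(g⁻¹ * ⟨z, hzt⟩ * g).2, c3⟩
    have c5 := hPP ((g : G) • P) fun y hy => hzN (by
      rw [mem_sylow_smul] at hy
      have h2 := congrArg (fun u => (g : G) * u * (g : G)⁻¹) (c4 _ hy)
      rw [mem_centralizer_singleton_iff]
      simpa [mul_assoc] using h2)
    apply hne
    rw [Sylow.smul_subtype]
    congr 1
    exact c5.symm
  -- `z` normalises every Sylow subgroup
  have hconj : ∀ (g t : G), g⁻¹ * t * g ∈ C → orderOf t = 2 → ∀ u, Commute u t → u • g • P = g • P := by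
    intro g t ht ht2 u hu
    have b1 : orderOf (g⁻¹ * t * g) = 2 := by
      have := (MulAut.conj g⁻¹).orderOf_eq t
      rw [MulAut.conj_apply, inv_inv] at this
      rw [this, ht2]
    have b2 : g⁻¹ * u * g ∈ N := htN _ ht b1 (by
      rw [mem_centralizer_singleton_iff]
      have h2 := congrArg (fun v => g⁻¹ * v * g) hu.eq
      simpa [mul_assoc] using h2)
    have b3 := Sylow.smul_eq_iff_mem_normalizer.2 b2
    rw [mul_smul, mul_smul, inv_smul_eq_iff] at b3
    exact b3
  -- an involution centralising `P` and `g • P` forces equality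
  have hboth : ∀ (g t : G), t ∈ C → g⁻¹ * t * g ∈ C → orderOf t = 2 → g • P = P := by
    intro g t ht ht' ht2
    refine hPP _ fun y hy => htN t ht ht2 ?_
    rw [mem_sylow_smul] at hy
    have h2 := congrArg (fun u => g * u * g⁻¹) (ht' _ hy)
    rw [mem_centralizer_singleton_iff]
    simpa [mul_assoc] using h2
  have hidx : ∀ a ∈ N, ∀ b ∈ N, a ∉ C → b ∉ C → a * b ∈ C := by
    intro a ha b hb h1 h2
    have h3 : (C.subgroupOf N).index = 2 := by
      have b1 := card_eq_relIndex_mul N C
      rw [inf_eq_right.2 hCN, h] at b1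
      have b2 : C.relIndex N ≠ 1 := fun e => h1 (relIndex_eq_one.1 e ha)
      change C.relIndex N = 2
      rcases h88 with e | e <;> rw [e] at b1 <;> omega
    exact (mul_mem_iff_of_index_two h3 (a := ⟨a, ha⟩) (b := ⟨b, hb⟩)).2 (iff_of_false h1 h2)
  have hfix : ∀ g : G, z • g • P = g • P := by
    intro g
    by_cases hg : g • P = P
    · rw [hg]; exact Sylow.smul_eq_iff_mem_normalizer.2 (hCN hzC)
    -- an involution of `C` fixing `g • P`
    obtain ⟨t, ht, ht2, ht3⟩ : ∃ t ∈ C, orderOf t = 2 ∧ t • g • P = g • P := by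
      have b1 := (stabilizer C (g • P)).card_mul_index
      have b2 : (stabilizer C (g • P)).index ≤ 45 := by
        rw [index_stabilizer, ← hn11, ← Set.ncard_univ]
        exact Set.ncard_le_ncard (Set.subset_univ _)
      have b3 : ¬ 11 ∣ Nat.card (stabilizer C (g • P)) := by
        intro e
        obtain ⟨y, hy⟩ := exists_prime_orderOf_dvd_card' 11 e
        have c1 : IsPGroup 11 (zpowers ((y : C) : G)) := IsPGroup.of_card (n := 1) (by
          rw [Nat.card_zpowers, Subgroup.orderOf_coe, Subgroup.orderOf_coe, hy]; rfl)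
        have c2 := c1.inf_normalizer_sylow P
        have c3 := c1.inf_normalizer_sylow (g • P)
        rw [← Sylow.coe_coe, inf_eq_left.2 (zpowers_le.2 (hCN (y : C).2))] at c2
        rw [inf_eq_left.2 (zpowers_le.2 (Sylow.smul_eq_iff_mem_normalizer.1 y.2))] at c3
        have c4 : Nat.card (zpowers ((y : C) : G)) = 11 := by
          rw [Nat.card_zpowers, Subgroup.orderOf_coe, Subgroup.orderOf_coe, hy]
        apply hg
        apply Sylow.ext
        rw [← eq_of_le_of_card_ge (c2 ▸ inf_le_right : zpowers ((y : C) : G) ≤ P)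
          (by rw [c11 hord, c4]), ← eq_of_le_of_card_ge (c3 ▸ inf_le_right :
            zpowers ((y : C) : G) ≤ (g • P : Sylow 11 G)) (by rw [c11 hord, c4])]
      have b4 : 2 ∣ Nat.card (stabilizer C (g • P)) := by
        have : ∀ d ∈ Nat.divisors 176, d ≠ 1 → ¬ 11 ∣ d → 2 ∣ d := by decide +kernel
        refine this _ (Nat.mem_divisors.2 ⟨(card_subgroup_dvd_card _).trans ?_, by norm_num⟩)
          (fun e => ?_) b3
        · rcases h88 with e | e <;> rw [e] <;> norm_num
        · rw [e] at b1; omega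
      obtain ⟨y, hy⟩ := exists_prime_orderOf_dvd_card' 2 b4
      exact ⟨(y : C), (y : C).2, by rw [Subgroup.orderOf_coe, Subgroup.orderOf_coe, hy], y.2⟩
    by_cases htz : t = z
    · rw [← htz]; exact ht3
    exfalso
    have b1 : g⁻¹ * t * g ∈ N := Sylow.smul_eq_iff_mem_normalizer.1 (by
      rw [mul_smul, mul_smul, ht3, inv_smul_smul])
    have b2 : orderOf (g * z * g⁻¹) = 2 := by
      rw [← hz2]; exact (MulAut.conj g).orderOf_eq z
    have b3 : Commute (g * z * g⁻¹) t := by
      have h2 := congrArg (fun u => g * u * g⁻¹) (mem_centralizer_singleton_iff.1 (hNz b1))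
      change _ * _ = _ * _
      simpa [mul_assoc] using h2.symm
    have b4 : Commute z (g * z * g⁻¹) :=
      (mem_centralizer_singleton_iff.1 (hNz (htN t ht ht2
        (mem_centralizer_singleton_iff.2 b3)))).symm
    have b5 := hconj g (g * z * g⁻¹) (by simpa [mul_assoc] using hzC) b2 z b4
    have b6 : g⁻¹ * z * g ∈ N := Sylow.smul_eq_iff_mem_normalizer.1 (by
      rw [mul_smul, mul_smul, b5, inv_smul_smul])
    have b7 := hidx _ b6 _ b1 (fun e => hg (hboth g z hzC e hz2)) (fun e => hg (hboth g t ht e ht2))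
    have b8 : Commute t z := mem_centralizer_singleton_iff.1 (hNz (hCN ht))
    refine hg (hboth g (z * t) (mul_mem hzC ht) (by simpa [mul_assoc] using b7) ?_)
    refine orderOf_eq_prime ?_ fun e => htz ?_
    · rw [b8.symm.mul_pow, ← hz2, pow_orderOf_eq_one, hz2, ← ht2, pow_orderOf_eq_one, one_mul]
    · have : z * z = 1 := by rw [← pow_two, ← hz2, pow_orderOf_eq_one]
      exact mul_left_cancel (e.trans this.symm)
  obtain ⟨g, hg⟩ : ∃ g : G, g • P ≠ P := by
    by_contra h1
    push Not at h1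
    have : Subsingleton (Sylow 11 G) := ⟨fun a b => by
      obtain ⟨x, rfl⟩ := exists_smul_eq G P a
      obtain ⟨y, rfl⟩ := exists_smul_eq G P b
      rw [h1, h1]⟩
    have := Nat.card_eq_one_iff_unique.2 ⟨this, ⟨P⟩⟩
    omega
  -- the commutators of `g⁻¹ z g` with `P` act trivially
  have b1 : g⁻¹ * z * g ∉ C := fun e => hg (hboth g z hzC e hz2)
  have hall : ∀ (k : G) (P' : Sylow 11 G), (k * z * k⁻¹) • P' = P' := by
    intro k P'
    obtain ⟨x, hx⟩ := exists_smul_eq G P (k⁻¹ • P')
    rw [mul_smul, mul_smul, ← hx, hfix, hx, smul_inv_smul]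
  rw [hC, mem_centralizer_iff] at b1
  push Not at b1
  obtain ⟨x, hx, hx'⟩ := b1
  have b2 : g⁻¹ * z * g ∈ N := Sylow.smul_eq_iff_mem_normalizer.1 (by simpa using hall g⁻¹ P)
  set w := g⁻¹ * z * g with hw
  have b3 : w * x * w⁻¹ * x⁻¹ ∈ (P : Subgroup G) :=
    mul_mem ((mem_normalizer_iff.1 b2 x).1 hx) (inv_mem hx)
  have b4 : w * x * w⁻¹ * x⁻¹ ≠ 1 := fun e => hx' (commutatorElement_eq_one_iff_mul_comm.1 e).symm
  have b5 : (w * x * w⁻¹ * x⁻¹) • g⁻¹ • P = g⁻¹ • P := by
    have c1 : ∀ P' : Sylow 11 G, w • P' = P' := fun P' => by simpa using hall g⁻¹ P'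
    rw [mul_smul, mul_smul, mul_smul, inv_smul_eq_iff.2 (c1 _).symm, smul_inv_smul, c1]
  have c1 := P.isPGroup'.inf_normalizer_sylow (g⁻¹ • P)
  have c2 : w * x * w⁻¹ * x⁻¹ ∈ (P : Subgroup G) ⊓ (g⁻¹ • P : Sylow 11 G) :=
    c1 ▸ ⟨b3, Sylow.smul_eq_iff_mem_normalizer.1 b5⟩
  have c3 := card_dvd_of_le (inf_le_left : (P : Subgroup G) ⊓ (g⁻¹ • P : Sylow 11 G) ≤ _)
  rw [c11 hord] at c3
  rcases (Nat.dvd_prime (by norm_num)).1 c3 with e | e
  · rw [card_eq_one.1 e] at c2
    exact b4 c2
  · have d1 := eq_of_le_of_card_ge (inf_le_left : (P : Subgroup G) ⊓ (g⁻¹ • P : Sylow 11 G) ≤ _)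
      (by rw [c11 hord, e])
    have d2 := eq_of_le_of_card_ge (inf_le_right : (P : Subgroup G) ⊓ (g⁻¹ • P : Sylow 11 G) ≤ _)
      (by rw [c11 hord, e])
    exact hg (by rw [← eq_inv_smul_iff]; exact Sylow.ext (d1.symm.trans d2))

theorem conn (M : Subgroup G) [M.Normal] (h1 : M ≠ ⊥) (h2 : M ≠ ⊤) : Conn G := by
  by_cases h11 : 11 ∣ Nat.card M
  swap
  · exact caseA hord M h1 h11
  obtain ⟨P⟩ : Nonempty (Sylow 11 G) := inferInstance
  have a1 := card_normalizer_mul P
  have a2 := card_sylow_modEq_one 11 G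
  have a3 := not_dvd_card_sylow 11 G
  rw [hord] at a1
  have : ∀ d ∈ Nat.divisors 7920, ¬ 11 ∣ 7920 / d → 7920 / d % 11 = 1 →
    660 ∣ d ∨ d = 55 ∨ d = 176 ∨ ¬ 11 ∣ d := by decide +kernel
  have a4 : 7920 / Nat.card (normalizer ((P : Subgroup G) : Set G)) = Nat.card (Sylow 11 G) := by
    rw [← a1, Nat.mul_div_cancel_left _ Nat.card_pos]
  rcases this _ (Nat.mem_divisors.2 ⟨Dvd.intro _ a1, by norm_num⟩) (a4 ▸ a3) (a4 ▸ a2) with
    e | e | e | e
  · exact caseB1 hord P e
  · exact caseB2 hord P e M h2 h11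
  · exact caseB3 hord P e
  · exact absurd ((c11 hord P).symm.dvd.trans (card_dvd_of_le le_normalizer)) e

end

/-- Let G be a finite group of order 7920 = 2⁴·3²·5·11 (the order of the smallest Mathieu group) and suppose its prime graph (vertices the prime divisors of the order, distinct p, q joined when there is an element of order pq) is disconnected: the prime divisors split into two non-empty parts with no element of order pq for p in one part and q in the other. Then G is simple. -/
theorem result {G : Type*} [Group G] [Finite G] (hord : Nat.card G = 7920)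
    (hdisc : (∃ A : Set ℕ, (∃ a ∈ A, a.Prime ∧ a ∣ Nat.card G) ∧ (∃ b ∉ A, b.Prime ∧ b ∣ Nat.card G) ∧
      ∀ a ∈ A, ∀ b ∉ A, a.Prime → b.Prime → a ∣ Nat.card G → b ∣ Nat.card G → ¬ ∃ g : G, orderOf g = a * b)) :
    IsSimpleGroup G := by
  have : Nontrivial G := Finite.one_lt_card_iff_nontrivial.1 (by omega)
  refine ⟨fun M hM => ?_⟩
  by_contra h
  rw [not_or] at h
  obtain ⟨c1, c2⟩ := conn hord M h.1 h.2
  have c3 := three_edge hord
  obtain ⟨A, ⟨a, ha, ha1, ha2⟩, ⟨b, hb, hb1, hb2⟩, hA⟩ := hdisc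
  have key : ∀ p q : ℕ, p.Prime → q.Prime → p ∣ Nat.card G → q ∣ Nat.card G → H3.Edge G p q →
      (p ∈ A ↔ q ∈ A) := by
    intro p q hp hq h1 h2 e
    constructor
    · intro h3; by_contra h4; exact hA p h3 q h4 hp hq h1 h2 e
    · intro h3; by_contra h4; exact hA q h3 p h4 hq hp h2 h1 e.symm
  have k1 := key 2 3 (by norm_num) (by norm_num) (by rw [hord]; norm_num) (by rw [hord]; norm_num)
  have k2 := key 2 5 (by norm_num) (by norm_num) (by rw [hord]; norm_num) (by rw [hord]; norm_num)
  have k3 := key 3 5 (by norm_num) (by norm_num) (by rw [hord]; norm_num) (by rw [hord]; norm_num)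
  have k4 := key 11 2 (by norm_num) (by norm_num) (by rw [hord]; norm_num) (by rw [hord]; norm_num)
  have k5 := key 11 3 (by norm_num) (by norm_num) (by rw [hord]; norm_num) (by rw [hord]; norm_num)
  have k6 := key 11 5 (by norm_num) (by norm_num) (by rw [hord]; norm_num) (by rw [hord]; norm_num)
  have hp : ∀ p : ℕ, p.Prime → p ∣ Nat.card G → p = 2 ∨ p = 3 ∨ p = 5 ∨ p = 11 := by
    intro p hp h1
    rw [hord, show 7920 = 2 ^ 4 * (3 ^ 2 * (5 * 11)) by norm_num] at h1
    rcases (Nat.Prime.dvd_mul hp).1 h1 with e | e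
    · exact Or.inl ((Nat.prime_dvd_prime_iff_eq hp (by norm_num)).1 (hp.dvd_of_dvd_pow e))
    rcases (Nat.Prime.dvd_mul hp).1 e with e | e
    · exact Or.inr (Or.inl ((Nat.prime_dvd_prime_iff_eq hp (by norm_num)).1 (hp.dvd_of_dvd_pow e)))
    rcases (Nat.Prime.dvd_mul hp).1 e with e | e
    · exact Or.inr (Or.inr (Or.inl ((Nat.prime_dvd_prime_iff_eq hp (by norm_num)).1 e)))
    · exact Or.inr (Or.inr (Or.inr ((Nat.prime_dvd_prime_iff_eq hp (by norm_num)).1 e)))
  have a1 : 11 ∈ A ↔ 2 ∈ A := by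
    rcases c1 with e | ⟨e, f⟩ | ⟨e, f⟩
    exacts [k4 e, (k5 f).trans (k1 e).symm, (k6 f).trans (k2 e).symm]
  have a2 : 3 ∈ A ↔ 2 ∈ A := by
    rcases c3 with e | e
    exacts [(k1 e).symm, (k5 e).symm.trans a1]
  have a3 : 5 ∈ A ↔ 2 ∈ A := by
    rcases c2 with e | e | e
    exacts [(k2 e).symm, (k3 e).symm.trans a2, (k6 e).symm.trans a1]
  have a4 : ∀ p : ℕ, p.Prime → p ∣ Nat.card G → (p ∈ A ↔ 2 ∈ A) := by
    intro p h1 h2
    rcases hp p h1 h2 with rfl | rfl | rfl | rfl
    exacts [Iff.rfl, a2, a3, a1]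
  exact hb ((a4 b hb1 hb2).2 ((a4 a ha1 ha2).1 ha))

end Cfsg.Agent.S2490
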