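import Cfsg.Statements.S2493
import Cfsg.Agent.H3.Invol

set_option autoImplicit false
open Cfsg

namespace Cfsg.Agent.S2493

open Equiv Equiv.Perm Subgroup H3
open scoped commutatorElement

theorem dbl_mul {α : Type*} [DecidableEq α] {p q r u : α} (h0 : p ≠ q)
    (h1 : p ≠ r) (h2 : p ≠ u) (h3 : q ≠ r) (h4 : q ≠ u) (h6 : r ≠ u) :
    swap p r * swap q u * (swap p q * swap r u) = swap p u * swap q r := by
  ext x
  simp only [Perm.mul_apply, swap_apply_def]
  grind

set_option linter.unusedSectionVars false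

section
variable {G α : Type*} [Group G] [Finite G] [DecidableEq α] [Fintype α] (π : G →* Perm α) (z : G)
  (hz : ∀ g, π g = 1 ↔ g = 1 ∨ g = z) (hzc : ∀ g, Commute z g) (hz1 : z ≠ 1)
  (hs : ∀ σ, sign σ = 1 → ∃ g, π g = σ) (hs' : ∀ g, sign (π g) = 1)
include hz hzc

theorem zz : z * z = 1 := by
  rcases (hz (z * z)).1 (by rw [map_mul, (hz z).2 (Or.inr rfl), one_mul]) with e | e
  · exact e
  · rw [mul_eq_left.1 e, one_mul]

theorem eq_or {g h : G} (e : π g = π h) : g = h ∨ g = h * z := by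
  rcases (hz (h⁻¹ * g)).1 (by rw [map_mul, map_inv, e, inv_mul_cancel]) with e | e
  · left; exact (inv_mul_eq_one.1 e).symm
  · right; rw [← e, mul_inv_cancel_left]

theorem sq_eq {g h : G} (e : π g = π h) : g ^ 2 = h ^ 2 := by
  rcases eq_or π z hz hzc e with rfl | rfl
  · rfl
  · rw [(hzc h).symm.mul_pow, pow_two z, zz π z hz hzc, mul_one]

include hs in
theorem commute_lift {C : G} {Y : Set α} (hC : ∀ x ∈ Y, π C x = x) {R : G} (hR : π R ∈ AltOn Y) :
    Commute C R := by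
  have hF : Full ((centralizer {C}).map π) Y := by
    intro a ha b hb c hc hab hac hbc
    obtain ⟨X, hX⟩ := hs _ (sign_c3 hab hac)
    refine ⟨X, mem_centralizer_singleton_iff.2 ?_, hX⟩
    have h1 : π (C * X * C⁻¹) = π X := by
      rw [map_mul, map_mul, map_inv, hX, c3_conj, hC a ha, hC b hb, hC c hc]
    rcases eq_or π z hz hzc h1 with e | e
    · exact (mul_inv_eq_iff_eq_mul.1 e).symm
    · have h2 : C * X ^ 3 * C⁻¹ = X ^ 3 := by
        rcases (hz (X ^ 3)).1 (by rw [map_pow, hX, c3_pow_three hab hac hbc]) with f | f <;> rw [f]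
        · simp
        · rw [← (hzc C).eq, mul_inv_cancel_right]
      rw [← conj_pow, e, (hzc X).symm.mul_pow, pow_succ z, pow_two z, zz π z hz hzc, one_mul,
        mul_eq_left] at h2
      rw [h2, mul_one] at e
      exact (mul_inv_eq_iff_eq_mul.1 e).symm
  obtain ⟨R', h1, h2⟩ := hF.AltOn_le hR
  have h3 : Commute C R' := (mem_centralizer_singleton_iff.1 h1).symm
  rcases eq_or π z hz hzc h2.symm with rfl | rfl
  · exact h3
  · exact h3.mul_right (hzc C).symm

include hs hs' hz1 in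
theorem sq_lift (h5 : 5 ≤ Fintype.card α) (hperf : commutator G = ⊤) {p q r u : α} (h0 : p ≠ q)
    (h1 : p ≠ r) (h2 : p ≠ u) (h3 : q ≠ r) (h4 : q ≠ u) (h6 : r ≠ u) {D : G}
    (hD : π D = swap p q * swap r u) : D ^ 2 = z := by
  refine ((hz _).1 (by rw [map_pow, hD, pow_two, (inv2_dbl h1 h2 h3 h4).mul_self])).resolve_left
    fun hD2 => ?_
  have hall : ∀ (p' q' r' u' : α) (D' : G), p' ≠ q' → p' ≠ r' → p' ≠ u' → q' ≠ r' → q' ≠ u' →
      r' ≠ u' → π D' = swap p' q' * swap r' u' → D' ^ 2 = 1 := by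
    intro p' q' r' u' D' a0 a1 a2 a3 a4 a6 hD'
    obtain ⟨σ, hσ, hσ'⟩ : ∃ σ : Perm α, sign σ = 1 ∧
        σ * (swap p q * swap r u) * σ⁻¹ = swap p' q' * swap r' u' := by
      obtain ⟨σ, hσ⟩ := Perm.exists_extending_pair _ _ (inj4 h0 h1 h2 h3 h4 h6)
        (inj4 a0 a1 a2 a3 a4 a6)
      have c1 := hσ 0
      have c2 := hσ 1
      have c3' := hσ 2
      have c4 := hσ 3
      simp only [Matrix.cons_val_zero, Matrix.cons_val_one, Matrix.cons_val] at c1 c2 c3' c4
      have e : σ * (swap p q * swap r u) * σ⁻¹ = swap p' q' * swap r' u' := by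
        rw [← c1, ← c2, ← c3', ← c4, swap_apply_apply, swap_apply_apply]; group
      rcases Int.units_eq_one_or (sign σ) with f | f
      · exact ⟨σ, f, e⟩
      · refine ⟨σ * swap p q, by rw [Perm.sign_mul, f, sign_swap h0]; simp, ?_⟩
        have := (disjoint_swap_of_fixed (swap_apply_of_ne_of_ne h1 h2)
          (swap_apply_of_ne_of_ne h3 h4)).commute.eq
        rw [← e]
        calc _ = σ * (swap p q * swap p q * (swap r u * swap p q)) * σ⁻¹ := by
              rw [mul_inv_rev, swap_inv]; simp only [mul_assoc]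
          _ = _ := by rw [this, swap_mul_self, one_mul]
    obtain ⟨S, rfl⟩ := hs σ hσ
    rw [sq_eq π z hz hzc (h := S * D * S⁻¹) (by rw [map_mul, map_mul, map_inv, hD, hD', hσ']),
      conj_pow, hD2]
    simp
  have key : ∀ i, ∃ X : G, i ≠ p → i ≠ q → π X = c3 i p q ∧ X ^ 3 = 1 := by
    intro i
    by_cases h : i ≠ p ∧ i ≠ q
    · obtain ⟨X, hX⟩ := hs _ (sign_c3 h.1 h.2)
      have e3 := c3_pow_three h.1 h.2 h0
      refine ⟨X ^ 4, fun _ _ => ⟨by rw [map_pow, hX, pow_succ, e3, one_mul], ?_⟩⟩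
      rw [← pow_mul, show 4 * 3 = 3 * 2 * 2 by norm_num, pow_mul, pow_mul]
      rcases (hz (X ^ 3)).1 (by rw [map_pow, hX, e3]) with f | f <;> rw [f]
      · simp
      · rw [pow_two z, zz π z hz hzc, one_pow]
    · exact ⟨1, fun a b => absurd ⟨a, b⟩ h⟩
  choose X hX using key
  let S : Finset α := Finset.univ \ {p, q}
  have hS : ∀ i, i ∈ S ↔ i ≠ p ∧ i ≠ q := by simp [S]
  have hc := (Carm.card_le X S ⟨fun i hi => (hX i ((hS i).1 hi).1 ((hS i).1 hi).2).2,
    fun i hi j hj hij => by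
      obtain ⟨a1, a2⟩ := (hS i).1 hi
      obtain ⟨b1, b2⟩ := (hS j).1 hj
      refine hall i p j q _ a1 hij a2 b1.symm h0 b2 ?_
      rw [map_mul, (hX i a1 a2).1, (hX j b1 b2).1, c3_mul_c3 a1 a2 b1 b2 h0 hij]⟩).2
  set K := closure (X '' S) with hK
  have hF : Full (K.map π) Set.univ := full_of_star h0 fun i _ a1 a2 =>
    ⟨X i, subset_closure ⟨i, (hS i).2 ⟨a1, a2⟩, rfl⟩, (hX i a1 a2).1⟩
  have hdec : ∀ g : G, ∃ k ∈ K, g = k ∨ g = k * z := by
    intro g
    obtain ⟨k, hk, e⟩ := hF.alternatingGroup_le (mem_alternatingGroup.2 (hs' g))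
    exact ⟨k, hk, eq_or π z hz hzc e.symm⟩
  have hKtop : K = ⊤ := by
    rw [eq_top_iff, ← hperf, _root_.commutator_def, commutator_le]
    intro g _ h _
    obtain ⟨k, hk, e⟩ := hdec g
    obtain ⟨l, hl, f⟩ := hdec h
    have m : ⁅k, l⁆ ∈ K := mul_mem (mul_mem (mul_mem hk hl) (inv_mem hk)) (inv_mem hl)
    have z1 : ∀ a b : G, ⁅a * z, b⁆ = ⁅a, b⁆ := fun a b => by
      rw [commutatorElement_def, commutatorElement_def, mul_assoc a z b, (hzc b).eq]; group
    have z2 : ∀ a b : G, ⁅a, b * z⁆ = ⁅a, b⁆ := fun a b => by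
      rw [← commutatorElement_inv, z1, commutatorElement_inv]
    rcases e with rfl | rfl <;> rcases f with rfl | rfl <;> simpa only [z1, z2] using m
  have : Nontrivial α := ⟨⟨p, q, h0⟩⟩
  have c1 : π.range = alternatingGroup α := by
    ext σ; exact ⟨fun ⟨g, e⟩ => e ▸ hs' g, hs σ⟩
  have c2 : 2 ≤ Nat.card π.ker := by
    rw [Nat.succ_le_iff, one_lt_card_iff_ne_bot]
    intro e
    have : z ∈ π.ker := (hz z).2 (Or.inr rfl)
    rw [e] at this
    exact hz1 this
  have c3' := π.ker.card_mul_index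
  rw [index_ker, c1] at c3'
  have c4 := two_mul_nat_card_alternatingGroup (α := α)
  rw [Nat.card_perm, Nat.card_eq_fintype_card (α := α)] at c4
  rw [hKtop, card_top, show S.card + 2 = Fintype.card α by
    simp only [S]; rw [Finset.card_univ_sdiff, Finset.card_pair h0]; omega, ← c3', ← c4] at hc
  have c5 : 0 < Nat.card (alternatingGroup α) := Nat.card_pos
  nlinarith

include hs hs' hz1 in
theorem conj_eq (h5 : 5 ≤ Fintype.card α) (hperf : commutator G = ⊤) {A : G} (hA : Good2 (π A)) :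
    ∃ C, C * A * C⁻¹ = A * z := by
  obtain ⟨p, q, r, u, h0, h1, h2, h3, h4, h6, e1, e2, e3, e4⟩ := hA
  obtain ⟨D, hD⟩ := hs (swap p q * swap r u) (by rw [Perm.sign_mul, sign_swap h0, sign_swap h6]; simp)
  obtain ⟨C, hC⟩ := hs (swap p r * swap q u) (by rw [Perm.sign_mul, sign_swap h1, sign_swap h4]; simp)
  have a1 := sq_lift π z hz hzc hz1 hs hs' h5 hperf h0 h1 h2 h3 h4 h6 hD
  have a2 := sq_lift π z hz hzc hz1 hs hs' h5 hperf h1 h0 h2 h3.symm h6 h4 hC
  have a3 := sq_lift π z hz hzc hz1 hs hs' h5 hperf h2 h0 h1 h4.symm h6.symm h3 (D := C * D) (by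
    rw [map_mul, hC, hD]
    exact dbl_mul h0 h1 h2 h3 h4 h6)
  have a4 := commute_lift π z hz hzc hs (C := C) (Y := {p, q, r, u}ᶜ) (R := D⁻¹ * A) (by
    intro x hx
    simp only [Set.mem_compl_iff, Set.mem_insert_iff, Set.mem_singleton_iff, not_or] at hx
    rw [hC, Perm.mul_apply, swap_apply_of_ne_of_ne hx.2.1 hx.2.2.2,
      swap_apply_of_ne_of_ne hx.1 hx.2.2.1]) ⟨hs' _, fun x hx => by
        simp only [Set.mem_compl_iff, not_not, Set.mem_insert_iff, Set.mem_singleton_iff] at hx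
        rw [map_mul, map_inv, hD, Perm.mul_apply, Perm.inv_eq_iff_eq]
        simp only [Perm.mul_apply, swap_apply_def]
        grind⟩
  refine ⟨C, ?_⟩
  have a5 : C * D * C⁻¹ = D * z := by
    have b1 : C⁻¹ = C * z := by
      rw [inv_eq_iff_mul_eq_one, ← mul_assoc, ← pow_two, a2, zz π z hz hzc]
    have b2 : C * D * C = z * D⁻¹ := by rw [← a3, pow_two]; group
    have b3 : D⁻¹ = D * z := by
      rw [inv_eq_iff_mul_eq_one, ← mul_assoc, ← pow_two, a1, zz π z hz hzc]
    rw [b1, ← mul_assoc, b2, b3, ← mul_assoc, (hzc D).eq, mul_assoc D, zz π z hz hzc, mul_one]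
  calc C * A * C⁻¹ = C * D * C⁻¹ * (C * (D⁻¹ * A) * C⁻¹) := by group
    _ = A * z := by rw [a5, a4.eq, mul_inv_cancel_right, mul_assoc, (hzc _).eq]; group

end

/-- Let n ≥ 5 and let G be a finite perfect group whose centre has order 2 with G/Z(G) isomorphic to the alternating group of degree n (the double cover of the alternating group). Then every element of G is a commutator. -/
theorem result {G : Type*} [Group G] [Finite G] (hperf : commutator G = ⊤) {n : ℕ} (hn : 5 ≤ n)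
    (hZ : Nat.card (Subgroup.center G) = 2) (e : G ⧸ Subgroup.center G ≃* alternatingGroup (Fin n))
    (g : G) :
    ∃ a b : G, a * b * a⁻¹ * b⁻¹ = g := by
  let π : G →* Perm (Fin n) :=
    (alternatingGroup (Fin n)).subtype.comp (e.toMonoidHom.comp (QuotientGroup.mk' _))
  obtain ⟨z, hz1, hz2⟩ := (Nat.card_eq_two_iff' (1 : center G)).1 hZ
  have hz : ∀ g, π g = 1 ↔ g = 1 ∨ g = z := by
    intro g
    have : π g = 1 ↔ g ∈ center G := by
      simp [π, QuotientGroup.eq_one_iff]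
    rw [this]
    constructor
    · intro h
      by_cases h1 : g = 1
      · exact Or.inl h1
      · exact Or.inr (congrArg Subtype.val (hz2 ⟨g, h⟩ fun e => h1 (congrArg Subtype.val e)))
    · rintro (rfl | rfl)
      · exact one_mem _
      · exact z.2
  have hzc : ∀ g, Commute (z : G) g := fun g => (mem_center_iff.1 z.2 g).symm
  have hs : ∀ σ, sign σ = 1 → ∃ g, π g = σ := by
    intro σ h
    obtain ⟨g, hg⟩ := QuotientGroup.mk'_surjective _ (e.symm ⟨σ, h⟩)
    exact ⟨g, by simp only [π, MonoidHom.comp_apply, hg]; simp⟩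
  have hs' : ∀ g, sign (π g) = 1 := fun g => (e _).2
  obtain ⟨a, b, h1, h2, h3, h4⟩ := exists_good_commutator (by simpa) (hs' g)
  obtain ⟨A, rfl⟩ := hs a h2
  obtain ⟨B, rfl⟩ := hs b h3
  rcases eq_or π z hz hzc (g := g) (h := A * B * A⁻¹ * B⁻¹) (by simpa using h1) with e1 | e1
  · exact ⟨A, B, e1.symm⟩
  · obtain ⟨C, hC⟩ := conj_eq π z hz hzc (fun e => hz1 (Subtype.ext e)) hs hs' (by simpa) hperf h4
    refine ⟨A, B * C, ?_⟩
    have h5 : (z : G)⁻¹ = z := inv_eq_of_mul_eq_one_left (zz π z hz hzc)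
    calc _ = A * B * (C * A * C⁻¹)⁻¹ * B⁻¹ := by group
      _ = g := by
        rw [hC, e1, mul_inv_rev, h5, (hzc A⁻¹).eq, mul_assoc _ B⁻¹, ← (hzc B⁻¹).eq]; group

end Cfsg.Agent.S2493
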