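import Cfsg.Statements.S2495
import Cfsg.Agent.H4.LSpec2

set_option autoImplicit false
open Cfsg

namespace Cfsg.Agent.S2495

open Cfsg.Agent.H5 Cfsg.Agent.H4 Function

theorem exists_e {q m d : ℕ} (hq : 0 < q) (hd : 0 < d) (hdm : d < 2 * m) :
    ∃ e, 2 * e ≤ d ∧ ∀ t, t ∣ q ^ m + 1 → t ∣ q ^ d - 1 → t ∣ q ^ e + 1 := by
  have key : ∀ t, t ∣ q ^ m + 1 → t ∣ q ^ d - 1 →
      (q : ZMod t) ^ m = -1 ∧ (q : ZMod t) ^ Nat.gcd (2 * m) d = 1 := by
    intro t h1 h2
    have h3 : (q : ZMod t) ^ m = -1 := by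
      have := (ZMod.natCast_eq_zero_iff _ _).2 h1
      push_cast at this
      exact eq_neg_of_add_eq_zero_left this
    refine ⟨h3, pow_gcd_eq_one.2 ⟨by rw [mul_comm, pow_mul, h3]; simp, ?_⟩⟩
    exact orderOf_dvd_iff_pow_eq_one.1 ((orderOf_cast_dvd_iff hq t d).2 h2)
  by_cases h : Nat.gcd (2 * m) d ∣ m
  · refine ⟨0, by omega, fun t h1 h2 => ?_⟩
    obtain ⟨h3, h4⟩ := key t h1 h2
    obtain ⟨c, hc⟩ := h
    rw [hc, pow_mul, h4, one_pow] at h3
    rw [← ZMod.natCast_eq_zero_iff]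
    push_cast
    linear_combination h3
  · obtain ⟨c, hc⟩ := Nat.gcd_dvd_left (2 * m) d
    have hle := Nat.gcd_le_right (2 * m) hd
    rcases Nat.even_or_odd' c with ⟨s, rfl | rfl⟩
    · exact absurd ⟨s, by linarith⟩ h
    · have h2 : 2 ∣ Nat.gcd (2 * m) d := by
        have : 2 ∣ Nat.gcd (2 * m) d * (2 * s + 1) := hc ▸ dvd_mul_right _ _
        exact (Nat.prime_two.dvd_mul.1 this).resolve_right (by omega)
      obtain ⟨e, he⟩ := h2
      refine ⟨e, by omega, fun t h1 h2 => ?_⟩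
      obtain ⟨h3, h4⟩ := key t h1 h2
      rw [he] at hc h4
      have h5 : m = 2 * e * s + e := by linarith
      rw [h5, pow_add, pow_mul, h4, one_pow, one_mul] at h3
      rw [← ZMod.natCast_eq_zero_iff]
      push_cast
      rw [h3, neg_add_cancel]

theorem pow_dvd_lcm {t k a b : ℕ} (ht : t.Prime) (ha : a ≠ 0) (hb : b ≠ 0)
    (h : t ^ k ∣ Nat.lcm a b) : t ^ k ∣ a ∨ t ^ k ∣ b := by
  rw [ht.pow_dvd_iff_le_factorization (Nat.lcm_ne_zero ha hb), Nat.factorization_lcm ha hb,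
    Finsupp.sup_apply, le_sup_iff] at h
  rwa [ht.pow_dvd_iff_le_factorization ha, ht.pow_dvd_iff_le_factorization hb]

theorem small {K : Type*} [Field K] [DecidableEq K] {q m : ℕ} (hq : 1 < q) (hodd : Odd q)
    (hm : 0 < m) (hτ : Injective (tauL q : K → K)) (M : Multiset K) (hM : M.map (tauL q) = M) :
    (∀ x ∈ M, x ≠ 0 ∧ minimalPeriod (tauL q) x < 2 * m) →
      ∃ j e i : ℕ, 2 * e ≤ M.card ∧ 0 < j ∧ 2 * j ≤ q ^ e + 1 ∧ (e = m → 2 * j < q ^ e + 1) ∧
        i ≠ 0 ∧ (∀ x ∈ M, x ^ i = 1) ∧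
        ∀ t k : ℕ, t.Prime → t ^ k ∣ q ^ m + 1 → t ^ k ∣ i → t ^ k ∣ 2 * j := by
  refine stable_induction (P := fun M => (∀ x ∈ M, x ≠ 0 ∧ minimalPeriod (tauL q) x < 2 * m) →
      ∃ j e i : ℕ, 2 * e ≤ M.card ∧ 0 < j ∧ 2 * j ≤ q ^ e + 1 ∧ (e = m → 2 * j < q ^ e + 1) ∧
        i ≠ 0 ∧ (∀ x ∈ M, x ^ i = 1) ∧
        ∀ t k : ℕ, t.Prime → t ^ k ∣ q ^ m + 1 → t ^ k ∣ i → t ^ k ∣ 2 * j) hτ ?_ ?_ M hM
  · intro _
    exact ⟨1, 0, 1, by simp, one_pos, by simp, by omega, one_ne_zero, by simp,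
      fun t k _ _ h => h.trans (one_dvd _)⟩
  · intro x c N hc hx _ _ ih h
    obtain ⟨j, e, i, h1, h2, h3, h4, h5, h6, h7⟩ := ih fun y hy => h y (Multiset.mem_add.2 (Or.inr hy))
    have hd := minimalPeriod_pos_of_mem_periodicPts hx
    obtain ⟨hx0, hxm⟩ := h x (Multiset.mem_add.2 (Or.inl ((Multiset.mem_nsmul_of_ne_zero hc.ne').2
      (self_mem_orb x hd))))
    have hxd := (tauL_minimalPeriod_dvd_iff (by omega : 0 < q) hx0 _).1 dvd_rfl
    set d := minimalPeriod (tauL q) x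
    obtain ⟨e', he1, he2⟩ := exists_e (by omega : 0 < q) hd hxm
    obtain ⟨h', hh'⟩ : 2 ∣ q ^ e' + 1 := (hodd.pow.add_one).two_dvd
    have hd0 : q ^ d - 1 ≠ 0 := (Nat.sub_pos_of_lt (Nat.one_lt_pow hd.ne' hq)).ne'
    have ha : 1 ≤ q ^ e := Nat.one_le_pow _ _ (by omega)
    have hb : 1 ≤ q ^ e' := Nat.one_le_pow _ _ (by omega)
    have hh0 : 0 < h' := by omega
    refine ⟨j * h', e + e', Nat.lcm i (q ^ d - 1), ?_, Nat.mul_pos h2 hh0, ?_, ?_,
      Nat.lcm_ne_zero h5 hd0, fun y hy => ?_, fun t k ht h8 h9 => ?_⟩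
    · rw [Multiset.card_add, Multiset.card_nsmul, card_orb]
      nlinarith
    · rw [pow_add]
      nlinarith
    · intro hem
      rcases Nat.eq_zero_or_pos e' with rfl | he'
      · obtain rfl : h' = 1 := by simp at hh'; omega
        simpa using h4 hem
      · have he0 : 0 < e := by omega
        have ha' : 1 < q ^ e := Nat.one_lt_pow he0.ne' hq
        have hb' : 1 < q ^ e' := Nat.one_lt_pow he'.ne' hq
        rw [pow_add]
        nlinarith
    · rcases Multiset.mem_add.1 hy with hy | hy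
      · obtain ⟨c, hc⟩ := Nat.dvd_lcm_right i (q ^ d - 1)
        rw [hc, pow_mul, pow_eq_one_of_mem_orbL hxd (Multiset.mem_of_mem_nsmul hy), one_pow]
      · obtain ⟨c, hc⟩ := Nat.dvd_lcm_left i (q ^ d - 1)
        rw [hc, pow_mul, h6 y hy, one_pow]
    · rcases pow_dvd_lcm ht h5 hd0 h9 with h10 | h10
      · exact (h7 t k ht h8 h10).trans ⟨h', by ring⟩
      · exact (he2 _ h8 h10).trans ⟨j, by rw [hh']; ring⟩

theorem geo_two_mul (q m : ℕ) : geo q (2 * m) = (q ^ m + 1) * geo q m := by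
  rw [two_mul, geo, Finset.sum_range_add, geo, add_mul, one_mul, Finset.mul_sum, add_comm]
  simp [pow_add]

/-- Let q be an odd prime power, n ≥ 4 even, and L = PSL(n,q). Then L has an element of order q^(n/2) + 1 if and only if the 2-part of n exceeds the 2-part of q − 1. -/
theorem result {F : Type*} [Field F] [Fintype F] {q : ℕ} (hF : Fintype.card F = q) (hodd : Odd q)
    {n : ℕ} (hn : 4 ≤ n) (heven : Even n) :
    (∃ g : Matrix.ProjectiveSpecialLinearGroup (Fin n) F, orderOf g = q ^ (n / 2) + 1) ↔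
      padicValNat 2 (q - 1) < padicValNat 2 n := by
  classical
  obtain ⟨K, _, _, _⟩ := exists_algClosed F
  obtain ⟨p, hp'⟩ := CharP.exists F
  have hp : p.Prime := CharP.char_is_prime F p
  have := Fact.mk hp
  have : Fact (Nat.Prime 2) := ⟨Nat.prime_two⟩
  have : CharP K p := charP_ext K p F
  have hτ := tauL_injective (F := F) K
  have hq1 : 1 < Fintype.card F := Fintype.one_lt_card
  have hpq : p ∣ Fintype.card F := char_dvd_card p
  have hev := fun g : Matrix.ProjectiveSpecialLinearGroup (Fin n) F => psl_ev K p g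
  have hex := fun (M : Multiset K) h1 h2 h3 k hk =>
    psl_exists (F := F) (ι := Fin n) K p (M := M) h1 h2 h3 (k := k) hk
  rw [hF] at hτ hq1 hpq hev hex
  have hq0 : 0 < q := by omega
  obtain ⟨m, hm⟩ : ∃ m, n = 2 * m := heven.two_dvd
  have hm' : n / 2 = m := by omega
  rw [hm']
  have hT : geo q n = (q ^ m + 1) * geo q m := by rw [hm, geo_two_mul]
  have hpo : Nat.Coprime (q ^ m + 1) p := by
    rw [Nat.coprime_comm, hp.coprime_iff_not_dvd]
    intro h
    exact hp.one_lt.ne' (Nat.dvd_one.1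
      ((Nat.dvd_add_right (hpq.trans (dvd_pow_self q (by omega)))).1 h))
  have hmod : ∀ g d, g ∣ q - 1 → (g ∣ geo q d ↔ g ∣ d) := fun g d hg =>
    ((geo_modEq hq0 d).of_dvd hg).dvd_iff dvd_rfl
  constructor
  · rintro ⟨g, hg⟩
    by_contra hh
    rw [not_lt] at hh
    obtain ⟨M, hM, hM1, hMc, hMd, hMe⟩ := hev g
    rw [Fintype.card_fin] at hMc
    rw [hg] at hMd hMe
    have h0 := ne_zero_of_prod_eq_one hM1
    by_cases hall : ∀ x ∈ M, minimalPeriod (tauL q) x < 2 * m
    · obtain ⟨j, e, i, h1, h2, h3, h4, h5, h6, h7⟩ := small hq1 hodd (by omega) hτ M hM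
        fun x hx => ⟨h0 x hx, hall x hx⟩
      have h8 : q ^ m + 1 ∣ i := (hpo.pow_right _).dvd_of_dvd_mul_left
        (hMd _ (div_of_pow_eq fun x hx y hy => by rw [h6 x hx, h6 y hy]))
      have h9 : q ^ m + 1 ∣ 2 * j := (Nat.dvd_iff_prime_pow_dvd_dvd _ _).2
        fun t k ht h => h7 t k ht h (h.trans h8)
      have h10 := Nat.le_of_dvd (by omega) h9
      rcases (show e ≤ m by omega).eq_or_lt with rfl | h11
      · have := h4 rfl; omega
      · have := Nat.pow_lt_pow_right hq1 h11; omega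
    · push Not at hall
      obtain ⟨x, hx, hx'⟩ := hall
      obtain ⟨N, hN, -, -⟩ := exists_split hτ hM x
      have hc0 := Multiset.count_pos.2 hx
      have hcard := congrArg Multiset.card hN
      simp only [Multiset.card_add, Multiset.card_nsmul, card_orb, hMc] at hcard
      have hc1 : M.count x = 1 := by
        by_contra hh
        have : 2 * (2 * m) ≤ M.count x * minimalPeriod (tauL q) x :=
          Nat.mul_le_mul (by omega) hx'
        omega
      rw [hc1, one_smul] at hN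
      rw [hc1, one_mul] at hcard
      have hnd := nodup_orb (τ := tauL q) x
      have hper : minimalPeriod (tauL q) x = n := by omega
      obtain rfl := Multiset.card_eq_zero.1 (show N.card = 0 by omega)
      rw [hper] at hN hnd
      rw [add_zero] at hN
      have hxT : x ^ geo q n = 1 := by rw [← prod_orb_tauL, ← hN, hM1]
      have g1 : 2 ^ padicValNat 2 n ∣ q - 1 := (pow_dvd_pow 2 hh).trans pow_padicValNat_dvd
      have g2 : 2 ^ padicValNat 2 n ∣ geo q n := (hmod _ _ g1).2 pow_padicValNat_dvd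
      have key : ∀ y ∈ M, y ^ (geo q n / 2 ^ padicValNat 2 n) =
          x ^ (geo q n / 2 ^ padicValNat 2 n) := by
        intro y hy
        rw [hN] at hy
        refine pow_eq_of_mem_orbL hq0 (h0 x hx) ?_ hy
        obtain ⟨c, hc⟩ := g1
        rw [hc, mul_right_comm, Nat.mul_div_cancel' g2, pow_mul, hxT, one_pow]
      have h1 := hMd _ (div_of_count_le_one (fun x hx y hy => by rw [key x hx, key y hy])
        (Multiset.nodup_iff_count_le_one.1 (hN ▸ hnd)))
      rw [Nat.dvd_div_iff_mul_dvd g2, hT, mul_comm,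
        Nat.mul_dvd_mul_iff_left (by positivity), hmod _ _ g1] at h1
      refine pow_succ_padicValNat_not_dvd (p := 2) (n := n) (by omega) ?_
      rw [pow_succ']
      conv_rhs => rw [hm]
      exact Nat.mul_dvd_mul_left 2 h1
  · intro hv
    have hps : ¬ p ∣ geo q n := not_dvd_geo hp hpq (by omega)
    obtain ⟨l, hl⟩ := exists_prim_root K p hps
    have hl0 : l ≠ 0 := hl.ne_zero fun h0 => hps (h0 ▸ dvd_zero p)
    refine hex (orb (tauL q) l n) (orb_stable (by
      rw [tauL_iterate_eq_iff hq0 hl0, ← geo_mul hq0, pow_mul, hl.pow_eq_one, one_pow]))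
      (by rw [prod_orb_tauL, hl.pow_eq_one]) (by simp) _ fun i hi => ?_
    have h1 := hi.1 l (self_mem_orb l (by omega)) (tauL q l) (mem_orb.2 ⟨1, by omega, rfl⟩)
    rw [← tauL_pow, eq_comm, tauL_eq_iff hq0 (pow_ne_zero _ hl0), ← pow_mul, mul_comm,
      hl.pow_eq_one_iff_dvd] at h1
    have h2 : geo q n ∣ Nat.gcd (geo q n) (q - 1) * i := by
      rw [← Nat.gcd_mul_right]
      exact Nat.dvd_gcd (dvd_mul_right _ _) h1
    have g1 := Nat.gcd_dvd_right (geo q n) (q - 1)
    have g2 := (hmod _ _ g1).1 (Nat.gcd_dvd_left _ _)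
    have g0 : 0 < Nat.gcd (geo q n) (q - 1) := Nat.gcd_pos_of_pos_right _ (by omega)
    have g3 : Nat.gcd (geo q n) (q - 1) ∣ geo q m := by
      rw [hmod _ _ g1, Nat.dvd_iff_prime_pow_dvd_dvd]
      intro t k ht h
      by_cases h2 : t = 2
      · subst h2
        have h3 : k ≤ padicValNat 2 (q - 1) := (padicValNat_dvd_iff_le (by omega)).1 (h.trans g1)
        have h4 : 2 ^ (k + 1) ∣ n := (pow_dvd_pow 2 (by omega)).trans pow_padicValNat_dvd
        rwa [hm, pow_succ', Nat.mul_dvd_mul_iff_left two_pos] at h4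
      · have h3 := h.trans g2
        rw [hm] at h3
        exact (((Nat.coprime_primes ht Nat.prime_two).2 h2).pow_left k).dvd_of_dvd_mul_left h3
    generalize Nat.gcd (geo q n) (q - 1) = g at *
    obtain ⟨c, hc⟩ := g3
    rw [hT, hc, mul_left_comm, Nat.mul_dvd_mul_iff_left g0] at h2
    exact (dvd_mul_right _ _).trans h2

end Cfsg.Agent.S2495
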