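import Cfsg.Statements.S2496
import Cfsg.Agent.H5.MaxOrd

set_option autoImplicit false
open Cfsg

namespace Cfsg.Agent.S2496

open Cfsg.Agent.H5 Function

theorem gcd_lcm_dvd (m a b : ℕ) (hm : m ≠ 0) (ha : a ≠ 0) (hb : b ≠ 0) :
    Nat.gcd m (Nat.lcm a b) ∣ Nat.lcm (Nat.gcd m a) (Nat.gcd m b) := by
  have h1 : Nat.lcm a b ≠ 0 := Nat.lcm_ne_zero ha hb
  have h2 : Nat.gcd m a ≠ 0 := Nat.gcd_ne_zero_left hm
  have h3 : Nat.gcd m b ≠ 0 := Nat.gcd_ne_zero_left hm
  rw [← Nat.factorization_le_iff_dvd (Nat.gcd_ne_zero_left hm) (Nat.lcm_ne_zero h2 h3),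
    Nat.factorization_gcd hm h1, Nat.factorization_lcm ha hb, Nat.factorization_lcm h2 h3,
    Nat.factorization_gcd hm ha, Nat.factorization_gcd hm hb]
  intro r
  simp only [Finsupp.inf_apply, Finsupp.sup_apply]
  exact (inf_sup_left _ _ _).le

theorem gcd_uq {q h m e : ℕ} (hq : Odd q) (hq3 : 3 ≤ q) (hm : (m : ℤ) ∣ (-(q : ℤ)) ^ h + 1)
    (he0 : 0 < e) (he : e < 2 * h) :
    ∃ r g s, Nat.gcd m (uq q e) ∣ 2 * r ∧ 0 < r ∧ 3 ^ s * r ≤ 2 ^ s * q ^ g ∧ 3 * g ≤ s * h ∧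
      2 * g ≤ e := by
  set w := Nat.gcd m (uq q e)
  have h1 : (-(q : ZMod w)) ^ h = -1 := by
    have := (ZMod.intCast_zmod_eq_zero_iff_dvd _ w).2
      ((Int.natCast_dvd_natCast.2 (Nat.gcd_dvd_left m (uq q e))).trans hm)
    push_cast at this
    exact eq_neg_of_add_eq_zero_left this
  have h2 : (-(q : ZMod w)) ^ e = 1 := by
    have h3 := (ZMod.intCast_zmod_eq_zero_iff_dvd _ w).2
      (Int.natCast_dvd_natCast.2 (Nat.gcd_dvd_right m (uq q e)))
    rw [uq_cast (by omega)] at h3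
    push_cast at h3
    rw [neg_pow, sub_eq_zero.1 h3, ← mul_pow]; simp
  have h3 : (-(q : ZMod w)) ^ Nat.gcd (2 * h) e = 1 :=
    pow_gcd_eq_one.2 ⟨by rw [mul_comm, pow_mul, h1]; simp, h2⟩
  by_cases hd : Nat.gcd (2 * h) e ∣ h
  · obtain ⟨c, hc⟩ := hd
    rw [hc, pow_mul, h3, one_pow] at h1
    refine ⟨1, 0, 0, ?_, one_pos, by simp, by simp, by simp⟩
    rw [← ZMod.natCast_eq_zero_iff]
    push_cast
    linear_combination h1
  · obtain ⟨t, ht⟩ := Nat.gcd_dvd_left (2 * h) e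
    have hto : Odd t := by
      by_contra hh
      obtain ⟨u, rfl⟩ := Nat.not_odd_iff_even.1 hh
      exact hd ⟨u, by rw [mul_add] at ht; omega⟩
    obtain ⟨g, hg⟩ : 2 ∣ Nat.gcd (2 * h) e :=
      (Nat.coprime_two_left.2 hto).dvd_of_dvd_mul_right (ht ▸ dvd_mul_right 2 h)
    have hle : 2 * g ≤ e := hg ▸ Nat.le_of_dvd he0 (Nat.gcd_dvd_right _ _)
    have hht : h = g * t := by rw [hg, mul_assoc] at ht; omega
    obtain ⟨u, rfl⟩ := hto
    have hu : 0 < u := Nat.pos_of_ne_zero (by rintro rfl; omega)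
    have hg0 : 0 < g := Nat.pos_of_ne_zero (by rintro rfl; omega)
    have h4 : (-(q : ZMod w)) ^ g = -1 := by
      rw [hht, show g * (2 * u + 1) = 2 * g * u + g by ring, pow_add, pow_mul, ← hg, h3, one_pow,
        one_mul] at h1
      exact h1
    have h5 : (w : ℤ) ∣ (-(q : ℤ)) ^ g + 1 := by
      rw [← ZMod.intCast_zmod_eq_zero_iff_dvd]; push_cast; rw [h4]; simp
    have hq1 : q ≤ q ^ g := Nat.le_self_pow hg0.ne' q
    obtain ⟨c, hc⟩ := hq.pow (n := g)
    have hc' : (q : ℤ) ^ g = 2 * c + 1 := by exact_mod_cast hc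
    rcases Nat.even_or_odd g with hge | hge
    · rw [hge.neg_pow, hc'] at h5
      refine ⟨c + 1, g, 1, ?_, by omega, by omega, by nlinarith, hle⟩
      rw [← Int.natCast_dvd_natCast]
      convert h5 using 1; push_cast; ring
    · rw [hge.neg_pow, hc'] at h5
      refine ⟨c, g, 1, ?_, by omega, by omega, by nlinarith, hle⟩
      rw [← Int.natCast_dvd_natCast, ← dvd_neg, show -((2 * c : ℕ) : ℤ) = -(2 * c + 1) + 1 by
        push_cast; ring]
      exact h5

theorem small_orbits {K : Type*} [Field K] [DecidableEq K] {q h m : ℕ} (hq : Odd q) (hq3 : 3 ≤ q)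
    (hm0 : m ≠ 0) (hm : (m : ℤ) ∣ (-(q : ℤ)) ^ h + 1) (hτ : Injective (tauU q : K → K))
    (N : Multiset K) (hN : N.map (tauU q) = N) :
    (0 : K) ∉ N → (∀ x ∈ N, minimalPeriod (tauU q) x < 2 * h) → ∃ L R G s, 0 < L ∧
      (∀ x ∈ N, x ^ L = 1) ∧ Nat.gcd m L ∣ 2 * R ∧ 0 < R ∧ 3 ^ s * R ≤ 2 ^ s * q ^ G ∧
      3 * G ≤ s * h ∧ 2 * G ≤ N.card := by
  refine stable_induction (P := fun N => (0 : K) ∉ N → (∀ x ∈ N, minimalPeriod (tauU q) x < 2 * h) →
    ∃ L R G s, 0 < L ∧ (∀ x ∈ N, x ^ L = 1) ∧ Nat.gcd m L ∣ 2 * R ∧ 0 < R ∧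
      3 ^ s * R ≤ 2 ^ s * q ^ G ∧ 3 * G ≤ s * h ∧ 2 * G ≤ N.card) hτ
    (fun _ _ => ⟨1, 1, 0, 0, by simp⟩) ?_ N hN
  intro x c N hc hx _ _ ih h0 h1
  have he := minimalPeriod_pos_of_mem_periodicPts hx
  have hxm : x ∈ c • orb (tauU q) x (minimalPeriod (tauU q) x) + N :=
    Multiset.mem_add.2 (Or.inl ((Multiset.mem_nsmul_of_ne_zero hc.ne').2 (self_mem_orb x he)))
  have hx0 : x ≠ 0 := fun h => h0 (h ▸ hxm)
  have hit : (tauU q)^[minimalPeriod (tauU q) x] x = x := iterate_minimalPeriod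
  rw [tauU_iterate_eq_iff (by omega) hx0] at hit
  obtain ⟨L, R, G, s, hL, hp, hd, hR, hs, hG, hG'⟩ := ih (fun h => h0 (Multiset.mem_add.2 (Or.inr h)))
    fun y hy => h1 y (Multiset.mem_add.2 (Or.inr hy))
  obtain ⟨r, g, t, a1, a2, a3, a4, a5⟩ := gcd_uq hq hq3 hm he (h1 x hxm)
  have hu := uq_pos (q := q) (by omega) he
  refine ⟨Nat.lcm L (uq q (minimalPeriod (tauU q) x)), R * r, G + g, s + t, Nat.lcm_pos hL hu,
    fun y hy => ?_, (gcd_lcm_dvd _ _ _ hm0 hL.ne' hu.ne').trans (Nat.lcm_dvd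
      (hd.trans ⟨r, by ring⟩) (a1.trans ⟨R, by ring⟩)), Nat.mul_pos hR a2, ?_, by nlinarith, ?_⟩
  · rcases Multiset.mem_add.1 hy with hy | hy
    · obtain ⟨k, -, rfl⟩ := mem_orb.1 (Multiset.mem_of_mem_nsmul hy)
      obtain ⟨b, hb⟩ := Nat.dvd_lcm_right L (uq q (minimalPeriod (tauU q) x))
      rw [tauU_iterate, ← zpow_natCast, ← zpow_mul, mul_comm, zpow_mul, zpow_natCast, hb, pow_mul, hit,
        one_pow, one_zpow]
    · obtain ⟨b, hb⟩ := Nat.dvd_lcm_left L (uq q (minimalPeriod (tauU q) x))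
      rw [hb, pow_mul, hp y hy, one_pow]
  · calc _ = (3 ^ s * R) * (3 ^ t * r) := by ring
      _ ≤ (2 ^ s * q ^ G) * (2 ^ t * q ^ g) := Nat.mul_le_mul hs a3
      _ = _ := by ring
  · simp only [Multiset.card_add, Multiset.card_nsmul, card_orb]
    have := Nat.le_mul_of_pos_left (minimalPeriod (tauU q) x) hc
    omega

theorem dvd_geom_sub (q n : ℕ) :
    ((q + 1 : ℕ) : ℤ) ∣ ∑ k ∈ Finset.range n, (-(q : ℤ)) ^ k - n := by
  induction n with
  | zero => simp
  | succ n ih =>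
    have := sub_dvd_pow_sub_pow (-(q : ℤ)) 1 n
    rw [← neg_dvd, one_pow, show -(-(q : ℤ) - 1) = ((q + 1 : ℕ) : ℤ) by push_cast; ring] at this
    rw [Finset.sum_range_succ, show ∑ k ∈ Finset.range n, (-(q : ℤ)) ^ k + (-(q : ℤ)) ^ n - ((n + 1 : ℕ) : ℤ)
      = (∑ k ∈ Finset.range n, (-(q : ℤ)) ^ k - n) + ((-(q : ℤ)) ^ n - 1) by push_cast; ring]
    exact dvd_add ih this


/-- Let q be an odd prime power, n ≥ 4 even, and U = PSU(n,q) (realised over the field with q² elements). Then U has an element of order q^(n/2) + (−1)^(n/2) — that is, q^(n/2) + 1 when n/2 is even and q^(n/2) − 1 when n/2 is odd — if and only if the 2-part of n exceeds the 2-part of q + 1. -/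
theorem result {F : Type*} [Field F] [Fintype F] {q : ℕ} (hF : Fintype.card F = q ^ 2) (hodd : Odd q)
    {n : ℕ} (hn : 4 ≤ n) (heven : Even n) :
    (∃ g : Cfsg.PSU n F q, orderOf g = if Even (n / 2) then q ^ (n / 2) + 1 else q ^ (n / 2) - 1) ↔
      padicValNat 2 (q + 1) < padicValNat 2 n := by
  classical
  have h := uf_frob hF
  obtain ⟨K, _, _, _⟩ := exists_algClosed F
  obtain ⟨hp, -⟩ := exists_char_pow hF (ringChar F)
  set p := ringChar F
  have := Fact.mk hp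
  have : CharP K p := charP_ext K p F
  have hpq := h.char_dvd p
  have hτ := h.tauU_injective K
  have hq3 : 3 ≤ q := by have := h.two_le; obtain ⟨c, hc⟩ := hodd; omega
  obtain ⟨t, rfl⟩ : ∃ t, n = 2 * t := ⟨n / 2, by obtain ⟨c, hc⟩ := heven; omega⟩
  rw [Nat.mul_div_cancel_left t two_pos]
  set m := if Even t then q ^ t + 1 else q ^ t - 1 with hm
  have hqt : q * q ≤ q ^ t := by rw [← sq]; exact Nat.pow_le_pow_right h.pos (by omega)
  have hqq : 9 ≤ q * q := by nlinarith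
  have hmz : (m : ℤ) = |(-(q : ℤ)) ^ t + 1| := by
    rcases Nat.even_or_odd t with ht | ht
    · rw [hm, if_pos ht, ht.neg_pow, abs_of_nonneg (by positivity)]; simp
    · rw [hm, if_neg (Nat.not_even_iff_odd.2 ht), ht.neg_pow, Nat.cast_sub (by omega),
        abs_of_nonpos (by
          have : (1 : ℤ) ≤ (q : ℤ) ^ t := one_le_pow₀ (by omega)
          omega)]; simp; ring
  have hmle : q ^ t - 1 ≤ m := by rw [hm]; split_ifs <;> omega
  have hm0 : m ≠ 0 := by omega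
  have hpm : ¬ p ∣ m := fun h' => by
    rw [← Int.natCast_dvd_natCast, hmz, dvd_abs] at h'
    have h2 : (p : ℤ) ∣ (-(q : ℤ)) ^ t :=
      ((Int.natCast_dvd_natCast.2 hpq).neg_right).trans (dvd_pow_self _ (by omega))
    exact hp.one_lt.ne' (Nat.dvd_one.1 (Int.natCast_dvd_natCast.1 ((dvd_add_right h2).1 h')))
  set s : ℤ := ∑ k ∈ Finset.range (2 * t), (-(q : ℤ)) ^ k with hs
  set s' : ℤ := ∑ k ∈ Finset.range t, (-(q : ℤ)) ^ k with hs'
  have hs1 : s * (-(q : ℤ) - 1) = (-(q : ℤ)) ^ (2 * t) - 1 := geom_sum_mul _ _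
  have hs2 : s' * (-(q : ℤ) - 1) = (-(q : ℤ)) ^ t - 1 := geom_sum_mul _ _
  have hss : s = s' * ((-(q : ℤ)) ^ t + 1) := by
    apply mul_right_cancel₀ (show -(q : ℤ) - 1 ≠ 0 by omega)
    rw [hs1, mul_right_comm, hs2]; ring
  have hSS : s.natAbs = s'.natAbs * m := by
    rw [hss, Int.natAbs_mul]; congr 1
    zify; exact hmz.symm
  have hdv : ∀ g : ℕ, g ∣ q + 1 → (g ∣ s.natAbs ↔ g ∣ 2 * t) ∧ (g ∣ s'.natAbs ↔ g ∣ t) := by
    intro g hg
    have a1 := (Int.natCast_dvd_natCast.2 hg).trans (dvd_geom_sub q (2 * t))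
    have a2 := (Int.natCast_dvd_natCast.2 hg).trans (dvd_geom_sub q t)
    rw [← Int.natCast_dvd, ← Int.natCast_dvd, ← Int.natCast_dvd_natCast, ← Int.natCast_dvd_natCast]
    exact ⟨(dvd_iff_dvd_of_dvd_sub a1), (dvd_iff_dvd_of_dvd_sub a2)⟩
  have ht0 : t ≠ 0 := by omega
  have hv : padicValNat 2 (2 * t) = padicValNat 2 t + 1 := by
    rw [padicValNat.mul two_ne_zero ht0]; simp [add_comm]
  constructor
  · rintro ⟨g, hg⟩
    by_contra hlt
    obtain ⟨M, hM, hM1, hMc, hMd, hMe⟩ := h.psu_ev K p g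
    rw [hg] at hMd hMe
    have h0 : (0 : K) ∉ M := fun hx => by simp [Multiset.prod_eq_zero hx] at hM1
    have hdvd : ∀ j, (∀ x ∈ M, ∀ y ∈ M, x ^ j = y ^ j) → m ∣ j := fun j hj =>
      (((Nat.Prime.coprime_iff_not_dvd hp).2 hpm).symm.pow_right _).dvd_of_dvd_mul_right
        (hMd _ (div_clog hp.one_lt hj))
    by_cases hsm : ∀ x ∈ M, minimalPeriod (tauU q) x < 2 * t
    · obtain ⟨L, R, G, u, hL, hpow, hd, hR, hu, hG, hG'⟩ := small_orbits hodd hq3 hm0
        (by rw [hmz, abs_dvd]) hτ M hM h0 hsm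
      rw [Nat.gcd_eq_left (hdvd L fun x hx y hy => by rw [hpow x hx, hpow y hy])] at hd
      have hle := Nat.le_of_dvd (by omega) hd
      rcases Nat.lt_or_ge G t with hGt | hGt
      · have a1 : R ≤ q ^ G := by
          refine Nat.le_of_mul_le_mul_left (hu.trans (Nat.mul_le_mul_right _ ?_)) (pow_pos (by omega) u)
          exact Nat.pow_le_pow_left (by omega) u
        have a2 : q ^ G * q ≤ q ^ t := by rw [← pow_succ]; exact Nat.pow_le_pow_right h.pos hGt
        have a3 : R * 3 ≤ q ^ G * q := Nat.mul_le_mul a1 hq3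
        omega
      · obtain rfl : G = t := by omega
        obtain ⟨v, rfl⟩ : ∃ v, u = v + 3 := ⟨u - 3, by
          have : 3 ≤ u := Nat.le_of_mul_le_mul_right hG (by omega)
          omega⟩
        have a1 : 27 * R ≤ 8 * q ^ G := by
          refine Nat.le_of_mul_le_mul_left ?_ (pow_pos (show 0 < 3 by omega) v)
          have : 2 ^ v ≤ 3 ^ v := Nat.pow_le_pow_left (by omega) v
          calc _ = 3 ^ (v + 3) * R := by ring
            _ ≤ 2 ^ v * (8 * q ^ G) := hu.trans_eq (by ring)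
            _ ≤ _ := Nat.mul_le_mul_right _ this
        omega
    · push Not at hsm
      obtain ⟨x, hx, hx'⟩ := hsm
      obtain ⟨N, hN, -⟩ := exists_split hτ hM x
      have hcard := congrArg Multiset.card hN
      simp only [Multiset.card_add, Multiset.card_nsmul, card_orb, hMc] at hcard
      have hc0 := Multiset.count_pos.2 hx
      have hc1 : M.count x = 1 := by
        by_contra hh
        have : 2 * minimalPeriod (tauU q) x ≤ M.count x * minimalPeriod (tauU q) x :=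
          Nat.mul_le_mul_right _ (by omega)
        omega
      rw [hc1] at hN hcard
      obtain rfl := Multiset.card_eq_zero.1 (show N.card = 0 by omega)
      rw [show minimalPeriod (tauU q) x = 2 * t by simpa using hcard.symm, one_smul, add_zero] at hN
      have hx0 : x ≠ 0 := fun h => h0 (h ▸ hx)
      have hxs : x ^ s = 1 := by rw [← hM1, hN, prod_orb_tauU q hx0]
      have hxs' : x ^ s.natAbs = 1 := by
        rw [← zpow_natCast, Int.natCast_natAbs, abs_eq_max_neg]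
        rcases max_choice s (-s) with h' | h' <;> rw [h'] <;> simp [hxs]
      have hw1 : 2 ^ padicValNat 2 (2 * t) ∣ q + 1 :=
        (pow_dvd_pow 2 (not_lt.1 hlt)).trans pow_padicValNat_dvd
      obtain ⟨j, hj⟩ := (hdv _ hw1).1.2 pow_padicValNat_dvd
      have hxi : x ^ ((q + 1) * j) = 1 := by
        obtain ⟨c, hc⟩ := hw1
        rw [hc, mul_right_comm, ← hj, pow_mul, hxs', one_pow]
      obtain ⟨c, hc⟩ := hdvd j fun y hy z hz => by
        rw [hN] at hy hz
        rw [pow_eq_of_mem_orb hx0 hxi hy, pow_eq_of_mem_orb hx0 hxi hz]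
      rw [hSS, hc, mul_comm m, ← mul_assoc] at hj
      have := (hdv _ hw1).2.1 ⟨c, Nat.eq_of_mul_eq_mul_right (by omega) hj⟩
      rw [hv] at this
      exact pow_succ_padicValNat_not_dvd ht0 this
  · intro hlt
    have hps : ¬ p ∣ s.natAbs := by
      intro h'
      have h1 : (p : ℤ) ∣ (-(q : ℤ)) ^ (2 * t) - 1 := hs1 ▸ (Int.natCast_dvd.2 h').mul_right _
      have h2 : (p : ℤ) ∣ (-(q : ℤ)) ^ (2 * t) :=
        ((Int.natCast_dvd_natCast.2 hpq).neg_right).trans (dvd_pow_self _ (by omega))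
      have := (dvd_sub_right h2).1 h1
      exact hp.one_lt.ne' (Nat.dvd_one.1 (Int.natCast_dvd_natCast.1 this))
    obtain ⟨l, hl⟩ := exists_prim_root K p hps
    have hs0 : s.natAbs ≠ 0 := fun h0 => hps (h0 ▸ dvd_zero p)
    have hl0 : l ≠ 0 := hl.ne_zero hs0
    have hls : l ^ s = 1 := by
      rw [hl.zpow_eq_one_iff_dvd, Int.natAbs_dvd]
    refine h.psu_exists K p (M := orb (tauU q) l (2 * t)) (orb_stable (by
      rw [tauU_iterate, show (-(q : ℤ)) ^ (2 * t) = s * (-(q : ℤ) - 1) + 1 by rw [hs1]; ring,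
        zpow_add₀ hl0, zpow_mul, hls]; simp)) (by rw [prod_orb_tauU q hl0, hls]) (card_orb _ _) ?_
    intro i hi _
    have h1 := hi l (self_mem_orb l (by omega)) (tauU q l) (mem_orb.2 ⟨1, by omega, rfl⟩)
    rw [← tauU_pow, eq_comm, tauU_eq_iff (pow_ne_zero _ hl0), ← pow_mul, mul_comm,
      hl.pow_eq_one_iff_dvd] at h1
    have h2 : s.natAbs ∣ Nat.gcd s.natAbs (q + 1) * i := by
      rw [← Nat.gcd_mul_right]
      exact Nat.dvd_gcd (dvd_mul_right _ _) h1
    set g := Nat.gcd s.natAbs (q + 1)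
    have hg1 : g ∣ q + 1 := Nat.gcd_dvd_right _ _
    have hg2 : g ∣ 2 * t := (hdv g hg1).1.1 (Nat.gcd_dvd_left _ _)
    have hg0 : g ≠ 0 := Nat.gcd_ne_zero_left hs0
    have hg3 : g ∣ t := by
      rw [← Nat.factorization_prime_le_iff_dvd hg0 ht0]
      intro r hr
      by_cases hr2 : r = 2
      · subst hr2
        have := (Nat.factorization_prime_le_iff_dvd hg0 (by omega)).2 hg1 2 hr
        rw [Nat.factorization_def _ hr, Nat.factorization_def _ hr] at this ⊢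
        omega
      · have := (Nat.factorization_prime_le_iff_dvd hg0 (by omega)).2 hg2 r hr
        rwa [Nat.factorization_mul two_ne_zero ht0, Finsupp.add_apply, Nat.prime_two.factorization,
          Finsupp.single_eq_of_ne hr2, zero_add] at this
    obtain ⟨c, hc⟩ := (hdv g hg1).2.2 hg3
    rw [hSS, hc, mul_assoc, Nat.mul_dvd_mul_iff_left (Nat.pos_of_ne_zero hg0)] at h2
    exact (Dvd.intro_left _ rfl).trans h2

end Cfsg.Agent.S2496
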