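import Cfsg.Statements.S2503
import Cfsg.Agent.H2.PSL2

set_option autoImplicit false
open Cfsg

namespace Cfsg.Agent.S2503

/-- Let F be a finite field with q = 2^t ≥ 4 elements and L = PSL(2,F). Then L has a cyclic subgroup A of order q + 1 and an elementary abelian 2-subgroup B of order q such that L = ABA: every element of L is a product a·b·a' with a, a' ∈ A and b ∈ B. -/
theorem result {F : Type*} [Field F] [Fintype F]
    (h2 : 2 ∣ Fintype.card F) (h4 : 4 ≤ Fintype.card F) :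
    ∃ A B : Subgroup (Matrix.ProjectiveSpecialLinearGroup (Fin 2) F),
      IsCyclic A ∧ Nat.card A = Fintype.card F + 1 ∧ IsMulCommutative B ∧ (∀ b ∈ B, b * b = 1) ∧
        Nat.card B = Fintype.card F ∧
        ∀ g : Matrix.ProjectiveSpecialLinearGroup (Fin 2) F, ∃ a ∈ A, ∃ b ∈ B, ∃ c ∈ A, g = a * b * c := by
  open Cfsg.Agent.H2 Matrix in
  rw [← Nat.card_eq_fintype_card] at h2 h4 ⊢
  have h0 := two_eq_zero_of_even h2
  have hinj : Function.Injective (pj F) := by
    rw [← MonoidHom.ker_eq_bot_iff, QuotientGroup.ker_mk', center_eq_bot_of_eq h0]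
  obtain ⟨t, ht⟩ := exists_nonsplit (F := F)
  have htr : tr (compSL t) = t := by simp [tr]
  have ht' : ∀ x : F, x ^ 2 - tr (compSL t) * x + 1 ≠ 0 := by rwa [htr]
  have hS := SS_of_no_root ht'
  let u : Multiplicative F →* Matrix.SpecialLinearGroup (Fin 2) F :=
    MonoidHom.mk' (fun b => uSL b.toAdd) fun a b => uSL_add _ _
  have hsq : ∀ c : F, ∃ d, d ^ 2 = c := fun c => by
    obtain ⟨d, hd⟩ := FiniteField.isSquare_of_char_two (ringChar_eq_two_of h0) c
    exact ⟨d, by rw [hd, sq]⟩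
  have aniso : ∀ a b : F, a ^ 2 + t * a * b + b ^ 2 = 0 → a = 0 ∧ b = 0 := by
    intro a b h
    by_cases hb : b = 0
    · subst hb; simpa using h
    · exfalso
      apply ht (a / b)
      field_simp
      linear_combination h - t * a * b * h0
  have key : ∀ a b : F, a ^ 2 + t * a * b + b ^ 2 = 1 → ∃ c ∈ Cen (compSL t), c.1 0 0 = a ∧ c.1 1 0 = b := by
    intro a b h
    refine ⟨toSL (a • 1 + b • comp t 1) (by rw [det_comb]; simpa using h),
      (mem_Cen_SL hS.not_sc).2 ⟨a, b, rfl⟩, ?_, ?_⟩ <;> simp [toSL, H2.comp]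
  refine ⟨(Cen (compSL t)).map (pj F), ((pj F).comp u).range, hS.isCyclic_map, ?_, inferInstance, ?_, ?_, fun g => ?_⟩
  · rw [Subgroup.card_map_of_injective hinj, card_Cen_of_no_root ht']
  · rintro _ ⟨b, rfl⟩
    rw [← map_mul]
    have : b * b = 1 := by
      apply Multiplicative.toAdd.injective
      simp only [toAdd_mul, toAdd_one]
      linear_combination b.toAdd * h0
    rw [this, map_one]
  · exact (Nat.card_congr (MonoidHom.ofInjective (f := (pj F).comp u)
      (fun a b h => uSL_injective (F := F) (hinj h))).toEquiv).symm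
  · obtain ⟨g, rfl⟩ := pj_surjective g
    have hd := g.det_coe
    rw [det_fin_two] at hd
    obtain ⟨x, y, hxy, e⟩ : ∃ x y : F, x ^ 2 + t * x * y + y ^ 2 = 1 ∧
        (g.1 0 0 * x + g.1 0 1 * y) ^ 2 + t * (g.1 0 0 * x + g.1 0 1 * y) * (g.1 1 0 * x + g.1 1 1 * y) +
          (g.1 1 0 * x + g.1 1 1 * y) ^ 2 = 1 := by
      obtain ⟨α, hα⟩ := hsq (g.1 0 0 ^ 2 + t * g.1 0 0 * g.1 1 0 + g.1 1 0 ^ 2 + 1)
      obtain ⟨β, hβ⟩ := hsq (g.1 0 1 ^ 2 + t * g.1 0 1 * g.1 1 1 + g.1 1 1 ^ 2 + 1)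
      obtain ⟨x, y, h1, h3⟩ : ∃ x y : F, ¬ (x = 0 ∧ y = 0) ∧ α * x + β * y = 0 := by
        by_cases h : α = 0
        · exact ⟨1, 0, by simp, by simp [h]⟩
        · exact ⟨β, α, fun h' => h h'.2, by linear_combination α * β * h0⟩
      obtain ⟨s, hs⟩ := hsq (x ^ 2 + t * x * y + y ^ 2)
      have hs0 : s ≠ 0 := by
        rintro rfl
        exact h1 (aniso x y (by rw [← hs]; ring))
      refine ⟨x / s, y / s, ?_, ?_⟩
      · field_simp; linear_combination -hs
      · field_simp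
        have h5 : (α * x + β * y) ^ 2 = 0 := by rw [h3]; ring
        grind
    obtain ⟨c, hc, c1, c2⟩ := key x y hxy
    obtain ⟨a, ha, a1, a2⟩ := key _ _ e
    have h5 : ∃ b, a⁻¹ * g * c = uSL b := by
      have d := (a⁻¹ * g * c).det_coe
      have da := a.det_coe
      rw [det_fin_two] at d da
      have b1 : (a⁻¹ * g * c).1 0 0 = 1 := by
        rw [mul_assoc, Matrix.SpecialLinearGroup.coe_mul, Matrix.SpecialLinearGroup.coe_mul,
          Matrix.SpecialLinearGroup.coe_inv, adjugate_fin_two, m2_mul_apply, m2_mul_apply, m2_mul_apply, c1, c2,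
          ← a1, ← a2]
        simp
        linear_combination da
      have b2 : (a⁻¹ * g * c).1 1 0 = 0 := by
        rw [mul_assoc, Matrix.SpecialLinearGroup.coe_mul, Matrix.SpecialLinearGroup.coe_mul,
          Matrix.SpecialLinearGroup.coe_inv, adjugate_fin_two, m2_mul_apply, m2_mul_apply, m2_mul_apply, c1, c2,
          ← a1, ← a2]
        simp
        ring
      rw [b1, b2, mul_zero, sub_zero, one_mul] at d
      exact ⟨(a⁻¹ * g * c).1 0 1, SL_ext (m2_ext b1 rfl b2 d)⟩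
    obtain ⟨b, hb⟩ := h5
    refine ⟨_, ⟨a, ha, rfl⟩, _, ⟨Multiplicative.ofAdd b, rfl⟩, _, ⟨c⁻¹, inv_mem hc, rfl⟩, ?_⟩
    change _ = pj F a * pj F (uSL b) * pj F c⁻¹
    rw [← hb, ← map_mul, ← map_mul]
    congr 1; group

end Cfsg.Agent.S2503
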