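import Cfsg.Statements.S2506
import Cfsg.Agent.H3.Abel

set_option autoImplicit false
open scoped Pointwise
open Cfsg

namespace Cfsg.Agent.S2506

/-- In the alternating group of any degree, any two abelian subgroups of the largest possible order (among abelian subgroups) are conjugate. -/
theorem result (n : ℕ)
    (A B : Subgroup (alternatingGroup (Fin n))) (hA : IsMulCommutative A) (hB : IsMulCommutative B)
    (hAmax : ∀ C : Subgroup (alternatingGroup (Fin n)), IsMulCommutative C → Nat.card C ≤ Nat.card A)
    (hBmax : ∀ C : Subgroup (alternatingGroup (Fin n)), IsMulCommutative C → Nat.card C ≤ Nat.card B) :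
    ∃ g : alternatingGroup (Fin n), B = MulAut.conj g • A := by
  have key : ∀ C : Subgroup (alternatingGroup (Fin n)), IsMulCommutative C →
      (∀ D : Subgroup (alternatingGroup (Fin n)), IsMulCommutative D → Nat.card D ≤ Nat.card C) →
      Nat.card (C.map (alternatingGroup (Fin n)).subtype) = H3.Ma (Finset.univ : Finset (Fin n)).card := by
    intro C hC hmax
    rw [Subgroup.card_map_of_injective (Subgroup.subtype_injective _), Finset.card_fin]
    obtain ⟨⟨D, h1, h2⟩, h3⟩ := H3.isGreatest_Ma n
    exact le_antisymm (h3 ⟨C, hC, rfl⟩) (h2 ▸ hmax D h1)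
  obtain ⟨g, hg, hg'⟩ := H3.Ab.exists_cj Finset.univ
    (isMulCommutative_iff_of_setLike.1 inferInstance) (isMulCommutative_iff_of_setLike.1 inferInstance)
    (H3.map_subtype_le_AltOn A) (H3.map_subtype_le_AltOn B) (key A hA hAmax) (key B hB hBmax)
  exact ⟨⟨g, hg.1⟩, (H3.cj_of_cj_map (g := ⟨g, hg.1⟩) hg').eq_map⟩

end Cfsg.Agent.S2506
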