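import Cfsg.Statements.S2507
import Cfsg.Agent.H2.PSL2

set_option autoImplicit false
open Cfsg

namespace Cfsg.Agent.S2507

/-- Let F be a finite field with q = 2^f ≥ 4 elements. The conjugacy class sizes of PSL(2,F) are exactly 1, q(q − 1), q² − 1 and q(q + 1). -/
theorem result {F : Type*} [Field F] [Fintype F]
    (h2 : 2 ∣ Fintype.card F) (h4 : 4 ≤ Fintype.card F) :
    Set.range (fun g : (Matrix.ProjectiveSpecialLinearGroup (Fin 2) F) => (Subgroup.centralizer ({g} : Set (Matrix.ProjectiveSpecialLinearGroup (Fin 2) F))).index) =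
      {1, Fintype.card F * (Fintype.card F - 1), Fintype.card F ^ 2 - 1, Fintype.card F * (Fintype.card F + 1)} := by
  open Cfsg.Agent.H2 in
  rw [← Nat.card_eq_fintype_card] at h2 h4 ⊢
  have h0 := two_eq_zero_of_even h2
  have i1 : ∀ g : Matrix.SpecialLinearGroup (Fin 2) F, ¬ Sc g → ¬ SS g → (Cen g).index = Nat.card F ^ 2 - 1 :=
    fun g a b => index_of_card (card_Cen_unip a b) (by rw [card_center_of_eq h0, ← card_SL2', card_SL2]; ring)
  have i2 : ∀ g : Matrix.SpecialLinearGroup (Fin 2) F, Nat.card (Cen g) = Nat.card F - 1 →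
      (Cen g).index = Nat.card F * (Nat.card F + 1) := fun g a => index_of_card a (by ring)
  have i3 : ∀ g : Matrix.SpecialLinearGroup (Fin 2) F, Nat.card (Cen g) = Nat.card F + 1 →
      (Cen g).index = Nat.card F * (Nat.card F - 1) := fun g a => index_of_card a rfl
  have i4 : ∀ g : Matrix.SpecialLinearGroup (Fin 2) F, (Cen (pj F g)).index = (Cen g).index := fun g => by
    rw [index_Cen_pj, comap_Cen_of_ne (Or.inl h0)]
  ext n
  simp only [Set.mem_range, Set.mem_insert_iff, Set.mem_singleton_iff]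
  constructor
  · rintro ⟨x, rfl⟩
    obtain ⟨g, rfl, ⟨-, h⟩ | ⟨a, b, h⟩ | ⟨a, -, h⟩ | ⟨h, -⟩⟩ := index_cases x
    · exact Or.inl h
    · exact Or.inr (Or.inr (Or.inl (h.trans (i1 g a b))))
    · rcases a.card_Cen with ⟨-, c⟩ | ⟨-, c⟩
      · exact Or.inr (Or.inr (Or.inr (h.trans (i2 g c))))
      · exact Or.inr (Or.inl (h.trans (i3 g c)))
    · exact absurd h0 h
  · rintro (rfl | rfl | rfl | rfl)
    · exact ⟨1, by rw [Subgroup.index_eq_one, eq_top_iff]; intro y _; simp [Subgroup.mem_centralizer_iff]⟩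
    · obtain ⟨g, -, h⟩ := exists_nonsplit' (F := F)
      exact ⟨_, (i4 g).trans (i3 g h)⟩
    · exact ⟨_, (i4 _).trans (i1 _ (fun h => one_ne_zero (isScal_uSL_iff.1 h)) (not_SS_uSL (1 : F)))⟩
    · obtain ⟨g, -, h⟩ := exists_split h4
      exact ⟨_, (i4 g).trans (i2 g h)⟩

end Cfsg.Agent.S2507
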