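import Cfsg.Statements.S2508
import Cfsg.Agent.H2.PSL2

set_option autoImplicit false
open Cfsg

namespace Cfsg.Agent.S2508

open Cfsg.Agent.H2 in
theorem aux {F : Type*} [Field F] [Finite F] (h0 : (2 : F) ≠ 0) (h7 : 7 ≤ Nat.card F) {c : ℕ}
    (hc : ∀ g : Matrix.SpecialLinearGroup (Fin 2) F, tr g = 0 → (NC g).index = c) (n : ℕ) :
    (∃ x : Matrix.ProjectiveSpecialLinearGroup (Fin 2) F, (Cen x).index = n) ↔
      n = 1 ∨ n = (Nat.card F ^ 2 - 1) / 2 ∨ n = c ∨ n = Nat.card F * (Nat.card F - 1) ∨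
        n = Nat.card F * (Nat.card F + 1) := by
  have ho := odd_card_of_two_ne_zero h0
  have i1 : ∀ g : Matrix.SpecialLinearGroup (Fin 2) F, ¬ Sc g → ¬ SS g →
      (Cen g).index = (Nat.card F ^ 2 - 1) / 2 := fun g a b => index_of_card (card_Cen_unip a b) (by
    have : 2 ∣ Nat.card F ^ 2 - 1 := by
      have : Nat.card F ^ 2 % 2 = 1 := by rw [Nat.pow_mod, ho]
      omega
    rw [card_center_of_ne h0, ← card_SL2', card_SL2, ← mul_assoc, Nat.div_mul_cancel this, mul_comm])
  have i2 : ∀ g : Matrix.SpecialLinearGroup (Fin 2) F, Nat.card (Cen g) = Nat.card F - 1 →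
      (Cen g).index = Nat.card F * (Nat.card F + 1) := fun g a => index_of_card a (by ring)
  have i3 : ∀ g : Matrix.SpecialLinearGroup (Fin 2) F, Nat.card (Cen g) = Nat.card F + 1 →
      (Cen g).index = Nat.card F * (Nat.card F - 1) := fun g a => index_of_card a rfl
  have i4 : ∀ g : Matrix.SpecialLinearGroup (Fin 2) F, tr g ≠ 0 → (Cen (pj F g)).index = (Cen g).index :=
    fun g h => by rw [index_Cen_pj, comap_Cen_of_ne (Or.inr h)]
  constructor
  · rintro ⟨x, rfl⟩
    obtain ⟨g, rfl, ⟨-, h⟩ | ⟨a, b, h⟩ | ⟨a, -, h⟩ | ⟨-, a, h⟩⟩ := index_cases x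
    · exact Or.inl h
    · exact Or.inr (Or.inl (h.trans (i1 g a b)))
    · rcases a.card_Cen with ⟨-, c⟩ | ⟨-, c⟩
      · exact Or.inr (Or.inr (Or.inr (Or.inr (h.trans (i2 g c)))))
      · exact Or.inr (Or.inr (Or.inr (Or.inl (h.trans (i3 g c)))))
    · exact Or.inr (Or.inr (Or.inl (h.trans (hc g a))))
  · rintro (rfl | rfl | rfl | rfl | rfl)
    · exact ⟨1, by rw [Subgroup.index_eq_one, eq_top_iff]; intro y _; simp [Subgroup.mem_centralizer_iff]⟩
    · exact ⟨_, (i4 _ (tr_ne_zero_of_unip h0 (not_SS_uSL (1 : F)))).trans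
        (i1 _ (fun h => one_ne_zero (isScal_uSL_iff.1 h)) (not_SS_uSL (1 : F)))⟩
    · have h1 : tr (compSL (0 : F)) = 0 := by simp [tr]
      exact ⟨_, by rw [index_Cen_pj, comap_Cen_of_eq h0 h1, hc _ h1]⟩
    · obtain ⟨g, a, h⟩ := exists_nonsplit' (F := F)
      obtain ⟨y, -, b, c⟩ := a.exists_tr_ne (by omega)
      exact ⟨_, (i4 y b).trans (i3 y (c.trans h))⟩
    · obtain ⟨g, a, h⟩ := exists_split (F := F) (by omega)
      obtain ⟨y, -, b, c⟩ := a.exists_tr_ne (by omega)
      exact ⟨_, (i4 y b).trans (i2 y (c.trans h))⟩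

/-- Let F be a finite field with q elements, q odd and q ≥ 7. If q ≡ 1 (mod 4) the conjugacy class sizes of PSL(2,F) are exactly 1, (q² − 1)/2, q(q + 1)/2, q(q − 1) and q(q + 1); if q ≡ 3 (mod 4) they are exactly 1, (q² − 1)/2, q(q − 1)/2, q(q + 1) and q(q − 1). -/
theorem result {F : Type*} [Field F] [Fintype F]
    (hodd : ¬ 2 ∣ Fintype.card F) (h7 : 7 ≤ Fintype.card F) :
    (Fintype.card F % 4 = 1 →
      Set.range (fun g : (Matrix.ProjectiveSpecialLinearGroup (Fin 2) F) => (Subgroup.centralizer ({g} : Set (Matrix.ProjectiveSpecialLinearGroup (Fin 2) F))).index) =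
        {1, (Fintype.card F ^ 2 - 1) / 2, Fintype.card F * (Fintype.card F + 1) / 2,
          Fintype.card F * (Fintype.card F - 1), Fintype.card F * (Fintype.card F + 1)}) ∧
    (Fintype.card F % 4 = 3 →
      Set.range (fun g : (Matrix.ProjectiveSpecialLinearGroup (Fin 2) F) => (Subgroup.centralizer ({g} : Set (Matrix.ProjectiveSpecialLinearGroup (Fin 2) F))).index) =
        {1, (Fintype.card F ^ 2 - 1) / 2, Fintype.card F * (Fintype.card F - 1) / 2,
          Fintype.card F * (Fintype.card F + 1), Fintype.card F * (Fintype.card F - 1)}) := by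
  open Cfsg.Agent.H2 in
  rw [← Nat.card_eq_fintype_card] at hodd h7 ⊢
  have h0 : (2 : F) ≠ 0 := fun h => hodd (Nat.dvd_of_mod_eq_zero (even_card_of_two_eq_zero h))
  constructor
  · intro h
    ext n
    simp only [Set.mem_range, Set.mem_insert_iff, Set.mem_singleton_iff]
    refine aux h0 h7 (fun g hg => ?_) n
    have h4 := four_dvd_card_Cen h0 hg
    have hS := SS_of_tr_zero h0 hg
    have h5 := (hS.card_Cen.resolve_right fun h' => by have := h'.2; omega).2
    refine index_of_card (hS.card_NC.trans (by rw [h5])) ?_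
    rw [← mul_assoc, Nat.div_mul_cancel (Dvd.dvd.mul_left (by omega) _)]; ring
  · intro h
    ext n
    simp only [Set.mem_range, Set.mem_insert_iff, Set.mem_singleton_iff]
    refine (aux h0 h7 (c := Nat.card F * (Nat.card F - 1) / 2) (fun g hg => ?_) n).trans (by tauto)
    have h4 := four_dvd_card_Cen h0 hg
    have hS := SS_of_tr_zero h0 hg
    have h5 := (hS.card_Cen.resolve_left fun h' => by have := h'.2; omega).2
    refine index_of_card (hS.card_NC.trans (by rw [h5])) ?_
    rw [← mul_assoc, Nat.div_mul_cancel (Dvd.dvd.mul_left (by omega) _)]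

end Cfsg.Agent.S2508
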