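import Cfsg.Statements.S2509
import Cfsg.Agent.H3.PrH
import Cfsg.Agent.H2.SL2Conj

set_option autoImplicit false
open Cfsg

namespace Cfsg.Agent.S2509

/-- Let G be a finite direct product of groups PSp_{2m_i}(F_i) (the symplectic group on a 2m_i-dimensional space modulo its centre), where each m_i is a power of 2 (m_i = 1, giving PSL₂, is allowed), each F_i is a finite field of odd order, and each factor PSp_{2m_i}(F_i) is a simple group. Then every subgroup H of G of odd index is pronormal in G: for every g ∈ G the subgroups H and gHg⁻¹ are conjugate by an element of the subgroup they generate. -/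
theorem result {t : ℕ}
    (m : Fin t → ℕ) (F : Fin t → Type*) [∀ i, Field (F i)] [∀ i, Fintype (F i)]
    (hm : ∀ i, ∃ k : ℕ, m i = 2 ^ k) (hodd : ∀ i, Odd (Fintype.card (F i)))
    (hs : ∀ i, IsSimpleGroup (Cfsg.PSp (m i) (F i)))
    (H : Subgroup (Π i, Cfsg.PSp (m i) (F i))) (hH : Odd H.index) : Cfsg.IsPronormal H := by
  haveI := fun i => (⟨H2.two_ne_zero_of_odd (hodd i)⟩ : NeZero (2 : F i))
  choose k hk using hm
  choose P hP using fun i => H3.Pr.exists_sp_fin (hodd i) (hk i)
  let φ := fun i => (QuotientGroup.mk' (Subgroup.center (Matrix.symplecticGroup (Fin (m i)) (F i)))).comp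
    (H3.Pr.exists_iso (I := Fin (m i)) (F := F i)).some.toMonoidHom
  have hφ : ∀ i, Function.Surjective (φ i) := fun i =>
    (QuotientGroup.mk'_surjective _).comp (MulEquiv.surjective _)
  exact H5.OddPron.of_surj (f := MonoidHom.pi fun i => (φ i).comp (Pi.evalMonoidHom _ i))
    (fun y => ⟨fun i => Function.surjInv (hφ i) (y i), funext fun i => Function.surjInv_eq (hφ i) _⟩)
    (H3.Pr.oddPron_pi P hP) H hH

end Cfsg.Agent.S2509
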