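import Cfsg.Statements.S2511
import Cfsg.Agent.H5.Spec

set_option autoImplicit false
open Cfsg

namespace Cfsg.Agent.S2511

open Cfsg.Agent.H5 Function

theorem prod_map_const_mul {K : Type*} [CommMonoid K] (c : K) (M : Multiset K) :
    (M.map (c * ·)).prod = c ^ M.card * M.prod := by
  induction M using Multiset.induction_on with
  | empty => simp
  | cons a M ih => simp [ih, pow_succ, mul_comm, mul_left_comm, mul_assoc]


/-- Let F be a finite field with q² elements, q = p^a, n ≥ 3 with (n, q) ≠ (3, 2), L = PSU(n, q) realised over F, and let r be a prime dividing q + 1 and not dividing n. Then for every m the direct product L × L × L × (ℤ/r)^m has the same set of element orders as L × L × L; and if n − 1 is not a power of p, then already L × L × (ℤ/r)^m has the same set of element orders as L × L. -/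
theorem result {F : Type*} [Field F] [Fintype F] (p a n q r m : ℕ) (hp : p.Prime) (ha : 1 ≤ a) (hq : q = p ^ a) (hF : Fintype.card F = q ^ 2)
    (hn : 3 ≤ n) (hn3 : ¬ (n = 3 ∧ q = 2)) (hr : r.Prime) (hrq : r ∣ q + 1) (hrn : ¬ r ∣ n) :
    Set.range (orderOf : Cfsg.PSU n F q × Cfsg.PSU n F q × Cfsg.PSU n F q × Multiplicative (Fin m → ZMod r) → ℕ) = Set.range (orderOf : Cfsg.PSU n F q × Cfsg.PSU n F q × Cfsg.PSU n F q → ℕ) ∧
    ((¬ ∃ j : ℕ, n - 1 = p ^ j) →
      Set.range (orderOf : Cfsg.PSU n F q × Cfsg.PSU n F q × Multiplicative (Fin m → ZMod r) → ℕ) = Set.range (orderOf : Cfsg.PSU n F q × Cfsg.PSU n F q → ℕ)) := by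
  classical
  have h := uf_frob hF
  obtain ⟨K, _, _, _⟩ := exists_algClosed F
  have := Fact.mk hp
  have : CharP F p := by
    obtain ⟨hp', k, hk, hk'⟩ := exists_char_pow hF (ringChar F)
    have : ringChar F = p := (Nat.prime_dvd_prime_iff_eq hp' hp).1
      (hp'.dvd_of_dvd_pow (by rw [← hq, hk']; exact dvd_pow_self _ hk.ne'))
    exact this ▸ inferInstance
  have : CharP K p := charP_ext K p F
  have hpq := h.char_dvd p
  have hτ := h.tauU_injective K
  have hp1 : ¬ p ∣ q + 1 := fun h' => hp.one_lt.ne' (Nat.dvd_one.1 ((Nat.dvd_add_right hpq).1 h'))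
  obtain ⟨ζ, hζ⟩ := exists_prim_root K p (m := r) fun h' => hp1 (h'.trans hrq)
  have hζ0 : ζ ≠ 0 := hζ.ne_zero hr.ne_zero
  have hζ1 : tauU q ζ = ζ := (tauU_eq_iff hζ0).2 ((hζ.pow_eq_one_iff_dvd _).2 hrq)
  have hinv : ∀ x : K, tauU q x⁻¹ = (tauU q x)⁻¹ := fun x => by simp [tauU]
  have hone : tauU q (1 : K) = 1 := by simp [tauU]
  have hrn' : ∀ i, ζ ^ (n * i) = 1 → r ∣ i := fun i hi =>
    ((hr.coprime_iff_not_dvd.2 hrn).dvd_mul_left).1 ((hζ.pow_eq_one_iff_dvd _).1 hi)
  -- the torus element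
  set s : ℤ := ∑ k ∈ Finset.range n, (-(q : ℤ)) ^ k with hs
  have hs1 : s * (-(q : ℤ) - 1) = (-(q : ℤ)) ^ n - 1 := geom_sum_mul _ _
  have hps : ¬ p ∣ s.natAbs := by
    intro h'
    have h1 : (p : ℤ) ∣ (-(q : ℤ)) ^ n - 1 := hs1 ▸ (Int.natCast_dvd.2 h').mul_right _
    have h2 : (p : ℤ) ∣ (-(q : ℤ)) ^ n :=
      ((Int.natCast_dvd_natCast.2 hpq).neg_right).trans (dvd_pow_self _ (by omega))
    have := (dvd_sub_right h2).1 h1
    exact hp.one_lt.ne' (Nat.dvd_one.1 (Int.natCast_dvd_natCast.1 this))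
  obtain ⟨l, hl⟩ := exists_prim_root K p hps
  have hs0 : s.natAbs ≠ 0 := fun h0 => hps (h0 ▸ dvd_zero p)
  have hl0 : l ≠ 0 := hl.ne_zero hs0
  have hls : l ^ s = 1 := by
    rw [hl.zpow_eq_one_iff_dvd, Int.natAbs_dvd]
  obtain ⟨N, hN⟩ := h.psu_ord K p (M := orb (tauU q) l n) (orb_stable (by
      rw [tauU_iterate, show (-(q : ℤ)) ^ n = s * (-(q : ℤ) - 1) + 1 by rw [hs1]; ring,
        zpow_add₀ hl0, zpow_mul, hls]; simp)) (by rw [prod_orb_tauU q hl0, hls]) (card_orb _ _)
  have hN' : s.natAbs ∣ (q + 1) * orderOf N := by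
    have := ((hN _).2 dvd_rfl).1 l (self_mem_orb l (by omega)) (tauU q l)
      (mem_orb.2 ⟨1, by omega, rfl⟩)
    rwa [← tauU_pow, eq_comm, tauU_eq_iff (pow_ne_zero _ hl0), ← pow_mul, mul_comm,
      hl.pow_eq_one_iff_dvd] at this
  have key : ∀ P : Cfsg.PSU n F q, p ^ Nat.clog p n ∣ orderOf P → ∀ g : Cfsg.PSU n F q,
      (∃ g' : Cfsg.PSU n F q, orderOf g ∣ orderOf g' ∧ r ∣ orderOf g') ∨
      orderOf g ∣ Nat.lcm (orderOf N) (orderOf P) := by
    intro P hP g
    by_cases hrg : r ∣ orderOf g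
    · exact Or.inl ⟨g, dvd_rfl, hrg⟩
    obtain ⟨M, hM, hM1, hMc, hMd, hMe⟩ := h.psu_ev K p g
    have h0 : ∀ x ∈ M, x ≠ 0 := fun x hx h0 => by
      rw [h0] at hx; simp [Multiset.prod_eq_zero hx] at hM1
    obtain ⟨x, hx⟩ := Multiset.exists_mem_of_ne_zero (s := M) (by rintro rfl; simp at hMc; omega)
    obtain ⟨M2, hM2, hM2s, hM2d⟩ := exists_split hτ hM x
    set M1 := M.count x • orb (tauU q) x (minimalPeriod (tauU q) x) with hM1def
    have hmem : ∀ y ∈ M1, ∃ k, (tauU q)^[k] x = y := fun y hy => by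
      obtain ⟨k, -, hk⟩ := mem_orb.1 (Multiset.mem_of_mem_nsmul hy)
      exact ⟨k, hk⟩
    by_cases hz : M2 = 0
    · right
      rw [hz, add_zero] at hM2
      have hMo : M = orb (tauU q) x n := by
        rw [← hMc]
        conv_rhs => rw [hM2, hM1def, Multiset.card_nsmul, card_orb, mul_comm, orb_mul iterate_minimalPeriod]
        exact hM2
      have hxs : x ^ s = 1 := by rw [← hM1, hMo, prod_orb_tauU q (h0 x hx)]
      have hxs' : x ^ s.natAbs = 1 := by
        rw [← zpow_natCast, Int.natCast_natAbs, abs_eq_max_neg]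
        rcases max_choice s (-s) with h' | h' <;> rw [h'] <;> simp [hxs]
      apply hMd
      have hxi : x ^ ((q + 1) * Nat.lcm (orderOf N) (orderOf P)) = 1 := by
        obtain ⟨c, hc⟩ := hN'.trans (Nat.mul_dvd_mul_left _ (Nat.dvd_lcm_left _ (orderOf P)))
        rw [hc, pow_mul, hxs', one_pow]
      refine ⟨fun y hy z hz => ?_, fun y a ha => ?_⟩
      · rw [hMo] at hy hz
        rw [pow_eq_of_mem_orb (h0 x hx) hxi hy, pow_eq_of_mem_orb (h0 x hx) hxi hz]
      · exact ((pow_succ_dvd_of_lt hp.one_lt (ha.trans_le ((Multiset.count_le_card _ _).trans_eq hMc))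
          (Nat.le_pow_clog hp.one_lt n)).trans hP).trans (Nat.dvd_lcm_right _ _)
    · left
      have hM1s : M1.map (tauU q) = M1 := by
        rw [hM1def, Multiset.map_nsmul, orb_stable iterate_minimalPeriod]
      have hx1 : x ∈ M1 := by
        have := hM2 ▸ hx
        exact (Multiset.mem_add.1 this).resolve_right (hM2d hx 0)
      obtain ⟨y, hy⟩ := Multiset.exists_mem_of_ne_zero hz
      have hc : M1.card + M2.card = n := by rw [← hMc, hM2]; simp
      obtain ⟨g', hg'⟩ := h.psu_ord K p (n := n)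
        (M := M1.map (ζ ^ M2.card * ·) + M2.map ((ζ ^ M1.card)⁻¹ * ·))
        (by rw [Multiset.map_add, stable_map_mul hM1s (by rw [tauU_pow, hζ1]),
          stable_map_mul hM2s (by rw [hinv, tauU_pow, hζ1])])
        (by
          rw [hM2, Multiset.prod_add] at hM1
          rw [Multiset.prod_add, prod_map_const_mul, prod_map_const_mul, inv_pow, ← pow_mul, ← pow_mul,
            mul_mul_mul_comm, hM1, mul_comm M1.card, mul_inv_cancel₀ (pow_ne_zero _ hζ0), one_mul])
        (by simpa using hc)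
      obtain ⟨hd1, hd2⟩ := (hg' _).2 dvd_rfl
      set i := orderOf g'
      have ha : ∀ k : ℕ, (ζ ^ k) ^ (r * i) = 1 := fun k => by
        rw [← pow_mul, mul_comm k, mul_assoc, pow_mul, hζ.pow_eq_one, one_pow]
      have hlift : ∀ y ∈ M, ∃ z ∈ M1.map (ζ ^ M2.card * ·) + M2.map ((ζ ^ M1.card)⁻¹ * ·),
          z ^ (r * i) = y ^ (r * i) ∧ M.count y ≤
            (M1.map (ζ ^ M2.card * ·) + M2.map ((ζ ^ M1.card)⁻¹ * ·)).count z := by
        intro y hy
        by_cases hy1 : y ∈ M1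
        · refine ⟨ζ ^ M2.card * y, Multiset.mem_add.2 (Or.inl (Multiset.mem_map_of_mem _ hy1)),
            by rw [mul_pow, ha, one_mul], ?_⟩
          obtain ⟨k, rfl⟩ := hmem y hy1
          rw [Multiset.count_add, Multiset.count_map_eq_count' _ _
            (mul_right_injective₀ (pow_ne_zero _ hζ0))]
          conv_lhs => rw [hM2, Multiset.count_add, Multiset.count_eq_zero_of_notMem (hM2d hx k)]
          omega
        · have hy2 : y ∈ M2 := (Multiset.mem_add.1 (hM2 ▸ hy)).resolve_left hy1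
          refine ⟨(ζ ^ M1.card)⁻¹ * y, Multiset.mem_add.2 (Or.inr (Multiset.mem_map_of_mem _ hy2)),
            by rw [mul_pow, inv_pow, ha, inv_one, one_mul], ?_⟩
          rw [Multiset.count_add, Multiset.count_map_eq_count' _ M2
            (mul_right_injective₀ (inv_ne_zero (pow_ne_zero _ hζ0)))]
          conv_lhs => rw [hM2, Multiset.count_add, Multiset.count_eq_zero_of_notMem hy1]
          omega
      have hgi : orderOf g ∣ i := by
        refine ((hr.coprime_iff_not_dvd.2 hrg).symm.dvd_mul_left).1 (hMd _ ⟨fun y hy z hz => ?_,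
          fun y a ha => ?_⟩)
        · obtain ⟨y', hy', e1, -⟩ := hlift y hy
          obtain ⟨z', hz', e2, -⟩ := hlift z hz
          rw [← e1, ← e2, mul_comm, pow_mul, pow_mul, hd1 y' hy' z' hz']
        · obtain ⟨y', hy', -, e1⟩ := hlift y (Multiset.count_pos.1 (lt_of_le_of_lt (Nat.zero_le _) ha))
          exact (hd2 y' a (ha.trans_le e1)).mul_left r
      refine ⟨g', hgi, hrn' i ?_⟩
      have hy' : y ∈ M := hM2 ▸ Multiset.mem_add.2 (Or.inr hy)
      have e1 : x ^ i = y ^ i := by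
        obtain ⟨c, hc⟩ := hgi
        rw [hc, pow_mul, pow_mul, hMe x hx y hy']
      have e2 := hd1 _ (Multiset.mem_add.2 (Or.inl (Multiset.mem_map_of_mem _ hx1))) _
        (Multiset.mem_add.2 (Or.inr (Multiset.mem_map_of_mem _ hy)))
      simp only [mul_pow, e1] at e2
      have e3 := mul_right_cancel₀ (pow_ne_zero _ (h0 y hy')) e2
      rw [← hc, pow_mul, pow_add, mul_pow, e3, inv_pow, mul_inv_cancel₀ (by positivity)]
  have ht : Nat.clog p n = (Nat.clog p n - 1) + 1 :=
    (Nat.sub_add_cancel (Nat.clog_pos hp.one_lt (by omega))).symm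
  have ht' : p ^ (Nat.clog p n - 1) < n := Nat.pow_pred_clog_lt_self hp.one_lt (by omega)
  refine ⟨?_, fun hne => ?_⟩
  · obtain ⟨P, hP⟩ := h.psu_ord K p (n := n) (M := Multiset.replicate n 1) (by simp [hone]) (by simp)
      (by simp)
    obtain ⟨R, hR⟩ := h.psu_ord K p (n := n) (M := {ζ, ζ⁻¹} + Multiset.replicate (n - 2) 1)
      (by simp [hone, hinv, hζ1]) (by simp [hζ0]) (by simp; omega)
    refine range_orderOf_cube (orderOf_elemAb_dvd m r) N P R ?_ (key P ?_)
    · rw [← hζ.pow_eq_one_iff_dvd, ((hR _).2 dvd_rfl).1 ζ (by simp) 1 (by simp [Multiset.mem_replicate]; omega), one_pow]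
    · rw [ht]
      exact ((hP _).2 dvd_rfl).2 1 _ (by simpa using ht')
  · obtain ⟨P, hP⟩ := h.psu_ord K p (n := n)
      (M := (ζ ^ (n - 1))⁻¹ ::ₘ Multiset.replicate (n - 1) ζ)
      (by simp [hinv, hζ1, tauU_pow]) (by simp [hζ0]) (by simp; omega)
    refine range_orderOf_sq (orderOf_elemAb_dvd m r) N P (hrn' _ ?_) (key P ?_)
    · have := ((hP _).2 dvd_rfl).1 ζ (by simp [Multiset.mem_replicate]; omega) (ζ ^ (n - 1))⁻¹ (by simp)
      rw [pow_mul, show ζ ^ n = ζ ^ (n - 1) * ζ by rw [← pow_succ, Nat.sub_add_cancel (by omega)],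
        mul_pow, this, inv_pow,
        mul_inv_cancel₀ (by positivity)]
    · rw [ht]
      refine ((hP _).2 dvd_rfl).2 ζ _ ?_
      have : n - 1 ≠ p ^ (Nat.clog p n - 1) := fun h' => hne ⟨_, h'⟩
      simp [Multiset.count_cons]
      omega

end Cfsg.Agent.S2511
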