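import Cfsg.Statements.S2512
import Cfsg.Agent.H5.SpSpec

set_option autoImplicit false
open Cfsg

namespace Cfsg.Agent.S2512

open Cfsg.Agent.H5 Function


/-- Let F be a finite field of odd order q = p^a, n ≥ 2 (with q ≥ 3 automatic), and L = PSp(2n, F). Then for every m the direct product L × L × L × (ℤ/2)^m has the same set of element orders as L × L × L; and if 2n − 1 is not a power of p, then already L × L × (ℤ/2)^m has the same set of element orders as L × L. -/
theorem result {F : Type*} [Field F] [Fintype F] (p a n m : ℕ) (hp : p.Prime) (ha : 1 ≤ a) (hF : Fintype.card F = p ^ a) (hodd : Odd (Fintype.card F))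
    (hn : 2 ≤ n) :
    Set.range (orderOf : Cfsg.PSp n F × Cfsg.PSp n F × Cfsg.PSp n F × Multiplicative (Fin m → ZMod 2) → ℕ) = Set.range (orderOf : Cfsg.PSp n F × Cfsg.PSp n F × Cfsg.PSp n F → ℕ) ∧
    ((¬ ∃ j : ℕ, 2 * n - 1 = p ^ j) →
      Set.range (orderOf : Cfsg.PSp n F × Cfsg.PSp n F × Multiplicative (Fin m → ZMod 2) → ℕ) = Set.range (orderOf : Cfsg.PSp n F × Cfsg.PSp n F → ℕ)) := by
  classical
  obtain ⟨K, _, _, _⟩ := exists_algClosed F
  have := Fact.mk hp
  have : CharP F p := by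
    obtain ⟨k, hp', hk⟩ := FiniteField.card F (ringChar F)
    have : ringChar F = p := (Nat.prime_dvd_prime_iff_eq hp' hp).1
      (hp'.dvd_of_dvd_pow (by rw [← hF, hk]; exact dvd_pow_self _ k.ne_zero))
    exact this ▸ inferInstance
  have : CharP K p := charP_ext K p F
  set q := Fintype.card F with hq
  have hpq : p ∣ q := hF ▸ dvd_pow_self p (by omega)
  have hpo : Odd p := hodd.of_dvd_nat hpq
  have hφ : Injective (phi q : K → K) := phi_injective F
  have hneg : ∀ i, (-1 : K) ^ i = 1 → 2 ∣ i := fun i hi => by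
    by_contra h2
    rw [(Nat.odd_iff.2 (by omega) : Odd i).neg_one_pow] at hi
    have : ((2 : ℕ) : K) = 0 := by push_cast; linear_combination -hi
    have := (Nat.prime_dvd_prime_iff_eq hp Nat.prime_two).1 ((CharP.cast_eq_zero_iff K p 2).1 this)
    rw [this] at hpo
    exact absurd hpo (by decide)
  have hnegφ : ∀ {M : Multiset K}, M.map (phi q) = M →
      (M.map (-1 * ·)).map (phi q) = M.map (-1 * ·) := fun {M} hM => by
    conv_rhs => rw [← hM]
    simp [Multiset.map_map, Function.comp_def, phi, hodd.neg_pow]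
  have hnegi : ∀ {M : Multiset K}, M.map (·⁻¹) = M →
      (M.map (-1 * ·)).map (·⁻¹) = M.map (-1 * ·) := fun {M} hM => by
    conv_rhs => rw [← hM]
    simp [Multiset.map_map, inv_neg]
  have hinj : Injective (fun x : K => -1 * x) := mul_right_injective₀ (by simp)
  have hq1 : 1 ≤ q ^ n := Nat.one_le_pow _ _ Fintype.card_pos
  have hpn : p ∣ q ^ n := hpq.trans (dvd_pow_self _ (by omega))
  have htor : ∀ e, (e + 1 = q ^ n ∨ e = q ^ n + 1) → ∃ g : Cfsg.PSp n F, e ∣ 2 * orderOf g := by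
    intro e he
    have hpe : ¬ p ∣ e := fun h' => hp.one_lt.ne' (Nat.dvd_one.1 (by
      rcases he with he | he
      · exact (Nat.dvd_add_right h').1 (he ▸ hpn)
      · exact (Nat.dvd_add_right hpn).1 (he ▸ h')))
    obtain ⟨l, hl⟩ := exists_prim_root K p hpe
    have hl0 : l ≠ 0 := hl.ne_zero (by rintro rfl; exact hpe (dvd_zero p))
    obtain ⟨g, hg⟩ := psp_ord K p (F := F) (n := n) (M := sorb q l n) (sorb_stable (by
      rcases he with he | he
      · left; rw [← he, pow_succ, hl.pow_eq_one, one_mul]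
      · right; exact eq_inv_of_mul_eq_one_left (by rw [← pow_succ, ← he, hl.pow_eq_one])))
      (sorb_inv _ _ _) (sorb_prod _ hl0 _) (card_sorb _ _ _)
    refine ⟨g, ?_⟩
    have := ((hg _).2 dvd_rfl).1 l (self_mem_sorb _ _ (by omega)) l⁻¹ (inv_mem_sorb _ _ (by omega))
    rw [← hl.pow_eq_one_iff_dvd, two_mul, pow_add]
    nth_rewrite 1 [this]
    rw [inv_pow, inv_mul_cancel₀ (pow_ne_zero _ hl0)]
  obtain ⟨T1, hT1⟩ := htor (q ^ n - 1) (Or.inl (by omega))
  obtain ⟨T2, hT2⟩ := htor (q ^ n + 1) (Or.inr rfl)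
  obtain ⟨N, hN⟩ : ∃ N : Cfsg.PSp n F, ∀ x : K, x ≠ 0 → (x ^ q ^ n = x ∨ x ^ q ^ n = x⁻¹) →
      x ^ (2 * orderOf N) = 1 ∨ ∃ T : Cfsg.PSp n F, x ^ (2 * orderOf T) = 1 ∧ 2 ∣ orderOf T := by
    have h1 : ∀ x : K, x ≠ 0 → x ^ q ^ n = x → x ^ (2 * orderOf T1) = 1 := fun x hx h => by
      obtain ⟨c, hc⟩ := hT1
      rw [hc, pow_mul, pow_sub₀ _ hx hq1, h]; simp [hx]
    have h2 : ∀ x : K, x ≠ 0 → x ^ q ^ n = x⁻¹ → x ^ (2 * orderOf T2) = 1 := fun x hx h => by
      obtain ⟨c, hc⟩ := hT2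
      rw [hc, pow_mul, pow_succ, h]; simp [hx]
    obtain ⟨c, hc⟩ := hodd.pow (n := n)
    rcases Nat.even_or_odd c with ⟨b, hb⟩ | ⟨b, hb⟩
    · have : 2 ∣ orderOf T1 := Nat.dvd_of_mul_dvd_mul_left two_pos
        ((Dvd.intro b (by omega)).trans hT1)
      exact ⟨T2, fun x hx h => h.elim (fun h => Or.inr ⟨T1, h1 x hx h, this⟩)
        fun h => Or.inl (h2 x hx h)⟩
    · have : 2 ∣ orderOf T2 := Nat.dvd_of_mul_dvd_mul_left two_pos
        ((Dvd.intro (b + 1) (by omega)).trans hT2)
      exact ⟨T1, fun x hx h => h.elim (fun h => Or.inl (h1 x hx h))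
        fun h => Or.inr ⟨T2, h2 x hx h, this⟩⟩
  have key : ∀ P : Cfsg.PSp n F, p ^ Nat.clog p (2 * n) ∣ orderOf P → ∀ g : Cfsg.PSp n F,
      (∃ g' : Cfsg.PSp n F, orderOf g ∣ orderOf g' ∧ 2 ∣ orderOf g') ∨
      orderOf g ∣ Nat.lcm (orderOf N) (orderOf P) := by
    intro P hP g
    by_cases hrg : 2 ∣ orderOf g
    · exact Or.inl ⟨g, dvd_rfl, hrg⟩
    have hko : Odd (orderOf g) := Nat.odd_iff.2 (by omega)
    obtain ⟨M, hM, hMi, hM1, hMc, hMd, hMe⟩ : ∃ M : Multiset K, M.map (phi q) = M ∧ M.map (·⁻¹) = M ∧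
        M.prod = 1 ∧ M.card = 2 * n ∧ (∀ i, Div p M i → orderOf g ∣ i) ∧
        ∀ x ∈ M, x ^ orderOf g = 1 := by
      obtain ⟨M, hM, hMi, hM1, hMc, hMd, hMe⟩ := psp_ev K p g
      obtain ⟨x, hx⟩ := Multiset.exists_mem_of_ne_zero (s := M) (by rintro rfl; simp at hMc; omega)
      have hx0 : x ≠ 0 := fun h0 => by rw [h0] at hx; simp [Multiset.prod_eq_zero hx] at hM1
      have h1 := hMe x hx x⁻¹ (mem_of_stable hMi hx)
      have h2 : x ^ orderOf g * x ^ orderOf g = 1 := by
        nth_rewrite 1 [h1]; rw [inv_pow, inv_mul_cancel₀ (pow_ne_zero _ hx0)]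
      rcases mul_self_eq_one_iff.1 h2 with h3 | h3
      · exact ⟨M, hM, hMi, hM1, hMc, hMd, fun y hy => by rw [hMe y hy x hx, h3]⟩
      · refine ⟨M.map (-1 * ·), hnegφ hM, hnegi hMi, by rw [prod_map_const_mul, hM1, hMc]; simp,
          by simpa using hMc, fun i hi => hMd i ⟨fun y hy z hz => ?_, fun y a ha => ?_⟩, fun y hy => ?_⟩
        · have := hi.1 _ (Multiset.mem_map_of_mem _ hy) _ (Multiset.mem_map_of_mem _ hz)
          simp only [mul_pow] at this
          exact mul_left_cancel₀ (pow_ne_zero _ (by simp)) this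
        · exact hi.2 (-1 * y) a (by rwa [Multiset.count_map_eq_count' _ _ hinj])
        · obtain ⟨y, hy', rfl⟩ := Multiset.mem_map.1 hy
          rw [mul_pow, hMe y hy' x hx, h3, hko.neg_one_pow]; simp
    have h0 : ∀ x ∈ M, x ≠ 0 := fun x hx h0 => by
      rw [h0] at hx; simp [Multiset.prod_eq_zero hx] at hM1
    have heven : ∀ x ∈ M, ∀ y ∈ M, ∀ i, (-1 * x) ^ i = y ^ i → 2 ∣ i := fun x hx y hy i hi => by
      have := congrArg (· ^ orderOf g) hi
      simp only [← pow_mul, mul_comm i] at this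
      simp only [pow_mul, mul_pow, hMe x hx, hMe y hy, one_pow, mul_one, hko.neg_one_pow] at this
      exact hneg i this
    by_cases hall : ∀ x ∈ M, x = 1
    · right
      refine hMd _ ⟨fun y hy z hz => by rw [hall y hy, hall z hz], fun y a ha => ?_⟩
      exact ((pow_succ_dvd_of_lt hp.one_lt (ha.trans_le ((Multiset.count_le_card _ _).trans_eq hMc))
        (Nat.le_pow_clog hp.one_lt _)).trans hP).trans (Nat.dvd_lcm_right _ _)
    push Not at hall
    obtain ⟨x, hx, hx1⟩ := hall
    have hxi : x⁻¹ ≠ x := fun h' => by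
      have h4 : x * x = 1 := by nth_rewrite 1 [← h']; exact inv_mul_cancel₀ (h0 x hx)
      rcases mul_self_eq_one_iff.1 h4 with h5 | h5
      · exact hx1 h5
      · exact hrg (hneg _ (h5 ▸ hMe x hx))
    obtain ⟨d, hd0, hd1, hd2, hd3, -⟩ := exists_sorb hφ (periodic_of_stable hφ hM hx) hxi
    obtain ⟨M2, hM2, hM2s, hM2i, hM2d⟩ := exists_ssplit hφ hM hMi hx hd2 hd3
    have hc0 := Multiset.count_pos.2 hx
    set c := M.count x with hc
    have hcard : c * (2 * d) + M2.card = 2 * n := by rw [← hMc, hM2]; simp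
    by_cases hz : M2 = 0
    · rw [hz, add_zero] at hM2
      rw [hz, Multiset.card_zero, add_zero] at hcard
      have hmem : ∀ y ∈ M, y ∈ sorb q x d := fun y hy => Multiset.mem_of_mem_nsmul (hM2 ▸ hy)
      have hcnt : ∀ y, M.count y ≤ c := fun y => by
        rw [hM2, Multiset.count_nsmul]
        exact mul_le_of_le_one_right (Nat.zero_le _) (Multiset.nodup_iff_count_le_one.1 hd2 y)
      by_cases hc1 : c = 1
      · have hdn : d = n := by rw [hc1] at hcard; omega
        have hdiv : ∀ i, x ^ (2 * i) = 1 → orderOf g ∣ i := fun i hi =>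
          hMd i ⟨fun y hy z hz => by
            rw [pow_eq_of_mem_sorb hodd hi (hmem y hy), pow_eq_of_mem_sorb hodd hi (hmem z hz)],
            fun y a ha => absurd (ha.trans_le ((hcnt y).trans_eq hc1))
              (not_lt.2 (Nat.one_le_pow _ _ hp.pos))⟩
        rcases hN x (h0 x hx) (hdn ▸ hd1) with h' | ⟨T, h', hT⟩
        · exact Or.inr ((hdiv _ h').trans (Nat.dvd_lcm_left _ _))
        · exact Or.inl ⟨T, hdiv _ h', hT⟩
      · left
        have hle : c + 2 * d ≤ 2 * n := by
          obtain ⟨c', hc'⟩ : ∃ c', c = c' + 2 := ⟨c - 2, by omega⟩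
          rw [← hcard, hc']; nlinarith
        obtain ⟨g', hg'⟩ := psp_ord K p (F := F) (n := n)
          (M := sorb q x d + Multiset.replicate (2 * (n - d)) (-1))
          (by
            change Multiset.map (phi q) _ = _
            rw [Multiset.map_add, sorb_stable hd1]; simp [phi, hodd.neg_one_pow])
          (by rw [Multiset.map_add, sorb_inv]; simp [inv_neg])
          (by rw [Multiset.prod_add, sorb_prod _ (h0 x hx)]; simp) (by simp; omega)
        obtain ⟨hd1, hd2⟩ := (hg' _).2 dvd_rfl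
        have hm1 : (-1 : K) ∈ sorb q x d + Multiset.replicate (2 * (n - d)) (-1) :=
          Multiset.mem_add.2 (Or.inr (Multiset.mem_replicate.2 ⟨by omega, rfl⟩))
        refine ⟨g', hMd _ ⟨fun y hy z hz => hd1 y (Multiset.mem_add.2 (Or.inl (hmem y hy))) z
          (Multiset.mem_add.2 (Or.inl (hmem z hz))), fun y a ha => hd2 (-1) a ?_⟩, ?_⟩
        · have := hcnt y
          rw [Multiset.count_add, Multiset.count_replicate_self]
          omega
        · have := congrArg (· ^ orderOf g) (hd1 _ hm1 x (Multiset.mem_add.2 (Or.inl (hmem x hx))))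
          simp only [← pow_mul, mul_comm (orderOf g')] at this
          simp only [pow_mul, hMe x hx, one_pow, hko.neg_one_pow] at this
          exact hneg _ this
    · left
      obtain ⟨y, hy⟩ := Multiset.exists_mem_of_ne_zero hz
      have hy' : y ∈ M := hM2 ▸ Multiset.mem_add.2 (Or.inr hy)
      set M1 := c • sorb q x d with hM1def
      have hx1 : x ∈ M1 := (Multiset.mem_nsmul_of_ne_zero hc0.ne').2 (self_mem_sorb _ _ hd0)
      obtain ⟨g', hg'⟩ := psp_ord K p (F := F) (n := n) (M := M1.map (-1 * ·) + M2)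
        (by
          change Multiset.map (phi q) _ = _
          rw [Multiset.map_add, hM2s, hnegφ (by rw [hM1def, Multiset.map_nsmul, sorb_stable hd1])])
        (by rw [Multiset.map_add, hM2i, hnegi (by rw [hM1def, Multiset.map_nsmul, sorb_inv])])
        (by
          rw [hM2, Multiset.prod_add] at hM1
          rw [Multiset.prod_add, prod_map_const_mul, mul_assoc, hM1, hM1def]
          simp [mul_left_comm c 2, pow_mul])
        (by simpa [hM1def] using hcard)
      obtain ⟨hd1, hd2⟩ := (hg' _).2 dvd_rfl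
      have h2 : 2 ∣ orderOf g' := heven x hx y hy' _
        (hd1 _ (Multiset.mem_add.2 (Or.inl (Multiset.mem_map_of_mem _ hx1))) _
          (Multiset.mem_add.2 (Or.inr hy)))
      have hlift : ∀ y ∈ M, ∃ z ∈ M1.map (-1 * ·) + M2,
          z ^ orderOf g' = y ^ orderOf g' ∧ M.count y ≤ (M1.map (-1 * ·) + M2).count z := by
        intro y hy
        by_cases hy1 : y ∈ M1
        · refine ⟨-1 * y, Multiset.mem_add.2 (Or.inl (Multiset.mem_map_of_mem _ hy1)),
            by rw [mul_pow, (even_iff_two_dvd.2 h2).neg_one_pow, one_mul], ?_⟩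
          rw [Multiset.count_add, Multiset.count_map_eq_count' _ _ hinj]
          conv_lhs => rw [hM2, Multiset.count_add, Multiset.count_eq_zero_of_notMem
            (fun h => hM2d y h ((hd3 y).1 (Multiset.mem_of_mem_nsmul hy1)))]
          omega
        · have hy2 : y ∈ M2 := (Multiset.mem_add.1 (hM2 ▸ hy)).resolve_left hy1
          refine ⟨y, Multiset.mem_add.2 (Or.inr hy2), rfl, ?_⟩
          rw [Multiset.count_add]
          conv_lhs => rw [hM2, Multiset.count_add, Multiset.count_eq_zero_of_notMem hy1]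
          omega
      refine ⟨g', hMd _ ⟨fun y hy z hz => ?_, fun y a ha => ?_⟩, h2⟩
      · obtain ⟨y', hy', e1, -⟩ := hlift y hy
        obtain ⟨z', hz', e2, -⟩ := hlift z hz
        rw [← e1, ← e2, hd1 y' hy' z' hz']
      · obtain ⟨y', hy', -, e1⟩ := hlift y (Multiset.count_pos.1 (lt_of_le_of_lt (Nat.zero_le _) ha))
        exact hd2 y' a (ha.trans_le e1)
  have ht : Nat.clog p (2 * n) = (Nat.clog p (2 * n) - 1) + 1 :=
    (Nat.sub_add_cancel (Nat.clog_pos hp.one_lt (by omega))).symm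
  have ht' : p ^ (Nat.clog p (2 * n) - 1) < 2 * n := Nat.pow_pred_clog_lt_self hp.one_lt (by omega)
  obtain ⟨R, hR⟩ := psp_ord K p (F := F) (n := n) (M := {-1, -1} + Multiset.replicate (2 * n - 2) 1)
    (by simp [← hq, hodd.neg_one_pow]) (by simp [inv_neg]) (by simp) (by simp; omega)
  have hR2 : 2 ∣ orderOf R := hneg _ (by
    rw [((hR _).2 dvd_rfl).1 (-1) (by simp) 1 (by simp [Multiset.mem_replicate]; omega), one_pow])
  refine ⟨?_, fun hne => ?_⟩
  · obtain ⟨P, hP⟩ := psp_ord K p (F := F) (n := n) (M := Multiset.replicate (2 * n) 1) (by simp)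
      (by simp) (by simp) (by simp)
    refine range_orderOf_cube (orderOf_elemAb_dvd m 2) N P R hR2 (key P ?_)
    rw [ht]
    exact ((hP _).2 dvd_rfl).2 1 _ (by simpa using ht')
  · refine range_orderOf_sq (orderOf_elemAb_dvd m 2) N R hR2 (key R ?_)
    rw [ht]
    refine ((hR _).2 dvd_rfl).2 1 _ ?_
    have : 2 * n - 1 ≠ p ^ (Nat.clog p (2 * n) - 1) := fun h' => hne ⟨_, h'⟩
    obtain ⟨c, hc⟩ := hpo.pow (n := Nat.clog p (2 * n) - 1)
    rw [Multiset.count_add, Multiset.count_replicate_self]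
    omega

end Cfsg.Agent.S2512
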