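import Cfsg.Statements.S2513
import Cfsg.Agent.H4.LSpec

set_option autoImplicit false
open Cfsg

namespace Cfsg.Agent.S2513

open Cfsg.Agent.H5 Cfsg.Agent.H4 Function

theorem aux {F : Type*} [Field F] [Fintype F] (hF : Fintype.card F = 2) (n k : ℕ) (hn : 2 ≤ n)
    (hk : (n + 3) / 2 ≤ k) :
    Set.range (orderOf : (Fin k → Matrix.ProjectiveSpecialLinearGroup (Fin n) F) → ℕ) =
      {d | d ∣ (Finset.Ioc (n / 2) n).lcm (fun m => 2 ^ m - 1) * 2 ^ Nat.clog 2 n} := by
  classical
  obtain ⟨K, _, _, _⟩ := exists_algClosed F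
  have : Fact (Nat.Prime 2) := ⟨Nat.prime_two⟩
  have : CharP F 2 := by
    obtain ⟨k, hp', hk⟩ := FiniteField.card F (ringChar F)
    have : ringChar F = 2 := (Nat.prime_dvd_prime_iff_eq hp' Nat.prime_two).1
      (by rw [← hF, hk]; exact dvd_pow_self _ k.ne_zero)
    exact this ▸ inferInstance
  have : CharP K 2 := charP_ext K 2 F
  have hτ := tauL_injective (F := F) K
  have hcard : n = Fintype.card (Fin n) := by simp
  set E := (Finset.Ioc (n / 2) n).lcm (fun m => 2 ^ m - 1) * 2 ^ Nat.clog 2 n with hE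
  have hall : ∀ g : Matrix.ProjectiveSpecialLinearGroup (Fin n) F, orderOf g ∣ E := by
    intro g
    obtain ⟨M, hM, hM1, hMc, hMd, -⟩ := psl_ev K 2 g
    rw [← hcard] at hMc
    have h0 : ∀ x ∈ M, x ≠ 0 := fun x hx h0 => by
      rw [h0] at hx; simp [Multiset.prod_eq_zero hx] at hM1
    have h1 : ∀ x ∈ M, x ^ E = 1 := by
      intro x hx
      have hd := count_mul_period_le hτ hM x
      have hpos := minimalPeriod_pos_of_mem_periodicPts (periodic_of_stable hτ hM hx)
      set d := minimalPeriod (tauL (Fintype.card F)) x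
      have hdn : d ≤ n := hMc ▸ (Nat.le_mul_of_pos_left _ (Multiset.count_pos.2 hx)).trans hd
      have h2 : x ^ (2 ^ (d * (n / d)) - 1) = 1 := by
        rw [← hF, ← tauL_minimalPeriod_dvd_iff Fintype.card_pos (h0 x hx)]
        exact dvd_mul_right _ _
      have h3 : d * (n / d) ∈ Finset.Ioc (n / 2) n := by
        have h4 := Nat.div_add_mod n d
        have h5 := Nat.mod_lt n hpos
        have h6 : d ≤ d * (n / d) := Nat.le_mul_of_pos_right _ (Nat.div_pos hdn hpos)
        rw [Finset.mem_Ioc]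
        omega
      obtain ⟨c, hc⟩ := (Finset.dvd_lcm (f := fun m => 2 ^ m - 1) h3).mul_right (2 ^ Nat.clog 2 n)
      rw [hE, hc, pow_mul, h2, one_pow]
    refine hMd E ⟨fun x hx y hy => by rw [h1 x hx, h1 y hy], fun y a ha => ?_⟩
    exact (pow_succ_dvd_of_lt one_lt_two (ha.trans_le ((Multiset.count_le_card _ _).trans_eq hMc))
      (Nat.le_pow_clog one_lt_two n)).mul_left _
  have hP : ∃ P : Matrix.ProjectiveSpecialLinearGroup (Fin n) F, 2 ^ Nat.clog 2 n ∣ orderOf P := by
    obtain ⟨P, hP⟩ := psl_ord (F := F) (ι := Fin n) K 2 (M := Multiset.replicate n 1)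
      (by simp [tauL_one]) (by simp) (by simp)
    have ht : Nat.clog 2 n = (Nat.clog 2 n - 1) + 1 :=
      (Nat.sub_add_cancel (Nat.clog_pos one_lt_two (by omega))).symm
    have ht' : 2 ^ (Nat.clog 2 n - 1) < n := Nat.pow_pred_clog_lt_self one_lt_two (by omega)
    refine ⟨P, ?_⟩
    rw [ht]
    exact ((hP _).2 dvd_rfl).2 1 _ (by simpa using ht')
  have hodd : ∀ m, 0 < m → ¬ 2 ∣ 2 ^ m - 1 := fun m hm =>
    not_dvd_pow_sub_one Nat.prime_two dvd_rfl two_pos hm
  have hT : ∀ m : ℕ, ∃ T : Matrix.ProjectiveSpecialLinearGroup (Fin n) F,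
      m ∈ Finset.Ioc (n / 2) n → 2 ^ m - 1 ∣ orderOf T := by
    intro m
    by_cases hm : m ∈ Finset.Ioc (n / 2) n
    swap
    · exact ⟨1, fun h => absurd h hm⟩
    rw [Finset.mem_Ioc] at hm
    obtain ⟨l, hl⟩ := exists_prim_root K 2 (hodd m (by omega))
    have hl0 : l ≠ 0 := hl.ne_zero fun h0 => hodd m (by omega) (h0 ▸ dvd_zero 2)
    have hg : geo 2 m = 2 ^ m - 1 := by simpa using geo_mul two_pos m
    obtain ⟨T, hT⟩ := psl_ord (F := F) (ι := Fin n) K 2
      (M := orb (tauL 2) l m + Multiset.replicate (n - m) 1)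
      (by
        rw [hF, Multiset.map_add, orb_stable (by
          rw [tauL_iterate_eq_iff two_pos hl0, hl.pow_eq_one])]
        simp [tauL_one])
      (by simp [prod_orb_tauL, hg, hl.pow_eq_one]) (by simp; omega)
    refine ⟨T, fun _ => ?_⟩
    have := ((hT _).2 dvd_rfl).1 l (Multiset.mem_add.2 (Or.inl (self_mem_orb l (by omega))))
      (tauL 2 l) (Multiset.mem_add.2 (Or.inl (mem_orb.2 ⟨1, by omega, rfl⟩)))
    rw [← tauL_pow, eq_comm, tauL_eq_iff two_pos (pow_ne_zero _ hl0), ← pow_mul,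
      hl.pow_eq_one_iff_dvd] at this
    simpa using this
  obtain ⟨P, hP⟩ := hP
  choose T hT using hT
  ext d
  constructor
  · rintro ⟨x, rfl⟩
    change orderOf x ∣ E
    rw [orderOf_dvd_iff_pow_eq_one]
    ext i
    exact orderOf_dvd_iff_pow_eq_one.1 (hall (x i))
  · intro hd
    let x : Fin k → Matrix.ProjectiveSpecialLinearGroup (Fin n) F :=
      fun i => if i.1 = 0 then P else T (n / 2 + i.1)
    have hx : ∀ i, orderOf (x i) ∣ orderOf x := fun i =>
      orderOf_map_dvd (Pi.evalMonoidHom _ i) x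
    refine exists_orderOf_eq_of_dvd x (hd.trans ?_)
    refine Nat.Coprime.mul_dvd_of_dvd_of_dvd ?_ (Finset.lcm_dvd fun m hm => ?_) ?_
    · apply Nat.Coprime.pow_right
      rw [Nat.coprime_comm, Nat.prime_two.coprime_iff_not_dvd]
      intro h
      have := h.trans (Finset.lcm_dvd_prod _ _)
      obtain ⟨m, hm, h2⟩ := (Nat.prime_two.prime.dvd_finset_prod_iff _).1 this
      rw [Finset.mem_Ioc] at hm
      exact hodd m (by omega) h2
    · have hm' := Finset.mem_Ioc.1 hm
      have := hx ⟨m - n / 2, by omega⟩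
      simp only [x] at this
      rw [if_neg (by omega), Nat.add_sub_cancel' hm'.1.le] at this
      exact (hT m hm).trans this
    · have := hx ⟨0, by omega⟩
      simp only [x, if_true] at this
      exact hP.trans this

/-- Let F be the field with two elements, n ≥ 2, L = PSL(n, F) and k₀ = ⌊(n + 3)/2⌋. Then for every k ≥ k₀ the direct product of k copies of L has the same set of element orders as the direct product of k₀ copies of L. -/
theorem result {F : Type*} [Field F] [Fintype F] (hF : Fintype.card F = 2) (n k : ℕ) (hn : 2 ≤ n) (hk : (n + 3) / 2 ≤ k) :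
    Set.range (orderOf : (Fin k → Matrix.ProjectiveSpecialLinearGroup (Fin n) F) → ℕ) = Set.range (orderOf : (Fin ((n + 3) / 2) → Matrix.ProjectiveSpecialLinearGroup (Fin n) F) → ℕ) := by
  rw [aux hF n k hn hk, aux hF n _ hn le_rfl]

end Cfsg.Agent.S2513
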