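import Cfsg.Statements.S2514
import Mathlib


set_option autoImplicit false
open Cfsg

namespace Cfsg.Agent.S2514

theorem exists_max {G : Type*} [Group G] [Finite G] (g : G) :
    ∃ n : ℕ, orderOf g ∣ n ∧ (n ∈ Set.range (orderOf : G → ℕ) ∧
      ∀ m ∈ Set.range (orderOf : G → ℕ), n ∣ m → m = n) := by
  obtain ⟨h, hh, hmax⟩ := Set.Finite.exists_maximalFor (orderOf : G → ℕ)
    {h : G | orderOf g ∣ orderOf h} (Set.toFinite _) ⟨g, dvd_refl _⟩
  refine ⟨orderOf h, hh, ⟨h, rfl⟩, ?_⟩
  rintro _ ⟨x, rfl⟩ hx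
  have h1 : orderOf h ≤ orderOf x := Nat.le_of_dvd (orderOf_pos x) hx
  exact le_antisymm (hmax (show orderOf g ∣ orderOf x from dvd_trans hh hx) h1) h1

theorem exists_of_dvd {G : Type*} [Group G] [Finite G] (g : G) (d : ℕ) (hd : d ∣ orderOf g) :
    ∃ h : G, orderOf h = d :=
  ⟨g ^ (orderOf g / d), orderOf_pow_orderOf_div (orderOf_pos g).ne' hd⟩

theorem dvd_iff {G : Type*} [Group G] (g : G) (n : ℕ) : orderOf g ∣ n ↔ g ^ n = 1 :=
  orderOf_dvd_iff_pow_eq_one

/-- For a finite group X write μ(X) for the set of element orders of X that are maximal under divisibility. Let G and H be finite groups and k ≥ 1 such that μ(H) ⊆ μ(G) and μ(G) has fewer than k elements outside μ(H). Then the direct product of k copies of G has the same set of element orders as the direct product of k − 1 copies of G with H. -/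
theorem result {G H : Type*} [Group G] [Finite G] [Group H] [Finite H] (k : ℕ) (hk : 1 ≤ k)
    (hsub : {n : ℕ | n ∈ Set.range (orderOf : H → ℕ) ∧ ∀ m ∈ Set.range (orderOf : H → ℕ), n ∣ m → m = n} ⊆ {n : ℕ | n ∈ Set.range (orderOf : G → ℕ) ∧ ∀ m ∈ Set.range (orderOf : G → ℕ), n ∣ m → m = n})
    (hfew : ({n : ℕ | n ∈ Set.range (orderOf : G → ℕ) ∧ ∀ m ∈ Set.range (orderOf : G → ℕ), n ∣ m → m = n} \ {n : ℕ | n ∈ Set.range (orderOf : H → ℕ) ∧ ∀ m ∈ Set.range (orderOf : H → ℕ), n ∣ m → m = n}).ncard < k) :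
    Set.range (orderOf : (Fin k → G) → ℕ) = Set.range (orderOf : (Fin (k - 1) → G) × H → ℕ) := by
  classical
  obtain ⟨k, rfl⟩ : ∃ j, k = j + 1 := ⟨k - 1, by omega⟩
  set MG := {n : ℕ | n ∈ Set.range (orderOf : G → ℕ) ∧ ∀ m ∈ Set.range (orderOf : G → ℕ), n ∣ m → m = n}
    with hMG
  set MH := {n : ℕ | n ∈ Set.range (orderOf : H → ℕ) ∧ ∀ m ∈ Set.range (orderOf : H → ℕ), n ∣ m → m = n}
    with hMH
  have hfin : (MG \ MH).Finite :=
    (Set.finite_range (orderOf : G → ℕ)).subset (fun n hn => hn.1.1)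
  ext n
  constructor
  · rintro ⟨x, rfl⟩
    choose μ hμ hμG using fun i : Fin (k + 1) => exists_max (x i)
    have key : ∃ i : Fin (k + 1), μ i ∈ MH ∨ ∃ j, j ≠ i ∧ μ i = μ j := by
      by_contra hcon
      push Not at hcon
      have h1 : (Set.univ : Set (Fin (k + 1))).ncard ≤ (MG \ MH).ncard := by
        apply Set.ncard_le_ncard_of_injOn (t := MG \ MH) μ (fun i _ => ⟨hμG i, (hcon i).1⟩) _ hfin
        intro i _ j _ hij
        by_contra hne
        exact (hcon i).2 j (Ne.symm hne) hij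
      rw [Set.ncard_univ, Nat.card_eq_fintype_card, Fintype.card_fin] at h1
      omega
    obtain ⟨i, hi⟩ := key
    choose y hy using fun j : Fin (k + 1) => (hμG j).1
    have : ∃ z : (Fin k → G) × H, orderOf x ∣ orderOf z := by
      rcases hi with ⟨⟨h, hh⟩, -⟩ | ⟨j, hji, hj⟩
      · refine ⟨(fun l => y (i.succAbove l), h), ?_⟩
        set z : (Fin k → G) × H := (fun l => y (i.succAbove l), h) with hz
        rw [dvd_iff]
        have hz1 : z ^ orderOf z = 1 := pow_orderOf_eq_one z
        funext l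
        rw [Pi.pow_apply, Pi.one_apply, ← dvd_iff]
        refine (hμ l).trans ?_
        rcases Fin.eq_self_or_eq_succAbove i l with rfl | ⟨l', rfl⟩
        · rw [← hh, dvd_iff]; exact congrArg Prod.snd hz1
        · rw [← hy, dvd_iff]; exact congrFun (congrArg Prod.fst hz1) l'
      · refine ⟨(fun l => y (i.succAbove l), 1), ?_⟩
        set z : (Fin k → G) × H := (fun l => y (i.succAbove l), 1) with hz
        rw [dvd_iff]
        have hz1 : z ^ orderOf z = 1 := pow_orderOf_eq_one z
        have h2 : ∀ l', μ (i.succAbove l') ∣ orderOf z := by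
          intro l'
          rw [← hy, dvd_iff]; exact congrFun (congrArg Prod.fst hz1) l'
        funext l
        rw [Pi.pow_apply, Pi.one_apply, ← dvd_iff]
        refine (hμ l).trans ?_
        rcases Fin.eq_self_or_eq_succAbove i l with rfl | ⟨l', rfl⟩
        · obtain ⟨l', rfl⟩ := Fin.exists_succAbove_eq hji
          rw [hj]; exact h2 l'
        · exact h2 l'
    obtain ⟨z, hz⟩ := this
    exact exists_of_dvd z _ hz
  · rintro ⟨⟨x, h⟩, rfl⟩
    obtain ⟨μ, hμ, hμH⟩ := exists_max h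
    obtain ⟨⟨g, hg⟩, -⟩ := hsub hμH
    have : ∃ z : Fin (k + 1) → G, orderOf (x, h) ∣ orderOf z := by
      refine ⟨Fin.cons g x, ?_⟩
      set z : Fin (k + 1) → G := Fin.cons g x with hz
      have hz1 : z ^ orderOf z = 1 := pow_orderOf_eq_one z
      rw [dvd_iff]
      apply Prod.ext
      · funext l
        exact congrFun hz1 l.succ
      · change h ^ orderOf z = 1
        rw [← dvd_iff]
        refine hμ.trans ?_
        rw [← hg, dvd_iff]
        exact congrFun hz1 0
    obtain ⟨z, hz⟩ := this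
    exact exists_of_dvd z _ hz

end Cfsg.Agent.S2514
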