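import Cfsg.Statements.S2515
import Cfsg.Agent.H6.AffRee

set_option autoImplicit false
open Cfsg

namespace Cfsg.Agent.S2515

/-- Let q = 3^α with α ≥ 3 odd. There is a finite group H having a non-trivial normal 3-subgroup and whose element orders maximal under divisibility are exactly 6, 9, q − 1 and (q + 1)/2. -/
theorem result (α : ℕ) (hα : 3 ≤ α) (hodd : Odd α) :
    ∃ (H : Type) (_ : Group H) (_ : Fintype H), (∃ P : Subgroup H, P.Normal ∧ P ≠ ⊥ ∧ IsPGroup 3 ↥P) ∧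
      {n : ℕ | n ∈ Set.range (orderOf : H → ℕ) ∧ ∀ m ∈ Set.range (orderOf : H → ℕ), n ∣ m → m = n} = ({6, 9, 3 ^ α - 1, (3 ^ α + 1) / 2} : Set ℕ) := by
  obtain ⟨j, rfl⟩ := hodd
  obtain ⟨k, hk, h8⟩ : ∃ k, 3 ^ (2 * j + 1) = 4 * k + 3 ∧ 3 ∣ k ∧ 6 ≤ k ∧ 2 ∣ k := by
    have h1 : 3 ^ (2 * j + 1) % 8 = 3 := by
      rw [pow_succ, pow_mul, Nat.mul_mod, Nat.pow_mod]; simp
    have h2 : 3 ^ 3 ≤ 3 ^ (2 * j + 1) := Nat.pow_le_pow_right (by norm_num) hα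
    have h3 : 3 ^ 2 ∣ 3 ^ (2 * j + 1) := pow_dvd_pow 3 (by omega)
    exact ⟨3 ^ (2 * j + 1) / 4, by omega, by omega, by omega, by omega⟩
  have hF : Nat.card (GaloisField 3 (2 * j + 1)) = 4 * k + 3 := by
    rw [GaloisField.card 3 _ (by omega), hk]
  refine ⟨H6.affG (H6.twRep (GaloisField 3 (2 * j + 1))), inferInstance, Fintype.ofFinite _,
    H6.exists_transl _ H6.m3, ?_⟩
  rw [hk, show 4 * k + 3 - 1 = 4 * k + 2 from rfl, show (4 * k + 3 + 1) / 2 = 2 * k + 2 by omega]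
  have hc : ∀ f : H6.affG (H6.twRep (GaloisField 3 (2 * j + 1))),
      ∃ n ∈ ({6, 9, 4 * k + 2, 2 * k + 2} : Set ℕ), orderOf f ∣ n := fun f => by
    rcases H6.aff_cases hF f with h | h | h | h <;>
      exact ⟨_, by simp, orderOf_dvd_of_pow_eq_one h⟩
  have hm : ∀ a ∈ ({6, 9, 4 * k + 2, 2 * k + 2} : Set ℕ),
      ∀ b ∈ ({6, 9, 4 * k + 2, 2 * k + 2} : Set ℕ), a ∣ b → b = a := by
    have h1 : ¬ 2 * k + 2 ∣ 4 * k + 2 := fun h => by
      have := Nat.le_of_dvd two_pos ((Nat.dvd_sub_iff_right (by omega) (dvd_mul_right _ 2)).1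
        (show 2 * k + 2 ∣ (2 * k + 2) * 2 - 2 by convert h using 1; omega))
      omega
    rintro _ (rfl | rfl | rfl | rfl) _ (rfl | rfl | rfl | rfl) h <;>
      first | rfl | exact absurd h h1 | (have := Nat.le_of_dvd (by omega) h; omega)
  ext n
  refine ⟨fun ⟨⟨f, hf⟩, h⟩ => ?_, fun h => ⟨H6.range_aff hF (by omega) n h, ?_⟩⟩
  · obtain ⟨m, a, b⟩ := hc f
    exact h m (H6.range_aff hF (by omega) m a) (hf ▸ b) ▸ a
  · rintro _ ⟨f, rfl⟩ e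
    obtain ⟨m, a, b⟩ := hc f
    exact Nat.dvd_antisymm (hm n h m a (e.trans b) ▸ b) e

end Cfsg.Agent.S2515
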