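import Cfsg.Statements.S2516


set_option autoImplicit false
open Cfsg

namespace Cfsg.Agent.S2516

/-- Let F be a field of characteristic p > 0, V a non-zero finite-dimensional F-vector space, G a finite group and ρ a representation of G on V; form the semidirect product V ⋊ G. For g ∈ G of order k, the coset Vg contains an element of order pk if and only if the minimal polynomial of ρ(g) does not divide 1 + X + ⋯ + X^(k−1). -/
theorem result {F : Type*} [Field F] (p : ℕ) [Fact p.Prime] [CharP F p] {V : Type*} [AddCommGroup V] [Module F V] [FiniteDimensional F V] [Nontrivial V]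
    {G : Type*} [Group G] [Finite G] (ρ : Representation F G V) (g : G) :
    (∃ x : Multiplicative V ⋊[(MulAutMultiplicative V).symm.toMonoidHom.comp
        ((DistribMulAction.toAddAut ((V →ₗ[F] V)ˣ) V).comp ρ.asGroupHom)] G,
        x.right = g ∧ orderOf x = p * orderOf g) ↔
      ¬ (minpoly F (ρ g) ∣ ∑ i ∈ Finset.range (orderOf g), (Polynomial.X : Polynomial F) ^ i) := by
  have hpp : p.Prime := Fact.out
  set φ := (MulAutMultiplicative V).symm.toMonoidHom.comp
        ((DistribMulAction.toAddAut ((V →ₗ[F] V)ˣ) V).comp ρ.asGroupHom) with hφ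
  have hφa : ∀ (h : G) (v : V), φ h (Multiplicative.ofAdd v) = Multiplicative.ofAdd (ρ h v) := by
    intro h v
    rfl
  have hpow : ∀ (v : V) (m : ℕ),
      (⟨Multiplicative.ofAdd v, g⟩ : Multiplicative V ⋊[φ] G) ^ m =
        ⟨Multiplicative.ofAdd ((∑ i ∈ Finset.range m, (ρ g) ^ i) v), g ^ m⟩ := by
    intro v m
    induction m with
    | zero => simp
    | succ m ih =>
      rw [pow_succ, ih]
      apply SemidirectProduct.ext
      · simp only [SemidirectProduct.mul_left, hφa]
        rw [Finset.sum_range_succ, LinearMap.add_apply, ofAdd_add, map_pow]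
      · simp only [SemidirectProduct.mul_right, pow_succ]
  have hS : (minpoly F (ρ g) ∣ ∑ i ∈ Finset.range (orderOf g), (Polynomial.X : Polynomial F) ^ i) ↔
      (∑ i ∈ Finset.range (orderOf g), (ρ g) ^ i) = 0 := by
    rw [minpoly.dvd_iff]
    simp [map_sum]
  rw [hS]
  have hk : 0 < orderOf g := orderOf_pos g
  have hord : ∀ v : V, orderOf (⟨Multiplicative.ofAdd v, g⟩ : Multiplicative V ⋊[φ] G) =
      addOrderOf ((∑ i ∈ Finset.range (orderOf g), (ρ g) ^ i) v) * orderOf g := by
    intro v
    set x : Multiplicative V ⋊[φ] G := ⟨Multiplicative.ofAdd v, g⟩ with hx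
    have h1 : orderOf g ∣ orderOf x := orderOf_map_dvd (SemidirectProduct.rightHom (φ := φ)) x
    have h2 := orderOf_pow_of_dvd hk.ne' h1
    have h3 : x ^ orderOf g = SemidirectProduct.inl
        (Multiplicative.ofAdd ((∑ i ∈ Finset.range (orderOf g), (ρ g) ^ i) v)) := by
      rw [hx, hpow, pow_orderOf_eq_one]; rfl
    rw [h3, orderOf_injective _ SemidirectProduct.inl_injective, orderOf_ofAdd_eq_addOrderOf] at h2
    rw [h2, Nat.div_mul_cancel h1]
  constructor
  · rintro ⟨⟨v, g'⟩, rfl, hx⟩ h0
    have := hord (Multiplicative.toAdd v)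
    rw [h0] at this
    simp only [ofAdd_toAdd, LinearMap.zero_apply, addOrderOf_zero] at this
    simp only at hx
    rw [this] at hx
    exact hpp.one_lt.ne (Nat.eq_of_mul_eq_mul_right hk hx)
  · intro h0
    obtain ⟨v, hv⟩ : ∃ v, (∑ i ∈ Finset.range (orderOf g), (ρ g) ^ i) v ≠ 0 := by
      by_contra hcon
      push Not at hcon
      exact h0 (LinearMap.ext hcon)
    refine ⟨⟨Multiplicative.ofAdd v, g⟩, rfl, ?_⟩
    rw [hord]
    congr 1
    apply addOrderOf_eq_prime _ hv
    rw [← Nat.cast_smul_eq_nsmul F, CharP.cast_eq_zero, zero_smul]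

end Cfsg.Agent.S2516
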