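import Cfsg.Statements.S2517
import Cfsg.Agent.H5.OrthF
import Cfsg.Agent.H6.OrthRank

set_option autoImplicit false
open Cfsg

namespace Cfsg.Agent.S2517

open Cfsg.Agent.H5 Function Module

section
variable {F : Type*} [Field F] [Fintype F] [DecidableEq F] (K : Type*) [Field K] [Algebra F K] [IsAlgClosed K]
  [DecidableEq K] (p : ℕ) [Fact p.Prime] [CharP F p] {V : Type*} [AddCommGroup V] [Module F V]
  [FiniteDimensional F V] {V' : Type*} [AddCommGroup V'] [Module F V'] [FiniteDimensional F V']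
  {B : Bil F V} (hB : IsEps B 1) {B' : Bil F V'} (hB' : IsEps B' 1) (ho : Odd (Fintype.card F))
  (hd : finrank F V = 8)
include p hB hB' ho hd

theorem dirA (hd' : finrank F V' = 9) {g : Isom B} (hg : g ∈ commutator (Isom B)) (v : V) :
    ∃ x ∈ commutator (Isom B'), ∀ i, x ^ i = 1 → aff (g.1 : End F V) v ^ i = 1 := by
  have h2 := two_ne_zero_of_odd ho
  have hp := (Fact.out : p.Prime).one_lt
  obtain ⟨W, hW, a, b, rfl, a1, a2⟩ := exists_fit hB g (mul_one 1)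
  simp only [one_smul] at a1 a2
  have a3 := hB.finrank_perp W
  have a4 : b ∈ {b | Even (rk b) ∧ th b = 1} := by
    have := mul_mem (inv_mem (mem_comm_of_odd hB h2 (by omega) (odd_char p h2).pow
      ((glueHom_pow_eq_one hB hW (b := 1)).2 ⟨isom_pow_eq_one.2 (pow_eq_one_of_nil p (nil_pow_finrank a1)
        (Nat.lt_pow_self hp).le), one_pow _⟩))) hg
    rwa [← map_inv, ← map_mul, Prod.inv_mk, Prod.mk_mul_mk, inv_mul_cancel, inv_one, one_mul,
      mem_comm_iff hB h2 (by omega), rk_glue_right, th_glue_right] at this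
  obtain ⟨⟨e, he⟩, a5⟩ := a4
  rw [rk_of_inj b a2] at he
  obtain ⟨U, f, u1, u2⟩ := exists_embed (hB.restrict_perp hW) hB' h2 (by omega)
  have a6 := hB'.finrank_perp U
  rw [← f.finrank_eq] at a6
  obtain ⟨u, b1, w, b2⟩ := exists_reg_unip h2 (hB'.restrict_perp u1) (e := 4 - e) (by omega)
  obtain ⟨c1, c2⟩ := glue_th_rk hB' u1 h2 (by omega) (Isom.congr f u2 b) u
  obtain ⟨c3, c4⟩ := unip_th_rk p h2 hB' u1 (by omega) (isom_pow_eq_one.2 (pow_eq_one_of_nil p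
    (nil_pow_finrank b1) (Nat.lt_pow_self hp).le))
  refine ⟨glueHom hB' u1 (Isom.congr f u2 b, u), (mem_comm_iff hB' h2 (by omega) _).2 ⟨c2.2 (iff_of_true
    (by rw [rk_congr, rk_of_inj b a2]; exact ⟨e, he⟩) c3), by rw [c1, th_congr, a5, c4, one_mul]⟩, fun i hi => ?_⟩
  obtain ⟨d1, d2⟩ := (glueHom_pow_eq_one hB' u1).1 hi
  replace d1 : b ^ i = 1 := by simpa [← map_pow] using d1
  obtain ⟨c, d3, j, rfl⟩ := exists_pow_dvd hp (D := finrank F W + 1) fun a ha =>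
    pow_succ_dvd_of_unip p b1 b2 (by rw [isom_pow_eq_one.1 d2]; rfl) (by omega)
  obtain ⟨x, y, rfl⟩ := exists_add_of_isCompl (hB.isCompl_perp hW) v
  have d4 : aff (a.1 : End F W) x ^ (p ^ c * j) = 1 := by
    rw [pow_mul, pow_eq_one_of_nil p (aff_nil (nil_pow_finrank a1) x) d3, one_pow]
  rw [aff_pow_eq_one] at d4 ⊢
  refine ⟨isom_pow_eq_one.1 ((glueHom_pow_eq_one hB hW).2 ⟨isom_pow_eq_one.2 d4.1, d1⟩), ?_⟩
  have d5 : ∑ k ∈ Finset.range (p ^ c * j), ((b.1 : End F (perp B W)) ^ k) y = 0 := a2 _ (by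
    have := congrArg (· y) (mul_geom_sum (b.1 : End F (perp B W)) (p ^ c * j))
    simpa [isom_pow_eq_one.1 d1, sub_eq_zero] using this)
  simp only [map_add, Finset.sum_add_distrib]
  exact (congrArg₂ (· + ·)
    (Finset.sum_congr rfl fun k _ => pow_semiconj (φ := W.subtype) (glueHom_left hB hW (a, b)) k x)
    (Finset.sum_congr rfl fun k _ => pow_semiconj (φ := (perp B W).subtype) (glueHom_right hB hW (a, b)) k y)).trans
    (by rw [← map_sum, ← map_sum]; erw [d4.2, d5]; simp)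

include K

omit hB hB' hd in
theorem char_dvd : p ∣ Fintype.card F := by
  obtain ⟨k, -, hk⟩ := FiniteField.card F p
  exact hk ▸ dvd_pow_self _ k.ne_zero

omit hB' in
theorem half (h : H6.discr B = -1) : AffEx B fun i => Fintype.card F ^ 2 + 1 ∣ i ∧ Fintype.card F ^ 2 - 1 ∣ i := by
  have h2 := two_ne_zero_of_odd ho
  have : CharP K p := charP_ext K p F
  have hφ := phi_injective (K := K) F
  have hq := Fintype.one_lt_card (α := F)
  have h9 : 9 ≤ Fintype.card F ^ 2 := Nat.pow_le_pow_left (show 3 ≤ _ by obtain ⟨_, _⟩ := ho; omega) 2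
  have hp : ∀ m, p ∣ 2 * m → p ∣ m := fun m =>
    (Nat.coprime_two_right.2 (odd_char p h2)).dvd_of_dvd_mul_left
  have hp2 : p ∣ Fintype.card F ^ 2 := (char_dvd K p ho).trans (dvd_pow_self _ two_ne_zero)
  have hp1 := (Fact.out : p.Prime).one_lt
  obtain ⟨a, ha⟩ := exists_prim_root (K := K) p (m := 2 * (Fintype.card F ^ 2 + 1)) fun h =>
    hp1.ne' (Nat.dvd_one.1 ((Nat.dvd_add_right hp2).1 (hp _ h)))
  obtain ⟨b, hb⟩ := exists_prim_root (K := K) p (m := 2 * (Fintype.card F ^ 2 - 1)) fun h =>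
    hp1.ne' (Nat.dvd_one.1 ((Nat.dvd_add_right (hp _ h)).1 (by rwa [Nat.sub_add_cancel (by omega)])))
  have a0 := ha.ne_zero (by omega)
  have b0 := hb.ne_zero (by omega)
  have a1 : a ^ Fintype.card F ^ 2 = -1 * a⁻¹ := by
    rw [eq_mul_inv_iff_mul_eq₀ a0, ← pow_succ]
    exact (ha.pow (by omega) (mul_comm _ _)).eq_neg_one_of_two_right
  have b1 : b ^ Fintype.card F ^ 2 = -1 * b := by
    rw [← (hb.pow (by omega) (mul_comm _ _)).eq_neg_one_of_two_right, ← pow_succ, Nat.sub_add_cancel (by omega)]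
  have a2 : (a ^ 2) ^ Fintype.card F ^ 2 = (a ^ 2)⁻¹ := by rw [pow_right_comm, a1]; simp
  have b2 : (b ^ 2) ^ Fintype.card F ^ 2 = b ^ 2 := by rw [pow_right_comm, b1]; simp
  have c : ∀ {x : K} {m : ℕ}, IsPrimitiveRoot x (2 * m) → 2 < m → x ^ 2 ≠ 1 ∧ x ^ 2 ≠ -1 := fun h hm =>
    ⟨h.pow_ne_one_of_pos_of_lt two_ne_zero (by omega), fun h' => h.pow_ne_one_of_pos_of_lt (l := 2 * 2)
      four_ne_zero (by omega) (by rw [pow_mul, h', neg_one_sq])⟩
  have a3 := c ha (by omega)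
  have b3 := c hb (by omega)
  have n1 : ∀ {x : K}, x ≠ 1 → 1 ∉ sorb (Fintype.card F) x 2 := fun h =>
    one_notMem_sorb hφ (one_pow _) inv_one h 2
  have n2 : ∀ {x : K}, x ≠ -1 → -1 ∉ sorb (Fintype.card F) x 2 := fun h =>
    one_notMem_sorb hφ ho.neg_one_pow (by simp [inv_neg]) h 2
  have n3 : 1 ∉ sorb (Fintype.card F) (a ^ 2) 2 + sorb (Fintype.card F) (b ^ 2) 2 := by simp [n1 a3.1, n1 b3.1]
  have n4 : -1 ∉ sorb (Fintype.card F) (a ^ 2) 2 + sorb (Fintype.card F) (b ^ 2) 2 := by simp [n2 a3.2, n2 b3.2]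
  obtain ⟨d, Z, y, z1, z2, z3, -⟩ := exists_orth_model K p (by
    rw [Multiset.map_add, sorb_stable (Or.inr a2), sorb_stable (Or.inl b2)]) (by simp [sorb_inv])
    (by simp [zero_notMem_sorb, a0, b0]) n3 n4
  have z4 : finrank F (Fin d ⊕ Fin d → F) = 8 := by simp at z1 ⊢; omega
  have i1 : ∀ {x : K}, x ≠ 0 → x ^ 2 ≠ 1 ∧ x ^ 2 ≠ -1 → (x ^ 2)⁻¹ ≠ x ^ 2 := fun h0 h h' =>
    (inv_eq_self₀.1 h').elim h.2 fun h' => h'.elim (pow_ne_zero _ h0) h.1
  obtain ⟨δ1, d1, d2⟩ := sorb_delta (F := F) a0 a3.2 (η := -1) (by simp) (Or.inr a1)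
  obtain ⟨δ2, d3, d4⟩ := sorb_delta (F := F) b0 b3.2 (η := -1) (by simp) (Or.inl b1)
  obtain ⟨δ3, d5, d6⟩ := sorb_delta' (pow_ne_zero 2 a0) (i1 a0 a3) (Or.inr ⟨a2, rfl⟩)
  obtain ⟨δ4, d7, d8⟩ := sorb_delta' (pow_ne_zero 2 b0) (i1 b0 b3) (Or.inl ⟨b2, rfl⟩)
  refine (affEx_iso h2 hB (by omega) z2 y (by rw [rk_of_inj y (inj_of_notMem_evE K (by rwa [z3])), z4]; decide)
    (th_of_evE K z2 h2 (by omega) y (D := 0) (n := 4) (z3.trans (add_zero _).symm) (by simp) n4 (δ := δ1 * δ2)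
      (by rw [Multiset.map_add, Multiset.prod_add, d1, d3, mul_pow]) (Or.inl rfl) (by rw [mul_pow, d2, d4]; simp))
    (by omega) (h ▸ discr_of_evE K z2 h2 (by omega) y (by rwa [z3]) (by rwa [z3]) (δ := δ3 * δ4)
      (by rw [z3, Multiset.map_add, Multiset.prod_add, d5, d7, mul_pow]; simp) (Or.inr rfl)
      (by rw [mul_pow, d6, d8]; simp))).mono fun i hi => ?_
  have e := fun x hx => pow_eq_one_of_mem_evE K (isom_pow_eq_one.1 hi) (x := x) (z3 ▸ hx)
  exact ⟨((ha.pow (by omega) rfl).pow_eq_one_iff_dvd i).1 (e _ (by simp [self_mem_sorb])),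
    ((hb.pow (by omega) rfl).pow_eq_one_iff_dvd i).1 (e _ (by simp [self_mem_sorb]))⟩

omit hB hB' hd in
theorem gen {m d : ℕ} (hd : 2 ≤ d) (h : Fintype.card F ^ d = m + 1 ∨ Fintype.card F ^ d + 1 = m) :
    ∃ N : Multiset K, N.map (phi (Fintype.card F)) = N ∧ N.map (·⁻¹) = N ∧ 0 ∉ N ∧ 1 ∉ N ∧ -1 ∉ N ∧
      N.card = 2 * d ∧ ∀ i, (∀ x ∈ N, x ^ i = 1) → m ∣ i := by
  have : CharP K p := charP_ext K p F
  have hφ := phi_injective (K := K) F
  have hq := Fintype.one_lt_card (α := F)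
  have h9 : 3 ^ 2 ≤ Fintype.card F ^ d := (Nat.pow_le_pow_left (show 3 ≤ _ by obtain ⟨_, _⟩ := ho; omega) 2).trans
    (Nat.pow_le_pow_right (by omega) hd)
  have hp2 : p ∣ Fintype.card F ^ d := (char_dvd K p ho).trans (dvd_pow_self _ (by omega))
  obtain ⟨a, ha⟩ := exists_prim_root (K := K) p (m := m) fun h' => (Fact.out : p.Prime).one_lt.ne' (Nat.dvd_one.1
    (h.elim (fun h => (Nat.dvd_add_right h').1 (h ▸ hp2)) fun h => (Nat.dvd_add_right hp2).1 (h ▸ h')))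
  have a0 := ha.ne_zero (by omega)
  refine ⟨sorb _ a d, sorb_stable (h.imp (fun h => by rw [h, pow_succ, ha.pow_eq_one, one_mul]) fun h =>
    eq_inv_of_mul_eq_one_left (by rw [← pow_succ, h, ha.pow_eq_one])), sorb_inv _ _ _, zero_notMem_sorb _ a0 _,
    one_notMem_sorb hφ (one_pow _) inv_one (ha.ne_one (by omega)) _, one_notMem_sorb hφ ho.neg_one_pow
      (by simp [inv_neg]) (fun h => ha.pow_ne_one_of_pos_of_lt two_ne_zero (by omega) (by simp [h])) _,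
    card_sorb _ _ _, fun i hi => (ha.pow_eq_one_iff_dvd i).1 (hi a (self_mem_sorb _ _ (by omega)))⟩

theorem noPm (h : H6.discr B = -1) (hd' : finrank F V' = 8) (h' : H6.discr B' = 1) {g : Isom B'} (ht : th g = 1)
    {N : Multiset K} (hN : evE K (g.1 : End F V') = N) (h1 : N.map (phi (Fintype.card F)) = N)
    (h3 : N.map (·⁻¹) = N) (h0 : 0 ∉ N) (h4 : 1 ∉ N) (h5 : -1 ∉ N) :
    AffEx B fun i => (∀ x ∈ N, x ^ i = 1) ∧ ∀ x a, p ^ a < N.count x → p ^ (a + 1) ∣ i := by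
  have h2 := two_ne_zero_of_odd ho
  have hφ := phi_injective (K := K) F
  have hq := Fintype.one_lt_card (α := F)
  have hp : 3 ≤ p := by have := odd_char p h2; have := (Fact.out : p.Prime).two_le; obtain ⟨_, _⟩ := ‹Odd p›; omega
  have hc : N.card = 8 := by rw [← hN, card_evE, hd']
  have hi := (prod_eq_one_of K h3 h0 h4 h5).2.1
  have hm : ∀ δ : K, (N.map fun y => 1 - y ^ 2).prod = δ ^ 2 → δ ^ Fintype.card F ≠ -1 * δ := fun δ a1 a2 => by
    have := discr_of_evE K hB' h2 (by omega) g (by rwa [hN]) (by rwa [hN]) (by rwa [hN]) (Or.inr rfl)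
      (by simpa using a2)
    omega
  have split : ∀ {M : Multiset K}, M.map (phi (Fintype.card F)) = M → M.map (·⁻¹) = M → ∀ x ∈ M, x⁻¹ ≠ x →
      ∃ d c M', 0 < d ∧ 0 < c ∧ (x ^ Fintype.card F ^ d = x ∨ x ^ Fintype.card F ^ d = x⁻¹) ∧
        (sorb (Fintype.card F) x d).Nodup ∧ M.count x = c ∧ M = c • sorb (Fintype.card F) x d + M' ∧
        M.card = c * (2 * d) + M'.card ∧ M'.map (phi (Fintype.card F)) = M' ∧ M'.map (·⁻¹) = M' ∧
        (∀ y ∈ M', y ∉ sorb (Fintype.card F) x d) ∧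
        ∀ e, (x ^ Fintype.card F ^ e = x ∨ x ^ Fintype.card F ^ e = x⁻¹) → d ∣ e := fun {M} a1 a2 x hx a4 => by
    obtain ⟨d, d0, d1, d2, d3, d4⟩ := exists_sorb hφ (periodic_of_stable hφ a1 hx) a4
    obtain ⟨M', b1, b2, b3, b4⟩ := exists_ssplit hφ a1 a2 hx d2 d3
    exact ⟨d, _, M', d0, Multiset.count_pos.2 hx, d1, d2, rfl, b1, by simpa using congrArg Multiset.card b1, b2, b3,
      fun y hy h => b4 y hy ((d3 y).1 h), d4⟩
  have one : ∀ {x : K}, (x ^ Fintype.card F ^ 1 = x ∨ x ^ Fintype.card F ^ 1 = x⁻¹) →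
      x ^ Fintype.card F ^ 2 = x := fun h => by
    rcases h with h | h <;> rw [pow_one] at h <;> simp [sq, pow_mul, h]
  have nd : ∀ {i}, N.Nodup → ∀ x a, p ^ a < N.count x → p ^ (a + 1) ∣ i := fun h x a ha => by
    have := Multiset.nodup_iff_count_le_one.1 h x
    have := pow_pos (show 0 < p by omega) a
    omega
  have pw : ∀ {x : K} {Q m i : ℕ}, x ∈ N → m ∣ i → (x ^ Q = x ∧ Q = m + 1 ∨ x ^ Q = x⁻¹ ∧ Q + 1 = m) → x ^ i = 1 := by
    rintro x Q m _ hx ⟨j, rfl⟩ (⟨h, rfl⟩ | ⟨h, rfl⟩)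
    · rw [pow_mul, mul_right_cancel₀ (fun h : x = 0 => h0 (h ▸ hx)) ((pow_succ x m).symm.trans
        (h.trans (one_mul x).symm)), one_pow]
    · rw [pow_mul, pow_succ, h, inv_mul_cancel₀ fun h : x = 0 => h0 (h ▸ hx), one_pow]
  have q1 : ∀ d, Fintype.card F ^ d = Fintype.card F ^ d - 1 + 1 := fun d =>
    (Nat.sub_add_cancel (pow_pos (zero_lt_one.trans hq) d)).symm
  by_cases hA : ∀ x ∈ N, x ^ Fintype.card F ^ 2 = x ∨ x ^ Fintype.card F ^ 2 = x⁻¹
  · by_cases hB1 : N.Nodup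
    · exact (half K p hB ho hd h).mono fun i hi => ⟨fun x hx => (hA x hx).elim
        (fun h => pw hx hi.2 (Or.inl ⟨h, q1 2⟩)) fun h => pw hx hi.1 (Or.inr ⟨h, rfl⟩), nd hB1⟩
    have rep : ∀ x ∈ N, ∀ c d, N = c • sorb (Fintype.card F) x d → (sorb (Fintype.card F) x d).Nodup →
        (x ^ Fintype.card F ^ d = x ∨ x ^ Fintype.card F ^ d = x⁻¹) → ∀ e, c = 2 * e → 2 * d + 2 * e + 2 ≤ 8 →
        d ≤ 2 → AffEx B fun i => (∀ x ∈ N, x ^ i = 1) ∧ ∀ x a, p ^ a < N.count x → p ^ (a + 1) ∣ i :=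
      fun x hx c d a1 a2 a3 e a4 a5 a6 => (affEx_model p h2 hB (by omega) K (sorb_stable a3) (sorb_inv _ _ _)
        (zero_notMem_sorb _ (fun h => h0 (h ▸ hx)) _) (one_notMem_sorb hφ (one_pow _) inv_one
          (fun h => h4 (h ▸ hx)) _) (one_notMem_sorb hφ ho.neg_one_pow (by simp [inv_neg]) (fun h => h5 (h ▸ hx)) _)
        (e := e) (by simp; omega) (by simp; omega)).mono fun i hi => ⟨fun y hy => hi.1 y
          (Multiset.mem_of_mem_nsmul (a1 ▸ hy)), fun y a ha => hi.2.2.2 a (ha.trans_le (by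
            rw [a1, Multiset.count_nsmul, a4]
            exact mul_le_of_le_one_right' (Multiset.nodup_iff_count_le_one.1 a2 y)))⟩
    by_cases hB2 : ∀ x ∈ N, x ^ Fintype.card F ^ 2 = x
    · by_cases hB3 : ∀ x, N.count x ≤ 3
      · obtain ⟨M, a1, a2, a3, a4, a5, a6, a7⟩ := gen K p ho le_rfl (Or.inl (q1 2))
        refine (affEx_model p h2 hB (by omega) K a1 a2 a3 a4 a5 (e := 1) (by omega) (by omega)).mono fun i hi =>
          ⟨fun x hx => pw hx (a7 i hi.1) (Or.inl ⟨hB2 x hx, q1 2⟩), fun x a ha => hi.2.2.2 a ?_⟩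
        rcases a with _ | a
        · simp
        · have := Nat.le_self_pow (a.add_one_ne_zero) p
          have := hB3 x
          omega
      obtain ⟨x, hx⟩ := not_forall.1 hB3
      have a0 : x ∈ N := Multiset.count_pos.1 (by omega)
      obtain ⟨d, c, M, a1, a2, a3, a4, a5, a6, a7, -⟩ := split h1 h3 x a0 (hi x a0)
      obtain rfl : d = 1 := by nlinarith
      obtain rfl : M = 0 := Multiset.card_eq_zero.1 (by omega)
      exact rep x a0 c 1 (a6.trans (add_zero _)) a4 a3 2 (by simp at a7; omega) le_rfl one_le_two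
    obtain ⟨z, hz⟩ := not_forall.1 hB2
    obtain ⟨z0, z1⟩ := Classical.not_imp.1 hz
    obtain ⟨d, c, M, a1, a2, a3, a4, a5, a6, a7, a8, a9, a10, a11⟩ := split h1 h3 z z0 (hi z z0)
    obtain rfl : d = 2 := ((Nat.dvd_prime Nat.prime_two).1 (a11 2 (hA z z0))).resolve_left
      (by rintro rfl; exact z1 (one a3))
    obtain rfl | rfl : c = 2 ∨ c = 1 := by omega
    · obtain rfl : M = 0 := Multiset.card_eq_zero.1 (by omega)
      exact rep z z0 2 2 (a6.trans (add_zero _)) a4 a3 1 rfl le_rfl le_rfl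
    rw [one_nsmul] at a6
    obtain ⟨x, hx⟩ : ∃ x, 2 ≤ M.count x := by
      by_contra! hx
      exact hB1 (a6 ▸ Multiset.nodup_add.2 ⟨a4, Multiset.nodup_iff_count_le_one.2 fun x => by have := hx x; omega,
        Multiset.disjoint_right.2 (a10 _)⟩)
    have x0 : x ∈ M := Multiset.count_pos.1 (by omega)
    have x1 : x ∈ N := a6 ▸ Multiset.mem_add.2 (Or.inr x0)
    obtain ⟨d, c, M', b1, b2, b3, -, b5, b6, b7, -⟩ := split a8 a9 x x0 (hi x x1)
    obtain rfl : d = 1 := by nlinarith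
    obtain rfl : M' = 0 := Multiset.card_eq_zero.1 (by omega)
    obtain rfl : c = 2 := by simp at b7; omega
    obtain ⟨δ1, d1, d2⟩ := sorb_delta' (fun h => h0 (h ▸ z0)) (hi z z0) (Or.inr ⟨a3.resolve_left z1, rfl⟩)
    obtain ⟨η, e1, e2⟩ : ∃ η : K, η * η = 1 ∧ (x ^ Fintype.card F ^ 1 = x ∧ η = 1 ∨
      x ^ Fintype.card F ^ 1 = x⁻¹ ∧ η = -1) := b3.elim (fun h => ⟨1, by simp, Or.inl ⟨h, rfl⟩⟩)
        fun h => ⟨-1, by simp, Or.inr ⟨h, rfl⟩⟩
    obtain ⟨δ2, d3, d4⟩ := sorb_delta' (fun h => h0 (h ▸ x1)) (hi x x1) e2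
    refine absurd ?_ (hm (δ1 * (δ2 * δ2)) ?_)
    · rw [mul_pow, mul_pow, d2, d4]; linear_combination (-δ1 * δ2 * δ2) * e1
    · rw [a6, b6, add_zero, two_nsmul, Multiset.map_add, Multiset.map_add, Multiset.prod_add, Multiset.prod_add, d1,
        d3]; ring
  obtain ⟨x, hx⟩ := not_forall.1 hA
  obtain ⟨x0, x1⟩ := Classical.not_imp.1 hx
  have x2 : x ≠ 0 := fun h => h0 (h ▸ x0)
  obtain ⟨d, c, M, a1, a2, a3, a4, a5, a6, a7, a8, a9, a10, -⟩ := split h1 h3 x x0 (hi x x0)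
  have d3 : 3 ≤ d := by
    by_contra h
    obtain rfl | rfl : d = 1 ∨ d = 2 := by omega
    exacts [x1 (Or.inl (one a3)), x1 a3]
  obtain rfl : c = 1 := by nlinarith
  rw [one_nsmul] at a6
  obtain rfl | rfl : d = 4 ∨ d = 3 := by omega
  · obtain rfl : M = 0 := Multiset.card_eq_zero.1 (by omega)
    rw [add_zero] at a6
    obtain ⟨a, η, e1, rfl, e2⟩ := exists_sqrt_eta x2 (Fintype.card F ^ 4)
    obtain ⟨e3, ⟨-, e4⟩ | ⟨e4, -⟩⟩ := e2 a3
    · rw [← th_sorb hB' h2 (by omega) g (D := 0) (hN.trans (a6.trans (add_zero _).symm)) e1 (fun h => h5 (h ▸ x0))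
        e3 (Or.inl e4), ht, Int.cast_one, one_mul] at e4
      refine (half K p hB ho hd h).mono fun i ⟨⟨k, hk⟩, hi⟩ => ⟨fun y hy => pow_eq_one_of_mem_sorb ?_ (a6 ▸ hy),
        nd (a6 ▸ a4)⟩
      obtain ⟨r, hr⟩ : ∃ r, Fintype.card F ^ 2 = r + 1 := ⟨_, q1 2⟩
      rw [hk, hr, Nat.add_sub_cancel, show (r + 1 + 1) * k = r * k + 2 * k by ring] at hi
      obtain ⟨l, hl⟩ := (Nat.dvd_add_right (dvd_mul_right _ _)).1 hi
      rw [show Fintype.card F ^ 4 = r * (r + 1 + 1) + 1 by rw [show 4 = 2 * 2 from rfl, pow_mul, hr]; ring,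
        pow_succ, mul_eq_right₀ e1] at e4
      rw [← pow_mul, hk, hr, mul_left_comm, hl, ← mul_assoc, mul_comm _ r, pow_mul, e4, one_pow]
    · obtain ⟨δ, d1, d2⟩ := sorb_delta' x2 (hi _ x0) (Or.inr ⟨e4, rfl⟩)
      exact absurd d2 (hm δ (by rw [a6, d1]; ring))
  obtain ⟨y, y0⟩ := Multiset.card_pos_iff_exists_mem.1 (show 0 < M.card by omega)
  have y1 : y ∈ N := a6 ▸ Multiset.mem_add.2 (Or.inr y0)
  have y2 : y ≠ 0 := fun h => h0 (h ▸ y1)
  obtain ⟨d, c, M', b1, b2, b3, b4, -, b6, b7, -⟩ := split a8 a9 y y0 (hi y y1)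
  obtain rfl : d = 1 := by nlinarith
  obtain rfl : c = 1 := by omega
  obtain rfl : M' = 0 := Multiset.card_eq_zero.1 (by omega)
  rw [one_nsmul, add_zero] at b6
  have fin : ∀ m, (x ^ Fintype.card F ^ 3 = x ∧ Fintype.card F ^ 3 = m + 1 ∨
      x ^ Fintype.card F ^ 3 = x⁻¹ ∧ Fintype.card F ^ 3 + 1 = m) → (y ^ Fintype.card F ^ 3 = y ∧
      Fintype.card F ^ 3 = m + 1 ∨ y ^ Fintype.card F ^ 3 = y⁻¹ ∧ Fintype.card F ^ 3 + 1 = m) →
      AffEx B fun i => (∀ x ∈ N, x ^ i = 1) ∧ ∀ x a, p ^ a < N.count x → p ^ (a + 1) ∣ i := fun m c1 c2 => by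
    obtain ⟨M, a1, a2, a3, a4', a5, a6', a7⟩ := gen K p ho (d := 3) (by omega) (c1.imp And.right And.right)
    refine (affEx_model' p h2 hB (by omega) K a1 a2 a3 a4' a5 (by omega) (by rintro rfl; simp at a6')).mono
      fun i hi => ⟨fun z hz => ?_, nd (a6 ▸ Multiset.nodup_add.2 ⟨a4, b6 ▸ b4, Multiset.disjoint_right.2 (a10 _)⟩)⟩
    rw [a6, b6, Multiset.mem_add] at hz
    exact hz.elim (pow_eq_one_of_mem_sorb (pw x0 (a7 i hi.1) c1)) (pow_eq_one_of_mem_sorb (pw y1 (a7 i hi.1) c2))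
  have y3 : y ^ Fintype.card F ^ 3 = y ^ Fintype.card F ^ 1 := by
    rw [pow_succ, pow_mul, one b3, pow_one]
  have con : ∀ {η η' : K}, (x ^ Fintype.card F ^ 3 = x ∧ η = 1 ∨ x ^ Fintype.card F ^ 3 = x⁻¹ ∧ η = -1) →
      (y ^ Fintype.card F ^ 1 = y ∧ η' = 1 ∨ y ^ Fintype.card F ^ 1 = y⁻¹ ∧ η' = -1) → η * η' ≠ -1 :=
    fun c1 c2 c3 => by
      obtain ⟨δ1, d1, d2⟩ := sorb_delta' x2 (hi x x0) c1
      obtain ⟨δ2, d3, d4⟩ := sorb_delta' y2 (hi y y1) c2
      exact hm (δ1 * δ2) (by rw [a6, b6, Multiset.map_add, Multiset.prod_add, d1, d3]; ring)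
        (by rw [mul_pow, d2, d4, ← c3]; ring)
  rcases a3 with a3 | a3 <;> rcases b3 with b3 | b3
  · exact fin _ (Or.inl ⟨a3, q1 3⟩) (Or.inl ⟨y3.trans b3, q1 3⟩)
  · exact absurd (one_mul _) (con (Or.inl ⟨a3, rfl⟩) (Or.inr ⟨b3, rfl⟩))
  · exact absurd (mul_one _) (con (Or.inr ⟨a3, rfl⟩) (Or.inl ⟨b3, rfl⟩))
  · exact fin _ (Or.inr ⟨a3, rfl⟩) (Or.inr ⟨y3.trans b3, rfl⟩)

theorem dirB8 (h : H6.discr B = -1) (hd' : finrank F V' = 8) {g : Isom B'} (hg : g ∈ commutator (Isom B'))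
    (hi : ∀ v, g.1 v = (1 : F) • v → v = 0) : AffEx B fun i => g ^ i = 1 := by
  have h2 := two_ne_zero_of_odd ho
  have : CharP K p := charP_ext K p F
  have hp := odd_char p h2
  obtain ⟨r1, r2⟩ := (mem_comm_iff hB' h2 (by omega) g).1 hg
  rcases discr_cases hB' h2 with h' | h'
  swap
  · exact affEx_iso h2 hB (by omega) hB' g r1 r2 (by omega) (by omega)
  obtain ⟨N, E, h1, h3, h4, h5, h6, h7, h8⟩ := exists_struct_neg K p h2 hB' g hi
  have close : ∀ i, (∀ x ∈ N, x ^ i = 1) → (∀ x a, p ^ a < N.count x → p ^ (a + 1) ∣ i) →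
      (∀ a, p ^ a + 1 < E → p ^ (a + 1) ∣ i) → (E ≠ 0 → 2 ∣ i) → g ^ i = 1 := fun i a1 a2 a3 a4 => by
    rcases Nat.eq_zero_or_pos i with rfl | hi
    · exact pow_zero _
    obtain ⟨a, j, hj, rfl⟩ := Nat.exists_eq_pow_mul_and_not_dvd hi.ne' p (Fact.out : p.Prime).ne_one
    have b1 : ¬ p ^ (a + 1) ∣ p ^ a * j := fun h => hj ((Nat.mul_dvd_mul_iff_left
      (pow_pos (Fact.out : p.Prime).pos a)).1 (pow_succ p a ▸ h))
    exact h8 a j (by rintro rfl; simp at hj) (fun x hx => pow_injective_of_char p a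
      (by simpa [← pow_mul, mul_comm] using a1 x hx)) (fun x => not_lt.1 fun h => b1 (a2 x a h))
      (not_lt.1 fun h => b1 (a3 a h)) fun h => (Nat.coprime_two_left.2 hp.pow).dvd_of_dvd_mul_left (a4 h)
  have h9 := card_evE K (g.1 : End F V')
  simp only [h1, hd', Multiset.card_add, Multiset.card_replicate] at h9
  obtain ⟨e, rfl⟩ := even_of_mem_comm h2 hg (D := 0) (by simpa using h1) (prod_eq_one_of K h4 h5 h6 h7).1
  rcases e with _ | _ | e
  · exact (noPm K p hB hB' ho hd h hd' h' r2 (by simpa using h1) h3 h4 h5 h6 h7).mono fun i hi =>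
      close i hi.1 hi.2 (by simp) (by simp)
  · exact (affEx_model' p h2 hB (by omega) K h3 h4 h5 h6 h7 (by omega) (by rintro rfl; simp at h9)).mono
      fun i hi => close i hi.1 hi.2.1 (fun a ha => by have := hp.pow (n := a); obtain ⟨_, _⟩ := this; omega)
        fun _ => hi.2.2
  · exact (affEx_model p h2 hB (by omega) K h3 h4 h5 h6 h7 (e := e + 1) (by omega) (by omega)).mono
      fun i hi => close i hi.1 hi.2.1 (fun a ha => hi.2.2.2 a (by
        have := hp.pow (n := a); obtain ⟨_, _⟩ := this; omega)) fun _ => hi.2.2.1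

theorem dirB (h : H6.discr B = -1) (hd' : finrank F V' = 9) {g : Isom B'} (hg : g ∈ commutator (Isom B')) :
    AffEx B fun i => g ^ i = 1 := by
  have h2 := two_ne_zero_of_odd ho
  have hp := (Fact.out : p.Prime).one_lt
  obtain ⟨W, hW, a, b, rfl, a1, a2⟩ := exists_fit hB' g (mul_one 1)
  rw [one_smul] at a1
  have a3 := hB'.finrank_perp W
  have a4 : b ∈ {b | Even (rk b) ∧ th b = 1} := by
    have := mul_mem (inv_mem (mem_comm_of_odd hB' h2 (by omega) (odd_char p h2).pow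
      ((glueHom_pow_eq_one hB' hW (b := 1)).2 ⟨isom_pow_eq_one.2 (pow_eq_one_of_nil p (nil_pow_finrank a1)
        (Nat.lt_pow_self hp).le), one_pow _⟩))) hg
    rwa [← map_inv, ← map_mul, Prod.inv_mk, Prod.mk_mul_mk, inv_mul_cancel, inv_one, one_mul,
      mem_comm_iff hB' h2 (by omega), rk_glue_right, th_glue_right] at this
  obtain ⟨e, he⟩ := a4.1
  rw [rk_of_inj b (by simpa using a2)] at he
  have a5 : ∀ c, finrank F W ≤ p ^ c + 1 → a ^ p ^ c = 1 := fun c hc =>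
    isom_pow_eq_one.2 (unip_pow_eq_one p h2 (hB'.restrict hW) a.2 a1 hc)
  rcases (show e ≤ 4 by omega).eq_or_lt with rfl | h4
  · exact (dirB8 K p hB (hB'.restrict_perp hW) ho hd h he ((mem_comm_iff (hB'.restrict_perp hW) h2 (by omega) b).2
      a4) a2).mono fun i hi => (glueHom_pow_eq_one hB' hW).2 ⟨by
        rw [← pow_one a, ← pow_zero p, a5 0 (by omega), one_pow], hi⟩
  refine (affEx_unip p h2 hB (by omega) (hB'.restrict_perp hW) b a4.1 a4.2 (e := 4 - e) (by omega) (by omega)).mono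
    fun i hi => (glueHom_pow_eq_one hB' hW).2 ⟨?_, hi.1⟩
  obtain ⟨c, c1, j, rfl⟩ := exists_pow_dvd hp hi.2
  rw [pow_mul, a5 c (by omega), one_pow]

end

/-- Let F be a finite field of odd order q, let Ω₉ be the simple orthogonal group PΩ(9, F), and let Ω₈⁻ be the commutator subgroup of the isometry group of a minus-type non-singular quadratic form on V = F⁸ (the simple group PΩ⁻(8, F), acting on its natural module V). Then Ω₉ and the semidirect product V ⋊ Ω₈⁻ have exactly the same set of element orders. -/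
theorem result {F : Type*} [Field F] [Fintype F] (hF : Odd (Fintype.card F)) (a b : F)
    (hab : ∀ z₁ z₂ : F, z₁ ^ 2 + a * z₁ * z₂ + b * z₂ ^ 2 = 0 → z₁ = 0 ∧ z₂ = 0) :
    Set.range (orderOf : Cfsg.POmega F (Cfsg.quadFormOdd 4 F) → ℕ) =
      Set.range (orderOf :
        (Multiplicative (((Fin 3 ⊕ Fin 3) ⊕ Fin 2) → F)) ⋊[
          (MulAutMultiplicative (((Fin 3 ⊕ Fin 3) ⊕ Fin 2) → F)).symm.toMonoidHom.comp
           ((DistribMulAction.toAddAut (LinearMap.GeneralLinearGroup F (((Fin 3 ⊕ Fin 3) ⊕ Fin 2) → F))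
              (((Fin 3 ⊕ Fin 3) ⊕ Fin 2) → F)).comp
            (Matrix.GeneralLinearGroup.toLin.toMonoidHom.comp
              ((Cfsg.isometryGroup F (Cfsg.quadFormMinus 3 F a b)).subtype.comp
                (Cfsg.Omega F (Cfsg.quadFormMinus 3 F a b)).subtype)))]
          ↥(Cfsg.Omega F (Cfsg.quadFormMinus 3 F a b)) → ℕ) := by
  classical
  obtain ⟨K, _, _, _⟩ := exists_algClosed F
  obtain ⟨p, _, _, -⟩ := char_data F
  have h2 := two_ne_zero_of_odd hF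
  have hB := isEps_pb (H6.qMinus_nondeg 3 F hab)
  have hB' := isEps_pb (H6.qOdd_nondeg 4 F h2)
  have hd : finrank F ((Fin 3 ⊕ Fin 3) ⊕ Fin 2 → F) = 8 := by simp
  have hd' : finrank F (Unit ⊕ (Fin 4 ⊕ Fin 4) → F) = 9 := by simp
  have hm : H6.discr (H6.pb (H6.qMinus 3 F a b)) = -1 := by
    refine (discr_cases hB h2).resolve_left fun h => ?_
    have h1 := (mem_comm_iff hB h2 (by omega) (negI _)).2 ⟨by rw [rk_of_inj _ (negI_inj h2 _), hd]; decide,
      (th_negI hB h2).trans h⟩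
    have h3 := ((H6.mem_commutator_OG (H6.qMinus_nondeg 3 F hab) (H6.bigEnough_of_two_ne_zero h2 (by omega))
      (H6.negOG _)).1 ((H6.mem_commutator_equiv (MulEquiv.subgroupCongr (og_eq _ h2)) _).1 h1)).2
    rw [H6.theta_neg_qMinus h2 3 (by omega) hab, show 3 + 1 = 2 * 2 from rfl, pow_mul, quadraticChar_sq_one
      (by simp)] at h3
    simp at h3
  set φ := (MulAutMultiplicative (((Fin 3 ⊕ Fin 3) ⊕ Fin 2) → F)).symm.toMonoidHom.comp
           ((DistribMulAction.toAddAut (LinearMap.GeneralLinearGroup F (((Fin 3 ⊕ Fin 3) ⊕ Fin 2) → F))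
              (((Fin 3 ⊕ Fin 3) ⊕ Fin 2) → F)).comp
            (Matrix.GeneralLinearGroup.toLin.toMonoidHom.comp
              ((Cfsg.isometryGroup F (Cfsg.quadFormMinus 3 F a b)).subtype.comp
                (Cfsg.Omega F (Cfsg.quadFormMinus 3 F a b)).subtype))) with hφ
  let e : Omega F (quadFormMinus 3 F a b) ≃* _ := omEquiv (H6.qMinus 3 F a b) h2
  let ψ : (Multiplicative _ ⋊[φ] Omega F (quadFormMinus 3 F a b)) →* End F (_ × F) :=
    { toFun := fun h => aff ((e h.right).1.1 : End F _) h.left.toAdd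
      map_one' := aff_eq_one.2 ⟨by simp; rfl, rfl⟩
      map_mul' := fun x y => by rw [← aff_mul, SemidirectProduct.mul_right, map_mul]; rfl }
  have hψ : ∀ h, ψ h = 1 ↔ h = 1 := fun h => ⟨fun h1 => SemidirectProduct.ext (aff_eq_one.1 h1).2
    (e.map_eq_one_iff.1 (Subtype.ext ((pow_one _).symm.trans
      (isom_pow_eq_one.2 ((pow_one _).trans (aff_eq_one.1 h1).1))))),
    fun h1 => by rw [h1, map_one]⟩
  have := finite_isom (H6.pb (H6.qMinus 3 F a b) : Bil F _)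
  have := finite_isom (H6.pb (H6.qOdd 4 F) : Bil F _)
  have : Finite (Omega F (quadFormMinus 3 F a b)) := Finite.of_equiv _ e.symm.toEquiv
  have : Finite (Multiplicative _ ⋊[φ] Omega F (quadFormMinus 3 F a b)) :=
    Finite.of_equiv _ SemidirectProduct.equivProd.symm
  ext k
  rw [range_orderOf_pOmega h2 (by omega)]
  constructor
  · rintro ⟨g, hg, rfl⟩
    obtain ⟨x, hx, v, hv⟩ := dirB K p hB hB' hF hd hm hd' hg
    refine exists_orderOf_eq_of_dvd (⟨Multiplicative.ofAdd v, e.symm ⟨x, hx⟩⟩ : _ ⋊[φ] _)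
      (orderOf_dvd_of_pow_eq_one (hv _ ?_))
    have := congrArg ψ (pow_orderOf_eq_one (⟨Multiplicative.ofAdd v, e.symm ⟨x, hx⟩⟩ : _ ⋊[φ] _))
    rw [map_pow, map_one] at this
    simpa [ψ] using this
  · rintro ⟨h, rfl⟩
    obtain ⟨x, hx, hv⟩ := dirA p hB hB' hF hd hd' (e h.right).2 h.left.toAdd
    exact exists_orderOf_eq_of_mem hx fun i hi => orderOf_dvd_of_pow_eq_one ((hψ _).1 ((map_pow ψ h i).trans (hv i hi)))

end Cfsg.Agent.S2517
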