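import Cfsg.Statements.S2519
import Cfsg.Agent.H8.G2Ord

set_option autoImplicit false
open Cfsg Cfsg.Agent.H7 Cfsg.Agent.H8

namespace Cfsg.Agent.S2519

/-- Let F be a finite field of odd order q = p^a ≥ 5. The element orders of the Chevalley group G₂(F) that are maximal under divisibility are exactly p(q + 1), p(q − 1), q² − 1, q² + q + 1, q² − q + 1, together with p² when p is 3 or 5. -/
theorem result {F : Type*} [Field F] [Fintype F] (p a : ℕ) (hp : p.Prime) (hp2 : p ≠ 2) (ha : 1 ≤ a) (hF : Fintype.card F = p ^ a) (hq5 : 5 ≤ Fintype.card F) :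
    {n : ℕ | n ∈ Set.range (orderOf : ↥(Cfsg.Lie.chevG2.group F) → ℕ) ∧ ∀ m ∈ Set.range (orderOf : ↥(Cfsg.Lie.chevG2.group F) → ℕ), n ∣ m → m = n} =
      ({p * (p ^ a + 1), p * (p ^ a - 1), p ^ (2 * a) - 1, p ^ (2 * a) + p ^ a + 1, p ^ (2 * a) - p ^ a + 1} : Set ℕ) ∪
        (if p = 3 ∨ p = 5 then ({p ^ 2} : Set ℕ) else ∅) := by
  have := Fact.mk hp
  have : CharP F p := charP_of_card_eq_prime_pow hF
  rw [pow_mul' p 2 a]
  have hpq := dvd_pow_self p (Nat.one_le_iff_ne_zero.1 ha)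
  generalize p ^ a = q at *
  rw [hF] at hq5
  have h1 : ∀ N, N ∈ ({p * (q + 1), p * (q - 1), q ^ 2 - 1, q ^ 2 + q + 1, q ^ 2 - q + 1} : Set ℕ) ∪
      (if p = 3 ∨ p = 5 then ({p ^ 2} : Set ℕ) else ∅) ↔ N = p * (q + 1) ∨ N = p * (q - 1) ∨ N = q ^ 2 - 1 ∨
      N = q ^ 2 + q + 1 ∨ N = q ^ 2 - q + 1 ∨ ((p = 3 ∨ p = 5) ∧ N = p ^ 2) := fun N => by
    split_ifs with h <;> simp [h] <;> tauto
  have h2 := fun N hN => orderG2_exists p hF (N := N) hN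
  have h3 : ∀ y : Lie.chevG2.group F, ∃ N, (N = p * (q + 1) ∨ N = p * (q - 1) ∨ N = q ^ 2 - 1 ∨
      N = q ^ 2 + q + 1 ∨ N = q ^ 2 - q + 1 ∨ ((p = 3 ∨ p = 5) ∧ N = p ^ 2)) ∧ orderOf y ∣ N := fun y => by
    rcases orderG2_dvd p hF y with h | h | h | h | h | ⟨h, -⟩ | ⟨_, h⟩
    all_goals first | exact absurd h hp2 | exact ⟨_, by tauto, h⟩
  ext N
  rw [h1]
  constructor
  · rintro ⟨⟨y, rfl⟩, hy⟩
    obtain ⟨N, h4, h5⟩ := h3 y
    rwa [← hy N (h2 N (by tauto)) h5]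
  refine fun hN => ⟨h2 N (by tauto), ?_⟩
  rintro _ ⟨y, rfl⟩ h4
  obtain ⟨M, h5, h6⟩ := h3 y
  refine Nat.dvd_antisymm ((?_ : M = N) ▸ h6) h4
  replace h4 := h4.trans h6
  clear h6 h1 h2 h3
  have e0 := hp.pos
  have e1 := Nat.le_of_dvd (by omega) hpq
  obtain ⟨B, hB⟩ : ∃ B, q = B + 1 := ⟨q - 1, by omega⟩
  have e2 : q ^ 2 = B * B + 2 * B + 1 := by rw [hB]; ring
  have e3 : 4 * B ≤ B * B := Nat.mul_le_mul_right B (by omega)
  have e4 : ∀ X, p ∣ X + 1 → Nat.Coprime X p := fun X h =>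
    (hp.coprime_iff_not_dvd.2 fun h' => hp.one_lt.ne' (Nat.dvd_one.1 ((Nat.dvd_add_right h').1 h))).symm
  have e5 : ∀ X, p ∣ X → Nat.Coprime (X + 1) p := fun X h =>
    (hp.coprime_iff_not_dvd.2 fun h' => hp.one_lt.ne' (Nat.dvd_one.1 ((Nat.dvd_add_right h).1 h'))).symm
  have e6 := hpq.pow two_ne_zero
  have c1 := e4 (q ^ 2 - 1) (by rwa [Nat.sub_add_cancel (by omega)])
  have c2 := e5 _ (dvd_add e6 hpq)
  have c3 := e5 _ (Nat.dvd_sub e6 hpq)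
  have c4 := e4 (q - 1) (by rwa [Nat.sub_add_cancel (by omega)])
  have c5 := e5 _ hpq
  have f1 : ∀ {X Y}, Nat.Coprime Y p → p * X ∣ Y → False := fun h h' =>
    hp.coprime_iff_not_dvd.1 h.symm ((dvd_mul_right _ _).trans h')
  have f2 : ∀ {X Y}, X ∣ Y → 0 < Y → Y < X → False := fun h h1 h2 => (Nat.le_of_dvd h1 h).not_gt h2
  have f3 : ∀ {X Y}, X ∣ Y → X < Y → Y < 2 * X → False := fun h h1 h2 =>
    f2 (Nat.dvd_sub h dvd_rfl) (by omega) (by omega)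
  rw [pow_two p] at h5 hN
  rcases hN with rfl | rfl | rfl | rfl | rfl | ⟨-, rfl⟩ <;> rcases h5 with rfl | rfl | rfl | rfl | rfl | ⟨-, rfl⟩
  all_goals first
    | rfl
    | exact (f1 ‹_› h4).elim
    | exact (f2 h4 (by omega) (by omega)).elim
    | exact (f3 h4 (by omega) (by omega)).elim
    | exact (f2 (Nat.Coprime.dvd_of_dvd_mul_left ‹_› h4) (by omega) (by omega)).elim
    | exact (f2 (Nat.dvd_of_mul_dvd_mul_left e0 h4) (by omega) (by omega)).elim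
    | exact (f3 (Nat.dvd_of_mul_dvd_mul_left e0 h4) (by omega) (by omega)).elim
    | exact (f1 (X := 1) c5 (by simpa using Nat.dvd_of_mul_dvd_mul_left e0 h4)).elim
    | exact (f1 (X := 1) c4 (by simpa using Nat.dvd_of_mul_dvd_mul_left e0 h4)).elim
    | exact absurd (c4.eq_one_of_dvd (Nat.dvd_of_mul_dvd_mul_left e0 h4)) (by omega)

end Cfsg.Agent.S2519
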