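import Cfsg.Statements.S2520
import Cfsg.Agent.H8.G2Ord

set_option autoImplicit false
open Cfsg Cfsg.Agent.H7 Cfsg.Agent.H8

namespace Cfsg.Agent.S2520

/-- Let F be a finite field with q = 2^a ≥ 4 elements and G₂(F) the Chevalley group of type G₂ over it. Every element order of G₂(F) maximal under divisibility lies in the set {8, 12, 2(q + 1), 2(q − 1), q² − 1, q² + q + 1, q² − q + 1}, and every member of that set is an element order of G₂(F). -/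
theorem result {F : Type*} [Field F] [Fintype F] (a : ℕ) (ha : 2 ≤ a) (hF : Fintype.card F = 2 ^ a) :
    {n : ℕ | n ∈ Set.range (orderOf : ↥(Cfsg.Lie.chevG2.group F) → ℕ) ∧ ∀ m ∈ Set.range (orderOf : ↥(Cfsg.Lie.chevG2.group F) → ℕ), n ∣ m → m = n} ⊆ ({8, 12, 2 * (2 ^ a + 1), 2 * (2 ^ a - 1), 2 ^ (2 * a) - 1, 2 ^ (2 * a) + 2 ^ a + 1, 2 ^ (2 * a) - 2 ^ a + 1} : Set ℕ) ∧
    ({8, 12, 2 * (2 ^ a + 1), 2 * (2 ^ a - 1), 2 ^ (2 * a) - 1, 2 ^ (2 * a) + 2 ^ a + 1, 2 ^ (2 * a) - 2 ^ a + 1} : Set ℕ) ⊆ Set.range (orderOf : ↥(Cfsg.Lie.chevG2.group F) → ℕ) := by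
  have : CharP F 2 := charP_of_card_eq_prime_pow hF
  rw [pow_mul' 2 2 a]
  have h := fun N hN => orderG2_exists 2 hF (N := N) hN
  refine ⟨?_, fun N hN => h N (by simp only [Set.mem_insert_iff, Set.mem_singleton_iff] at hN; tauto)⟩
  rintro _ ⟨⟨y, rfl⟩, hy⟩
  simp only [Set.mem_insert_iff, Set.mem_singleton_iff]
  rcases orderG2_dvd 2 hF y with h1 | h1 | h1 | h1 | h1 | ⟨-, h1 | h1⟩ | ⟨h1, -⟩
  all_goals first | omega | (have := (hy _ (h _ (by tauto)) h1).symm; tauto)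

end Cfsg.Agent.S2520
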