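import Cfsg.Statements.S2521


set_option autoImplicit false
open Cfsg

namespace Cfsg.Agent.S2521

/-- Let B be a finite group that is the semidirect product of a nilpotent normal subgroup U by an abelian subgroup T (U ∩ T = 1, UT = B), and let t ∈ T have centralizer exactly T. Then every element of the coset tU is conjugate to t in B: for each u ∈ U there is b ∈ B with b t b⁻¹ = t u. -/
theorem result {B : Type*} [Group B] [Finite B] (U T : Subgroup B) [U.Normal] (hU : Group.IsNilpotent ↥U) (hT : IsMulCommutative ↥T)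
    (hcompl : Subgroup.IsComplement' U T) (t : B) (ht : t ∈ T) (hreg : Subgroup.centralizer ({t} : Set B) = T) (u : B) (hu : u ∈ U) :
    ∃ b : B, b * t * b⁻¹ = t * u := by
  let f : U → U := fun x => ⟨t⁻¹ * x * t * (x : B)⁻¹, by
    have h1 : t⁻¹ * x * t⁻¹⁻¹ ∈ U := Subgroup.Normal.conj_mem inferInstance _ x.2 _
    rw [inv_inv] at h1
    exact U.mul_mem h1 (U.inv_mem x.2)⟩
  have hf : Function.Injective f := by
    intro x y hxy
    have h1 : t⁻¹ * x * t * (x : B)⁻¹ = t⁻¹ * y * t * (y : B)⁻¹ := congrArg Subtype.val hxy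
    have h2 : (y : B)⁻¹ * x ∈ T := by
      rw [← hreg, Subgroup.mem_centralizer_iff]
      intro h hh
      rw [Set.mem_singleton_iff] at hh
      subst hh
      calc h * ((y : B)⁻¹ * x) = (y : B)⁻¹ * ((y : B) * h * (y : B)⁻¹) * x := by group
        _ = (y : B)⁻¹ * h * (h⁻¹ * y * h * (y : B)⁻¹) * x := by group
        _ = (y : B)⁻¹ * h * (h⁻¹ * x * h * (x : B)⁻¹) * x := by rw [h1]
        _ = (y : B)⁻¹ * x * h := by group
    have h3 : (y : B)⁻¹ * x ∈ U := U.mul_mem (U.inv_mem y.2) x.2
    have h4 : (y : B)⁻¹ * x = 1 := by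
      have := hcompl.disjoint
      rw [Subgroup.disjoint_def] at this
      exact this h3 h2
    apply Subtype.ext
    rw [inv_mul_eq_one] at h4
    exact h4.symm
  obtain ⟨x, hx⟩ := Finite.surjective_of_injective hf ⟨u, hu⟩
  refine ⟨x, ?_⟩
  have h1 : t⁻¹ * x * t * (x : B)⁻¹ = u := congrArg Subtype.val hx
  rw [← h1]; group

end Cfsg.Agent.S2521
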