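import Cfsg.Statements.S2522
import Cfsg.Agent.H4.RegU

set_option autoImplicit false
open Cfsg

namespace Cfsg.Agent.S2522

open Cfsg.Agent.H4 Module Polynomial

/-- Let K be a field with at least four elements (finite or infinite), n ≥ 3, and J ∈ GL(n, K) the regular unipotent matrix (ones on the diagonal and the superdiagonal, zeros elsewhere). Then every non-scalar g ∈ GL(n, K) with det g = 1 is a product of two GL(n, K)-conjugates of J. -/
theorem result {K : Type*} [Field K] (hK : 4 ≤ Cardinal.mk K) (n : ℕ) (hn : 3 ≤ n) (J g : GL (Fin n) K)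
    (hJ : ∀ i j : Fin n, (J : Matrix (Fin n) (Fin n) K) i j = if i = j then 1 else if j.val = i.val + 1 then 1 else 0)
    (hg : ¬ ∃ c : K, (g : Matrix (Fin n) (Fin n) K) = c • (1 : Matrix (Fin n) (Fin n) K))
    (hdet : (g : Matrix (Fin n) (Fin n) K).det = 1) :
    ∃ x y : GL (Fin n) K, g = (x * J * x⁻¹) * (y * J * y⁻¹) := by
  obtain ⟨m, rfl⟩ : ∃ m, n = m + 1 := ⟨n - 1, by omega⟩
  have hfin : finrank K (Fin (m + 1) → K) = m + 1 := by simp
  obtain ⟨W, a1, a2, a3, a4⟩ := exists_reg_unip (four_of_cardinal hK) hfin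
    (g := Matrix.toLin' (g : Matrix (Fin (m + 1)) (Fin (m + 1)) K))
    (by rw [LinearMap.det_toLin', hdet]) fun c hc => hg ⟨c, Matrix.toLin'.injective (by
      rw [hc, map_smul, Matrix.toLin'_one]; rfl)⟩
  replace a1 := (charpoly_eq_iff_isNilpotent _).1 (a1.trans (by rw [hfin]))
  replace a2 := (charpoly_eq_iff_isNilpotent _).1 (a2.trans (by rw [hfin]))
  obtain ⟨B, rfl⟩ := exists_GL_toLin' (f := W) (by simpa using a1.isUnit_add_one)
  have b1 : IsNilpotent (Matrix.toLin' (J : Matrix (Fin (m + 1)) (Fin (m + 1)) K) - 1) := by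
    rw [← charpoly_eq_iff_isNilpotent, Matrix.charpoly_toLin',
      Matrix.charpoly_of_upperTriangular _ fun i j hij => by
        have hij' : j < i := hij
        rw [hJ, if_neg hij'.ne', if_neg (by have : j.val < i.val := hij'; omega)]]
    simp [hJ]
  have b2 : Reg (Matrix.toLin' (J : Matrix (Fin (m + 1)) (Fin (m + 1)) K)) := by
    refine reg_of_span (Pi.single 0 1) fun v hv => ⟨v 0, funext fun i => ?_⟩
    refine Fin.cases (by simp) (fun i => ?_) i
    have := congrFun hv i.castSucc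
    rw [Matrix.toLin'_apply, Matrix.mulVec, dotProduct,
      Finset.sum_congr rfl (g := fun j => (if i.castSucc = j then v j else 0) +
        if i.succ = j then v j else 0) fun j _ => ?_] at this
    · simpa [Finset.sum_add_distrib, eq_comm] using this
    · rw [hJ]
      by_cases h1 : i.castSucc = j
      · subst h1; simp [Fin.ext_iff]
      · by_cases h2 : i.succ = j
        · subst h2; simp [h1]
        · rw [if_neg h1, if_neg h1, if_neg h2, if_neg fun h => h2 (Fin.ext h.symm)]; simp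
  have c0 : Matrix.toLin' (B : Matrix (Fin (m + 1)) (Fin (m + 1)) K) *
      Matrix.toLin' ((B⁻¹ : GL (Fin (m + 1)) K) : Matrix (Fin (m + 1)) (Fin (m + 1)) K) = 1 := by
    rw [Module.End.mul_eq_comp, ← Matrix.toLin'_mul, Units.mul_inv, Matrix.toLin'_one]; rfl
  have c0' : Matrix.toLin' ((B⁻¹ : GL (Fin (m + 1)) K) : Matrix (Fin (m + 1)) (Fin (m + 1)) K) *
      Matrix.toLin' (B : Matrix (Fin (m + 1)) (Fin (m + 1)) K) = 1 := by
    rw [Module.End.mul_eq_comp, ← Matrix.toLin'_mul, Units.inv_mul, Matrix.toLin'_one]; rfl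
  have c1 : IsConj J (g * B) := (isConj_GL_iff_sim _ _).2 (by
    rw [Units.val_mul, Matrix.toLin'_mul]
    exact sim_of_reg_unip rfl b1 a2 b2 a4)
  have c2 : IsConj J B⁻¹ := (isConj_GL_iff_sim _ _).2
    (sim_of_reg_unip rfl b1 (isNilpotent_inv_sub_one c0 c0' a1) b2 (a3.inv c0))
  obtain ⟨x, hx⟩ := isConj_iff.1 c1
  obtain ⟨y, hy⟩ := isConj_iff.1 c2
  exact ⟨x, y, by rw [hx, hy, mul_inv_cancel_right]⟩

end Cfsg.Agent.S2522
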