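import Cfsg.Statements.S2524
import Cfsg.Agent.H1.WeilFin

set_option autoImplicit false
open Cfsg

namespace Cfsg.Agent.S2524

/-- Let F be a finite field of odd order q and G = Sp(2n, F) with n ≥ 2. Then G has exactly four irreducible complex characters of degree (q^n + 1)/2 or (q^n − 1)/2 (two of each), and every other non-principal irreducible character has degree at least (q^n − 1)(q^n − q)/(2(q + 1)). -/
theorem result {F : Type*} [Field F] [Fintype F] (hodd : Odd (Fintype.card F)) (n : ℕ) (hn : 2 ≤ n) :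
    Nat.card {χ : Cfsg.IrrCharacter ↥(Matrix.symplecticGroup (Fin n) F) // (χ : ↥(Matrix.symplecticGroup (Fin n) F) → ℂ) 1 = (((Fintype.card F) ^ n + 1 : ℕ) : ℂ) / 2} = 2 ∧
    Nat.card {χ : Cfsg.IrrCharacter ↥(Matrix.symplecticGroup (Fin n) F) // (χ : ↥(Matrix.symplecticGroup (Fin n) F) → ℂ) 1 = (((Fintype.card F) ^ n - 1 : ℕ) : ℂ) / 2} = 2 ∧
    ∀ χ : Cfsg.IrrCharacter ↥(Matrix.symplecticGroup (Fin n) F),
      (χ : ↥(Matrix.symplecticGroup (Fin n) F) → ℂ) 1 ≠ 1 →
      (χ : ↥(Matrix.symplecticGroup (Fin n) F) → ℂ) 1 ≠ (((Fintype.card F) ^ n + 1 : ℕ) : ℂ) / 2 →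
      (χ : ↥(Matrix.symplecticGroup (Fin n) F) → ℂ) 1 ≠ (((Fintype.card F) ^ n - 1 : ℕ) : ℂ) / 2 →
      (((Fintype.card F) ^ n - 1 : ℕ) : ℝ) * (((Fintype.card F) ^ n - Fintype.card F : ℕ) : ℝ) / (2 * ((Fintype.card F : ℕ) + 1 : ℝ)) ≤ ‖(χ : ↥(Matrix.symplecticGroup (Fin n) F) → ℂ) 1‖ := by
  classical
  have := H1.finite_Isom (H5.stdSp n F)
  obtain ⟨ψ, hψ⟩ := H1.exists_psi_complex F
  have hchar : ringChar F ≠ 2 := by
    intro h1
    have := (FiniteField.even_card_iff_char_two (F := F)).mp h1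
    exact absurd this (by have := Nat.odd_iff.mp hodd; omega)
  have h2 : (2 : F) ≠ 0 := Ring.two_ne_zero hchar
  obtain ⟨ν, hν⟩ := FiniteField.exists_nonsquare hchar
  have hν0 : ν ≠ 0 := by rintro rfl; simp at hν
  let H := H1.stdHeis n hψ h2
  let H' := H1.stdHeis n (H1.mulShift_ne_one hψ hν0) h2
  let e := H5.spEquiv n F
  have hE := H5.finrank_std_sp (F := F) n
  have h4 : 4 ≤ Module.finrank F (Fin n ⊕ Fin n → F) := by omega
  obtain ⟨q, hq⟩ : ∃ q, q = Fintype.card F := ⟨_, rfl⟩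
  have hq3 : 3 ≤ q := by
    have := Fintype.one_lt_card (α := F)
    have := Nat.odd_iff.mp hodd
    omega
  obtain ⟨X, hX⟩ : ∃ X, X = q ^ n := ⟨_, rfl⟩
  have hX3 : 3 * q ≤ X := by
    calc 3 * q ≤ q * q := Nat.mul_le_mul_right _ hq3
      _ = q ^ 2 := (pow_two q).symm
      _ ≤ X := hX ▸ Nat.pow_le_pow_right (by omega) hn
  have d1 := H.finrank_Wp
  have d2 := H.finrank_Wp'
  have d3 := H'.finrank_Wp
  have d4 := H'.finrank_Wp'
  simp only [Module.finrank_fintype_fun_eq_card, Fintype.card_fun, Fintype.card_fin, ← hq, ← hX]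
    at d2 d4
  rw [← hq, ← hX]
  have i1 := H.isIrr_chi (by omega)
  have i2 := H'.isIrr_chi (by omega)
  have j2 := H'.isIrreducible_sub (by omega)
  let c : (H5.Isom (H5.stdSp n F) → ℂ) → (Matrix.symplecticGroup (Fin n) F → ℂ) :=
    fun χ g => χ (e g)
  have hc : Function.Injective c := fun a b h => funext fun g => by
    simpa [c] using congrFun h (e.symm g)
  have hci : ∀ χ, IsIrrCharacter _ χ → IsIrrCharacter _ (c χ) := fun χ h =>
    H1.IsIrrCharacter.comp_of_surjective h e.toMonoidHom e.surjective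
  have hc1 : ∀ χ, c χ 1 = χ 1 := fun χ => by simp [c]
  have half : ∀ (a b : ℕ), (a : ℂ) = (b : ℂ) / 2 ↔ 2 * a = b := fun a b => by
    rw [eq_div_iff two_ne_zero, mul_comm]
    exact_mod_cast Iff.rfl
  have key : ∀ χ : IrrCharacter (Matrix.symplecticGroup (Fin n) F), ∃ k : ℕ, χ.1 1 = k ∧
      (k = 1 ∨ (X - 1) * (X - q) ≤ 2 * (q + 1) * k ∨ (χ.1 = c (H.chi 1) ∨ χ.1 = c (H.chi (-1))) ∨
        (χ.1 = c (H'.chi 1) ∨ χ.1 = c (H'.chi (-1)))) := by
    rintro ⟨χ, hχ⟩
    obtain ⟨k0, hk0, hk0'⟩ := H1.IsIrrCharacter.exists_one_eq hχ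
    obtain ⟨k, ρ, hρ, rfl⟩ := hχ
    have hk : ρ.character 1 = k := by simp
    refine ⟨k, hk, ?_⟩
    by_cases hk1 : k = 1
    · exact Or.inl hk1
    right
    have : k = k0 := by exact_mod_cast hk.symm.trans hk0'
    have hirr := H1.isIrreducible_comp_equiv ρ hρ e.symm.toMonoidHom e.symm.surjective
    have hρc : ρ.character = c (Representation.character (ρ.comp e.symm.toMonoidHom)) := by
      funext g
      simp [c, Representation.character]
    have := H1.weil_class h4 hE hν H H' _ hirr (by simp; omega)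
    simp only [Module.finrank_fin_fun, ← hq, ← hX] at this
    simp only
    rw [hρc]
    rcases this with h | (h | h) | (h | h)
    · exact Or.inl h
    · exact Or.inr (Or.inl (Or.inl (congrArg c h)))
    · exact Or.inr (Or.inl (Or.inr (congrArg c h)))
    · exact Or.inr (Or.inr (Or.inl (congrArg c h)))
    · exact Or.inr (Or.inr (Or.inr (congrArg c h)))
  have hbig : ∀ k, (X - 1) * (X - q) ≤ 2 * (q + 1) * k → X + 1 < 2 * k := by
    intro k h
    obtain ⟨Y, rfl⟩ : ∃ Y, X = Y + 3 * q := ⟨X - 3 * q, by omega⟩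
    obtain ⟨r, rfl⟩ : ∃ r, q = r + 3 := ⟨q - 3, by omega⟩
    rw [show Y + 3 * (r + 3) - 1 = Y + 3 * r + 8 by omega,
      show Y + 3 * (r + 3) - (r + 3) = Y + 2 * r + 6 by omega] at h
    by_contra hh
    have : 2 * (r + 3 + 1) * k ≤ (r + 4) * (Y + 3 * r + 10) := by nlinarith
    nlinarith
  refine ⟨?_, ?_, fun χ n1 n2 n3 => ?_⟩
  · rw [Nat.card_eq_two_iff]
    refine ⟨⟨⟨_, hci _ i1.1⟩, ?_⟩, ⟨⟨_, hci _ i2.1⟩, ?_⟩, fun h => ?_, ?_⟩
    · simp only [hc1, H1.Heis.chi_one, half]; omega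
    · simp only [hc1, H1.Heis.chi_one, half]; omega
    · exact H1.chi_ne h4 hν H H' 1 j2.1 (by omega)
        (hc (congrArg (fun x => x.1.1) h))
    · rw [Set.eq_univ_iff_forall]
      rintro ⟨χ, hχ⟩
      obtain ⟨k, h1, h3⟩ := key χ
      have h5 := hχ
      rw [h1, half] at h5
      simp only [Set.mem_insert_iff, Set.mem_singleton_iff, Subtype.ext_iff]
      rcases h3 with h | h | (h | h) | (h | h)
      · omega
      · have := hbig k h; omega
      · exact Or.inl h
      · rw [h, hc1, H1.Heis.chi_one, half] at hχ; omega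
      · exact Or.inr h
      · rw [h, hc1, H1.Heis.chi_one, half] at hχ; omega
  · rw [Nat.card_eq_two_iff]
    refine ⟨⟨⟨_, hci _ i1.2⟩, ?_⟩, ⟨⟨_, hci _ i2.2⟩, ?_⟩, fun h => ?_, ?_⟩
    · simp only [hc1, H1.Heis.chi_one, half]; omega
    · simp only [hc1, H1.Heis.chi_one, half]; omega
    · exact H1.chi_ne h4 hν H H' (-1) j2.2 (by omega)
        (hc (congrArg (fun x => x.1.1) h))
    · rw [Set.eq_univ_iff_forall]
      rintro ⟨χ, hχ⟩
      obtain ⟨k, h1, h3⟩ := key χ
      have h5 := hχ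
      rw [h1, half] at h5
      simp only [Set.mem_insert_iff, Set.mem_singleton_iff, Subtype.ext_iff]
      rcases h3 with h | h | (h | h) | (h | h)
      · omega
      · have := hbig k h; omega
      · rw [h, hc1, H1.Heis.chi_one, half] at hχ; omega
      · exact Or.inl h
      · rw [h, hc1, H1.Heis.chi_one, half] at hχ; omega
      · exact Or.inr h
  · obtain ⟨k, h1, h3⟩ := key χ
    rcases h3 with h | h | (h | h) | (h | h)
    · rw [h1, h] at n1; simp at n1
    · rw [h1, Complex.norm_natCast, div_le_iff₀ (by positivity)]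
      have : (((X - 1) * (X - q) : ℕ) : ℝ) ≤ ((2 * (q + 1) * k : ℕ) : ℝ) := by exact_mod_cast h
      push_cast at this ⊢
      linarith
    · rw [h, hc1, H1.Heis.chi_one, ne_eq, half] at n2; omega
    · rw [h, hc1, H1.Heis.chi_one, ne_eq, half] at n3; omega
    · rw [h, hc1, H1.Heis.chi_one, ne_eq, half] at n2; omega
    · rw [h, hc1, H1.Heis.chi_one, ne_eq, half] at n3; omega

end Cfsg.Agent.S2524
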