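import Cfsg.Statements.S2525
import Cfsg.Agent.H8.F4Ord

set_option autoImplicit false
open Cfsg Cfsg.Agent.H7 Cfsg.Agent.H8

namespace Cfsg.Agent.S2525

/-- Let F be a finite field with q = 2^n elements and G = F₄(F). For an odd prime r let e(r, q) be the multiplicative order of q modulo r. Two distinct primes r, s dividing the order of G are non-adjacent in the prime graph of G (no element of order rs) if and only if, up to swapping r and s, either r = 2 and e(s, q) ∈ {8, 12}, or r, s are both odd with k = e(r, q) < l = e(s, q) and one of: l ∈ {8, 12}; l = 6 and k ∈ {3, 4}; l = 4 and k = 3. -/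
theorem result {F : Type*} [Field F] [Fintype F] (n : ℕ) (hn : 1 ≤ n) (hF : Fintype.card F = 2 ^ n)
    (r s : ℕ) (hr : r.Prime) (hs : s.Prime) (hrs : r ≠ s) (hrG : r ∣ Nat.card ↥(Cfsg.Lie.chevF4.group F)) (hsG : s ∣ Nat.card ↥(Cfsg.Lie.chevF4.group F)) :
    (¬ ∃ x : ↥(Cfsg.Lie.chevF4.group F), orderOf x = r * s) ↔
      ((r = 2 ∧ orderOf ((Fintype.card F : ℕ) : ZMod s) ∈ ({8, 12} : Finset ℕ)) ∨ (s = 2 ∧ orderOf ((Fintype.card F : ℕ) : ZMod r) ∈ ({8, 12} : Finset ℕ)) ∨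
       (r ≠ 2 ∧ s ≠ 2 ∧
         ((orderOf ((Fintype.card F : ℕ) : ZMod r) < orderOf ((Fintype.card F : ℕ) : ZMod s) ∧ (orderOf ((Fintype.card F : ℕ) : ZMod s) ∈ ({8, 12} : Finset ℕ) ∨ (orderOf ((Fintype.card F : ℕ) : ZMod s) = 6 ∧ orderOf ((Fintype.card F : ℕ) : ZMod r) ∈ ({3, 4} : Finset ℕ)) ∨ (orderOf ((Fintype.card F : ℕ) : ZMod s) = 4 ∧ orderOf ((Fintype.card F : ℕ) : ZMod r) = 3))) ∨
          (orderOf ((Fintype.card F : ℕ) : ZMod s) < orderOf ((Fintype.card F : ℕ) : ZMod r) ∧ (orderOf ((Fintype.card F : ℕ) : ZMod r) ∈ ({8, 12} : Finset ℕ) ∨ (orderOf ((Fintype.card F : ℕ) : ZMod r) = 6 ∧ orderOf ((Fintype.card F : ℕ) : ZMod s) ∈ ({3, 4} : Finset ℕ)) ∨ (orderOf ((Fintype.card F : ℕ) : ZMod r) = 4 ∧ orderOf ((Fintype.card F : ℕ) : ZMod s) = 3)))))) := by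
  have : CharP F 2 := charP_of_card_eq_prime_pow hF
  have := H8.isChev_xg.finite_G (H8.GG_xg (D := Lie.chevF4) (K := F))
  have h1 : ∀ {s}, s.Prime → s ≠ 2 → s ∣ Nat.card (Lie.chevF4.group F) →
      orderOf (Fintype.card F : ZMod s) ∈ [1, 2, 3, 4, 6, 8, 12] := fun hs h2 h => by
    obtain ⟨y, hy⟩ := @exists_prime_orderOf_dvd_card' _ _ _ _ ⟨hs⟩ h
    obtain ⟨L, hL, h3, -⟩ := adjF4_odd hs hs h2 h2 hy.symm.dvd hy.symm.dvd
    fin_cases hL <;> simp at h3 ⊢ <;> tauto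
  have h2 : ∀ {s}, s.Prime → s ≠ 2 → s ∣ Nat.card (Lie.chevF4.group F) → ((¬ ∃ x : Lie.chevF4.group F, orderOf x = 2 * s) ↔
      orderOf (Fintype.card F : ZMod s) ∈ ({8, 12} : Finset ℕ)) := fun hs h2 h => by
    rw [show (∃ x : Lie.chevF4.group F, orderOf x = _) ↔ _ from ⟨fun ⟨_, h⟩ => adjF4_two hs h2 h, existsF4_two hs h2⟩]
    exact (show ∀ e ∈ [1, 2, 3, 4, 6, 8, 12], e ∉ [1, 2, 3, 4, 6] ↔ e ∈ ({8, 12} : Finset ℕ) by decide) _ (h1 hs h2 h)
  by_cases hr2 : r = 2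
  · subst hr2; simp only [h2 hs hrs.symm hsG, hrs.symm]; simp
  by_cases hs2 : s = 2
  · subst hs2; rw [mul_comm]; simp only [h2 hr hrs hrG, hrs]; simp
  rw [show (∃ x : Lie.chevF4.group F, orderOf x = _) ↔ _ from ⟨fun ⟨_, h⟩ => adjF4_odd hr hs hr2 hs2 (h ▸ dvd_mul_right r s)
    (h ▸ dvd_mul_left s r), existsF4_odd hr hs hr2 hs2 hrs⟩]
  have h3 := h1 hr hr2 hrG
  have h4 := h1 hs hs2 hsG
  simp only [hr2, hs2, ne_eq, not_false_eq_true, true_and, false_and, false_or, AdjF4]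
  revert h3 h4
  generalize orderOf (Fintype.card F : ZMod r) = k
  generalize orderOf (Fintype.card F : ZMod s) = l
  intro h3; revert l; revert k; decide

end Cfsg.Agent.S2525
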